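import Mathlib
import Cfsg.Agent.H17.OutMinus

set_option autoImplicit false

/-! Structure of the outer automorphism group of `PΩ⁻` in odd characteristic: the two cases. -/

namespace Cfsg.Agent.H17

open Cfsg Cfsg.Agent.H5

theorem pow_odd_eq {G : Type*} [Group G] {d : G} (h : d * d = 1) {n : ℕ} (hn : Odd n) : d ^ n = d := by
  obtain ⟨t, rfl⟩ := hn
  rw [pow_succ, pow_mul, pow_two, h, one_pow, one_mul]

theorem pow_four_eq {G : Type*} [Group G] (d : G) : d ^ 4 = (d * d) * (d * d) := by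
  rw [show (4 : ℕ) = 2 + 2 from rfl, pow_add, pow_two]

theorem pow_odd_sq {G : Type*} [Group G] {d : G} (h : d ^ 4 = 1) {n : ℕ} (hn : Odd n) : d ^ (n * n) = d := by
  obtain ⟨t, rfl⟩ := hn
  have h4 : (2 * t + 1) * (2 * t + 1) = 4 * (t * t + t) + 1 := by ring
  rw [h4, pow_add, pow_mul, h, one_pow, one_mul, pow_one]

theorem isSquare_pow_odd {R : Type*} [CommRing R] (a : R) {n : ℕ} (hn : Odd n) : IsSquare (a * a ^ n) := by
  obtain ⟨t, rfl⟩ := hn
  exact ⟨a ^ (t + 1), by ring⟩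

variable {F : Type*} [Field F] [Finite F] {p : ℕ} [Fact p.Prime] [CharP F p]

theorem exists_RD (k : ℕ) (hk : 2 ≤ k) (h2 : (2 : F) ≠ 0) : ∃ u v, RD (qM k F p) u v := by
  have hnd : ND (qM k F p) := qM_nd
  have hfr : Module.finrank F ((Fin k ⊕ Fin k → F) × KK F p) = 2 * (k + 1) := finrank_qM
  obtain ⟨d, u, v, hd, hu, hv⟩ := exists_two h2 hnd (by omega)
  have hd0 : d ≠ 0 := by rintro rfl; exact hd IsSquare.zero
  refine ⟨u, v, h2, hnd, by omega, ⟨_, hfr⟩, by rw [hu]; exact one_ne_zero, by rw [hv]; exact hd0, ?_⟩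
  rw [hu, hv, one_mul]
  exact hd

theorem exists_delta (k : ℕ) (h2 : (2 : F) ≠ 0) : ∃ θ : (KK F p)ˣ, ¬ IsSquare (ssK (dM k F p θ) : F) := by
  obtain ⟨d, hd⟩ := exists_nonsq (F := F) h2
  have hd0 : d ≠ 0 := by rintro rfl; exact hd IsSquare.zero
  obtain ⟨θ, hθ⟩ := exists_theta (p := p) d hd0
  exact ⟨θ, by rw [ssK_dM, hθ]; exact hd⟩

theorem fr_conj_dM {k : ℕ} (θ : (KK F p)ˣ) :
    outE (qM k F p) (frM k F p) * outE (qM k F p) (dM k F p θ) * (outE (qM k F p) (frM k F p))⁻¹ = (outE (qM k F p) (dM k F p θ)) ^ p := by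
  rw [← map_mul, frM_dM, map_mul, mul_inv_cancel_right, map_pow, map_pow]

theorem not_mem_zpowers {k f : ℕ} (hk : 2 ≤ k) (hf : 1 ≤ f) (hF : Nat.card F = p ^ f) {θ : (KK F p)ˣ}
    (hθ : ¬ IsSquare (ssK (dM k F p θ) : F)) :
    outE (qM k F p) (dM k F p θ) ∉ Subgroup.zpowers (outE (qM k F p) (frM k F p)) := by
  have hn : 5 ≤ Module.finrank F ((Fin k ⊕ Fin k → F) × KK F p) := by rw [finrank_qM]; omega
  rintro ⟨i, hi⟩
  obtain ⟨Φ, hΦ⟩ := exists_outπ qM_nd hn (aE_surj_qM (F := F) (p := p) hk)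
  obtain ⟨v, hv, hvf⟩ := frM_pow_f (k := k) hF
  have h1 : Φ (outE (qM k F p) (frM k F p)) = frF F p := by rw [hΦ]; rfl
  have h2 : Φ (outE (qM k F p) (dM k F p θ)) = 1 := by rw [hΦ]; rfl
  have hi' : (outE (qM k F p) (frM k F p)) ^ i = outE (qM k F p) (dM k F p θ) := hi
  rw [← hi', map_zpow, h1] at h2
  have h3 : (f : ℤ) ∣ i := by
    rw [← orderOf_frF hf hF]
    exact orderOf_dvd_iff_zpow_eq_one.mpr h2
  obtain ⟨j, rfl⟩ := h3
  rw [zpow_mul, zpow_natCast, ← map_pow, hvf, ← map_zpow, ← map_zpow] at hi'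
  exact sim_ne qM_nd hn (dM k F p θ) rfl hθ (refl hv ^ j) hi'.symm

theorem outMinus_B {k f : ℕ} (hk : 2 ≤ k) (hf : 1 ≤ f) (hF : Nat.card F = p ^ f) (h2 : (2 : F) ≠ 0) (hp : Odd p)
    (hneg : ogNeg (qM k F p) ∉ EG (qM k F p)) (hc : Nat.card (Out (PE (qM k F p))) = 4 * f) :
    Nonempty (Out (PE (qM k F p)) ≃* Multiplicative (ZMod 2 × ZMod (2 * f))) := by
  haveI : Finite (Out (PE (qM k F p))) := Nat.finite_of_card_ne_zero (by rw [hc]; omega)
  obtain ⟨u, v, R⟩ := exists_RD (F := F) (p := p) k hk h2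
  obtain ⟨θ, hθ⟩ := exists_delta (F := F) (p := p) k h2
  have hsq : outE (qM k F p) (dM k F p θ) * outE (qM k F p) (dM k F p θ) = 1 := by
    rcases R.sim_sq (dM k F p θ) rfl with h | h
    · exact h
    · rw [h, R.uv_one hneg]
  refine prod_cyclic_two (orderOf_outFr (F := F) (p := p) hk hf hF) hsq ?_ (not_mem_zpowers hk hf hF hθ) (by rw [hc]; ring) (by omega)
  have h1 := fr_conj_dM (F := F) (p := p) (k := k) θ
  rw [pow_odd_eq hsq hp] at h1
  exact mul_inv_eq_iff_eq_mul.mp h1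

theorem outMinus_A {k f : ℕ} (hk : 2 ≤ k) (hf : 1 ≤ f) (hF : Nat.card F = p ^ f) (h2 : (2 : F) ≠ 0) (hp : Odd p)
    (hneg : ogNeg (qM k F p) ∈ EG (qM k F p)) (hfo : Odd f) (hc : Nat.card (Out (PE (qM k F p))) = 8 * f) :
    Nonempty (Out (PE (qM k F p)) ≃* DihedralGroup 4 × Multiplicative (ZMod f)) := by
  haveI : Finite (Out (PE (qM k F p))) := Nat.finite_of_card_ne_zero (by rw [hc]; omega)
  obtain ⟨u, v, R⟩ := exists_RD (F := F) (p := p) k hk h2
  obtain ⟨θ, hθ⟩ := exists_delta (F := F) (p := p) k h2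
  obtain ⟨r1, hr1⟩ : ∃ r1, r1 = oG (qM k F p) (refl R.hu) := ⟨_, rfl⟩
  obtain ⟨r2, hr2⟩ : ∃ r2, r2 = oG (qM k F p) (refl R.hv) := ⟨_, rfl⟩
  obtain ⟨d, hd⟩ : ∃ d, d = outE (qM k F p) (dM k F p θ) := ⟨_, rfl⟩
  obtain ⟨x, hx⟩ : ∃ x, x = outE (qM k F p) (frM k F p) := ⟨_, rfl⟩
  have a1 : r1 * r1 = 1 := by rw [hr1]; exact R.sq_u
  have a2 : r2 * r2 = 1 := by rw [hr2]; exact R.sq_v
  have a3 : r1 * r2 = r2 * r1 := by rw [hr1, hr2]; exact R.comm
  have a4 : r1 * r2 ≠ 1 := by rw [hr1, hr2]; exact R.uv_ne_one hneg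
  have a5 : d * r1 * d⁻¹ = r2 := by rw [hr1, hr2, hd]; exact R.swap_u _ rfl hθ
  have a6 : d * r2 * d⁻¹ = r1 := by rw [hr1, hr2, hd]; exact R.swap_v _ rfl hθ
  have a7 : d * d = 1 ∨ d * d = r1 * r2 := by rw [hr1, hr2, hd]; exact R.sim_sq _ rfl
  have a8 : x * d * x⁻¹ = d ^ p := by rw [hx, hd]; exact fr_conj_dM θ
  have a9 : x * r1 * x⁻¹ = r1 := by
    rw [hx, hr1, oG_conj]
    rcases R.refl_cases (ss_refl_ne (frM k F p) R.hu) with ⟨_, h⟩ | ⟨h, _⟩
    · exact h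
    · exfalso
      apply h
      have h3 : qM k F p ((frM k F p).1.1 u) = (qM k F p u) ^ p := by
        have h4 := (frM k F p).2.2.2
        have h5 : (ssK (frM k F p) : F) = 1 := by
          apply ssK_eq ⟨u, R.hu⟩
          intro y
          obtain ⟨y, z⟩ := y
          rw [one_mul, frM_apply]
          show qM k F p (fun i => frF F p (y i), z ^ p) = frF F p (qM k F p (y, z))
          rw [qM_apply, qM_apply, map_add]
          congr 1
          · rw [qPlus_coe, quadFormPlus, quadFormPlus]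
            simp only [map_sum, map_mul]
          · apply algebraMap_inj (p := p)
            rw [nK_apply, frF_apply, map_pow (algebraMap F (KK F p)), nK_apply, map_pow, mul_pow]
        rw [ss_Q, h5, one_mul]
        rfl
      rw [h3]
      exact isSquare_pow_odd _ hp
  have hc4 : (r1 * r2) * (r1 * r2) = 1 := by
    calc (r1 * r2) * (r1 * r2) = r1 * (r2 * r1) * r2 := by group
      _ = (r1 * r1) * (r2 * r2) := by rw [← a3]; group
      _ = 1 := by rw [a1, a2, one_mul]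
  have d4 : d ^ 4 = 1 := by
    rw [pow_four_eq]
    rcases a7 with h | h
    · rw [h, one_mul]
    · rw [h, hc4]
  -- the element `y = x²`
  have hyd : (x * x) * d = d * (x * x) := by
    have h3 : (x * x) * d * (x * x)⁻¹ = d := by
      calc (x * x) * d * (x * x)⁻¹ = x * (x * d * x⁻¹) * x⁻¹ := by group
        _ = x * d ^ p * x⁻¹ := by rw [a8]
        _ = (x * d * x⁻¹) ^ p := by rw [conj_pow]
        _ = d ^ (p * p) := by rw [a8, ← pow_mul]
        _ = d := pow_odd_sq d4 hp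
    exact mul_inv_eq_iff_eq_mul.mp h3
  have hyr : (x * x) * r1 = r1 * (x * x) := by
    have h3 : x * r1 = r1 * x := mul_inv_eq_iff_eq_mul.mp a9
    calc (x * x) * r1 = x * (x * r1) := mul_assoc _ _ _
      _ = x * (r1 * x) := by rw [h3]
      _ = (x * r1) * x := (mul_assoc _ _ _).symm
      _ = (r1 * x) * x := by rw [h3]
      _ = r1 * (x * x) := mul_assoc _ _ _
  have hoy : orderOf (x * x) = f := by
    have h3 := orderOf_outFr (F := F) (p := p) (k := k) hk hf hF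
    rw [← hx] at h3
    rw [← pow_two, orderOf_pow' x (by norm_num), h3]
    rw [Nat.gcd_eq_right (Dvd.intro _ rfl)]
    omega
  have hdi : d⁻¹ * r2 = r1 * d⁻¹ := by
    rw [← a5]; group
  -- adjust `d`
  obtain ⟨e, he2, he1, hye⟩ : ∃ e, e * e = 1 ∧ e * r1 * e⁻¹ = r2 ∧ (x * x) * e = e * (x * x) := by
    rcases a7 with h | h
    · exact ⟨d, h, a5, hyd⟩
    · refine ⟨r1 * d, ?_, ?_, ?_⟩
      · calc r1 * d * (r1 * d) = r1 * (d * r1 * d⁻¹) * (d * d) := by group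
          _ = (r1 * r2) * (r1 * r2) := by rw [a5, h]
          _ = 1 := hc4
      · calc r1 * d * r1 * (r1 * d)⁻¹ = r1 * (d * r1 * d⁻¹) * r1⁻¹ := by group
          _ = r2 := by rw [a5, a3, mul_inv_cancel_right]
      · calc (x * x) * (r1 * d) = ((x * x) * r1) * d := by group
          _ = r1 * ((x * x) * d) := by rw [hyr]; group
          _ = _ := by rw [hyd]; group
  have hei : e⁻¹ = e := inv_eq_of_mul_eq_one_left he2
  have hr1i : r1⁻¹ = r1 := inv_eq_of_mul_eq_one_left a1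
  have her : e * r1 = r2 * e := mul_inv_eq_iff_eq_mul.mp he1
  have hsq : (r1 * e) * (r1 * e) = r1 * r2 := by
    calc (r1 * e) * (r1 * e) = r1 * (e * r1) * e := by group
      _ = r1 * r2 * (e * e) := by rw [her]; group
      _ = r1 * r2 := by rw [he2, mul_one]
  refine prod_dihedral (x := r1 * e) (t := r1) (y := x * x) a1 ?_ ?_ ?_ hoy hfo ?_ hyr hc
  · rw [mul_inv_rev, hei, hr1i, ← mul_assoc, a1, one_mul]
  · rw [hsq]; exact a4
  · rw [pow_four_eq, hsq, hc4]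
  · calc (x * x) * (r1 * e) = ((x * x) * r1) * e := by group
      _ = r1 * ((x * x) * e) := by rw [hyr]; group
      _ = _ := by rw [hye]; group

theorem neg_iff_of_iso {V V' : Type*} [AddCommGroup V] [Module F V] [AddCommGroup V'] [Module F V'] [Finite V] [Finite V'] {Q : QuadraticForm F V}
    {Q' : QuadraticForm F V'} (φ : V ≃ₗ[F] V') (h : ∀ x, Q' (φ x) = Q x) : ogNeg Q ∈ EG Q ↔ ogNeg Q' ∈ EG Q' := by
  have h1 : ogCongr φ h (ogNeg Q) = ogNeg Q' := by
    apply og_ext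
    intro x
    rw [ogCongr_apply, ogNeg_apply, ogNeg_apply, map_neg, LinearEquiv.apply_symm_apply]
  rw [← map_EG φ h]
  constructor
  · intro h2
    exact ⟨_, h2, h1⟩
  · rintro ⟨g, hg, h2⟩
    have h3 : g = ogNeg Q := (ogCongr φ h).injective (h2.trans h1.symm)
    rwa [← h3]

end Cfsg.Agent.H17
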