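import Mathlib
import Cfsg.Agent.H17.Spin3

set_option autoImplicit false

/-! Levi factors, swap, pair involutions and spinor norms. -/

namespace Cfsg.Agent.H17

open Cfsg Cfsg.Agent.H5 Module

section psi

variable {F V : Type*} [Field F] [Finite F] [AddCommGroup V] [Module F V] [FiniteDimensional F V] [Finite V] {Q : QuadraticForm F V}

theorem psi_lsp (h2 : (2 : F) ≠ 0) {d : F} (hd : ¬ IsSquare d) (l : List {v : V // Q v ≠ 0}) : psi Q d (lsp l) = chi F (lq l) := by
  have hd0 : d ≠ 0 := by rintro rfl; exact hd IsSquare.zero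
  have r2 : ∀ v : {v : V // Q v ≠ 0}, psi Q d (refl v.2) = chi F (Units.mk0 (Q v.1) v.2) := by
    intro v
    have h := psi_refl h2 d hd0 v.2
    by_cases hs : IsSquare (Q v.1)
    · rw [h.2 (by rw [mul_comm]; exact sq_mul_nonsq hs v.2 hd), chi_eq_one.mpr hs]
    · rw [h.1 (nonsq_mul h2 hd hs), chi_eq_neg.mpr hs]
  induction l with
  | nil => rw [lsp_nil, lq_nil, map_one, map_one]
  | cons v l ih => rw [lsp_cons, lq_cons, map_mul, map_mul, ih, r2]

theorem dg_comm_iff (h2 : (2 : F) ≠ 0) (hnd : ND Q) {d : F} (hd : ¬ IsSquare d) {g : OG Q} (hg : g ∈ DG Q) :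
    g ∈ commutator (OG Q) ↔ psi Q d g = 1 := by
  have hrg : RG Q = ⊤ := Subgroup.eq_top_iff' _ |>.mpr (rg_odd h2 hnd)
  obtain ⟨l, rfl⟩ := exists_lsp (g := g) (by rw [hrg]; trivial)
  rw [lsp_comm' hnd hrg, psi_lsp h2 hd, chi_eq_one]
  exact ⟨fun h => h.2, fun h => ⟨(lsp_dg hnd l).mp hg, h⟩⟩

end psi

section levi

variable {F : Type*} [Field F] [Finite F] {m : ℕ}

theorem lev_diag (t : Fin m → Fˣ) (A : GL (Fin m) F) (hA : (A : Matrix (Fin m) (Fin m) F) = Matrix.diagonal (fun i => (t i : F))) :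
    lev m F A = tor m F t := by
  have hA' : ((A⁻¹ : GL (Fin m) F) : Matrix (Fin m) (Fin m) F) = Matrix.diagonal (fun i => (((t i)⁻¹ : Fˣ) : F)) := by
    rw [Matrix.coe_units_inv, hA]
    apply Matrix.inv_eq_left_inv
    rw [Matrix.diagonal_mul_diagonal, ← Matrix.diagonal_one]
    congr 1
    funext i
    rw [← Units.val_mul, inv_mul_cancel, Units.val_one]
  apply og_ext
  intro x
  rw [lev_apply, hA, hA', Matrix.diagonal_transpose]
  funext k
  rcases k with k | k
  · show (Matrix.diagonal (fun i => (t i : F))).mulVec (x ∘ Sum.inl) k = _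
    rw [Matrix.mulVec_diagonal]; rfl
  · show (Matrix.diagonal (fun i => (((t i)⁻¹ : Fˣ) : F))).mulVec (x ∘ Sum.inr) k = _
    rw [Matrix.mulVec_diagonal]; rfl

theorem psi_tor (h2 : (2 : F) ≠ 0) {d : F} (hd : ¬ IsSquare d) (t : Fin m → Fˣ) : psi (qPlus m F) d (tor m F t) = chi F (∏ i, t i) := by
  let P : (Fin m → Fˣ) →* Fˣ :=
    { toFun := fun t => ∏ i, t i
      map_one' := by simp
      map_mul' := fun s t => Finset.prod_mul_distrib }
  have h : (psi (qPlus m F) d).comp (tor m F) = (chi F).comp P := by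
    apply MonoidHom.functions_ext
    intro i c
    show psi (qPlus m F) d (tor m F (Pi.mulSingle i c)) = chi F (∏ k, (Pi.mulSingle i c : Fin m → Fˣ) k)
    have hp : (∏ k, (Pi.mulSingle i c : Fin m → Fˣ) k) = c := by
      rw [Fintype.prod_eq_single i (fun k hk => Pi.mulSingle_eq_of_ne hk _), Pi.mulSingle_eq_same]
    rw [tor_single, hp]
    have e : refl (q_efv_ne i (one_ne_zero (α := F))) * refl (q_efv_ne i c.ne_zero) = lsp (Q := qPlus m F) [⟨efv i 1, q_efv_ne i one_ne_zero⟩, ⟨efv i (c : F), q_efv_ne i c.ne_zero⟩] := by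
      rw [lsp_cons, lsp_cons, lsp_nil, mul_one]
    rw [e, psi_lsp h2 hd, lq_cons, lq_cons, lq_nil, mul_one]
    congr 1
    apply Units.ext
    rw [Units.val_mul, Units.val_mk0, Units.val_mk0, q_efv, q_efv]; ring
  exact DFunLike.congr_fun h t

theorem psi_lev (h2 : (2 : F) ≠ 0) {d : F} (hd : ¬ IsSquare d) (A : GL (Fin m) F) : psi (qPlus m F) d (lev m F A) = chi F (Matrix.GeneralLinearGroup.det A) := by
  have key : ∀ A : GL (Fin m) F, psi (qPlus m F) d (lev m F A) = chi F (Matrix.GeneralLinearGroup.det A) := by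
    intro A
    refine Matrix.diagonal_transvection_induction_of_det_ne_zero (fun M => ∀ A : GL (Fin m) F, (A : Matrix (Fin m) (Fin m) F) = M → psi (qPlus m F) d (lev m F A) = chi F (Matrix.GeneralLinearGroup.det A)) (A : Matrix (Fin m) (Fin m) F) ?_ ?_ ?_ ?_ A rfl
    · exact (Matrix.isUnits_det_units A).ne_zero
    · intro D hD A hA
      rw [Matrix.det_diagonal] at hD
      have hD' : ∀ i, D i ≠ 0 := fun i => Finset.prod_ne_zero_iff.mp hD i (Finset.mem_univ i)
      have h3 := lev_diag (fun i => Units.mk0 (D i) (hD' i)) A (by rw [hA]; rfl)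
      rw [h3, psi_tor h2 hd]
      congr 1
      apply Units.ext
      rw [Matrix.GeneralLinearGroup.val_det_apply, hA, Matrix.det_diagonal, Units.coe_prod]; rfl
    · intro t A hA
      have hdet : (Matrix.transvection t.i t.j (t.c / 2)).det = 1 := Matrix.det_transvection_of_ne _ _ t.hij _
      let B : GL (Fin m) F := Matrix.GeneralLinearGroup.mkOfDetNeZero (Matrix.transvection t.i t.j (t.c / 2)) (by rw [hdet]; exact one_ne_zero)
      have hAB : A = B * B := by
        apply Units.ext
        rw [hA, Units.val_mul]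
        show Matrix.transvection t.i t.j t.c = Matrix.transvection t.i t.j (t.c / 2) * Matrix.transvection t.i t.j (t.c / 2)
        rw [Matrix.transvection_mul_transvection_same _ _ t.hij]
        congr 1
        field_simp; ring
      have hdA : Matrix.GeneralLinearGroup.det A = 1 := by
        apply Units.ext
        rw [Matrix.GeneralLinearGroup.val_det_apply, hA, Units.val_one]
        exact Matrix.det_transvection_of_ne _ _ t.hij _
      rw [hdA, map_one, hAB, map_mul, map_mul]
      exact Int.units_mul_self _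
    · intro M N hM hN hPM hPN A hA
      let B := Matrix.GeneralLinearGroup.mkOfDetNeZero M hM
      let C := Matrix.GeneralLinearGroup.mkOfDetNeZero N hN
      have hABC : A = B * C := Units.ext (by rw [hA]; rfl)
      rw [hABC, map_mul, map_mul, map_mul, map_mul, hPM B rfl, hPN C rfl]
  exact key A

theorem lev_comm_iff (hrg : RG (qPlus m F) = ⊤) (A : GL (Fin m) F) : lev m F A ∈ commutator (OG (qPlus m F)) ↔ IsSquare (A : Matrix (Fin m) (Fin m) F).det := by
  by_cases h2 : (2 : F) = 0
  · rw [comm_eq_dg_two h2 nd_plus hrg]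
    exact ⟨fun _ => sq_char_two h2 _, fun _ => lev_dg hrg A⟩
  · obtain ⟨d, hd⟩ := exists_nonsq h2
    rw [dg_comm_iff h2 nd_plus hd (lev_dg hrg A), psi_lev h2 hd, chi_eq_one, Matrix.GeneralLinearGroup.val_det_apply]

end levi

section swap

variable {F : Type*} [Field F] {m : ℕ}

/-- the list of swap vectors -/
def swl (l : List (Fin m)) : List {v : Fin m ⊕ Fin m → F // qPlus m F v ≠ 0} := l.map (fun i => ⟨efv i 1, q_efv_ne i one_ne_zero⟩)

theorem swl_apply (l : List (Fin m)) (hl : l.Nodup) (x : Fin m ⊕ Fin m → F) (k : Fin m) :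
    lsp (swl (F := F) l) x (Sum.inl k) = (if k ∈ l then x (Sum.inr k) else x (Sum.inl k)) ∧
    lsp (swl (F := F) l) x (Sum.inr k) = (if k ∈ l then x (Sum.inl k) else x (Sum.inr k)) := by
  induction l with
  | nil =>
    simp only [List.not_mem_nil, if_false]
    exact ⟨rfl, rfl⟩
  | cons i l ih =>
    have h1 := ih hl.of_cons
    have hi : i ∉ l := (List.nodup_cons.mp hl).1
    have e : swl (F := F) (i :: l) = ⟨efv i 1, q_efv_ne i one_ne_zero⟩ :: swl l := rfl
    rw [e, lsp_cons, og_mul, refl_efv i one_ne_zero, inv_one, one_mul, one_mul]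
    by_cases hk : k = i
    · subst hk
      constructor
      · rw [Function.update_of_ne (by simp), Function.update_self, if_pos (List.mem_cons_self ..)]
        have := (ih hl.of_cons).2
        rw [if_neg hi] at this
        exact this
      · rw [Function.update_self, if_pos (List.mem_cons_self ..)]
        have := (ih hl.of_cons).1
        rw [if_neg hi] at this
        exact this
    · constructor
      · rw [Function.update_of_ne (by simp), Function.update_of_ne (by simpa using hk), h1.1]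
        simp [hk]
      · rw [Function.update_of_ne (by simpa using hk), Function.update_of_ne (by simp), h1.2]
        simp [hk]

theorem swl_len (l : List (Fin m)) : (swl (F := F) l).length = l.length := List.length_map _

theorem swl_lq (l : List (Fin m)) : ((lq (swl (F := F) l) : Fˣ) : F) = (-1) ^ l.length := by
  induction l with
  | nil =>
    have e : swl (F := F) ([] : List (Fin m)) = [] := rfl
    rw [e, lq_nil, Units.val_one, List.length_nil, pow_zero]
  | cons i l ih =>
    have e : swl (F := F) (i :: l) = ⟨efv i 1, q_efv_ne i one_ne_zero⟩ :: swl l := rfl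
    rw [e, lq_cons, Units.val_mul, ih, Units.val_mk0, q_efv, List.length_cons, pow_succ, mul_comm]

theorem swap_full (x : Fin m ⊕ Fin m → F) : lsp (swl (F := F) (List.finRange m)) x = Sum.elim (x ∘ Sum.inr) (x ∘ Sum.inl) := by
  funext k
  rcases k with k | k
  · rw [(swl_apply _ (List.nodup_finRange m) x k).1, if_pos (List.mem_finRange k)]; rfl
  · rw [(swl_apply _ (List.nodup_finRange m) x k).2, if_pos (List.mem_finRange k)]; rfl

end swap

section pairs

variable {F : Type*} [Field F] {ι : Type*} [DecidableEq ι] {Q : QuadraticForm F (ι → F)} {m : ℕ}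

theorem pair_inv {V : Type*} [AddCommGroup V] [Module F V] {Q : QuadraticForm F V} {e f : V} (he : Q e = 0) (hf : Q f = 0) (hef : pB Q e f = 1) :
    ∃ (h1 : Q (e - f) ≠ 0) (h2 : Q (e + f) ≠ 0), Q (e - f) = -1 ∧ Q (e + f) = 1 ∧
      ∀ x, refl h1 (refl h2 x) = x - (2 * pB Q f x) • e - (2 * pB Q e x) • f := by
  have e1 : Q (e + f) = 1 := by rw [q_add, he, hf, hef, zero_add, zero_add]
  have e2 : Q (e - f) = -1 := by
    rw [sub_eq_add_neg, q_add, he, q_neg, hf, pr_neg, hef]; ring
  refine ⟨by rw [e2]; exact neg_ne_zero.mpr one_ne_zero, by rw [e1]; exact one_ne_zero, e2, e1, fun x => ?_⟩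
  have hfe : pB Q f e = 1 := by rw [pB_symm, hef]
  have hee : pB Q e e = 0 := by rw [pB_self, he, mul_zero]
  have hff : pB Q f f = 0 := by rw [pB_self, hf, mul_zero]
  rw [refl_apply, refl_apply, e1, e2]
  simp only [pl_add, pl_sub, pr_sub, pr_add, pr_smul, hef, hfe, hee, hff]
  module

theorem pairs_list (key : ι → ℕ) (a b : Fin m → ι) (hQa : ∀ j, Q (Pi.single (a j) 1) = 0) (hQb : ∀ j, Q (Pi.single (b j) 1) = 0)
    (hBa : ∀ j x, pB Q (Pi.single (a j) 1) x = x (b j)) (hBb : ∀ j x, pB Q (Pi.single (b j) 1) x = x (a j))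
    (hka : ∀ j, key (a j) = j) (hkb : ∀ j, key (b j) = j) (i₀ : ℕ) (hi₀ : i₀ ≤ m) (hkey : ∀ k, key k < i₀ → ∃ j, k = a j ∨ k = b j) :
    ∀ i ≤ i₀, ∃ l : List {v : ι → F // Q v ≠ 0}, l.length = 2 * i ∧ ((lq l : Fˣ) : F) = (-1) ^ i ∧
      ∀ x k, lsp l x k = if key k < i then -x k else x k := by
  intro i
  induction i with
  | zero =>
    intro _
    refine ⟨[], rfl, by rw [lq_nil, Units.val_one, pow_zero], fun x k => ?_⟩
    rw [if_neg (Nat.not_lt_zero _)]; rfl
  | succ i ih =>
    intro hi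
    obtain ⟨l, h1, h2, h3⟩ := ih (by omega)
    let j : Fin m := ⟨i, by omega⟩
    have hef : pB Q (Pi.single (a j) 1) (Pi.single (b j) 1) = 1 := by rw [hBa, Pi.single_eq_same]
    obtain ⟨n1, n2, q1, q2, h4⟩ := pair_inv (hQa j) (hQb j) hef
    refine ⟨⟨_, n1⟩ :: ⟨_, n2⟩ :: l, by rw [List.length_cons, List.length_cons, h1]; ring, ?_, fun x k => ?_⟩
    · rw [lq_cons, lq_cons, Units.val_mul, Units.val_mul, h2, Units.val_mk0, Units.val_mk0, q1, q2, pow_succ]; ring
    · have h5 : ∀ (A B C : F), (Pi.single (a j) 1 : ι → F) k * 0 = 0 := fun _ _ _ => mul_zero _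
      rw [lsp_cons, lsp_cons, og_mul, og_mul, h4, hBa, hBb]
      show lsp l x k - (2 * lsp l x (a j)) * (Pi.single (a j) 1 : ι → F) k - (2 * lsp l x (b j)) * (Pi.single (b j) 1 : ι → F) k = _
      have hab : a j ≠ b j := by
        intro h
        have h6 : pB Q (Pi.single (a j) 1) (Pi.single (a j) 1) = 1 := by rw [hBa, ← h, Pi.single_eq_same]
        rw [pB_self, hQa, mul_zero] at h6
        exact zero_ne_one h6
      have hkj : ((j : Fin m) : ℕ) = i := rfl
      by_cases hk1 : k = a j
      · subst hk1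
        rw [Pi.single_eq_same, Pi.single_eq_of_ne hab, h3, hka, hkj, if_neg (lt_irrefl _), if_pos (Nat.lt_succ_self _)]; ring
      by_cases hk2 : k = b j
      · subst hk2
        rw [Pi.single_eq_same, Pi.single_eq_of_ne hab.symm, h3 x (b j), hkb, hkj, if_neg (lt_irrefl _), if_pos (Nat.lt_succ_self _)]; ring
      have hk3 : key k ≠ i := by
        intro h
        obtain ⟨j', hj'⟩ := hkey k (by omega)
        have : (j' : ℕ) = i := by
          rcases hj' with rfl | rfl
          · rw [hka] at h; exact h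
          · rw [hkb] at h; exact h
        have hjj : j' = j := Fin.ext this
        subst hjj
        rcases hj' with h | h
        · exact hk1 h
        · exact hk2 h
      rw [Pi.single_eq_of_ne hk1, Pi.single_eq_of_ne hk2, mul_zero, mul_zero, sub_zero, sub_zero, h3]
      by_cases hlt : key k < i
      · rw [if_pos hlt, if_pos (by omega)]
      · rw [if_neg hlt, if_neg (by omega)]

theorem neg_one_pow_iff {F : Type*} [Field F] [Fintype F] {q : ℕ} (hF : Fintype.card F = q) (hq : Odd q) (i : ℕ) :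
    IsSquare ((-1 : F) ^ i) ↔ q ^ i % 4 = 1 := by
  have h1 : IsSquare (-1 : F) ↔ q % 4 ≠ 3 := by rw [FiniteField.isSquare_neg_one_iff, hF]
  have h4 : q % 4 = 1 ∨ q % 4 = 3 := by have := Nat.odd_iff.mp hq; omega
  rcases Nat.even_or_odd i with he | ho
  · obtain ⟨k, rfl⟩ := he
    rw [← two_mul, pow_mul, pow_mul]
    have e1 : ((-1 : F) ^ 2) ^ k = 1 := by norm_num
    rw [e1]
    refine ⟨fun _ => ?_, fun _ => IsSquare.one⟩
    have : q ^ 2 % 4 = 1 := by
      rcases h4 with h | h <;> rw [Nat.pow_mod, h]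
    rw [Nat.pow_mod, this, one_pow]
    norm_num
  · rw [ho.neg_one_pow, h1]
    obtain ⟨k, rfl⟩ := ho
    have : q ^ 2 % 4 = 1 := by
      rcases h4 with h | h <;> rw [Nat.pow_mod, h]
    have e2 : q ^ (2 * k + 1) % 4 = q % 4 := by
      rw [pow_succ, pow_mul, Nat.mul_mod, Nat.pow_mod, this, one_pow]
      norm_num
    rw [e2]; omega

variable {ι : Type} [Fintype ι] [DecidableEq ι] {Q : QuadraticForm F (ι → F)}

theorem pairs_omega [Fintype F] {q : ℕ} (hF : Fintype.card F = q) (hq : Odd q) (hnd : ND Q)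
    (key : ι → ℕ) (a b : Fin m → ι) (hQa : ∀ j, Q (Pi.single (a j) 1) = 0) (hQb : ∀ j, Q (Pi.single (b j) 1) = 0)
    (hBa : ∀ j x, pB Q (Pi.single (a j) 1) x = x (b j)) (hBb : ∀ j x, pB Q (Pi.single (b j) 1) x = x (a j))
    (hka : ∀ j, key (a j) = j) (hkb : ∀ j, key (b j) = j) (i : ℕ) (hi₀ : i ≤ m) (hkey : ∀ k, key k < i → ∃ j, k = a j ∨ k = b j) :
    (∃ g : isometryGroup F ⇑Q, g ∈ Omega F ⇑Q ∧ ((g : Matrix.GeneralLinearGroup ι F) : Matrix ι ι F) =
      Matrix.diagonal (fun k => if key k < i then (-1 : F) else 1)) ↔ q ^ i % 4 = 1 := by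
  obtain ⟨l, h1, h2, h3⟩ := pairs_list key a b hQa hQb hBa hBb hka hkb i hi₀ hkey i le_rfl
  have hF2 : (2 : F) ≠ 0 := by
    intro h
    have h5 : CharP F 2 := CharTwo.of_one_ne_zero_of_two_eq_zero one_ne_zero h
    have h6 : Fintype.card F % 2 = 0 := FiniteField.even_card_of_char_two (ringChar.eq F 2 ▸ rfl)
    have := Nat.odd_iff.mp hq
    omega
  rw [exists_omega_mat _ (lsp l) (fun x => by
    funext k
    rw [Matrix.mulVec_diagonal, h3]
    by_cases hk : key k < i
    · rw [if_pos hk, if_pos hk]; ring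
    · rw [if_neg hk, if_neg hk]; ring), lsp_comm' hnd (Subgroup.eq_top_iff' _ |>.mpr (rg_odd hF2 hnd)), h1, h2, neg_one_pow_iff hF hq]
  exact ⟨fun h => h.2, fun h => ⟨even_two_mul i, h⟩⟩

end pairs

end Cfsg.Agent.H17
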