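import Mathlib
import Cfsg.Agent.H17.PlusT

set_option autoImplicit false

/-! Class splitting for involutory semisimilarities, plus type. -/

namespace Cfsg.Agent.H17

open Cfsg Cfsg.Agent.H5 Module
open scoped MatrixGroups Matrix

section gen

variable {F F₀ V V₀ : Type*} [Field F] [Finite F] [Field F₀] [Finite F₀] [AddCommGroup V] [Module F V] [FiniteDimensional F V]
  [AddCommGroup V₀] [Module F₀ V₀] [FiniteDimensional F₀ V₀]
  {Q : QuadraticForm F V} {Q₀ : QuadraticForm F₀ V₀} {j : F₀ →+* F} {β : V₀ → V} {d : Fˣ} {s : SSG Q}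

theorem Desc.dg_eg (D : Desc Q Q₀ j β d s) (hnd : ND Q) (hn : 5 ≤ finrank F V) (hn₀ : 5 ≤ finrank F₀ V₀)
    (hsq : ∀ a : F₀, IsSquare (j a)) {g₀ : OG Q₀} {h : OG Q} (hh : Desc.DR β g₀ h) (hdg : h ∈ DG Q) : h ∈ EG Q := by
  have hnd₀ := D.nd hnd
  have key : ∀ g₀ ∈ DG Q₀, ∃ h ∈ EG Q, Desc.DR β g₀ h := by
    intro g₀ hg₀
    unfold DG at hg₀
    induction hg₀ using Subgroup.closure_induction with
    | mem x hx =>
      obtain ⟨u, v, hu, hv, rfl⟩ := hx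
      refine ⟨_, ?_, (D.ext_refl hu).mul (D.ext_refl hv)⟩
      apply uv_mem_eg hnd hn
      rw [D.form', D.form']
      obtain ⟨a, ha⟩ := hsq (Q₀ u)
      obtain ⟨b, hb⟩ := hsq (Q₀ v)
      exact ⟨(d : F)⁻¹ * a * b, by rw [ha, hb]; ring⟩
    | one => exact ⟨1, one_mem _, Desc.DR.one⟩
    | mul a b _ _ ha hb =>
      obtain ⟨h1, m1, r1⟩ := ha
      obtain ⟨h2, m2, r2⟩ := hb
      exact ⟨h1 * h2, mul_mem m1 m2, r1.mul r2⟩
    | inv a _ ha =>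
      obtain ⟨h1, m1, r1⟩ := ha
      exact ⟨h1⁻¹, inv_mem m1, r1.inv⟩
  rcases rg_dg g₀ (by rw [rg_top hnd₀ (fun _ => by omega)]; exact Subgroup.mem_top _) with h1 | h1
  · obtain ⟨h', hm', hr'⟩ := key g₀ h1
    rw [Desc.DR.unique D hh hr']
    exact hm'
  · exfalso
    obtain ⟨v, hv⟩ := exists_ne_q hnd₀ (by omega)
    obtain ⟨h', hm', hr'⟩ := key _ (h1 v hv)
    have h2 : h' = H5.refl (D.ne v hv) * h := Desc.DR.unique D hr' ((D.ext_refl hv).mul hh)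
    rw [h2] at hm'
    exact refl_not_mem_DG hnd hn (D.ne v hv) ((Subgroup.mul_mem_cancel_right _ hdg).mp (EG_le_DG hnd hn hm'))

theorem ssK_comm (hne : ∃ x, Q x ≠ 0) {q s : SSG Q} (hq1 : q.1.2 = 1) (h : q * s = s * q) : s.1.2 (ssK q : F) = ssK q := by
  have h1 := ssK_mul hne q s
  have h2 := ssK_mul hne s q
  rw [h, h2, hq1] at h1
  have h3 : (ssK s : F) * s.1.2 (ssK q : F) = (ssK q : F) * ssK s := h1
  have h4 : (ssK s : F) ≠ 0 := Units.ne_zero _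
  apply mul_left_cancel₀ h4
  rw [h3, mul_comm]

theorem ssK_sc (hne : ∃ x, Q x ≠ 0) (c : Fˣ) : (ssK (scSS Q c) : F) = c * c := by
  apply ssK_eq hne
  intro x
  rw [scSS_apply, Units.smul_def, q_smul]; rfl

/-- linear maps commuting with `s`, square rational multiplier -/
theorem Desc.sq_inn (D : Desc Q Q₀ j β d s) (hnd : ND Q) (hn : 5 ≤ finrank F V) (hn₀ : 5 ≤ finrank F₀ V₀)
    (hsq : ∀ a : F₀, IsSquare (j a)) {m : ℕ} (P : PT Q m) {q : SSG Q} (hq1 : q.1.2 = 1) (hev : Ev m q) (hqs : q * s = s * q)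
    {μ : F₀} (hμ : (ssK q : F) = j μ) (hs : IsSquare μ) : aE Q q ∈ Inn (PE Q) := by
  have hne : ∃ x, Q x ≠ 0 := exists_ne_q hnd (by omega)
  have hnd₀ := D.nd hnd
  have hne₀ : ∃ x, Q₀ x ≠ 0 := exists_ne_q hnd₀ (by omega)
  obtain ⟨c₀, rfl⟩ := hs
  have hc0 : c₀ ≠ 0 := by
    rintro rfl
    rw [mul_zero, map_zero] at hμ
    exact (ssK q).ne_zero hμ
  set c : Fˣ := Units.mk0 (j c₀) ((map_ne_zero j).mpr hc0) with hc
  obtain ⟨h, hh⟩ := sq_split (p := q) hq1 (c := c) (by rw [hμ, hc, Units.val_mk0, map_mul])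
  have hcs : scSS Q c * s = s * scSS Q c := by
    apply ss_ext
    · intro x
      show c • s.1.1 x = s.1.1 (c • x)
      rw [Units.smul_def, Units.smul_def, ss_smul]
      show _ = s.1.2 (j c₀) • _
      rw [D.hj']
      rfl
    · show 1 * s.1.2 = s.1.2 * 1
      rw [one_mul, mul_one]
  have hhs : ogSS Q h * s = s * ogSS Q h := by
    have h1 : ogSS Q h = (scSS Q c)⁻¹ * q := by rw [hh, inv_mul_cancel_left]
    rw [h1, mul_assoc, hqs, ← mul_assoc, ← mul_assoc]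
    congr 1
    rw [inv_mul_eq_iff_eq_mul, ← mul_assoc, hcs, mul_inv_cancel_right]
  obtain ⟨q₀, h1, h2⟩ := D.restrict hne₀ hhs (by show 1 * _ = _ * 1; rw [one_mul, mul_one])
  have hq01 : q₀.1.2 = 1 := by
    ext y
    apply j.injective
    rw [← h2]; rfl
  obtain ⟨g₀, hg₀⟩ := exists_og q₀ hq01 (fun x => by
    apply j.injective
    rw [D.form, ← h1, ogSS_apply, og_q, D.form])
  have hDR : Desc.DR β g₀ h := fun v => by
    have := h1 v
    rw [← hg₀] at this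
    exact this
  have hdg : h ∈ DG Q := by
    rw [← P.ev_og_iff hn]
    rw [hh, P.ev_mul] at hev
    exact hev.mp (P.ev_sc _)
  rw [hh, map_mul, aE_ker_sc hnd hn, one_mul]
  exact aE_eg_mem_inn (D.dg_eg hnd hn hn₀ hsq hDR hdg)

end gen

section cases

variable {F F₀ V₀ : Type*} [Field F] [Finite F] [Field F₀] [Finite F₀] {ι : Type} [Fintype ι] [DecidableEq ι]
  [AddCommGroup V₀] [Module F₀ V₀] [FiniteDimensional F₀ V₀]
  {Q : QuadraticForm F (ι → F)} {Q₀ : QuadraticForm F₀ V₀} {j : F₀ →+* F} {β : V₀ → (ι → F)} {d : Fˣ} {s : SSG Q}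

theorem Desc.cent_cases (D : Desc Q Q₀ j β d s) (h2 : (2 : F) ≠ 0) (hn : 5 ≤ finrank F (ι → F)) (hn₀ : 5 ≤ finrank F₀ V₀)
    (hsq : ∀ a : F₀, IsSquare (j a)) {m : ℕ} (P : PT Q m) {r : ℕ} (hτ : orderOf s.1.2 = r) (hr : 0 < r) (hs : s ^ r = 1)
    {G : SSG Q} (hG1 : G.1.2 = 1) (hGev : Ev m G) (hGs : G * s = s * G) {μ₀ : F₀} (hGμ : (ssK G : F) = j μ₀) (hμ₀ : ¬ IsSquare μ₀)
    {α : MulAut (PE Q)} (hα : α ∈ HS Q (evS P) ⊓ Subgroup.centralizer {aE Q s}) :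
    α ∈ Inn (PE Q) ∨ α * (aE Q G)⁻¹ ∈ Inn (PE Q) := by
  have hnd := P.nd
  have hne : ∃ x, Q x ≠ 0 := exists_ne_q hnd (by omega)
  obtain ⟨hα1, hα2⟩ := hα
  obtain ⟨q, hq1, hqev, rfl⟩ := mem_HS_ev.mp hα1
  obtain ⟨z, hz⟩ := commute_lift hnd hn hτ hr hs q (Subgroup.mem_centralizer_singleton_iff.mp hα2)
  obtain ⟨q', hq'⟩ : ∃ q', q' = scSS Q z * q := ⟨_, rfl⟩
  rw [← hq'] at hz
  have hq'1 : q'.1.2 = 1 := by rw [hq']; show 1 * q.1.2 = 1; rw [hq1, one_mul]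
  have hq'ev : Ev m q' := by rw [hq', P.ev_mul]; exact ⟨fun _ => hqev, fun _ => P.ev_sc _⟩
  have hqa : aE Q q = aE Q q' := by rw [hq', map_mul, aE_ker_sc hnd hn, one_mul]
  obtain ⟨μ, hμ⟩ := (D.hj _).mp (ssK_comm hne hq'1 hz)
  rw [hqa]
  by_cases hsμ : IsSquare μ
  · exact Or.inl (D.sq_inn hnd hn hn₀ hsq P hq'1 hq'ev hz hμ.symm hsμ)
  · right
    rw [← map_inv, ← map_mul]
    have hμ0 : μ₀ ≠ 0 := by rintro rfl; exact hμ₀ IsSquare.zero
    have hGi : G⁻¹ * s = s * G⁻¹ := by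
      rw [inv_mul_eq_iff_eq_mul, ← mul_assoc, hGs, mul_inv_cancel_right]
    have hqG1 : (q' * G⁻¹).1.2 = 1 := by
      show q'.1.2 * G.1.2⁻¹ = 1
      rw [hq'1, hG1, inv_one, one_mul]
    have hκ : (ssK (q' * G⁻¹) : F) = j (μ * μ₀⁻¹) := by
      have h1 : (ssK (q' * G⁻¹) : F) * ssK G = ssK q' := by
        have h9 : q' = q' * G⁻¹ * G := by rw [inv_mul_cancel_right]
        conv_rhs => rw [h9, ssK_mul hne, hqG1]
        rfl
      rw [hGμ, ← hμ] at h1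
      rw [map_mul, map_inv₀, ← h1, mul_assoc, mul_inv_cancel₀ ((map_ne_zero j).mpr hμ0), mul_one]
    refine D.sq_inn hnd hn hn₀ hsq P hqG1 ?_ ?_ hκ ?_
    · rw [P.ev_mul, P.ev_inv]; exact ⟨fun _ => hGev, fun _ => hq'ev⟩
    · rw [mul_assoc, hGi, ← mul_assoc, hz, mul_assoc]
    · have h20 := two_ne_zero_of_emb j h2
      obtain ⟨t, ht⟩ := nonsq_mul h20 hsμ hμ₀
      exact ⟨t * μ₀⁻¹, by
        have h3 : μ = t * t * μ₀⁻¹ := by rw [← ht, mul_assoc, mul_inv_cancel₀ hμ0, mul_one]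
        rw [h3]; ring⟩

/-- the image of the special group -/
def dgA (Q : QuadraticForm F (ι → F)) : Subgroup (MulAut (PE Q)) := (DG Q).map ((aE Q).comp (ogSS Q))

theorem dg_relIndex (h2 : (2 : F) ≠ 0) (hnd : ND Q) (hn : 5 ≤ finrank F (ι → F)) (hneg : ogNeg Q ∈ EG Q) :
    (Inn (PE Q)).relIndex (dgA Q) = 2 := by
  obtain ⟨a, u, v, hd, hu, hv⟩ := exists_two h2 hnd (by omega)
  have hd0 : a ≠ 0 := by rintro rfl; exact hd IsSquare.zero
  have hu' : Q u ≠ 0 := by rw [hu]; exact one_ne_zero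
  have hv' : Q v ≠ 0 := by rw [hv]; exact hd0
  have ns : ¬ IsSquare (Q u * Q v) := by rw [hu, hv, one_mul]; exact hd
  have inn_iff' : ∀ g : OG Q, aE Q (ogSS Q g) ∈ Inn (PE Q) ↔ g ∈ EG Q := by
    intro g
    constructor
    · intro h
      rw [aE_og_inn_iff hnd hn] at h
      rcases oG_eq_one hnd hn h with h1 | h1
      · exact h1
      · exact (Subgroup.mul_mem_cancel_left _ hneg).mp h1
    · exact aE_eg_mem_inn
  have hw : aE Q (ogSS Q (H5.refl hu' * H5.refl hv')) ∈ dgA Q := ⟨_, dg_mem hu' hv', rfl⟩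
  rw [Subgroup.relIndex, Subgroup.index_eq_two_iff]
  refine ⟨⟨_, hw⟩⁻¹, fun b => ?_⟩
  obtain ⟨b, ⟨g, hg, rfl⟩⟩ := b
  simp only [Subgroup.mem_subgroupOf, Subgroup.coe_mul, Subgroup.coe_inv]
  show Xor' (aE Q (ogSS Q g) * (aE Q (ogSS Q (H5.refl hu' * H5.refl hv')))⁻¹ ∈ _) (aE Q (ogSS Q g) ∈ _)
  rw [← map_inv, ← map_inv, ← map_mul, ← map_mul, inn_iff', inn_iff']
  have hns := uv_not_mem_eg h2 hnd hn hu' hv' ns
  by_cases hb : g ∈ EG Q
  · right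
    exact ⟨hb, fun h => hns (by
      have h3 := (Subgroup.mul_mem_cancel_left _ hb).mp h
      exact (inv_mem_iff).mp h3)⟩
  · left
    refine ⟨?_, hb⟩
    rcases dg_cases h2 hnd hn hu' hv' ns hg with h | h
    · exact absurd h hb
    · exact h

theorem dgA_le {m : ℕ} (P : PT Q m) : dgA Q ≤ HS Q (evS P) := by
  rintro _ ⟨g, hg, rfl⟩
  exact mem_HS_ev.mpr ⟨ogSS Q g, rfl, P.dg_ev hg, rfl⟩

theorem sq_dgA {m : ℕ} (P : PT Q m) (hn : 5 ≤ finrank F (ι → F)) {q : SSG Q} (hq1 : q.1.2 = 1) (hqev : Ev m q)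
    (hs : IsSquare (ssK q : F)) : aE Q q ∈ dgA Q := by
  obtain ⟨c, hc⟩ := hs
  have hc0 : c ≠ 0 := by
    rintro rfl
    exact (ssK q).ne_zero (by rw [hc, mul_zero])
  obtain ⟨h, hh⟩ := sq_split (p := q) hq1 (c := Units.mk0 c hc0) hc.symm
  rw [hh, P.ev_mul] at hqev
  rw [hh, map_mul, aE_ker_sc P.nd hn, one_mul]
  exact ⟨h, (P.ev_og_iff hn h).mp (hqev.mp (P.ev_sc _)), rfl⟩

theorem dgA_relIndex {m : ℕ} (P : PT Q m) (h2 : (2 : F) ≠ 0) (hn : 5 ≤ finrank F (ι → F)) {G : SSG Q} (hG1 : G.1.2 = 1) (hGev : Ev m G)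
    (hG : ¬ IsSquare (ssK G : F)) : (dgA Q).relIndex (HS Q (evS P)) = 2 := by
  have hne : ∃ x, Q x ≠ 0 := exists_ne_q P.nd (by omega)
  have hGH : aE Q G ∈ HS Q (evS P) := mem_HS_ev.mpr ⟨G, hG1, hGev, rfl⟩
  have inv_sq : ∀ p : SSG Q, p.1.2 = 1 → (IsSquare (ssK p⁻¹ : F) ↔ IsSquare (ssK p : F)) := by
    intro p hp
    have h1 : (ssK p⁻¹ : F) * ssK p = 1 := by
      have h9 := ssK_mul hne p⁻¹ p
      rw [inv_mul_cancel] at h9
      have h10 : (ssK (1 : SSG Q) : F) = 1 := ssK_eq hne _ (fun x => by rw [one_mul]; rfl)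
      have h11 : p⁻¹.1.2 = 1 := by show p.1.2⁻¹ = 1; rw [hp, inv_one]
      rw [h10, h11] at h9
      exact h9.symm
    have h2 : (ssK p⁻¹ : F) = (ssK p : F)⁻¹ := eq_inv_of_mul_eq_one_left h1
    rw [h2, isSquare_inv]
  have mem_iff : ∀ q : SSG Q, q.1.2 = 1 → Ev m q → (aE Q q ∈ dgA Q ↔ IsSquare (ssK q : F)) := by
    intro q hq1 hqev
    constructor
    · rintro ⟨g, _, hg⟩
      have h3 : q * (ogSS Q g)⁻¹ ∈ (aE Q).ker := by
        have hg' : aE Q (ogSS Q g) = aE Q q := hg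
        rw [MonoidHom.mem_ker, map_mul, map_inv, hg', mul_inv_cancel]
      rw [aE_ker P.nd hn] at h3
      obtain ⟨c, hc⟩ := h3
      have h4 : q = scSS Q c * ogSS Q g := by rw [hc, inv_mul_cancel_right]
      have h5 : (ssK (ogSS Q g) : F) = 1 := ssK_eq hne _ (fun x => by rw [ogSS_apply, og_q, one_mul]; rfl)
      rw [h4, ssK_mul hne, ssK_sc hne, h5]
      exact ⟨c, by rw [map_one, mul_one]⟩
    · exact sq_dgA P hn hq1 hqev
  rw [Subgroup.relIndex, Subgroup.index_eq_two_iff]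
  refine ⟨⟨_, hGH⟩⁻¹, fun b => ?_⟩
  obtain ⟨b, hb⟩ := b
  obtain ⟨q, hq1, hqev, rfl⟩ := mem_HS_ev.mp hb
  simp only [Subgroup.mem_subgroupOf, Subgroup.coe_mul, Subgroup.coe_inv]
  have hqG1 : (q * G⁻¹).1.2 = 1 := by
    show q.1.2 * G.1.2⁻¹ = 1
    rw [hq1, hG1, inv_one, one_mul]
  have hqGev : Ev m (q * G⁻¹) := by rw [P.ev_mul, P.ev_inv]; exact ⟨fun _ => hGev, fun _ => hqev⟩
  rw [← map_inv, ← map_mul, mem_iff _ hqG1 hqGev, mem_iff _ hq1 hqev]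
  have hk : (ssK (q * G⁻¹) : F) = ssK q * ssK G⁻¹ := by
    rw [ssK_mul hne, hq1]; rfl
  have hGi : ¬ IsSquare (ssK G⁻¹ : F) := by rw [inv_sq G hG1]; exact hG
  rw [hk]
  by_cases hb : IsSquare (ssK q : F)
  · right
    exact ⟨hb, sq_mul_nonsq hb (Units.ne_zero _) hGi⟩
  · left
    exact ⟨nonsq_mul h2 hb hGi, hb⟩

/-- the number of classes -/
theorem Desc.split_two (D : Desc Q Q₀ j β d s) (h2 : (2 : F) ≠ 0) (hn : 5 ≤ finrank F (ι → F)) (hn₀ : 5 ≤ finrank F₀ V₀)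
    (hsq : ∀ a : F₀, IsSquare (j a)) {m : ℕ} (P : PT Q m) {r : ℕ} (hτ : orderOf s.1.2 = r) (hr : 0 < r) (hs : s ^ r = 1)
    (hneg : ogNeg Q ∈ EG Q) (hG' : ∃ G' : SSG Q, G'.1.2 = 1 ∧ Ev m G' ∧ ¬ IsSquare (ssK G' : F))
    {G : SSG Q} (hG1 : G.1.2 = 1) (hGev : Ev m G) (hGs : G * s = s * G) {μ₀ : F₀} (hGμ : (ssK G : F) = j μ₀) (hμ₀ : ¬ IsSquare μ₀) :
    (aE Q G ∈ Inn (PE Q) → splitClassCount (HS Q (evS P)) (Inn (PE Q)) (aE Q s) = 4) ∧
    (aE Q G ∉ Inn (PE Q) → splitClassCount (HS Q (evS P)) (Inn (PE Q)) (aE Q s) = 2) := by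
  haveI := Inn_normal (G := PE Q)
  have hnd := P.nd
  have hinn : Inn (PE Q) ≤ dgA Q := by
    rintro _ ⟨x, rfl⟩
    obtain ⟨g, rfl⟩ := QuotientGroup.mk_surjective x
    exact ⟨g.1, EG_le_DG hnd hn g.2, aE_ogSS g⟩
  have hr1 := dg_relIndex h2 hnd hn hneg
  obtain ⟨G', hG'1, hG'ev, hG'ns⟩ := hG'
  have hr2 := dgA_relIndex P h2 hn hG'1 hG'ev hG'ns
  have hcc := fun (α : MulAut (PE Q)) hα => D.cent_cases h2 hn hn₀ hsq P hτ hr hs hG1 hGev hGs hGμ hμ₀ (α := α) hα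
  constructor
  · intro hG
    rw [splitClassCount_eq (hinn.trans (dgA_le P))]
    have hle : HS Q (evS P) ⊓ Subgroup.centralizer {aE Q s} ≤ Inn (PE Q) := by
      intro α hα
      rcases hcc α hα with h | h
      · exact h
      · exact (Subgroup.mul_mem_cancel_right _ ((Inn (PE Q)).inv_mem hG)).mp h
    rw [sup_eq_left.mpr hle, ← Subgroup.relIndex_mul_relIndex _ _ _ hinn (dgA_le P), hr1, hr2]
  · intro hG
    rw [splitClassCount_eq (hinn.trans (dgA_le P))]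
    have hGm : aE Q G ∈ HS Q (evS P) ⊓ Subgroup.centralizer {aE Q s} := by
      refine ⟨mem_HS_ev.mpr ⟨G, hG1, hGev, rfl⟩, Subgroup.mem_centralizer_singleton_iff.mpr ?_⟩
      rw [← map_mul, ← map_mul, hGs]
    have hGd : aE Q G ∈ dgA Q := sq_dgA P hn hG1 hGev (by rw [hGμ]; exact hsq _)
    have hle : Inn (PE Q) ⊔ (HS Q (evS P) ⊓ Subgroup.centralizer {aE Q s}) ≤ dgA Q := by
      refine sup_le hinn ?_
      intro α hα
      rcases hcc α hα with h | h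
      · exact hinn h
      · exact (Subgroup.mul_mem_cancel_right _ ((dgA Q).inv_mem hGd)).mp (hinn h)
    have hmul := Subgroup.relIndex_mul_relIndex (Inn (PE Q)) (Inn (PE Q) ⊔ (HS Q (evS P) ⊓ Subgroup.centralizer {aE Q s})) (dgA Q) le_sup_left hle
    rw [hr1] at hmul
    have hne1 : (Inn (PE Q)).relIndex (Inn (PE Q) ⊔ (HS Q (evS P) ⊓ Subgroup.centralizer {aE Q s})) ≠ 1 := by
      intro h1
      rw [Subgroup.relIndex_eq_one] at h1
      exact hG (h1 (Subgroup.mem_sup_right hGm))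
    have h3 : (Inn (PE Q) ⊔ (HS Q (evS P) ⊓ Subgroup.centralizer {aE Q s})).relIndex (dgA Q) = 1 := by
      have hdvd : (Inn (PE Q)).relIndex (Inn (PE Q) ⊔ (HS Q (evS P) ⊓ Subgroup.centralizer {aE Q s})) ∣ 2 := ⟨_, hmul.symm⟩
      rcases (Nat.dvd_prime Nat.prime_two).mp hdvd with h4 | h4
      · exact absurd h4 hne1
      · rw [h4] at hmul
        omega
    rw [← Subgroup.relIndex_mul_relIndex _ _ _ hle (dgA_le P), h3, hr2, one_mul]

end cases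

end Cfsg.Agent.H17
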