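import Mathlib
import Cfsg.Agent.H17.Split2
import Cfsg.Agent.H17.Spin4
import Cfsg.Agent.H17.OutMinus2

set_option autoImplicit false

/-! The conformal orthogonal group modulo the inner automorphisms, odd characteristic, even dimension. -/

namespace Cfsg.Agent.H17

open Cfsg Cfsg.Agent.H5 Module
open scoped MatrixGroups Matrix

section abs

theorem exists_phi {S M A : Type*} [Group S] [Group M] [Group A] (a : S →* M) (P K : Subgroup M) (ha : ∀ x, x ∈ P ↔ ∃ s, a s = x)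
    (f : S →* A) (hf : Function.Surjective f) (hK : ∀ s, a s ∈ K ↔ f s = 1) :
    ∃ φ : P →* A, Function.Surjective φ ∧ φ.ker = K.subgroupOf P := by
  choose s hs using fun x : P => (ha x.1).mp x.2
  have key : ∀ t t' : S, a t = a t' → f t = f t' := by
    intro t t' h
    have h1 : a (t * t'⁻¹) ∈ K := by rw [map_mul, map_inv, h, mul_inv_cancel]; exact K.one_mem
    rw [hK, map_mul, map_inv, mul_inv_eq_one] at h1
    exact h1
  refine ⟨{ toFun := fun x => f (s x), map_one' := ?_, map_mul' := ?_ }, ?_, ?_⟩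
  · rw [← map_one f]; apply key; rw [hs, map_one]; rfl
  · intro x y; rw [← map_mul]; apply key; rw [hs, map_mul, hs, hs]; rfl
  · intro z
    obtain ⟨t, rfl⟩ := hf z
    refine ⟨⟨a t, (ha _).mpr ⟨t, rfl⟩⟩, ?_⟩
    exact key _ _ (hs _)
  · ext x
    rw [MonoidHom.mem_ker, Subgroup.mem_subgroupOf]
    show f (s x) = 1 ↔ _
    rw [← hK, hs]

theorem relIndex_of_phi {M A : Type*} [Group M] [Group A] {P K : Subgroup M} (φ : P →* A) (h1 : Function.Surjective φ)
    (h2 : φ.ker = K.subgroupOf P) : K.relIndex P = Nat.card A := by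
  rw [Subgroup.relIndex, ← h2, Subgroup.index_ker, MonoidHom.range_eq_top.mpr h1, Subgroup.card_top]

instance klein_units : IsKleinFour (ℤˣ × ℤˣ) where
  card_four := by rw [Nat.card_eq_fintype_card]; decide
  exponent_two := by
    have h1 : Monoid.exponent (ℤˣ × ℤˣ) ∣ 2 := Monoid.exponent_dvd_of_forall_pow_eq_one (by decide)
    rcases (Nat.dvd_prime Nat.prime_two).mp h1 with h | h
    · exfalso
      have h2 := Monoid.exp_eq_one_iff.mp h
      have h3 : ((1, -1) : ℤˣ × ℤˣ) = 1 := h2.elim _ _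
      exact absurd h3 (by decide)
    · exact h

theorem klein_iso : Nonempty ((ℤˣ × ℤˣ) ≃* Multiplicative (ZMod 2 × ZMod 2)) := IsKleinFour.nonempty_mulEquiv

end abs

section par

variable {F V : Type*} [Field F] [AddCommGroup V] [Module F V] {Q : QuadraticForm F V}

/-- linear similarities -/
def simS (Q : QuadraticForm F V) : Subgroup (SSG Q) := (ssπ Q).ker

theorem mem_simS {p : SSG Q} : p ∈ simS Q ↔ p.1.2 = 1 := Iff.rfl

/-- a notion of properness -/
structure ParS (Q : QuadraticForm F V) (E : Subgroup (SSG Q)) : Prop where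
  le : ∀ p ∈ E, p.1.2 = 1
  mul : ∀ p q : SSG Q, p.1.2 = 1 → q.1.2 = 1 → (p * q ∈ E ↔ (p ∈ E ↔ q ∈ E))
  refl : ∀ (v : V) (hv : Q v ≠ 0), ogSS Q (H5.refl hv) ∉ E
  sc : ∀ c, scSS Q c ∈ E

namespace ParS

variable {E : Subgroup (SSG Q)}

/-- the parity homomorphism -/
noncomputable def par (P : ParS Q E) : simS Q →* ℤˣ :=
  haveI := Classical.propDecidable
  { toFun := fun s => if s.1 ∈ E then 1 else -1
    map_one' := by rw [if_pos]; exact one_mem _
    map_mul' := fun a b => by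
      have h : (a * b).1 ∈ E ↔ (a.1 ∈ E ↔ b.1 ∈ E) := P.mul a.1 b.1 a.2 b.2
      by_cases h1 : a.1 ∈ E <;> by_cases h2 : b.1 ∈ E
      · rw [if_pos h1, if_pos h2, if_pos (h.mpr ⟨fun _ => h2, fun _ => h1⟩)]; rfl
      · rw [if_pos h1, if_neg h2, if_neg (fun h3 => h2 ((h.mp h3).mp h1))]; rfl
      · rw [if_neg h1, if_pos h2, if_neg (fun h3 => h1 ((h.mp h3).mpr h2))]; rfl
      · rw [if_neg h1, if_neg h2, if_pos (h.mpr ⟨fun h3 => absurd h3 h1, fun h3 => absurd h3 h2⟩)]; rfl }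

variable (P : ParS Q E)

include P

theorem dg {g : OG Q} (hg : g ∈ DG Q) : ogSS Q g ∈ E := by
  unfold DG at hg
  induction hg using Subgroup.closure_induction with
  | mem x hx =>
    obtain ⟨u, v, hu, hv, rfl⟩ := hx
    rw [map_mul, P.mul _ _ rfl rfl]
    exact ⟨fun h => absurd h (P.refl u hu), fun h => absurd h (P.refl v hv)⟩
  | one => rw [map_one]; exact one_mem _
  | mul a b _ _ ha hb => rw [map_mul]; exact mul_mem ha hb
  | inv a _ ha => rw [map_inv]; exact inv_mem ha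

theorem og_iff [FiniteDimensional F V] (hnd : ND Q) (hrg : RG Q = ⊤) (g : OG Q) : ogSS Q g ∈ E ↔ g ∈ DG Q := by
  refine ⟨fun h => ?_, P.dg⟩
  by_contra hg
  have h1 := rg_dg g (by rw [hrg]; trivial)
  by_cases hne : ∃ v, Q v ≠ 0
  · obtain ⟨v, hv⟩ := hne
    have h2 := (h1.resolve_left hg) v hv
    have h3 := P.dg h2
    rw [map_mul, P.mul _ _ rfl rfl] at h3
    exact P.refl v hv (h3.mpr h)
  · push Not at hne
    apply hg
    rw [nd_triv hnd hne g]
    exact one_mem _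

theorem par_apply (s : simS Q) [Decidable (s.1 ∈ E)] : P.par s = if s.1 ∈ E then 1 else -1 := by
  unfold par
  simp only [MonoidHom.coe_mk, OneHom.coe_mk]
  congr

theorem par_eq_one {s : simS Q} : P.par s = 1 ↔ s.1 ∈ E := by
  classical
  rw [P.par_apply]
  by_cases h : s.1 ∈ E
  · simp [h]
  · rw [if_neg h]
    exact ⟨fun h1 => absurd h1 (by decide), fun h1 => absurd h1 h⟩

theorem par_eq_neg {s : simS Q} : P.par s = -1 ↔ s.1 ∉ E := by
  classical
  rw [P.par_apply]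
  by_cases h : s.1 ∈ E
  · rw [if_pos h]
    exact ⟨fun h1 => absurd h1 (by decide), fun h1 => absurd h h1⟩
  · simp [h]

end ParS

end par

section main

variable {F : Type*} [Field F] [Finite F] {ι : Type} [Fintype ι] [DecidableEq ι] {Q : QuadraticForm F (ι → F)}
  {E : Subgroup (SSG Q)}

theorem units_cases (x : ℤˣ) : x = 1 ∨ x = -1 := Int.units_eq_one_or x

/-- standing hypotheses -/
structure CH (Q : QuadraticForm F (ι → F)) (E : Subgroup (SSG Q)) (k : ℕ) : Prop where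
  h2 : (2 : F) ≠ 0
  nd : ND Q
  hn : 5 ≤ finrank F (ι → F)
  hk : finrank F (ι → F) = 2 * k
  P : ParS Q E

variable {k : ℕ}

namespace CH

theorem ne0 (H : CH Q E k) : ∃ x, Q x ≠ 0 := exists_ne_q H.nd (by have := H.hn; omega)

/-- multiplier character and parity -/
noncomputable def f (H : CH Q E k) : simS Q →* ℤˣ × ℤˣ := MonoidHom.prod ((chi F).comp (ssl Q H.ne0)) H.P.par

variable (H : CH Q E k)

include H

theorem rg : RG Q = ⊤ := Subgroup.eq_top_iff' _ |>.mpr (rg_odd H.h2 H.nd)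

theorem ne : ∃ x, Q x ≠ 0 := exists_ne_q H.nd (by have := H.hn; omega)

theorem f_one {s : simS Q} : H.f s = 1 ↔ IsSquare (ssK s.1 : F) ∧ s.1 ∈ E := by
  rw [← H.P.par_eq_one]
  have : IsSquare (ssK s.1 : F) ↔ chi F (ssl Q H.ne s) = 1 := chi_eq_one.symm
  rw [this]
  exact Prod.ext_iff

theorem exists_ns : ∃ p : SSG Q, p.1.2 = 1 ∧ ¬ IsSquare (ssK p : F) := by
  obtain ⟨d, hd⟩ := exists_nonsq H.h2
  have hd0 : d ≠ 0 := by rintro rfl; exact hd IsSquare.zero
  obtain ⟨p, hp1, hp2⟩ := exists_ss_even H.nd H.hk 1 hd0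
  refine ⟨p, hp1, ?_⟩
  rw [ssK_eq H.ne p (κ := d) (by rw [hp1]; exact hp2)]
  exact hd

theorem exists_ns_even : ∃ p ∈ E, ¬ IsSquare (ssK p : F) := by
  obtain ⟨p, hp1, hp2⟩ := H.exists_ns
  by_cases h : p ∈ E
  · exact ⟨p, h, hp2⟩
  · obtain ⟨v, hv⟩ := H.ne
    refine ⟨p * ogSS Q (H5.refl hv), ?_, ?_⟩
    · rw [H.P.mul _ _ hp1 rfl]
      exact ⟨fun h3 => absurd h3 h, fun h3 => absurd h3 (H.P.refl v hv)⟩
    · rw [ssK_mul H.ne, hp1]
      have : (ssK (ogSS Q (H5.refl hv)) : F) = 1 := ssK_eq H.ne _ fun x => by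
        rw [one_mul]; exact og_q (H5.refl hv) x
      rw [this]
      show ¬ IsSquare ((ssK p : F) * (1 : F ≃+* F) 1)
      rw [map_one, mul_one]; exact hp2

theorem f_surj : Function.Surjective H.f := by
  obtain ⟨v, hv⟩ := H.ne
  obtain ⟨p, hpE, hp2⟩ := H.exists_ns_even
  let r : simS Q := ⟨ogSS Q (H5.refl hv), rfl⟩
  let q : simS Q := ⟨p, H.P.le p hpE⟩
  have hr : H.f r = (1, -1) := by
    apply Prod.ext
    · have : IsSquare (ssK r.1 : F) := by
        have : (ssK (ogSS Q (H5.refl hv)) : F) = 1 := ssK_eq H.ne _ fun x => by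
          rw [one_mul]; exact og_q (H5.refl hv) x
        show IsSquare (ssK (ogSS Q (H5.refl hv)) : F)
        rw [this]; exact IsSquare.one
      exact chi_eq_one.mpr this
    · exact H.P.par_eq_neg.mpr (H.P.refl v hv)
  have hq : H.f q = (-1, 1) := by
    apply Prod.ext
    · exact chi_eq_neg.mpr hp2
    · exact H.P.par_eq_one.mpr hpE
  rintro ⟨x, y⟩
  rcases units_cases x with rfl | rfl <;> rcases units_cases y with rfl | rfl
  · exact ⟨1, map_one _⟩
  · exact ⟨r, hr⟩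
  · exact ⟨q, hq⟩
  · exact ⟨q * r, by rw [map_mul, hr, hq]; rfl⟩

theorem dgA_iff (s : SSG Q) (hs1 : s.1.2 = 1) : aE Q s ∈ dgA Q ↔ IsSquare (ssK s : F) ∧ s ∈ E := by
  constructor
  · rintro ⟨g, hg, h⟩
    have h1 : s * (ogSS Q g)⁻¹ ∈ (aE Q).ker := by
      rw [MonoidHom.mem_ker, map_mul, map_inv, ← h]
      exact mul_inv_cancel _
    rw [aE_ker H.nd H.hn] at h1
    obtain ⟨c, hc⟩ := h1
    have h3 : s = scSS Q c * ogSS Q g := by rw [hc]; group
    constructor
    · rw [h3, ssK_mul H.ne, ssK_sc H.ne]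
      have : (ssK (ogSS Q g) : F) = 1 := ssK_eq H.ne _ fun x => by
        rw [one_mul]; exact og_q g x
      rw [this]
      refine ⟨c, ?_⟩
      show (c : F) * c * (1 : F ≃+* F) 1 = c * c
      rw [map_one, mul_one]
    · rw [h3]; exact mul_mem (H.P.sc c) (H.P.dg hg)
  · rintro ⟨⟨c, hc⟩, hE⟩
    have hc0 : c ≠ 0 := by
      rintro rfl
      rw [mul_zero] at hc
      exact Units.ne_zero _ hc
    obtain ⟨g, hg⟩ := sq_split hs1 (c := Units.mk0 c hc0) hc.symm
    have h1 : ogSS Q g ∈ E := by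
      have : ogSS Q g = (scSS Q (Units.mk0 c hc0))⁻¹ * s := by rw [hg]; group
      rw [this]
      exact mul_mem (inv_mem (H.P.sc _)) hE
    refine ⟨g, (H.P.og_iff H.nd H.rg g).mp h1, ?_⟩
    have h2 : aE Q (scSS Q (Units.mk0 c hc0)) = 1 := by
      have : scSS Q (Units.mk0 c hc0) ∈ (aE Q).ker := by rw [aE_ker H.nd H.hn]; exact ⟨_, rfl⟩
      exact this
    rw [hg, map_mul, h2, one_mul]; rfl

/-- both classes of reflections -/
theorem rd : ∃ u v, RD Q u v := by
  obtain ⟨a, u, v, hd, hu, hv⟩ := exists_two H.h2 H.nd (by have := H.hn; omega)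
  have hd0 : a ≠ 0 := by rintro rfl; exact hd IsSquare.zero
  exact ⟨u, v, H.h2, H.nd, H.hn, ⟨k, H.hk⟩, by rw [hu]; exact one_ne_zero, by rw [hv]; exact hd0, by rw [hu, hv, one_mul]; exact hd⟩

theorem dgA_eq_inn (hneg : ogNeg Q ∉ EG Q) : dgA Q = Inn (PE Q) := by
  apply le_antisymm
  · rintro _ ⟨g, hg, rfl⟩
    show aE Q (ogSS Q g) ∈ _
    rw [aE_og_inn_iff H.nd H.hn]
    obtain ⟨u, v, R⟩ := H.rd
    rcases R.det_one (odet_dg hg) with h | h
    · exact h
    · rw [h, R.uv_one hneg]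
  · intro α hα
    obtain ⟨x, hx⟩ := hα
    obtain ⟨g, rfl⟩ := QuotientGroup.mk_surjective x
    rw [← hx]
    have := aE_ogSS g
    refine ⟨g.1, ?_, this⟩
    have h2 : EG Q ≤ DG Q := fun g hg => by
      rw [mem_dg_iff H.h2 H.nd]
      exact odet_EG H.nd H.hn hg
    exact h2 g.2

theorem inn_le_dgA : Inn (PE Q) ≤ dgA Q := by
  intro α hα
  obtain ⟨x, hx⟩ := hα
  obtain ⟨g, rfl⟩ := QuotientGroup.mk_surjective x
  rw [← hx]
  have := aE_ogSS g
  refine ⟨g.1, ?_, this⟩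
  have h2 : EG Q ≤ DG Q := fun g hg => by
    rw [mem_dg_iff H.h2 H.nd]
    exact odet_EG H.nd H.hn hg
  exact h2 g.2

omit H in
theorem pgo_map : HS Q ⊤ = (simS Q).map (aE Q) := by
  ext α
  rw [mem_HS_top, Subgroup.mem_map]
  exact ⟨fun ⟨p, h1, h2⟩ => ⟨p, h1, h2⟩, fun ⟨p, h1, h2⟩ => ⟨p, h1, h2⟩⟩

/-- T1 -/
theorem exists_v4 : ∃ f : simS Q →* Multiplicative (ZMod 2 × ZMod 2), Function.Surjective f ∧ ∀ s, aE Q s.1 ∈ dgA Q ↔ f s = 1 := by
  obtain ⟨e⟩ := klein_iso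
  refine ⟨e.toMonoidHom.comp H.f, e.surjective.comp H.f_surj, fun s => ?_⟩
  rw [H.dgA_iff s.1 s.2, ← H.f_one]
  show _ ↔ e (H.f s) = 1
  rw [map_eq_one_iff e e.injective]

theorem relIndex_pgo : (dgA Q).relIndex ((simS Q).map (aE Q)) = 4 := by
  obtain ⟨f, hf, hf'⟩ := H.exists_v4
  obtain ⟨φ, h1, h2⟩ := exists_phi ((aE Q).comp (simS Q).subtype) ((simS Q).map (aE Q)) (dgA Q) (fun x => by
    rw [Subgroup.mem_map]
    exact ⟨fun ⟨s, hs, h⟩ => ⟨⟨s, hs⟩, h⟩, fun ⟨s, h⟩ => ⟨s.1, s.2, h⟩⟩) f hf hf'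
  rw [relIndex_of_phi φ h1 h2]
  simp

theorem relIndex_E : (dgA Q).relIndex (E.map (aE Q)) = 2 := by
  have hE : E ≤ simS Q := fun p hp => H.P.le p hp
  obtain ⟨φ, h1, h2⟩ := exists_phi ((aE Q).comp E.subtype) (E.map (aE Q)) (dgA Q) (fun x => by
    rw [Subgroup.mem_map]
    exact ⟨fun ⟨s, hs, h⟩ => ⟨⟨s, hs⟩, h⟩, fun ⟨s, h⟩ => ⟨s.1, s.2, h⟩⟩)
    ((chi F).comp ((ssl Q H.ne).comp (Subgroup.inclusion hE))) (by
      intro y
      rcases units_cases y with rfl | rfl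
      · exact ⟨1, map_one _⟩
      · obtain ⟨p, hpE, hp2⟩ := H.exists_ns_even
        exact ⟨⟨p, hpE⟩, chi_eq_neg.mpr hp2⟩) (by
      intro s
      show aE Q s.1 ∈ dgA Q ↔ _
      rw [H.dgA_iff s.1 (H.P.le _ s.2)]
      have : IsSquare (ssK s.1 : F) ↔ chi F (ssl Q H.ne (Subgroup.inclusion hE s)) = 1 := chi_eq_one.symm
      show _ ↔ chi F (ssl Q H.ne (Subgroup.inclusion hE s)) = 1
      rw [← this]
      exact ⟨fun h => h.1, fun h => ⟨h, s.2⟩⟩)
  rw [relIndex_of_phi φ h1 h2]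
  simp

/-- T2 -/
theorem relIndex_dgA : (ogNeg Q ∈ EG Q → (Inn (PE Q)).relIndex (dgA Q) = 2) ∧ (ogNeg Q ∉ EG Q → (Inn (PE Q)).relIndex (dgA Q) = 1) := by
  refine ⟨fun h => dg_relIndex H.h2 H.nd H.hn h, fun h => ?_⟩
  rw [H.dgA_eq_inn h, Subgroup.relIndex_self]

theorem dgA_le_E : dgA Q ≤ E.map (aE Q) := by
  rintro _ ⟨g, hg, rfl⟩
  exact ⟨ogSS Q g, H.P.dg hg, rfl⟩

theorem dgA_le_S : dgA Q ≤ (simS Q).map (aE Q) := by
  rintro _ ⟨g, hg, rfl⟩
  exact ⟨ogSS Q g, rfl, rfl⟩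

omit H in
theorem inn_eq_ker : Inn (PE Q) = (QuotientGroup.mk' (Inn (PE Q))).ker := (QuotientGroup.ker_mk' _).symm

omit H in
theorem card_out_map (S : Subgroup (SSG Q)) : Nat.card (S.map (outE Q)) = (Inn (PE Q)).relIndex (S.map (aE Q)) := by
  have h1 : S.map (outE Q) = (S.map (aE Q)).map (QuotientGroup.mk' (Inn (PE Q))) := by
    rw [Subgroup.map_map]; rfl
  rw [h1, ← Subgroup.relIndex_ker, QuotientGroup.ker_mk']

theorem card_S (hneg : ogNeg Q ∈ EG Q) : Nat.card ((simS Q).map (outE Q)) = 8 := by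
  rw [card_out_map, ← Subgroup.relIndex_mul_relIndex _ _ _ H.inn_le_dgA H.dgA_le_S, (H.relIndex_dgA).1 hneg, H.relIndex_pgo]

theorem card_E (hneg : ogNeg Q ∈ EG Q) : Nat.card (E.map (outE Q)) = 4 := by
  rw [card_out_map, ← Subgroup.relIndex_mul_relIndex _ _ _ H.inn_le_dgA H.dgA_le_E, (H.relIndex_dgA).1 hneg, H.relIndex_E]

theorem card_E' (hneg : ogNeg Q ∉ EG Q) : Nat.card (E.map (outE Q)) = 2 := by
  rw [card_out_map, ← Subgroup.relIndex_mul_relIndex _ _ _ H.inn_le_dgA H.dgA_le_E, (H.relIndex_dgA).2 hneg, H.relIndex_E]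

omit H in
theorem exists_f_of_iso {A : Type*} [Group A] (S : Subgroup (SSG Q)) (h : Nonempty (S.map (outE Q) ≃* A)) :
    ∃ f : S →* A, Function.Surjective f ∧ ∀ s, aE Q s.1 ∈ Inn (PE Q) ↔ f s = 1 := by
  obtain ⟨e⟩ := h
  refine ⟨e.toMonoidHom.comp ((outE Q).subgroupMap S), e.surjective.comp (MonoidHom.subgroupMap_surjective _ _), fun s => ?_⟩
  show _ ↔ e ((outE Q).subgroupMap S s) = 1
  rw [map_eq_one_iff e e.injective]
  have h1 : (outE Q).subgroupMap S s = 1 ↔ outE Q s.1 = 1 := by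
    rw [← Subtype.coe_inj]; rfl
  rw [h1, outE_apply, QuotientGroup.eq_one_iff]

/-- T3 -/
theorem iso_D8 (hneg : ogNeg Q ∈ EG Q) : Nonempty ((simS Q).map (outE Q) ≃* DihedralGroup 4) := by
  obtain ⟨u, v, R⟩ := H.rd
  obtain ⟨p, hp1, hp2⟩ := H.exists_ns
  have hδ := R.swap_u p hp1 hp2
  have hδv := R.swap_v p hp1 hp2
  have hz1 := R.uv_ne_one hneg
  set t := oG Q (H5.refl R.hu) with ht
  set w := oG Q (H5.refl R.hv) with hw
  set δ := outE Q p with hδd
  have htt : t * t = 1 := R.sq_u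
  have hww : w * w = 1 := R.sq_v
  have htw : t * w = w * t := R.comm
  have hzz : (t * w) * (t * w) = 1 := by
    calc (t * w) * (t * w) = t * (w * t) * w := by group
      _ = (t * t) * (w * w) := by rw [← htw]; group
      _ = 1 := by rw [htt, hww, one_mul]
  have hδt : δ * t = w * δ := by rw [← hδ]; group
  have hδw : δ * w = t * δ := by rw [← hδv]; group
  -- x
  have key : ∃ x : SSG Q, x ∈ simS Q ∧ outE Q x * outE Q x = t * w ∧ outE Q x * t = w * outE Q x := by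
    rcases R.sim_sq p hp1 with h | h
    · refine ⟨p * ogSS Q (H5.refl R.hu), hp1, ?_, ?_⟩
      · rw [map_mul]
        show (δ * t) * (δ * t) = t * w
        calc (δ * t) * (δ * t) = (w * δ) * (δ * t) := by rw [hδt]
          _ = w * (δ * δ) * t := by group
          _ = t * w := by rw [h, mul_one, htw]
      · rw [map_mul]
        show (δ * t) * t = w * (δ * t)
        rw [hδt]; simp only [mul_assoc]; rw [hδt]
    · exact ⟨p, hp1, h, hδt⟩
  obtain ⟨x, hx1, hx2, hx3⟩ := key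
  set ξ := outE Q x with hξ
  have hwξ : t * ξ * t = ξ⁻¹ := by
    rw [mul_assoc, hx3, ← mul_assoc]
    rw [eq_inv_iff_mul_eq_one, mul_assoc, hx2, hzz]
  haveI hfin : Finite ((simS Q).map (outE Q)) := Nat.finite_of_card_ne_zero (by rw [H.card_S hneg]; norm_num)
  have hx4 : ξ ^ 4 = 1 := by
    rw [pow_four_eq, hx2, hzz]
  let X : (simS Q).map (outE Q) := ⟨ξ, ⟨x, hx1, rfl⟩⟩
  let T : (simS Q).map (outE Q) := ⟨t, ⟨ogSS Q (H5.refl R.hu), rfl, rfl⟩⟩
  obtain ⟨e⟩ := prod_dihedral (G := (simS Q).map (outE Q)) (x := X) (t := T) (y := 1) (f := 1) (Subtype.ext htt) (Subtype.ext hwξ)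
    (fun h => hz1 (by rw [← hx2]; exact congrArg Subtype.val h)) (Subtype.ext hx4) orderOf_one odd_one (by rw [one_mul, mul_one]) (by rw [one_mul, mul_one])
    (by rw [H.card_S hneg])
  haveI : Unique (Multiplicative (ZMod 1)) := { default := 1, uniq := fun a => Subsingleton.elim (α := ZMod 1) _ _ }
  exact ⟨e.trans MulEquiv.prodUnique⟩

/-- T4 -/
theorem iso_Z2 (hneg : ogNeg Q ∉ EG Q) : Nonempty (E.map (outE Q) ≃* Multiplicative (ZMod 2)) := by
  haveI : Fact (Nat.Prime 2) := ⟨Nat.prime_two⟩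
  exact ⟨mulEquivOfPrimeCardEq (p := 2) (H.card_E' hneg) (by simp)⟩

theorem iso_Z4 (hneg : ogNeg Q ∈ EG Q) {p : SSG Q} (hp : p ∈ E) (h : outE Q p * outE Q p ≠ 1) : Nonempty (E.map (outE Q) ≃* Multiplicative (ZMod 4)) := by
  have hc := H.card_E hneg
  haveI hfin : Finite (E.map (outE Q)) := Nat.finite_of_card_ne_zero (by rw [hc]; norm_num)
  let X : E.map (outE Q) := ⟨outE Q p, ⟨p, hp, rfl⟩⟩
  have hX2 : ¬ X ^ 2 ^ 1 = 1 := fun h1 => h (by
    have := congrArg Subtype.val h1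
    rw [pow_one, pow_two] at this
    exact this)
  have hX4 : X ^ 2 ^ (1 + 1) = 1 := by
    have := pow_card_eq_one' (x := X)
    rw [hc] at this
    exact this
  have hord : orderOf X = 4 := orderOf_eq_prime_pow hX2 hX4
  haveI : IsCyclic (E.map (outE Q)) := isCyclic_of_orderOf_eq_card X (by rw [hord, hc])
  have e := zmodCyclicMulEquiv (G := E.map (outE Q)) inferInstance
  rw [hc] at e
  exact ⟨e.symm⟩

theorem iso_V4 (hneg : ogNeg Q ∈ EG Q) {p : SSG Q} (hp : p ∈ E) (hpn : ¬ IsSquare (ssK p : F)) (h : outE Q p * outE Q p = 1) :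
    Nonempty (E.map (outE Q) ≃* Multiplicative (ZMod 2 × ZMod 2)) := by
  have hc := H.card_E hneg
  obtain ⟨u, v, R⟩ := H.rd
  have hp1 := H.P.le p hp
  have hδ := R.swap_u p hp1 hpn
  have hδv := R.swap_v p hp1 hpn
  set t := oG Q (H5.refl R.hu) with ht
  set w := oG Q (H5.refl R.hv) with hw
  set δ := outE Q p with hδd
  have htt : t * t = 1 := R.sq_u
  have hww : w * w = 1 := R.sq_v
  have htw : t * w = w * t := R.comm
  have hzz : (t * w) * (t * w) = 1 := by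
    calc (t * w) * (t * w) = t * (w * t) * w := by group
      _ = (t * t) * (w * w) := by rw [← htw]; group
      _ = 1 := by rw [htt, hww, one_mul]
  have hδt : δ * t = w * δ := by rw [← hδ]; group
  have hδw : δ * w = t * δ := by rw [← hδv]; group
  have hδz : δ * (t * w) = (t * w) * δ := by
    rw [← mul_assoc, hδt, mul_assoc, hδw, ← mul_assoc, htw]
  have hsq : ∀ q ∈ E, IsSquare (ssK q : F) → outE Q q = 1 ∨ outE Q q = t * w := by
    intro q hq hs
    obtain ⟨g, hg, hg2⟩ := (H.dgA_iff q (H.P.le q hq)).mpr ⟨hs, hq⟩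
    have e1 : outE Q q = oG Q g := by
      rw [outE_apply, ← hg2]; rfl
    rw [e1]
    exact R.det_one (odet_dg hg)
  have hall : ∀ q ∈ E, outE Q q * outE Q q = 1 := by
    intro q hq
    by_cases hs : IsSquare (ssK q : F)
    · rcases hsq q hq hs with h1 | h1
      · rw [h1, one_mul]
      · rw [h1, hzz]
    · have hq1 := H.P.le q hq
      have h3 : IsSquare (ssK (p * q) : F) := by
        rw [ssK_mul H.ne, hp1]
        exact nonsq_mul H.h2 hpn hs
      have h4 : outE Q q = δ * outE Q (p * q) := by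
        rw [map_mul, ← mul_assoc, h, one_mul]
      rcases hsq (p * q) (mul_mem hp hq) h3 with h1 | h1
      · rw [h4, h1, mul_one, h]
      · rw [h4, h1, mul_assoc, ← mul_assoc (t * w), ← hδz, mul_assoc, hzz, mul_one, h]
  haveI hK : IsKleinFour (E.map (outE Q)) :=
    { card_four := hc
      exponent_two := by
        have h1 : Monoid.exponent (E.map (outE Q)) ∣ 2 := Monoid.exponent_dvd_of_forall_pow_eq_one (by
          rintro ⟨_, q, hq, rfl⟩
          apply Subtype.ext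
          rw [pow_two]
          exact hall q hq)
        rcases (Nat.dvd_prime Nat.prime_two).mp h1 with h2 | h2
        · exfalso
          have h3 := Monoid.exp_eq_one_iff.mp h2
          have h4 : Nat.card (E.map (outE Q)) = 1 := Nat.card_eq_one_iff_unique.mpr ⟨h3, ⟨1⟩⟩
          omega
        · exact h2 }
  exact IsKleinFour.nonempty_mulEquiv

/-- criterion on spinor norms -/
theorem oG_lsp (hneg : ogNeg Q ∈ EG Q) (l : List {v : ι → F // Q v ≠ 0}) (he : Even l.length) :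
    oG Q (lsp l) = 1 ↔ IsSquare ((lq l : Fˣ) : F) := by
  haveI : Finite (ι → F) := inferInstance
  have h1 : oG Q (lsp l) = 1 ↔ lsp l ∈ EG Q := by
    refine ⟨fun h => ?_, fun h => oG_of_mem H.nd H.hn h⟩
    rcases oG_eq_one H.nd H.hn h with h2 | h2
    · exact h2
    · exact (Subgroup.mul_mem_cancel_left _ hneg).mp h2
  rw [h1, eg_eq_comm H.nd H.hn (exists_sing H.nd (by have := H.hn; omega)), lsp_comm' H.nd H.rg]
  exact ⟨fun h => h.2, fun h => ⟨he, h⟩⟩

end CH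

end main

end Cfsg.Agent.H17
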