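import Mathlib
import Cfsg.Agent.H17.ConfA
import Cfsg.Agent.H17.Minus7

set_option autoImplicit false

/-! Conformal images: transport to the frozen definitions; the plus type. -/

namespace Cfsg.Agent.H17

open Cfsg Cfsg.Agent.H5 Module
open scoped MatrixGroups Matrix

section tr

variable {F : Type*} [Field F] {ι : Type} [Fintype ι] [DecidableEq ι] {Q : QuadraticForm F (ι → F)}

theorem goSS_inj : Function.Injective (goSS Q) := by
  intro g g' h
  apply Subtype.ext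
  apply Units.ext
  apply Matrix.toLin'.injective
  apply LinearMap.ext
  intro x
  exact congrArg (fun p : SSG Q => p.1.1 x) h

/-- subgroup of the similarities defined by a group of matrices -/
def eS (Q : QuadraticForm F (ι → F)) (S : Subgroup (GL ι F)) : Subgroup (SSG Q) :=
  (S.subgroupOf (Geo.quadSimilarityGroup (F := F) ⇑Q)).map (goSS Q)

theorem HS_eq (S : Subgroup (GL ι F)) : HS Q S = (eS Q S).map (aE Q) := (Subgroup.map_map _ _ _).symm

theorem goSS_mem_eS {S : Subgroup (GL ι F)} (g : Geo.quadSimilarityGroup (F := F) ⇑Q) : goSS Q g ∈ eS Q S ↔ g.1 ∈ S := by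
  constructor
  · rintro ⟨g', hg', h⟩
    rw [← goSS_inj h]; exact hg'
  · intro h
    exact ⟨g, h, rfl⟩

theorem eS_le {S : Subgroup (GL ι F)} {p : SSG Q} (h : p ∈ eS Q S) : p.1.2 = 1 := by
  obtain ⟨g, -, rfl⟩ := h
  rfl

theorem scSS_eq_goSS (c : Fˣ) : scSS Q c = goSS Q ⟨sI ι c, sI_mem_qs Q c⟩ := by
  apply ss_ext
  · intro x
    rw [goSS_apply, coe_sI', Matrix.smul_mulVec, Matrix.one_mulVec]
    rfl
  · rfl

theorem parS_of {S : Subgroup (GL ι F)} (hmul : ∀ g h : Geo.quadSimilarityGroup (F := F) ⇑Q, (g * h).1 ∈ S ↔ (g.1 ∈ S ↔ h.1 ∈ S))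
    (hrefl : ∀ (g : Geo.quadSimilarityGroup (F := F) ⇑Q) (v : ι → F) (hv : Q v ≠ 0), goSS Q g = ogSS Q (H5.refl hv) → g.1 ∉ S)
    (hsc : ∀ c, sI ι c ∈ S) : ParS Q (eS Q S) where
  le p hp := eS_le hp
  mul p q hp hq := by
    obtain ⟨g, rfl⟩ := exists_goSS p hp
    obtain ⟨h, rfl⟩ := exists_goSS q hq
    rw [← map_mul, goSS_mem_eS, goSS_mem_eS, goSS_mem_eS, hmul]
  refl v hv := by
    obtain ⟨g, hg⟩ := exists_goSS (ogSS Q (H5.refl hv)) rfl
    rw [← hg, goSS_mem_eS]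
    exact hrefl g v hv hg
  sc c := by
    rw [scSS_eq_goSS, goSS_mem_eS]
    exact hsc c

theorem parS_ev {m : ℕ} (P : PT Q m) : ParS Q (eS Q (evS P)) := by
  apply parS_of
  · intro g h
    rw [mem_evS (g * h).2, mem_evS g.2, mem_evS h.2, ← P.ev_mul, ← map_mul]
  · intro g v hv hg
    rw [mem_evS g.2]
    show ¬ Ev m (goSS Q g)
    rw [hg]
    exact P.refl_not_ev hv
  · intro c
    rw [mem_evS (sI_mem_qs Q c), ← scSS_eq_goSS]
    exact P.ev_sc c

theorem parS_m [Finite F] {K : Type*} [Field K] [Finite K] {QK : QuadraticForm K (ι → K)} {j : F →+* K} {k : ℕ}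
    (hext : ∀ v, j (Q v) = QK (jV j v)) (P : PT QK k) : ParS Q (eS Q (mS j P)) :=
  parS_of (mS_mul hext P) (fun g v hv hg => mS_refl hext P g hv hg) (sI_mem_mS P)

variable [Finite F]

theorem og_goSS (g : Geo.quadSimilarityGroup (F := F) ⇑Q) (h : OG Q) (hgh : goSS Q g = ogSS Q h) : g.1 ∈ isometryGroup F ⇑Q ∧
    ((g.1 : GL ι F) : Matrix ι ι F).det = odet Q h := by
  have h1 : g.1 = ((ogEquiv Q).symm h : isometryGroup F ⇑Q).1 := by
    apply Units.ext
    apply Matrix.toLin'.injective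
    apply LinearMap.ext
    intro x
    rw [Matrix.toLin'_apply, Matrix.toLin'_apply, symm_mulVec]
    exact congrArg (fun p : SSG Q => p.1.1 x) hgh
  rw [h1]
  refine ⟨((ogEquiv Q).symm h).2, ?_⟩
  have h3 := odet_ogEquiv Q ((ogEquiv Q).symm h)
  rw [MulEquiv.apply_symm_apply] at h3
  exact h3.symm

theorem exists_goSS_iso (g : GL ι F) (hg : g ∈ isometryGroup F ⇑Q) (hg' : g ∈ Geo.quadSimilarityGroup (F := F) ⇑Q) :
    goSS Q ⟨g, hg'⟩ = ogSS Q (ogEquiv Q ⟨g, hg⟩) := ss_ext (fun _ => rfl) rfl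

theorem HS_so (h2 : (2 : F) ≠ 0) (hnd : ND Q) : HS Q (specialIsometryGL F ⇑Q) = dgA Q := by
  ext α
  rw [mem_HS]
  constructor
  · rintro ⟨g, hg, rfl⟩
    refine ⟨ogEquiv Q ⟨g.1, hg.1⟩, ?_, ?_⟩
    · rw [SetLike.mem_coe, mem_dg_iff h2 hnd, odet_ogEquiv]
      have := hg.2
      exact congrArg Units.val (MonoidHom.mem_ker.mp this)
    · show aE Q (ogSS Q (ogEquiv Q ⟨g.1, hg.1⟩)) = _
      rw [← exists_goSS_iso g.1 hg.1 g.2]
  · rintro ⟨h, hh, rfl⟩
    obtain ⟨g, hg⟩ := exists_goSS (ogSS Q h) rfl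
    obtain ⟨h1, h3⟩ := og_goSS g h hg
    refine ⟨g, ⟨h1, ?_⟩, by rw [hg]; rfl⟩
    rw [SetLike.mem_coe, mem_dg_iff h2 hnd] at hh
    rw [hh] at h3
    exact MonoidHom.mem_ker.mpr (Units.ext h3)

theorem iso_le_qs {g : GL ι F} (hg : g ∈ isometryGroup F ⇑Q) : g ∈ Geo.quadSimilarityGroup (F := F) ⇑Q := by
  obtain ⟨g', hg'⟩ := exists_goSS (ogSS Q (ogEquiv Q ⟨g, hg⟩)) rfl
  have : g'.1 = g := by
    apply Units.ext
    apply Matrix.toLin'.injective
    apply LinearMap.ext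
    intro x
    exact congrArg (fun p : SSG Q => p.1.1 x) hg'
  rw [← this]; exact g'.2

theorem pso_iff (h2 : (2 : F) ≠ 0) (hnd : ND Q) (hn : 5 ≤ Fintype.card ι) (β : MulAut (POmega F ⇑Q)) :
    β ∈ autSubgroupOf (fun β => IsSpecialIsometryInducedAutPOmega ⇑Q β) ↔ MulAut.congr (pomEquiv hnd hn) β ∈ dgA Q := by
  rw [← HS_so h2 hnd]
  apply autSub_iff hnd hn
  intro β
  constructor
  · rintro ⟨g, h1, h3⟩
    exact ⟨g, iso_le_qs h1.1, h1, h3⟩
  · rintro ⟨g, h1, h3, h4⟩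
    exact ⟨g, h3, h4⟩

theorem po_iff (hnd : ND Q) (hn : 5 ≤ Fintype.card ι) (β : MulAut (POmega F ⇑Q)) :
    β ∈ autSubgroupOf (fun β => IsIsometryInducedAutPOmega ⇑Q β) ↔ MulAut.congr (pomEquiv hnd hn) β ∈ HS Q (isometryGroup F ⇑Q) := by
  apply autSub_iff hnd hn
  intro β
  constructor
  · rintro ⟨g, h1, h3⟩
    exact ⟨g, iso_le_qs h1, h1, h3⟩
  · rintro ⟨g, h1, h3, h4⟩
    exact ⟨g, h3, h4⟩

theorem HS_top' : HS Q ⊤ = (simS Q).map (aE Q) := CH.pgo_map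

theorem fin_phi (hnd : ND Q) (hn : 5 ≤ Fintype.card ι) {S : Subgroup (SSG Q)} {P K : Subgroup (MulAut (POmega F ⇑Q))} {K' : Subgroup (MulAut (PE Q))}
    (hP : ∀ β, β ∈ P ↔ MulAut.congr (pomEquiv hnd hn) β ∈ S.map (aE Q)) (hK : ∀ β, β ∈ K ↔ MulAut.congr (pomEquiv hnd hn) β ∈ K') {A : Type*} [Group A]
    (h : ∃ f : S →* A, Function.Surjective f ∧ ∀ s, aE Q s.1 ∈ K' ↔ f s = 1) :
    ∃ φ : P →* A, Function.Surjective φ ∧ φ.ker = K.subgroupOf P := by
  obtain ⟨f, hf, hf'⟩ := h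
  refine exists_phi ((MulAut.congr (pomEquiv hnd hn)).symm.toMonoidHom.comp ((aE Q).comp S.subtype)) P K (fun x => ?_) f hf (fun s => ?_)
  · rw [hP, Subgroup.mem_map]
    constructor
    · rintro ⟨s, hs, h⟩
      refine ⟨⟨s, hs⟩, ?_⟩
      show (MulAut.congr (pomEquiv hnd hn)).symm (aE Q s) = x
      rw [h, MulEquiv.symm_apply_apply]
    · rintro ⟨s, rfl⟩
      refine ⟨s.1, s.2, ?_⟩
      show _ = MulAut.congr (pomEquiv hnd hn) ((MulAut.congr (pomEquiv hnd hn)).symm (aE Q s.1))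
      rw [MulEquiv.apply_symm_apply]
  · rw [hK, ← hf']
    show MulAut.congr (pomEquiv hnd hn) ((MulAut.congr (pomEquiv hnd hn)).symm (aE Q s.1)) ∈ K' ↔ _
    rw [MulEquiv.apply_symm_apply]

theorem relIndex_tr {M M' : Type*} [Group M] [Group M'] (e : M ≃* M') {P K : Subgroup M} {P' K' : Subgroup M'}
    (hP : ∀ β, β ∈ P ↔ e β ∈ P') (hK : ∀ β, β ∈ K ↔ e β ∈ K') : K.relIndex P = K'.relIndex P' := by
  have h1 : K = K'.comap e.toMonoidHom := by ext β; exact hK β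
  have h2 : P.map e.toMonoidHom = P' := by
    ext x
    constructor
    · rintro ⟨y, hy, rfl⟩
      exact (hP y).mp hy
    · intro hx
      exact ⟨e.symm x, (hP _).mpr (by rw [MulEquiv.apply_symm_apply]; exact hx), e.apply_symm_apply x⟩
  rw [h1, Subgroup.relIndex_comap, h2]

end tr

section tor

variable {F : Type*} [Field F] {m : ℕ}

theorem exists_tor_list (t : Fin m → Fˣ) : ∃ l : List {v : Fin m ⊕ Fin m → F // qPlus m F v ≠ 0}, Even l.length ∧ lsp l = tor m F t ∧ lq l = ∏ i, t i := by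
  have key : ∀ s : Finset (Fin m), ∃ l : List {v : Fin m ⊕ Fin m → F // qPlus m F v ≠ 0}, Even l.length ∧
      lsp l = tor m F (∏ i ∈ s, Pi.mulSingle i (t i)) ∧ lq l = ∏ i ∈ s, t i := by
    intro s
    induction s using Finset.induction_on with
    | empty =>
      refine ⟨[], by simp, ?_, ?_⟩
      · rw [lsp_nil, Finset.prod_empty, map_one]
      · rw [lq_nil, Finset.prod_empty]
    | insert i s hi ih =>
      obtain ⟨l, h1, h2, h3⟩ := ih
      refine ⟨⟨efv i 1, q_efv_ne i one_ne_zero⟩ :: ⟨efv i (t i : F), q_efv_ne i (t i).ne_zero⟩ :: l, ?_, ?_, ?_⟩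
      · rw [List.length_cons, List.length_cons]
        obtain ⟨r, hr⟩ := h1
        exact ⟨r + 1, by omega⟩
      · rw [lsp_cons, lsp_cons, h2, Finset.prod_insert hi, map_mul, tor_single, mul_assoc]
      · rw [lq_cons, lq_cons, h3, Finset.prod_insert hi, ← mul_assoc]
        congr 1
        apply Units.ext
        rw [Units.val_mul, Units.val_mk0, Units.val_mk0, q_efv, q_efv]; ring
  obtain ⟨l, h1, h2, h3⟩ := key Finset.univ
  refine ⟨l, h1, ?_, h3⟩
  rw [h2]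
  congr 1
  exact Finset.univ_prod_mulSingle t

end tor

section plus

variable {F : Type*} [Field F] [Finite F] {m : ℕ}

/-- the diagonal similarity -/
def dP (m : ℕ) (F : Type*) [Field F] [Finite F] (μ : Fˣ) : SSG (qPlus m F) :=
  ⟨((hypMul m F μ).toEquiv, 1), fun x y => map_add (hypMul m F μ) x y, fun a x => map_smul (hypMul m F μ) a x, μ, fun x => hypMul_q μ x⟩

theorem dP_apply (μ : Fˣ) (x : Fin m ⊕ Fin m → F) : (dP m F μ).1.1 x = Sum.elim (fun i => μ * x (Sum.inl i)) (fun i => x (Sum.inr i)) := rfl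

theorem dP_ev (μ : Fˣ) : Ev m (dP m F μ) := by
  apply ev_of_stable (PT_plus F m) Ustd_TS Ustd_finrank
  ext y
  rw [mem_imS, mem_Ustd, mem_Ustd]
  have h1 : ∀ z : Fin m ⊕ Fin m → F, ∀ i, (dP m F μ).1.1 z (Sum.inr i) = z (Sum.inr i) := fun z i => rfl
  have h2 := h1 ((dP m F μ).1.1.symm y)
  rw [Equiv.apply_symm_apply] at h2
  exact ⟨fun h i => by rw [h2, h], fun h i => by rw [← h2, h]⟩

theorem dP_sq (μ : Fˣ) : dP m F μ * dP m F μ = scSS (qPlus m F) μ * ogSS (qPlus m F) (tor m F (fun _ => μ)) := by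
  apply ss_ext
  · intro x
    funext i
    rcases i with i | i
    · show (μ : F) * (μ * x (Sum.inl i)) = (μ : F) * (μ * x (Sum.inl i))
      rfl
    · show x (Sum.inr i) = (μ : F) * (((μ⁻¹ : Fˣ) : F) * x (Sum.inr i))
      rw [← mul_assoc, Units.mul_inv, one_mul]
  · rfl

theorem ch_plus (h2 : (2 : F) ≠ 0) (hm : 3 ≤ m) : CH (qPlus m F) (eS (qPlus m F) (evS (PT_plus F m))) m :=
  ⟨h2, nd_plus, by rw [fr_plus]; omega, fr_plus F m, parS_ev _⟩

theorem out_sc {V : Type*} [AddCommGroup V] [Module F V] [FiniteDimensional F V] {Q : QuadraticForm F V} (hnd : ND Q) (hn : 5 ≤ finrank F V) (c : Fˣ) : outE Q (scSS Q c) = 1 := by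
  have : aE Q (scSS Q c) = 1 := by
    have : scSS Q c ∈ (aE Q).ker := by rw [aE_ker hnd hn]; exact ⟨_, rfl⟩
    exact this
  rw [outE_apply, this]; rfl

theorem dP_out (h2 : (2 : F) ≠ 0) (hm : 3 ≤ m) (hneg : ogNeg (qPlus m F) ∈ EG (qPlus m F)) (μ : Fˣ) :
    outE (qPlus m F) (dP m F μ) * outE (qPlus m F) (dP m F μ) = 1 ↔ IsSquare ((μ : F) ^ m) := by
  have H := ch_plus (F := F) h2 hm
  rw [← map_mul, dP_sq, map_mul, out_sc H.nd H.hn, one_mul]
  obtain ⟨l, h1, h3, h4⟩ := exists_tor_list (m := m) (fun _ => μ)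
  rw [← h3]
  show oG _ (lsp l) = 1 ↔ _
  rw [H.oG_lsp hneg l h1, h4, Finset.prod_const, Finset.card_univ, Fintype.card_fin, Units.val_pow_eq_pow_val]

theorem dP_mem (h : ∃ x, qPlus m F x ≠ 0) (μ : Fˣ) : dP m F μ ∈ eS (qPlus m F) (evS (PT_plus F m)) ∧ (ssK (dP m F μ) : F) = μ := by
  constructor
  · obtain ⟨g, hg⟩ := exists_goSS (dP m F μ) rfl
    rw [← hg, goSS_mem_eS, mem_evS g.2]
    show Ev m (goSS _ g)
    rw [hg]
    exact dP_ev μ
  · exact ssK_eq h _ fun x => hypMul_q μ x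

end plus

end Cfsg.Agent.H17
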