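import Mathlib
import Cfsg.Agent.H17.ConfB
import Cfsg.Agent.H17.OddTwo

set_option autoImplicit false

/-! Conformal images, plus type: final statements. -/

namespace Cfsg.Agent.H17

open Cfsg Cfsg.Agent.H5 Module
open scoped MatrixGroups Matrix

section plus

variable {F : Type*} [Field F] [Fintype F] {m : ℕ}

theorem odd_four {q : ℕ} (hq : Odd q) : q % 4 = 1 ∨ q % 4 = 3 := by have := Nat.odd_iff.mp hq; omega

theorem pow_mod_four_one {q : ℕ} (hq : Odd q) (i : ℕ) : q ^ i % 4 = 1 ↔ ¬ (Odd i ∧ q % 4 = 3) := by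
  have h2 : q ^ 2 % 4 = 1 := by
    rcases odd_four hq with h | h <;> rw [Nat.pow_mod, h]
  rcases Nat.even_or_odd i with he | ho
  · obtain ⟨k, rfl⟩ := he
    have : q ^ (k + k) % 4 = 1 := by rw [← two_mul, pow_mul, Nat.pow_mod, h2, one_pow]; norm_num
    rw [this]
    simp [Nat.not_odd_iff_even]
  · obtain ⟨k, rfl⟩ := ho
    have : q ^ (2 * k + 1) % 4 = q % 4 := by
      rw [pow_succ, pow_mul, Nat.mul_mod, Nat.pow_mod, h2, one_pow]
      norm_num
    rw [this]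
    rcases odd_four hq with h | h <;> rw [h] <;> simp

theorem neg_plus_q (hodd : Odd (Fintype.card F)) (hm : 3 ≤ m) :
    ogNeg (qPlus m F) ∈ EG (qPlus m F) ↔ ¬ (Odd m ∧ Fintype.card F % 4 = 3) := by
  rw [neg_plus_iff (two_ne_of_odd hodd) hm, neg_one_pow_iff rfl hodd, pow_mod_four_one hodd]

theorem two_ne_card (hodd : Odd (Fintype.card F)) : (2 : F) ≠ 0 := two_ne_of_odd hodd

theorem card_plus5 (hm : 3 ≤ m) : 5 ≤ Fintype.card (Fin m ⊕ Fin m) := by rw [card_plus_ι]; omega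

theorem plus_A (hodd : Odd (Fintype.card F)) (hm : 4 ≤ m) (QP : (Fin m ⊕ Fin m → F) → F) (hQP : QP = ⇑(qPlus m F)) :
    (∃ φ : ↥(pgoAut F QP) →* Multiplicative (ZMod 2 × ZMod 2), Function.Surjective φ ∧ φ.ker = (psoAut F QP).subgroupOf (pgoAut F QP)) := by
  subst hQP
  have h2 := two_ne_card hodd
  have H := ch_plus (F := F) h2 (by omega : 3 ≤ m)
  have hn := card_plus5 (m := m) (by omega)
  refine fin_phi (S := simS (qPlus m F)) nd_plus hn (fun β => ?_) (fun β => pso_iff h2 nd_plus hn β) H.exists_v4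
  rw [← HS_top']
  exact pgo_iff F nd_plus hn β

theorem plus_B (hodd : Odd (Fintype.card F)) (hm : 4 ≤ m) (QP : (Fin m ⊕ Fin m → F) → F) (hQP : QP = ⇑(qPlus m F)) :
    ((Odd m ∧ Fintype.card F % 4 = 3) → (Inn (POmega F QP)).relIndex (psoAut F QP) = 1) ∧ (¬ (Odd m ∧ Fintype.card F % 4 = 3) → (Inn (POmega F QP)).relIndex (psoAut F QP) = 2) := by
  subst hQP
  have h2 := two_ne_card hodd
  have H := ch_plus (F := F) h2 (by omega : 3 ≤ m)
  have hn := card_plus5 (m := m) (by omega)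
  have h3 := relIndex_tr (MulAut.congr (pomEquiv (Q := qPlus m F) nd_plus hn)) (P := psoAut F ⇑(qPlus m F)) (K := Inn (POmega F ⇑(qPlus m F)))
    (fun β => pso_iff h2 nd_plus hn β) (fun β => inn_iff nd_plus hn β)
  rw [h3]
  constructor
  · intro h
    exact H.relIndex_dgA.2 (fun h' => (neg_plus_q hodd (by omega)).mp h' h)
  · intro h
    exact H.relIndex_dgA.1 ((neg_plus_q hodd (by omega)).mpr h)

theorem plus_C (hodd : Odd (Fintype.card F)) (hm : 4 ≤ m) (QP : (Fin m ⊕ Fin m → F) → F) (hQP : QP = ⇑(qPlus m F)) :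
    ((Odd m ∧ Fintype.card F % 4 = 3) → (∃ φ : ↥(pgoAut F QP) →* Multiplicative (ZMod 2 × ZMod 2), Function.Surjective φ ∧ φ.ker = (Inn (POmega F QP)).subgroupOf (pgoAut F QP))) ∧
    (¬ (Odd m ∧ Fintype.card F % 4 = 3) → (∃ φ : ↥(pgoAut F QP) →* DihedralGroup 4, Function.Surjective φ ∧ φ.ker = (Inn (POmega F QP)).subgroupOf (pgoAut F QP))) := by
  subst hQP
  have h2 := two_ne_card hodd
  have H := ch_plus (F := F) h2 (by omega : 3 ≤ m)
  have hn := card_plus5 (m := m) (by omega)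
  have hP : ∀ β, β ∈ pgoAut F ⇑(qPlus m F) ↔ MulAut.congr (pomEquiv (Q := qPlus m F) nd_plus hn) β ∈ (simS (qPlus m F)).map (aE (qPlus m F)) := by
    intro β
    rw [← HS_top']
    exact pgo_iff F nd_plus hn β
  constructor
  · intro h
    refine fin_phi nd_plus hn hP (fun β => inn_iff nd_plus hn β) ?_
    rw [← H.dgA_eq_inn (fun h' => (neg_plus_q hodd (by omega)).mp h' h)]
    exact H.exists_v4
  · intro h
    exact fin_phi nd_plus hn hP (fun β => inn_iff nd_plus hn β) (CH.exists_f_of_iso _ (H.iso_D8 ((neg_plus_q hodd (by omega)).mpr h)))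

theorem plus_D (hodd : Odd (Fintype.card F)) (hm : 4 ≤ m) (QP : (Fin m ⊕ Fin m → F) → F) (hQP : QP = ⇑(qPlus m F)) (ID : Subgroup (MulAut (POmega F QP)))
    (hID : ID = autSubgroupOf (fun β => ∃ g : GL (Fin m ⊕ Fin m) F, g ∈ Geo.quadSimilarityGroup (F := F) QP ∧
      PreservesSingularClasses QP (g : Matrix (Fin m ⊕ Fin m) (Fin m ⊕ Fin m) F) ∧
      IsInducedBySemilinearPOmega QP g (RingEquiv.refl F) β)) :
    ((Odd m ∧ Fintype.card F % 4 = 3) → (∃ φ : ↥ID →* Multiplicative (ZMod 2), Function.Surjective φ ∧ φ.ker = (Inn (POmega F QP)).subgroupOf ID)) ∧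
    ((Odd m ∧ Fintype.card F % 4 = 1) → (∃ φ : ↥ID →* Multiplicative (ZMod 4), Function.Surjective φ ∧ φ.ker = (Inn (POmega F QP)).subgroupOf ID)) ∧
    (Even m → (∃ φ : ↥ID →* Multiplicative (ZMod 2 × ZMod 2), Function.Surjective φ ∧ φ.ker = (Inn (POmega F QP)).subgroupOf ID)) := by
  subst hQP hID
  have h2 := two_ne_card hodd
  have H := ch_plus (F := F) h2 (by omega : 3 ≤ m)
  have hn := card_plus5 (m := m) (by omega)
  have hP : ∀ β, β ∈ autSubgroupOf (fun β => ∃ g : GL (Fin m ⊕ Fin m) F, g ∈ Geo.quadSimilarityGroup (F := F) ⇑(qPlus m F) ∧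
      PreservesSingularClasses ⇑(qPlus m F) (g : Matrix (Fin m ⊕ Fin m) (Fin m ⊕ Fin m) F) ∧
      IsInducedBySemilinearPOmega ⇑(qPlus m F) g (RingEquiv.refl F) β) ↔
      MulAut.congr (pomEquiv (Q := qPlus m F) nd_plus hn) β ∈ (eS (qPlus m F) (evS (PT_plus F m))).map (aE (qPlus m F)) := by
    intro β
    rw [← HS_eq]
    exact inndiagPlus_iff hn β
  have hKI : ∀ β, β ∈ Inn (POmega F ⇑(qPlus m F)) ↔ MulAut.congr (pomEquiv (Q := qPlus m F) nd_plus hn) β ∈ Inn (PE (qPlus m F)) := fun β => inn_iff nd_plus hn β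
  obtain ⟨d, hd⟩ := exists_nonsq h2
  have hd0 : d ≠ 0 := by rintro rfl; exact hd IsSquare.zero
  obtain ⟨hdm, hdK⟩ := dP_mem (m := m) H.ne (Units.mk0 d hd0)
  have hdns : ¬ IsSquare (ssK (dP m F (Units.mk0 d hd0)) : F) := by rw [hdK]; exact hd
  refine ⟨fun h => ?_, fun h => ?_, fun h => ?_⟩
  · exact fin_phi nd_plus hn hP hKI (CH.exists_f_of_iso _ (H.iso_Z2 (fun h' => (neg_plus_q hodd (by omega)).mp h' h)))
  · have hneg := (neg_plus_q (F := F) (m := m) hodd (by omega)).mpr (fun h' => by omega)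
    refine fin_phi nd_plus hn hP hKI (CH.exists_f_of_iso _ (H.iso_Z4 hneg hdm ?_))
    intro h3
    rw [dP_out h2 (by omega) hneg] at h3
    obtain ⟨k, hk⟩ := h.1
    apply hd
    have h5 : IsSquare (d ^ (2 * k)) := ⟨d ^ k, by ring⟩
    have h4 : IsSquare (d ^ (2 * k) * d) := by
      have : ((Units.mk0 d hd0 : Fˣ) : F) ^ m = d ^ (2 * k) * d := by rw [hk, pow_succ]; rfl
      rw [← this]; exact h3
    exact ((sq_mul_iff (pow_ne_zero _ hd0) hd0).mp h4).mp h5
  · have hneg := (neg_plus_q (F := F) (m := m) hodd (by omega)).mpr (fun h' => by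
      have h1 := h'.1
      rw [← Nat.not_even_iff_odd] at h1
      exact h1 h)
    refine fin_phi nd_plus hn hP hKI (CH.exists_f_of_iso _ (H.iso_V4 hneg hdm hdns ?_))
    rw [dP_out h2 (by omega) hneg]
    obtain ⟨k, hk⟩ := h
    exact ⟨((Units.mk0 d hd0 : Fˣ) : F) ^ k, by rw [hk, pow_add]⟩

end plus

end Cfsg.Agent.H17
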