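import Mathlib
import Cfsg.Agent.H17.ConfC
import Cfsg.Agent.S0791

set_option autoImplicit false

/-! Conformal images, minus type. -/

namespace Cfsg.Agent.H17

open Cfsg Cfsg.Agent.H5 Module
open scoped MatrixGroups Matrix

section bin

variable {F : Type*} [Field F]

/-- the binary form -/
noncomputable def q2 (F : Type*) [Field F] (a b : F) : QuadraticForm F (Fin 2 → F) :=
  QuadraticMap.linMulLin (LinearMap.proj 0) (LinearMap.proj 0) +
   a • QuadraticMap.linMulLin (LinearMap.proj 0) (LinearMap.proj 1) +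
   b • QuadraticMap.linMulLin (LinearMap.proj 1) (LinearMap.proj 1)

theorem q2_apply (a b : F) (z : Fin 2 → F) : q2 F a b z = z 0 * z 0 + a * (z 0 * z 1) + b * (z 1 * z 1) := rfl

theorem pB_q2 (a b : F) (x y : Fin 2 → F) : pB (q2 F a b) x y = 2 * (x 0 * y 0) + a * (x 0 * y 1 + x 1 * y 0) + 2 * b * (x 1 * y 1) := by
  rw [pB_apply, QuadraticMap.polar, q2_apply, q2_apply, q2_apply, Pi.add_apply, Pi.add_apply]; ring

theorem qMinus_eq_qsum (m : ℕ) (a b : F) : qMinus m F a b = qsum (qPlus m F) (q2 F a b) := by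
  apply QuadraticMap.ext
  intro x
  rw [qsum_apply, q2_apply, qMinus_coe, qPlus_coe, quadFormMinus, quadFormPlus]
  simp only [Function.comp]
  ring

theorem nd_q2 (h2 : (2 : F) ≠ 0) {a b : F} (hab : ∀ z₁ z₂ : F, z₁ ^ 2 + a * z₁ * z₂ + b * z₂ ^ 2 = 0 → z₁ = 0 ∧ z₂ = 0) : ND (q2 F a b) := by
  intro x hx
  have h := hx x
  rw [pB_self, q2_apply] at h
  have h1 := (mul_eq_zero.mp h).resolve_left h2
  obtain ⟨h3, h4⟩ := hab (x 0) (x 1) (by linear_combination h1)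
  funext i
  fin_cases i
  · exact h3
  · exact h4

/-- multiplication by s + t ω -/
def bM (a b s t : F) : Matrix (Fin 2) (Fin 2) F := !![s, -(b * t); t, s + a * t]

theorem bM_det (a b s t : F) : (bM a b s t).det = s * s + a * (s * t) + b * (t * t) := by
  rw [bM, Matrix.det_fin_two_of]; ring

theorem bM_mulVec (a b s t : F) (z : Fin 2 → F) : bM a b s t *ᵥ z = ![s * z 0 - b * t * z 1, t * z 0 + (s + a * t) * z 1] := by
  funext i
  fin_cases i
  · simp [bM, Matrix.mulVec, dotProduct, Fin.sum_univ_two]; ring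
  · simp [bM, Matrix.mulVec, dotProduct, Fin.sum_univ_two]

theorem bM_q (a b s t : F) (z : Fin 2 → F) : q2 F a b (bM a b s t *ᵥ z) = (s * s + a * (s * t) + b * (t * t)) * q2 F a b z := by
  rw [bM_mulVec, q2_apply, q2_apply]
  simp only [Matrix.cons_val_zero, Matrix.cons_val_one]
  ring

theorem bM_rot (a b s t : F) {μ : F} (hμ0 : μ ≠ 0) (hμ : q2 F a b ![s, t] = μ) (h1 : q2 F a b ![s, t] ≠ 0) (h2 : q2 F a b ![1, 0] ≠ 0)
    (z : Fin 2 → F) : bM a b s t *ᵥ (bM a b s t *ᵥ z) = μ • (refl h1 (refl h2 z)) := by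
  have e2 : q2 F a b ![1, 0] = 1 := by rw [q2_apply]; simp
  have hμ' : s * s + a * (s * t) + b * (t * t) = μ := by rw [← hμ, q2_apply]; simp
  have e3 : refl h2 z = ![-z 0 - a * z 1, z 1] := by
    rw [refl_apply, e2, pB_q2]
    funext i
    fin_cases i
    · show z 0 - ((1 : F)⁻¹ * (2 * (1 * z 0) + a * (1 * z 1 + 0 * z 0) + 2 * b * (0 * z 1))) * 1 = -z 0 - a * z 1
      rw [inv_one]; ring
    · show z 1 - ((1 : F)⁻¹ * (2 * (1 * z 0) + a * (1 * z 1 + 0 * z 0) + 2 * b * (0 * z 1))) * 0 = z 1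
      ring
  rw [e3, refl_apply, hμ, bM_mulVec, bM_mulVec, smul_sub, smul_smul, ← mul_assoc, mul_inv_cancel₀ hμ0, one_mul, pB_q2, ← hμ']
  funext i
  fin_cases i
  · show s * (s * z 0 - b * t * z 1) - b * t * (t * z 0 + (s + a * t) * z 1) =
      (s * s + a * (s * t) + b * (t * t)) * (-z 0 - a * z 1) - (2 * (s * (-z 0 - a * z 1)) + a * (s * z 1 + t * (-z 0 - a * z 1)) + 2 * b * (t * z 1)) * s
    ring
  · show t * (s * z 0 - b * t * z 1) + (s + a * t) * (t * z 0 + (s + a * t) * z 1) =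
      (s * s + a * (s * t) + b * (t * t)) * z 1 - (2 * (s * (-z 0 - a * z 1)) + a * (s * z 1 + t * (-z 0 - a * z 1)) + 2 * b * (t * z 1)) * t
    ring

end bin

section sim

variable {F : Type*} [Field F] {m : ℕ}

theorem exists_list_qsum (a b s t : F) {μ : Fˣ} (hμ : q2 F a b ![s, t] = μ) :
    ∃ l : List {v : (Fin m ⊕ Fin m) ⊕ Fin 2 → F // qsum (qPlus m F) (q2 F a b) v ≠ 0}, Even l.length ∧ ((lq l : Fˣ) : F) = (μ : F) ^ (m + 1) ∧
      ∀ x, (μ : F) • lsp l x = Sum.elim ((μ : F) • tor m F (fun _ => μ) (x ∘ Sum.inl)) (bM a b s t *ᵥ (bM a b s t *ᵥ (x ∘ Sum.inr))) := by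
  have h1 : q2 F a b ![s, t] ≠ 0 := by rw [hμ]; exact μ.ne_zero
  have e2 : q2 F a b ![1, 0] = 1 := by rw [q2_apply]; simp
  have h2 : q2 F a b ![1, 0] ≠ 0 := by rw [e2]; exact one_ne_zero
  obtain ⟨l, hl1, hl2, hl3⟩ := exists_tor_list (m := m) (fun _ => μ)
  let l' : List {v : Fin 2 → F // q2 F a b v ≠ 0} := [⟨_, h1⟩, ⟨_, h2⟩]
  refine ⟨l.map (inlv (Q₂ := q2 F a b)) ++ l'.map (inrv (Q₁ := qPlus m F)), ?_, ?_, fun x => ?_⟩
  · rw [List.length_append, List.length_map, List.length_map]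
    exact hl1.add ⟨1, rfl⟩
  · rw [lq_append, lq_inlv, lq_inrv, hl3, Finset.prod_const, Finset.card_univ, Fintype.card_fin, Units.val_mul, Units.val_pow_eq_pow_val, pow_succ]
    congr 1
    show ((lq [⟨_, h1⟩, ⟨_, h2⟩] : Fˣ) : F) = _
    rw [lq_cons, lq_cons, lq_nil, mul_one, Units.val_mul, Units.val_mk0, Units.val_mk0, e2, hμ, mul_one]
  · rw [lsp_append, ← exs_lsp_l, ← exs_lsp_r, ← map_mul, Prod.mk_mul_mk, mul_one, one_mul, exs_apply, hl2, bM_rot a b s t μ.ne_zero hμ h1 h2]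
    have e : lsp l' = refl h1 * refl h2 := by
      show lsp [⟨_, h1⟩, ⟨_, h2⟩] = _
      rw [lsp_cons, lsp_cons, lsp_nil, mul_one]
    show (μ : F) • Sum.elim (tor m F (fun _ => μ) (x ∘ Sum.inl)) (lsp l' (x ∘ Sum.inr)) = _
    rw [e]
    funext i
    rcases i with i | i <;> rfl

theorem exists_list_minus (a b s t : F) {μ : Fˣ} (hμ : q2 F a b ![s, t] = μ) :
    ∃ l : List {v : (Fin m ⊕ Fin m) ⊕ Fin 2 → F // qMinus m F a b v ≠ 0}, Even l.length ∧ ((lq l : Fˣ) : F) = (μ : F) ^ (m + 1) ∧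
      ∀ x, (μ : F) • lsp l x = Sum.elim ((μ : F) • tor m F (fun _ => μ) (x ∘ Sum.inl)) (bM a b s t *ᵥ (bM a b s t *ᵥ (x ∘ Sum.inr))) := by
  rw [qMinus_eq_qsum]
  exact exists_list_qsum a b s t hμ

/-- the matrix of the similarity -/
def gMm (m : ℕ) (a b s t : F) (μ : Fˣ) : Matrix ((Fin m ⊕ Fin m) ⊕ Fin 2) ((Fin m ⊕ Fin m) ⊕ Fin 2) F :=
  Matrix.fromBlocks (Matrix.diagonal (Sum.elim (fun _ => (μ : F)) (fun _ => 1))) 0 0 (bM a b s t)

theorem gMm_det (a b s t : F) {μ : Fˣ} (hμ : q2 F a b ![s, t] = μ) : (gMm m a b s t μ).det = (μ : F) ^ (m + 1) := by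
  rw [gMm, Matrix.det_fromBlocks_zero₁₂, bM_det, Matrix.det_diagonal, Fintype.prod_sum_type]
  simp only [Sum.elim_inl, Sum.elim_inr, Finset.prod_const, Finset.card_univ, Fintype.card_fin, one_pow, mul_one]
  rw [pow_succ, ← hμ, q2_apply]
  simp

theorem gMm_mulVec (a b s t : F) {μ : Fˣ} (x : (Fin m ⊕ Fin m) ⊕ Fin 2 → F) : gMm m a b s t μ *ᵥ x =
    Sum.elim (Sum.elim (fun i => μ * x (Sum.inl (Sum.inl i))) (fun i => x (Sum.inl (Sum.inr i)))) (bM a b s t *ᵥ (x ∘ Sum.inr)) := by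
  rw [gMm, Matrix.fromBlocks_mulVec, Matrix.zero_mulVec, Matrix.zero_mulVec, add_zero, zero_add]
  congr 1
  funext i
  rw [Matrix.mulVec_diagonal]
  rcases i with i | i
  · rfl
  · show 1 * x (Sum.inl (Sum.inr i)) = x (Sum.inl (Sum.inr i))
    rw [one_mul]

theorem gMm_q (a b s t : F) {μ : Fˣ} (hμ : q2 F a b ![s, t] = μ) (x : (Fin m ⊕ Fin m) ⊕ Fin 2 → F) :
    qMinus m F a b (gMm m a b s t μ *ᵥ x) = μ * qMinus m F a b x := by
  have hμ' : s * s + a * (s * t) + b * (t * t) = μ := by rw [← hμ, q2_apply]; simp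
  rw [qMinus_eq_qsum, qsum_apply, qsum_apply, gMm_mulVec, Sum.elim_comp_inl, Sum.elim_comp_inr, bM_q, hμ', mul_add, qPlus_sum, qPlus_sum, Finset.mul_sum]
  congr 1
  apply Finset.sum_congr rfl
  intro i _
  show (μ * x (Sum.inl (Sum.inl i))) * x (Sum.inl (Sum.inr i)) = μ * (x (Sum.inl (Sum.inl i)) * x (Sum.inl (Sum.inr i)))
  ring

theorem exists_gM [Finite F] (h2 : (2 : F) ≠ 0) {a b : F} (hab : ∀ z₁ z₂ : F, z₁ ^ 2 + a * z₁ * z₂ + b * z₂ ^ 2 = 0 → z₁ = 0 ∧ z₂ = 0) (hm : 2 ≤ m) {μ : Fˣ} :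
    ∃ (g : Geo.quadSimilarityGroup (F := F) ⇑(qMinus m F a b)) (l : List {v : (Fin m ⊕ Fin m) ⊕ Fin 2 → F // qMinus m F a b v ≠ 0}),
      (ssK (goSS (qMinus m F a b) g) : F) = μ ∧ Cr (qMinus m F a b) (m + 1) g ∧ Even l.length ∧ ((lq l : Fˣ) : F) = (μ : F) ^ (m + 1) ∧
      goSS (qMinus m F a b) g * goSS (qMinus m F a b) g = scSS (qMinus m F a b) μ * ogSS (qMinus m F a b) (lsp l) := by
  obtain ⟨w, hw⟩ := exists_val h2 (nd_q2 h2 hab) (by rw [Module.finrank_fin_fun]) (μ : F)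
  have hws : w = ![w 0, w 1] := by funext i; fin_cases i <;> rfl
  rw [hws] at hw
  obtain ⟨l, hl1, hl2, hl3⟩ := exists_list_minus (m := m) a b (w 0) (w 1) hw
  have hdet := gMm_det (m := m) a b (w 0) (w 1) hw
  let G : GL ((Fin m ⊕ Fin m) ⊕ Fin 2) F := Matrix.GeneralLinearGroup.mkOfDetNeZero (gMm m a b (w 0) (w 1) μ) (by rw [hdet]; exact pow_ne_zero _ μ.ne_zero)
  have hG : G ∈ Geo.quadSimilarityGroup (F := F) ⇑(qMinus m F a b) := ⟨μ, fun x => gMm_q a b (w 0) (w 1) hw x⟩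
  have hne : ∃ x, qMinus m F a b x ≠ 0 := exists_ne_q (nd_minus hab) (by rw [fr_minus]; omega)
  have hK : (ssK (goSS (qMinus m F a b) ⟨G, hG⟩) : F) = μ := ssK_eq hne _ fun x => gMm_q a b (w 0) (w 1) hw x
  refine ⟨⟨G, hG⟩, l, hK, Or.inl ⟨h2, ?_⟩, hl1, hl2, ?_⟩
  · rw [hK]; exact hdet
  · apply ss_ext
    · intro x
      show gMm m a b (w 0) (w 1) μ *ᵥ (gMm m a b (w 0) (w 1) μ *ᵥ x) = (μ : F) • lsp l x
      rw [hl3, gMm_mulVec, gMm_mulVec]
      funext i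
      rcases i with (i | i) | i
      · rfl
      · show x (Sum.inl (Sum.inr i)) = (μ : F) * (((μ⁻¹ : Fˣ) : F) * x (Sum.inl (Sum.inr i)))
        rw [← mul_assoc, Units.mul_inv, one_mul]
      · rfl
    · rfl

end sim

section minus

universe u
variable {F : Type u} [Field F] [Fintype F] {m : ℕ} {a b : F}

theorem neg_minus_q (hodd : Odd (Fintype.card F)) (hm : 2 ≤ m) (hab : ∀ z₁ z₂ : F, z₁ ^ 2 + a * z₁ * z₂ + b * z₂ ^ 2 = 0 → z₁ = 0 ∧ z₂ = 0) :
    ogNeg (qMinus m F a b) ∈ EG (qMinus m F a b) ↔ (Even m ∧ Fintype.card F % 4 = 3) := by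
  have hnd := nd_minus (m := m) hab
  have hfr : finrank F ((Fin m ⊕ Fin m) ⊕ Fin 2 → F) = 2 * (m + 1) := fr_minus F m
  have h1 := Cfsg.Agent.S0791.result (F := F) rfl hodd (m + 1) (by omega) a b hab
  rw [show m + 1 - 1 = m from rfl, ← qMinus_coe] at h1
  rw [eg_eq_comm hnd (by omega) (exists_sing hnd (by omega)), ← exists_neg_iff]
  refine Iff.trans h1 ?_
  have h2 : Fintype.card F ^ 2 % 4 = 1 := by
    rcases odd_four hodd with h | h <;> rw [Nat.pow_mod, h]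
  rcases Nat.even_or_odd m with he | ho
  · obtain ⟨k, rfl⟩ := he
    have : Fintype.card F ^ (k + k + 1) % 4 = Fintype.card F % 4 := by
      rw [← two_mul, pow_succ, pow_mul, Nat.mul_mod, Nat.pow_mod, h2, one_pow]
      norm_num
    rw [this]
    exact ⟨fun h => ⟨⟨k, rfl⟩, h⟩, fun h => h.2⟩
  · obtain ⟨k, rfl⟩ := ho
    have : Fintype.card F ^ (2 * k + 1 + 1) % 4 = 1 := by
      rw [show 2 * k + 1 + 1 = 2 * (k + 1) by ring, pow_mul, Nat.pow_mod, h2, one_pow]; norm_num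
    rw [this]
    constructor
    · intro h; omega
    · rintro ⟨h, -⟩
      exact absurd h (by simp)

theorem card_minus5 (hm : 2 ≤ m) : 5 ≤ Fintype.card ((Fin m ⊕ Fin m) ⊕ Fin 2) := by rw [card_minus_ι]; omega

theorem ch_minus (h2 : (2 : F) ≠ 0) (hm : 2 ≤ m) (hab : ∀ z₁ z₂ : F, z₁ ^ 2 + a * z₁ * z₂ + b * z₂ ^ 2 = 0 → z₁ = 0 ∧ z₂ = 0)
    {K : Type*} [Field K] [Finite K] {j : F →+* K} (P : PT (qMinus m K (j a) (j b)) (m + 1)) :
    CH (qMinus m F a b) (eS (qMinus m F a b) (mS j P)) (m + 1) :=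
  ⟨h2, nd_minus hab, by rw [fr_minus]; omega, fr_minus F m, parS_m (qMinus_jV j a b) P⟩

theorem exists_K (F : Type u) [Field F] [Finite F] (hodd2 : (2 : F) ≠ 0) (m : ℕ) {a b : F}
    (hab : ∀ z₁ z₂ : F, z₁ ^ 2 + a * z₁ * z₂ + b * z₂ ^ 2 = 0 → z₁ = 0 ∧ z₂ = 0) :
    ∃ (K : Type u) (_ : Field K) (_ : Finite K) (j : F →+* K), PT (qMinus m K (j a) (j b)) (m + 1) ∧ ((2 : F) ≠ 0 → ∀ x : F, IsSquare (j x)) := by
  obtain ⟨K, _, _, hK⟩ := exists_quad_ext F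
  haveI : FiniteDimensional F K := FiniteDimensional.of_finrank_eq_succ hK
  haveI : Finite K := Module.finite_of_finite F
  exact ⟨K, inferInstance, inferInstance, algebraMap F K, PT_ext hK hab m, fun h2 x => sq_quad hK h2 x⟩

theorem minus_A (hodd : Odd (Fintype.card F)) (hm : 3 ≤ m) (Qf : F → F → ((Fin m ⊕ Fin m) ⊕ Fin 2 → F) → F) (hQf : Qf = fun a b => ⇑(qMinus m F a b))
    (hab : ∀ z₁ z₂ : F, z₁ ^ 2 + a * z₁ * z₂ + b * z₂ ^ 2 = 0 → z₁ = 0 ∧ z₂ = 0) :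
    (∃ φ : ↥(pgoAut F (Qf a b)) →* Multiplicative (ZMod 2 × ZMod 2), Function.Surjective φ ∧ φ.ker = (psoAut F (Qf a b)).subgroupOf (pgoAut F (Qf a b))) := by
  subst hQf
  have h2 := two_ne_card hodd
  obtain ⟨K, _, _, j, P, hsq⟩ := exists_K F h2 m hab
  have H := ch_minus h2 (by omega : 2 ≤ m) hab P
  have hn := card_minus5 (m := m) (by omega)
  refine fin_phi (S := simS (qMinus m F a b)) (nd_minus hab) hn (fun β => ?_) (fun β => pso_iff h2 (nd_minus hab) hn β) H.exists_v4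
  rw [← HS_top']
  exact pgo_iff F (nd_minus hab) hn β

theorem minus_B (hodd : Odd (Fintype.card F)) (hm : 3 ≤ m) (Qf : F → F → ((Fin m ⊕ Fin m) ⊕ Fin 2 → F) → F) (hQf : Qf = fun a b => ⇑(qMinus m F a b))
    (hab : ∀ z₁ z₂ : F, z₁ ^ 2 + a * z₁ * z₂ + b * z₂ ^ 2 = 0 → z₁ = 0 ∧ z₂ = 0) :
    ((Even m ∧ Fintype.card F % 4 = 3) → (Inn (POmega F (Qf a b))).relIndex (psoAut F (Qf a b)) = 2) ∧
    (¬ (Even m ∧ Fintype.card F % 4 = 3) → (Inn (POmega F (Qf a b))).relIndex (psoAut F (Qf a b)) = 1) := by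
  subst hQf
  have h2 := two_ne_card hodd
  obtain ⟨K, _, _, j, P, hsq⟩ := exists_K F h2 m hab
  have H := ch_minus h2 (by omega : 2 ≤ m) hab P
  have hn := card_minus5 (m := m) (by omega)
  have h3 := relIndex_tr (MulAut.congr (pomEquiv (Q := qMinus m F a b) (nd_minus hab) hn)) (P := psoAut F ⇑(qMinus m F a b)) (K := Inn (POmega F ⇑(qMinus m F a b)))
    (fun β => pso_iff h2 (nd_minus hab) hn β) (fun β => inn_iff (nd_minus hab) hn β)
  rw [h3]
  constructor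
  · intro h
    exact H.relIndex_dgA.1 ((neg_minus_q hodd (by omega) hab).mpr h)
  · intro h
    exact H.relIndex_dgA.2 (fun h' => h ((neg_minus_q hodd (by omega) hab).mp h'))

theorem minus_C (hodd : Odd (Fintype.card F)) (hm : 3 ≤ m) (Qf : F → F → ((Fin m ⊕ Fin m) ⊕ Fin 2 → F) → F) (hQf : Qf = fun a b => ⇑(qMinus m F a b))
    (hab : ∀ z₁ z₂ : F, z₁ ^ 2 + a * z₁ * z₂ + b * z₂ ^ 2 = 0 → z₁ = 0 ∧ z₂ = 0) :
    ((Even m ∧ Fintype.card F % 4 = 3) → (∃ φ : ↥(pgoAut F (Qf a b)) →* DihedralGroup 4, Function.Surjective φ ∧ φ.ker = (Inn (POmega F (Qf a b))).subgroupOf (pgoAut F (Qf a b)))) ∧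
    (¬ (Even m ∧ Fintype.card F % 4 = 3) → (∃ φ : ↥(pgoAut F (Qf a b)) →* Multiplicative (ZMod 2 × ZMod 2), Function.Surjective φ ∧ φ.ker = (Inn (POmega F (Qf a b))).subgroupOf (pgoAut F (Qf a b)))) := by
  subst hQf
  have h2 := two_ne_card hodd
  obtain ⟨K, _, _, j, P, hsq⟩ := exists_K F h2 m hab
  have H := ch_minus h2 (by omega : 2 ≤ m) hab P
  have hn := card_minus5 (m := m) (by omega)
  have hP : ∀ β, β ∈ pgoAut F ⇑(qMinus m F a b) ↔ MulAut.congr (pomEquiv (Q := qMinus m F a b) (nd_minus hab) hn) β ∈ (simS (qMinus m F a b)).map (aE (qMinus m F a b)) := by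
    intro β
    rw [← HS_top']
    exact pgo_iff F (nd_minus hab) hn β
  constructor
  · intro h
    exact fin_phi (nd_minus hab) hn hP (fun β => inn_iff (nd_minus hab) hn β) (CH.exists_f_of_iso _ (H.iso_D8 ((neg_minus_q hodd (by omega) hab).mpr h)))
  · intro h
    refine fin_phi (nd_minus hab) hn hP (fun β => inn_iff (nd_minus hab) hn β) ?_
    rw [← H.dgA_eq_inn (fun h' => h ((neg_minus_q hodd (by omega) hab).mp h'))]
    exact H.exists_v4

theorem minus_D (hodd : Odd (Fintype.card F)) (hm : 3 ≤ m) (Qf : F → F → ((Fin m ⊕ Fin m) ⊕ Fin 2 → F) → F) (hQf : Qf = fun a b => ⇑(qMinus m F a b))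
    (hab : ∀ z₁ z₂ : F, z₁ ^ 2 + a * z₁ * z₂ + b * z₂ ^ 2 = 0 → z₁ = 0 ∧ z₂ = 0) (ID : Subgroup (MulAut (POmega F (Qf a b))))
    (hID : ID = autSubgroupOf (fun β => ∃ g : GL ((Fin m ⊕ Fin m) ⊕ Fin 2) F, g ∈ Geo.quadSimilarityGroup (F := F) (Qf a b) ∧
      PreservesSingularClassesMinus m a b (g : Matrix ((Fin m ⊕ Fin m) ⊕ Fin 2) ((Fin m ⊕ Fin m) ⊕ Fin 2) F) ∧
      IsInducedBySemilinearPOmega (Qf a b) g (RingEquiv.refl F) β)) :
    ((Even m ∧ Fintype.card F % 4 = 3) → (∃ φ : ↥ID →* Multiplicative (ZMod 4), Function.Surjective φ ∧ φ.ker = (Inn (POmega F (Qf a b))).subgroupOf ID)) ∧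
    (¬ (Even m ∧ Fintype.card F % 4 = 3) → (∃ φ : ↥ID →* Multiplicative (ZMod 2), Function.Surjective φ ∧ φ.ker = (Inn (POmega F (Qf a b))).subgroupOf ID)) := by
  subst hQf hID
  have h2 := two_ne_card hodd
  obtain ⟨K, _, _, j, P, hsq⟩ := exists_K F h2 m hab
  have H := ch_minus h2 (by omega : 2 ≤ m) hab P
  have hn := card_minus5 (m := m) (by omega)
  have hP : ∀ β, β ∈ autSubgroupOf (fun β => ∃ g : GL ((Fin m ⊕ Fin m) ⊕ Fin 2) F, g ∈ Geo.quadSimilarityGroup (F := F) ⇑(qMinus m F a b) ∧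
      PreservesSingularClassesMinus m a b (g : Matrix ((Fin m ⊕ Fin m) ⊕ Fin 2) ((Fin m ⊕ Fin m) ⊕ Fin 2) F) ∧
      IsInducedBySemilinearPOmega ⇑(qMinus m F a b) g (RingEquiv.refl F) β) ↔
      MulAut.congr (pomEquiv (Q := qMinus m F a b) (nd_minus hab) hn) β ∈ (eS (qMinus m F a b) (mS j P)).map (aE (qMinus m F a b)) := by
    intro β
    rw [← HS_eq]
    exact inndiagMinus_iff hab (by omega) P hsq hn β
  have hKI : ∀ β, β ∈ Inn (POmega F ⇑(qMinus m F a b)) ↔ MulAut.congr (pomEquiv (Q := qMinus m F a b) (nd_minus hab) hn) β ∈ Inn (PE (qMinus m F a b)) := fun β => inn_iff (nd_minus hab) hn β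
  refine ⟨fun h => ?_, fun h => ?_⟩
  · have hneg := (neg_minus_q hodd (by omega) hab).mpr h
    obtain ⟨d, hd⟩ := exists_nonsq h2
    have hd0 : d ≠ 0 := by rintro rfl; exact hd IsSquare.zero
    obtain ⟨g, l, hgK, hgC, hl1, hl2, hl3⟩ := exists_gM h2 hab (by omega : 2 ≤ m) (μ := Units.mk0 d hd0)
    refine fin_phi (nd_minus hab) hn hP hKI (CH.exists_f_of_iso _ (H.iso_Z4 hneg (p := goSS _ g) ?_ ?_))
    · rw [goSS_mem_eS, mem_mS_cr (qMinus_jV j a b) (nd_minus hab) hn (card_minus_ι m) P hsq]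
      exact hgC
    · intro h3
      rw [← map_mul, hl3, map_mul, out_sc H.nd H.hn, one_mul] at h3
      have h4 := (H.oG_lsp hneg l hl1).mp h3
      rw [hl2] at h4
      obtain ⟨k, hk⟩ := h.1
      apply hd
      have h5 : IsSquare (d ^ (2 * k)) := ⟨d ^ k, by ring⟩
      have h6 : IsSquare (d ^ (2 * k) * d) := by
        have : ((Units.mk0 d hd0 : Fˣ) : F) ^ (m + 1) = d ^ (2 * k) * d := by rw [hk, ← two_mul, pow_succ]; rfl
        rw [← this]; exact h4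
      exact ((sq_mul_iff (pow_ne_zero _ hd0) hd0).mp h6).mp h5
  · exact fin_phi (nd_minus hab) hn hP hKI (CH.exists_f_of_iso _ (H.iso_Z2 (fun h' => h ((neg_minus_q hodd (by omega) hab).mp h'))))

end minus

end Cfsg.Agent.H17
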