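import Mathlib
import Cfsg.Agent.H17.Spin4
import Cfsg.Agent.H17.Minus1

set_option autoImplicit false

/-! Transitivity of Omega; -1 and the discriminant. -/

namespace Cfsg.Agent.H17

open Cfsg Cfsg.Agent.H5 Module

section witt

variable {F V : Type*} [Field F] [AddCommGroup V] [Module F V] [FiniteDimensional F V] {Q : QuadraticForm F V}

theorem witt_sub (hnd : ND Q) {U W : Submodule F V} (e : U ≃ₗ[F] W) (he : ∀ u : U, Q (e u : V) = Q (u : V)) :
    ∃ g : OG Q, ∀ u : U, g (u : V) = (e u : V) := by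
  let b := Module.finBasis F U
  have hB : ∀ u v : U, pB Q (e u : V) (e v : V) = pB Q (u : V) (v : V) := by
    intro u v
    have h1 := he (u + v)
    rw [map_add, Submodule.coe_add, Submodule.coe_add, q_add, q_add, he, he] at h1
    linear_combination h1
  obtain ⟨g, hg⟩ := og_witt_family hnd (fun i => (b i : V)) (fun i => (e (b i) : V))
    (b.linearIndependent.map' U.subtype (Submodule.ker_subtype U))
    ((b.linearIndependent.map' e.toLinearMap (LinearEquiv.ker e)).map' W.subtype (Submodule.ker_subtype W))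
    (fun i j => hB _ _) (fun i => he _)
  refine ⟨g, fun u => ?_⟩
  have h2 : (g.1 : V →ₗ[F] V) ∘ₗ U.subtype = W.subtype ∘ₗ e.toLinearMap := b.ext fun i => hg i
  exact LinearMap.congr_fun h2 u

theorem witt_ts (hnd : ND Q) {U W : Submodule F V} (hU : TS Q U) (hW : TS Q W) (h : finrank F U = finrank F W) :
    ∃ g : OG Q, ∀ u ∈ U, g u ∈ W := by
  obtain ⟨g, hg⟩ := witt_sub hnd (LinearEquiv.ofFinrankEq U W h) (fun u => by rw [hU _ u.2]; exact hW _ (Subtype.property _))
  exact ⟨g, fun u hu => by rw [hg ⟨u, hu⟩]; exact Subtype.property _⟩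

omit [FiniteDimensional F V] in
theorem two_refl {e f x : V} {c : F} (hc : c ≠ 0) (he : Q e = 0) (hf : Q f = 0) (hef : pB Q e f = 1) (hex : pB Q e x = 0)
    (h1 : Q (e - f) ≠ 0) (h2 : Q (e - c • f) ≠ 0) : refl h1 (refl h2 x) = x + (-(1 - c) * pB Q f x) • e := by
  have q1 : Q (e - f) = -1 := by rw [sub_eq_add_neg, q_add, he, q_neg, hf, pr_neg, hef]; ring
  have q2 : Q (e - c • f) = -c := by rw [sub_eq_add_neg, q_add, he, q_neg, q_smul, hf, pr_neg, pr_smul, hef]; ring
  have hfe : pB Q f e = 1 := by rw [pB_symm, hef]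
  have hee : pB Q e e = 0 := by rw [pB_self, he, mul_zero]
  have hff : pB Q f f = 0 := by rw [pB_self, hf, mul_zero]
  rw [refl_apply, refl_apply, q1, q2]
  simp only [pl_add, pl_sub, pl_smul, pr_sub, pr_add, pr_smul, hef, hfe, hee, hff, hex]
  match_scalars <;> field_simp <;> ring

theorem levi_one (hnd : ND Q) {W : Submodule F V} (hW : TS Q W) (hW1 : W ≠ ⊥) {c : F} (hc : c ≠ 0) :
    ∃ l : List {v : V // Q v ≠ 0}, Even l.length ∧ lsp l ∈ stS Q W ∧ ((lq l : Fˣ) : F) = c := by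
  obtain ⟨e, heW, he0⟩ := W.ne_bot_iff.mp hW1
  have he := hW e heW
  obtain ⟨f, hf, hef⟩ := exists_partner hnd he0 he
  have q1 : Q (e - f) = -1 := by rw [sub_eq_add_neg, q_add, he, q_neg, hf, pr_neg, hef]; ring
  have q2 : Q (e - c • f) = -c := by rw [sub_eq_add_neg, q_add, he, q_neg, q_smul, hf, pr_neg, pr_smul, hef]; ring
  refine ⟨[⟨e - f, by rw [q1]; exact neg_ne_zero.mpr one_ne_zero⟩, ⟨e - c • f, by rw [q2]; exact neg_ne_zero.mpr hc⟩], ⟨1, rfl⟩, ?_, ?_⟩
  · apply mem_stS_of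
    intro x hx
    have hex : pB Q e x = 0 := hW.pb heW hx
    rw [lsp_cons, lsp_cons, lsp_nil, mul_one, og_mul, two_refl hc he hf hef hex]
    exact W.add_mem hx (W.smul_mem _ heW)
  · rw [lq_cons, lq_cons, lq_nil, mul_one, Units.val_mul, Units.val_mk0, Units.val_mk0, q1, q2]; ring

theorem refl_stS {W : Submodule F V} {w : V} (hw : Q w ≠ 0) (h : w ∈ W ∨ w ∈ oc Q W) : refl hw ∈ stS Q W := by
  apply mem_stS_of
  intro x hx
  rcases h with h | h
  · rw [refl_apply]
    exact W.sub_mem hx (W.smul_mem _ h)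
  · rw [refl_fix hw (by rw [pB_symm]; exact mem_oc.mp h x hx)]
    exact hx

end witt

section trans

variable {F V : Type*} [Field F] [Finite F] [AddCommGroup V] [Module F V] [FiniteDimensional F V] {Q : QuadraticForm F V}

theorem adjust_even (hnd : ND Q) (hrg : RG Q = ⊤) (S : Subgroup (OG Q))
    (h2 : (2 : F) ≠ 0 → ∃ l₂ : List {v : V // Q v ≠ 0}, Even l₂.length ∧ lsp l₂ ∈ S ∧ ¬ IsSquare ((lq l₂ : Fˣ) : F)) {g : OG Q}
    (hg : g ∈ DG Q) : ∃ s ∈ S, s * g ∈ commutator (OG Q) := by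
  obtain ⟨l, hl⟩ := exists_lsp (g := g) (by rw [hrg]; trivial)
  have he : Even l.length := (lsp_dg hnd l).mp (by rw [hl]; exact hg)
  by_cases hsq : IsSquare ((lq l : Fˣ) : F)
  · exact ⟨1, one_mem _, by rw [one_mul, ← hl, lsp_comm' hnd hrg]; exact ⟨he, hsq⟩⟩
  · have h2' : (2 : F) ≠ 0 := fun h => hsq (sq_char_two h _)
    obtain ⟨l₂, he₂, hS₂, hn₂⟩ := h2 h2'
    refine ⟨lsp l₂, hS₂, ?_⟩
    rw [← hl, ← lsp_append, lsp_comm' hnd hrg]
    refine ⟨by rw [List.length_append]; exact he₂.add he, ?_⟩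
    rw [lq_append, Units.val_mul]
    exact nonsq_mul h2' hn₂ hsq

/-- both classes of values on a nondegenerate subspace of dimension ≥ 2 -/
theorem exists_nonsq_pair (h2 : (2 : F) ≠ 0) {W : Submodule F V} (hW : NDS Q W) (h : 2 ≤ finrank F W) :
    ∃ u ∈ W, ∃ v ∈ W, Q u ≠ 0 ∧ Q v ≠ 0 ∧ ¬ IsSquare (Q u * Q v) := by
  obtain ⟨d, hd⟩ := exists_nonsq h2
  have hd0 : d ≠ 0 := by rintro rfl; exact hd IsSquare.zero
  obtain ⟨u, hu⟩ := exists_val h2 hW.nd h 1
  obtain ⟨v, hv⟩ := exists_val h2 hW.nd h d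
  refine ⟨u, u.2, v, v.2, ?_, ?_, ?_⟩
  · rw [resQ_apply] at hu; rw [hu]; exact one_ne_zero
  · rw [resQ_apply] at hv; rw [hv]; exact hd0
  · rw [resQ_apply] at hu hv; rw [hu, hv, one_mul]; exact hd

theorem trans_nds (hnd : ND Q) (hrg : RG Q = ⊤) (hn : 3 ≤ finrank F V) {U W : Submodule F V} (hW : NDS Q W) (e : U ≃ₗ[F] W)
    (he : ∀ u : U, Q (e u : V) = Q (u : V)) : ∃ g ∈ commutator (OG Q), ∀ u ∈ U, g u ∈ W := by
  obtain ⟨g, hg⟩ := witt_sub hnd e he
  have hfr := finrank_oc hnd W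
  have h1 : ∃ w, (w ∈ W ∨ w ∈ oc Q W) ∧ Q w ≠ 0 := by
    by_cases hb : W = ⊥
    · obtain ⟨w, hw⟩ := exists_ne_q hnd (by omega)
      refine ⟨w, Or.inr ?_, hw⟩
      rw [mem_oc, hb]
      intro n hn
      rw [(Submodule.mem_bot F).mp hn, map_zero]; rfl
    · obtain ⟨w, hw, hw'⟩ := hW.exists_q hb
      exact ⟨w, Or.inl hw, hw'⟩
  obtain ⟨s, hs, hsg⟩ := adjust hnd hrg (stS Q W) (by
    obtain ⟨w, hw, hw'⟩ := h1
    exact ⟨[⟨w, hw'⟩], ⟨0, rfl⟩, by rw [lsp_cons, lsp_nil, mul_one]; exact refl_stS hw' hw⟩) (by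
    intro h2
    have key : ∃ u v, (u ∈ W ∨ u ∈ oc Q W) ∧ (v ∈ W ∨ v ∈ oc Q W) ∧ Q u ≠ 0 ∧ Q v ≠ 0 ∧ ¬ IsSquare (Q u * Q v) := by
      by_cases h3 : 2 ≤ finrank F W
      · obtain ⟨u, hu, v, hv, a1, a2, a3⟩ := exists_nonsq_pair h2 hW h3
        exact ⟨u, v, Or.inl hu, Or.inl hv, a1, a2, a3⟩
      · obtain ⟨u, hu, v, hv, a1, a2, a3⟩ := exists_nonsq_pair h2 (hW.oc hnd) (by omega)
        exact ⟨u, v, Or.inr hu, Or.inr hv, a1, a2, a3⟩
    obtain ⟨u, v, hu, hv, a1, a2, a3⟩ := key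
    refine ⟨[⟨u, a1⟩, ⟨v, a2⟩], ⟨1, rfl⟩, ?_, ?_⟩
    · rw [lsp_cons, lsp_cons, lsp_nil, mul_one]
      exact mul_mem (refl_stS a1 hu) (refl_stS a2 hv)
    · rw [lq_cons, lq_cons, lq_nil, mul_one, Units.val_mul]
      exact a3) g
  refine ⟨s * g, hsg, fun u hu => ?_⟩
  rw [og_mul, (mem_stS.mp hs), hg ⟨u, hu⟩]
  exact Subtype.property _

theorem trans_ts (hnd : ND Q) (hrg : RG Q = ⊤) {U W : Submodule F V} (hU : TS Q U) (hW : TS Q W) (h : finrank F U = finrank F W)
    (hk : 2 * finrank F W < finrank F V) : ∃ g ∈ commutator (OG Q), ∀ u ∈ U, g u ∈ W := by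
  by_cases hb : W = ⊥
  · refine ⟨1, one_mem _, fun u hu => ?_⟩
    have : U = ⊥ := by
      rw [hb, finrank_bot] at h
      exact Submodule.finrank_eq_zero.mp h
    rw [this] at hu
    rw [(Submodule.mem_bot F).mp hu]
    exact W.zero_mem
  obtain ⟨g, hg⟩ := witt_ts hnd hU hW h
  have hfr := finrank_oc hnd W
  obtain ⟨w, hw, hw'⟩ : ∃ w ∈ oc Q W, Q w ≠ 0 := by
    by_contra hcon
    push Not at hcon
    have h1 : TS Q (oc Q W) := hcon
    have h2 := h1.le_oc
    rw [oc_oc hnd] at h2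
    have := Submodule.finrank_mono h2
    omega
  obtain ⟨s, hs, hsg⟩ := adjust hnd hrg (stS Q W)
    ⟨[⟨w, hw'⟩], ⟨0, rfl⟩, by rw [lsp_cons, lsp_nil, mul_one]; exact refl_stS hw' (Or.inr hw)⟩ (by
    intro h2
    obtain ⟨d, hd⟩ := exists_nonsq h2
    have hd0 : d ≠ 0 := by rintro rfl; exact hd IsSquare.zero
    obtain ⟨l, a1, a2, a3⟩ := levi_one hnd hW hb hd0
    exact ⟨l, a1, a2, by rw [a3]; exact hd⟩) g
  refine ⟨s * g, hsg, fun u hu => ?_⟩
  rw [og_mul, (mem_stS.mp hs)]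
  exact hg u hu

theorem trans_max {m : ℕ} (P : PT Q m) (hrg : RG Q = ⊤) {U W : Submodule F V} (hU : TS Q U) (hW : TS Q W) (hUm : finrank F U = m) (hWm : finrank F W = m)
    (he : Even (m - finrank F (U ⊓ W : Submodule F V))) : ∃ g ∈ commutator (OG Q), ∀ u ∈ U, g u ∈ W := by
  by_cases hb : W = ⊥
  · refine ⟨1, one_mem _, fun u hu => ?_⟩
    have : U = ⊥ := by
      rw [hb, finrank_bot] at hWm
      exact Submodule.finrank_eq_zero.mp (by omega)
    rw [this] at hu
    rw [(Submodule.mem_bot F).mp hu]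
    exact W.zero_mem
  obtain ⟨g, hg⟩ := witt_ts P.nd hU hW (by rw [hUm, hWm])
  have hW' : imS (ogSS Q g) U = W := by
    symm
    have h3 : imS (ogSS Q g) U ≤ W := by
      intro y hy
      rw [mem_imS] at hy
      have h2 : g ((ogSS Q g).1.1.symm y) = y := (ogSS Q g).1.1.apply_symm_apply y
      rw [← h2]; exact hg _ hy
    exact (Submodule.eq_of_le_of_finrank_eq h3 (by rw [finrank_imS, hUm, hWm])).symm
  have hdg : g ∈ DG Q := by
    rw [← P.ev_og_iff' hrg, P.ev_iff _ hU hUm, hW']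
    have h4 : finrank F (U ⊓ W : Submodule F V) ≤ m := by
      rw [← hUm]; exact Submodule.finrank_mono inf_le_left
    rw [Nat.even_iff] at he ⊢
    omega
  obtain ⟨s, hs, hsg⟩ := adjust_even P.nd hrg (stS Q W) (by
    intro h2
    obtain ⟨d, hd⟩ := exists_nonsq h2
    have hd0 : d ≠ 0 := by rintro rfl; exact hd IsSquare.zero
    obtain ⟨l, a1, a2, a3⟩ := levi_one P.nd hW hb hd0
    exact ⟨l, a1, a2, by rw [a3]; exact hd⟩) hdg
  refine ⟨s * g, hsg, fun u hu => ?_⟩
  rw [og_mul, (mem_stS.mp hs)]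
  exact hg u hu

end trans

section frozen

variable {F : Type*} [Field F] {ι : Type} [Fintype ι] [DecidableEq ι] {Q : QuadraticForm F (ι → F)}

theorem omega_map {U W : Submodule F (ι → F)} (hfr : finrank F U = finrank F W) (h : ∃ g ∈ commutator (OG Q), ∀ u ∈ U, g u ∈ W) :
    ∃ g : isometryGroup F ⇑Q, g ∈ Omega F ⇑Q ∧ U.map (Matrix.mulVecLin ((g : Matrix.GeneralLinearGroup ι F) : Matrix ι ι F)) = W := by
  obtain ⟨g, hg, hU⟩ := h
  refine ⟨(ogEquiv Q).symm g, by rw [omega_iff, MulEquiv.apply_symm_apply]; exact hg, ?_⟩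
  apply Submodule.eq_of_le_of_finrank_eq
  · rintro _ ⟨u, hu, rfl⟩
    rw [Matrix.mulVecLin_apply, symm_mulVec]
    exact hU u hu
  · rw [← hfr]
    exact (LinearEquiv.finrank_eq (Submodule.equivMapOfInjective _ (fun x y hxy => by
      rw [Matrix.mulVecLin_apply, Matrix.mulVecLin_apply, symm_mulVec, symm_mulVec] at hxy
      exact og_inj g hxy) U)).symm

theorem imS_eq_map (g : isometryGroup F ⇑Q) (E : Submodule F (ι → F)) :
    E.map (Matrix.mulVecLin ((g : Matrix.GeneralLinearGroup ι F) : Matrix ι ι F)) = imS (ogSS Q (ogEquiv Q g)) E := by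
  ext y
  rw [mem_imS, Submodule.mem_map]
  constructor
  · rintro ⟨x, hx, rfl⟩
    have : (ogSS Q (ogEquiv Q g)).1.1.symm (Matrix.mulVecLin ((g : Matrix.GeneralLinearGroup ι F) : Matrix ι ι F) x) = x := (Equiv.symm_apply_eq _).mpr rfl
    rw [this]; exact hx
  · intro h
    exact ⟨_, h, (ogSS Q (ogEquiv Q g)).1.1.apply_symm_apply y⟩

theorem ev_frozen {m : ℕ} (P : PT Q m) {E : Submodule F (ι → F)} (hE : TS Q E) (hEm : finrank F E = m) (g : isometryGroup F ⇑Q) :
    Even (m - finrank F (E ⊓ E.map (Matrix.mulVecLin ((g : Matrix.GeneralLinearGroup ι F) : Matrix ι ι F)) : Submodule F (ι → F))) ↔ Ev m (ogSS Q (ogEquiv Q g)) := by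
  rw [P.ev_iff _ hE hEm, imS_eq_map]
  have h4 : finrank F (E ⊓ imS (ogSS Q (ogEquiv Q g)) E : Submodule F (ι → F)) ≤ m := by
    rw [← hEm]; exact Submodule.finrank_mono inf_le_left
  rw [Nat.even_iff, Nat.even_iff]
  omega

theorem nds_of {W : Submodule F (ι → F)} (hW : W ⊓ LinearMap.BilinForm.orthogonal (QuadraticMap.polarBilin Q) W = ⊥) : NDS Q W := by
  intro x hx h
  have : x ∈ W ⊓ LinearMap.BilinForm.orthogonal (QuadraticMap.polarBilin Q) W := by
    refine ⟨hx, ?_⟩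
    intro n hn
    show pB Q n x = 0
    rw [pB_symm]; exact h n hn
  rw [hW] at this
  exact (Submodule.mem_bot F).mp this

end frozen

section disc

variable {F : Type*} [Field F] [Finite F] {n : ℕ} {Q : QuadraticForm F (Fin n → F)}

theorem neg_eq_lsp (h2 : (2 : F) ≠ 0) (hnd : ND Q) : ∃ l : List {v : Fin n → F // Q v ≠ 0}, l.length = n ∧ lsp l = ogNeg Q ∧
    ∃ D : F, D ≠ 0 ∧ D ^ 2 * (gramB Q).det = 2 ^ n * ((lq l : Fˣ) : F) := by
  haveI : Invertible (2 : F) := invertibleOfNonzero h2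
  obtain ⟨v₀, hv₀⟩ := LinearMap.BilinForm.exists_orthogonal_basis (B := pB Q) ⟨fun x y => by rw [RingHom.id_apply]; exact pB_symm Q x y⟩
  let v : Basis (Fin n) F (Fin n → F) := v₀.reindex (finCongr (Module.finrank_fin_fun F))
  have hv : ∀ i j, i ≠ j → pB Q (v i) (v j) = 0 := by
    intro i j hij
    show pB Q (v₀.reindex _ i) (v₀.reindex _ j) = 0
    rw [Basis.reindex_apply, Basis.reindex_apply]
    exact hv₀ (fun h => hij (by simpa using h))
  have hq : ∀ i, Q (v i) ≠ 0 := by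
    intro i h0
    apply v.ne_zero i
    apply hnd
    intro y
    rw [← v.sum_repr y, map_sum]
    apply Finset.sum_eq_zero
    intro j _
    rw [pr_smul]
    by_cases hij : i = j
    · subst hij; rw [pB_self, h0, mul_zero, mul_zero]
    · rw [hv i j hij, mul_zero]
  let mk : Fin n → {w : Fin n → F // Q w ≠ 0} := fun i => ⟨v i, hq i⟩
  refine ⟨(List.finRange n).map mk, by rw [List.length_map, List.length_finRange], ?_, (Matrix.of fun i k => v i k).det, ?_, ?_⟩
  · have key : ∀ l : List (Fin n), l.Nodup → ∀ k, lsp (l.map mk) (v k) = if k ∈ l then -v k else v k := by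
      intro l
      induction l with
      | nil => intro _ k; simp; rfl
      | cons i l ih =>
        intro hl k
        have hi : i ∉ l := (List.nodup_cons.mp hl).1
        rw [List.map_cons, lsp_cons, og_mul, ih hl.of_cons]
        by_cases hk : k = i
        · subst hk
          rw [if_neg hi, if_pos (List.mem_cons_self ..)]
          exact refl_self _
        · have h3 : refl (mk i).2 (v k) = v k := refl_fix _ (hv i k (Ne.symm hk))
          by_cases hkl : k ∈ l
          · rw [if_pos hkl, if_pos (List.mem_cons_of_mem _ hkl), og_neg, h3]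
          · rw [if_neg hkl, if_neg (by simp [hk, hkl]), h3]
    apply og_ext
    intro x
    have h4 : ((lsp ((List.finRange n).map mk)).1 : (Fin n → F) →ₗ[F] (Fin n → F)) = ((ogNeg Q).1 : (Fin n → F) →ₗ[F] (Fin n → F)) := v.ext fun k => by
      have := key _ (List.nodup_finRange n) k
      rw [if_pos (List.mem_finRange k)] at this
      exact this
    exact LinearMap.congr_fun h4 x
  · have h5 := (Pi.basisFun F (Fin n)).det_ne_zero
    intro h0
    obtain ⟨w, hw0, hw⟩ := Matrix.exists_vecMul_eq_zero_iff.mpr h0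
    apply hw0
    have h6 : ∑ i, w i • v i = 0 := by
      funext k
      have := congrFun hw k
      rw [Finset.sum_apply]
      exact this
    exact funext fun i => Fintype.linearIndependent_iff.mp v.linearIndependent w h6 i
  · set P : Matrix (Fin n) (Fin n) F := Matrix.of fun i k => v i k with hP
    have h7 : P * gramB Q * P.transpose = Matrix.diagonal (fun i => 2 * Q (v i)) := by
      ext i j
      have h8 : ∀ i k, (P * gramB Q) i k = pB Q (v i) (Pi.single k 1) := by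
        intro i k
        rw [← gramB_vec]; rfl
      rw [Matrix.mul_apply]
      simp only [h8, Matrix.transpose_apply]
      have h9 : ∑ k, pB Q (v i) (Pi.single k 1) * P j k = pB Q (v i) (v j) := by
        conv_rhs => rw [pi_eq_sum (v j)]
        rw [map_sum]
        apply Finset.sum_congr rfl
        intro k _
        rw [pr_smul, mul_comm]; rfl
      rw [h9]
      by_cases hij : i = j
      · subst hij; rw [Matrix.diagonal_apply_eq, pB_self]
      · rw [Matrix.diagonal_apply_ne _ hij, hv i j hij]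
    have h10 := congrArg Matrix.det h7
    rw [Matrix.det_mul, Matrix.det_mul, Matrix.det_transpose, Matrix.det_diagonal, Finset.prod_mul_distrib, Finset.prod_const, Finset.card_univ, Fintype.card_fin] at h10
    have h11 : ((lq ((List.finRange n).map mk) : Fˣ) : F) = ∏ i, Q (v i) := by
      rw [lq_val, List.map_map, Fin.prod_univ_def]; rfl
    rw [h11, ← h10]; ring

end disc

end Cfsg.Agent.H17
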