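import Mathlib
import Cfsg.Agent.H17.ConfD
import Cfsg.Agent.H17.Spin5

set_option autoImplicit false

/-! Projective involutions in orthogonal similarity groups commute with a rotation of nonsquare spinor norm. -/

namespace Cfsg.Agent.H17

open Cfsg Cfsg.Agent.H5 Module
open scoped MatrixGroups Matrix

section quad

universe u
variable {F : Type u} [Field F] [Finite F] {V : Type*} [AddCommGroup V] [Module F V] [FiniteDimensional F V] {Q : QuadraticForm F V}

theorem exists_rho (h2 : (2 : F) ≠ 0) {c : F} (hc : ¬ IsSquare c) : ∃ (K : Type u) (_ : Field K) (_ : Finite K) (j : F →+* K) (ρ : K),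
    ρ * ρ = j c ∧ (∀ s t : F, j s + j t * ρ = 0 → s = 0 ∧ t = 0) ∧ (∀ θ : K, ∃ s t : F, θ = j s + j t * ρ) := by
  obtain ⟨K, _, _, hK⟩ := exists_quad_ext F
  haveI : FiniteDimensional F K := FiniteDimensional.of_finrank_eq_succ hK
  haveI : Finite K := Module.finite_of_finite F
  obtain ⟨ρ, hρ⟩ := sq_quad hK h2 c
  have hind : ∀ s t : F, algebraMap F K s + algebraMap F K t * ρ = 0 → s = 0 ∧ t = 0 := by
    intro s t h
    by_cases ht : t = 0
    · subst ht
      rw [map_zero, zero_mul, add_zero] at h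
      exact ⟨(map_eq_zero _).mp h, rfl⟩
    · exfalso
      apply hc
      refine ⟨s / t, ?_⟩
      apply (algebraMap F K).injective
      have ht' : algebraMap F K t ≠ 0 := fun h0 => ht ((map_eq_zero _).mp h0)
      have hr : ρ = -(algebraMap F K s / algebraMap F K t) := by
        field_simp
        linear_combination h
      rw [hρ, hr, map_mul, map_div₀]; ring
  refine ⟨K, inferInstance, inferInstance, algebraMap F K, ρ, hρ.symm, hind, ?_⟩
  let L : (F × F) →ₗ[F] K := LinearMap.coprod (Algebra.linearMap F K) ((LinearMap.mulRight F ρ).comp (Algebra.linearMap F K))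
  have hL : ∀ s t, L (s, t) = algebraMap F K s + algebraMap F K t * ρ := fun s t => by
    rw [LinearMap.coprod_apply]; rfl
  have hinj : Function.Injective L := by
    rw [injective_iff_map_eq_zero]
    rintro ⟨s, t⟩ h
    rw [hL] at h
    obtain ⟨rfl, rfl⟩ := hind s t h
    rfl
  have hfr : finrank F (F × F) = finrank F K := by rw [Module.finrank_prod, Module.finrank_self, hK]
  have hsurj := (LinearMap.injective_iff_surjective_of_finrank_eq_finrank hfr).mp hinj
  intro θ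
  obtain ⟨⟨s, t⟩, h⟩ := hsurj θ
  exact ⟨s, t, by rw [← h, hL]⟩

omit [Finite F] [FiniteDimensional F V] in
theorem sim_pB {c : F} {g : V →ₗ[F] V} (hg : ∀ x, Q (g x) = c * Q x) (x y : V) : pB Q (g x) (g y) = c * pB Q x y := by
  rw [pB_apply, pB_apply, QuadraticMap.polar, QuadraticMap.polar, ← map_add, hg, hg, hg]; ring

theorem exists_w (h2 : (2 : F) ≠ 0) (hnd : ND Q) (hn : 3 ≤ finrank F V) {c : F} (hc : ¬ IsSquare c)
    (g : V →ₗ[F] V) (hg2 : ∀ x, g (g x) = c • x) (hg : ∀ x, Q (g x) = c * Q x) : ∃ w, Q w ≠ 0 ∧ pB Q w (g w) = 0 := by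
  have hc0 : c ≠ 0 := by rintro rfl; exact hc IsSquare.zero
  obtain ⟨K, _, _, j, ρ, hρ, hind, hrep⟩ := exists_rho h2 hc
  have hsa : ∀ x y, pB Q (g x) y = pB Q x (g y) := by
    intro x y
    have h1 := sim_pB hg x (g y)
    rw [hg2, pr_smul] at h1
    exact mul_left_cancel₀ hc0 h1
  have hBg : ∀ x y, pB Q (g x) (g y) = c * pB Q x y := sim_pB hg
  let κ : V → K := fun v => j (pB Q v (g v)) + j (2 * Q v) * ρ
  have hκ1 : ∀ (s t : F) (v : V), κ (s • v + t • g v) = (j s + j t * ρ) * (j s + j t * ρ) * κ v := by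
    intro s t v
    have e1 : pB Q (s • v + t • g v) (g (s • v + t • g v)) = (s * s + c * (t * t)) * pB Q v (g v) + 4 * c * s * t * Q v := by
      have eg : g (s • v + t • g v) = s • g v + (t * c) • v := by
        rw [LinearMap.map_add, LinearMap.map_smul, LinearMap.map_smul, hg2, smul_smul]
      rw [eg]
      simp only [pl_add, pl_smul, pr_add, pr_smul]
      rw [pB_self, hg, pB_self, hsa v v]
      ring
    have e2 : Q (s • v + t • g v) = (s * s + c * (t * t)) * Q v + s * t * pB Q v (g v) := by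
      rw [q_add, q_smul, q_smul, hg, pl_smul, pr_smul]; ring
    show j (pB Q (s • v + t • g v) (g (s • v + t • g v))) + j (2 * Q (s • v + t • g v)) * ρ = _ * (j (pB Q v (g v)) + j (2 * Q v) * ρ)
    rw [e1, e2]
    simp only [map_add, map_mul]
    have h4 : j (4 : F) = 4 := map_ofNat j 4
    have h22 : j (2 : F) = 2 := map_ofNat j 2
    rw [h4, h22, ← hρ]
    ring
  have hκ2 : ∀ u v, pB Q u v = 0 → pB Q u (g v) = 0 → κ (u + v) = κ u + κ v := by
    intro u v h1 h3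
    have h5 : pB Q v (g u) = 0 := by rw [pB_symm, hsa, h3]
    show j (pB Q (u + v) (g (u + v))) + j (2 * Q (u + v)) * ρ = (j (pB Q u (g u)) + j (2 * Q u) * ρ) + (j (pB Q v (g v)) + j (2 * Q v) * ρ)
    have eg : g (u + v) = g u + g v := LinearMap.map_add g u v
    rw [eg, q_add, h1, pl_add, pr_add, pr_add, h3, h5]
    simp only [map_add, map_mul, map_zero]
    ring
  have hκ0 : ∀ v, Q v ≠ 0 → κ v ≠ 0 := by
    intro v hv h
    have := (hind _ _ h).2
    exact mul_ne_zero h2 hv this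
  obtain ⟨w₁, hw₁⟩ := exists_ne_q hnd (by omega)
  have hD : 4 * c * (Q w₁ * Q w₁) - pB Q w₁ (g w₁) * pB Q w₁ (g w₁) ≠ 0 := by
    intro h
    apply hc
    refine ⟨pB Q w₁ (g w₁) / (2 * Q w₁), ?_⟩
    field_simp
    linear_combination h
  set P := Submodule.span F {w₁, g w₁} with hP
  have hNDS : NDS Q P := by
    intro x hx h
    rw [hP, Submodule.mem_span_pair] at hx
    obtain ⟨α, β, rfl⟩ := hx
    have h3 := h w₁ (by rw [hP]; exact Submodule.subset_span (by simp))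
    have h4 := h (g w₁) (by rw [hP]; exact Submodule.subset_span (by simp))
    rw [pl_add, pl_smul, pl_smul, pB_self, hsa] at h3
    rw [pl_add, pl_smul, pl_smul, hBg, pB_self] at h4
    have hα : α * (4 * c * (Q w₁ * Q w₁) - pB Q w₁ (g w₁) * pB Q w₁ (g w₁)) = 0 := by
      linear_combination (2 * c * Q w₁) * h3 - pB Q w₁ (g w₁) * h4
    have hβ : β * (4 * c * (Q w₁ * Q w₁) - pB Q w₁ (g w₁) * pB Q w₁ (g w₁)) = 0 := by
      linear_combination (2 * Q w₁) * h4 - pB Q w₁ (g w₁) * h3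
    rw [(mul_eq_zero.mp hα).resolve_right hD, (mul_eq_zero.mp hβ).resolve_right hD, zero_smul, zero_smul, add_zero]
  have hfr := finrank_oc hnd P
  have hP2 : finrank F P ≤ 2 := by
    classical
    have := finrank_span_finset_le_card (R := F) ({w₁, g w₁} : Finset V)
    rw [Finset.coe_pair] at this
    exact this.trans Finset.card_le_two
  obtain ⟨w₂, hw₂P, hw₂⟩ := (hNDS.oc hnd).exists_q (by
    intro h
    rw [h, finrank_bot] at hfr
    omega)
  have o1 : pB Q w₁ w₂ = 0 := mem_oc.mp hw₂P w₁ (by rw [hP]; exact Submodule.subset_span (by simp))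
  have o2 : pB Q (g w₁) w₂ = 0 := mem_oc.mp hw₂P (g w₁) (by rw [hP]; exact Submodule.subset_span (by simp))
  have h2K : (2 : K) ≠ 0 := by
    have : j (2 : F) = 2 := map_ofNat j 2
    rw [← this]
    exact fun h => h2 ((map_eq_zero j).mp h)
  obtain ⟨x, y, hxy⟩ := diag_univ h2K (hκ0 w₁ hw₁) (hκ0 w₂ hw₂) ρ
  obtain ⟨s₁, t₁, rfl⟩ := hrep x
  obtain ⟨s₂, t₂, rfl⟩ := hrep y
  refine ⟨(s₁ • w₁ + t₁ • g w₁) + (s₂ • w₂ + t₂ • g w₂), ?_⟩
  have o1' : pB Q w₁ (g w₂) = 0 := by rw [← hsa]; exact o2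
  have o2' : pB Q (g w₁) (g w₂) = 0 := by rw [hBg, o1, mul_zero]
  have hk : κ ((s₁ • w₁ + t₁ • g w₁) + (s₂ • w₂ + t₂ • g w₂)) = ρ := by
    rw [hκ2, hκ1, hκ1]
    · linear_combination hxy
    · simp only [pl_add, pl_smul, pr_add, pr_smul, o1, o1', o2, o2', mul_zero, add_zero]
    · have eg : g (s₂ • w₂ + t₂ • g w₂) = s₂ • g w₂ + (t₂ * c) • w₂ := by
        rw [LinearMap.map_add, LinearMap.map_smul, LinearMap.map_smul, hg2, smul_smul]
      rw [eg]
      simp only [pl_add, pl_smul, pr_add, pr_smul, o1, o1', o2, o2', mul_zero, add_zero]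
  have hk' : j (pB Q ((s₁ • w₁ + t₁ • g w₁) + (s₂ • w₂ + t₂ • g w₂)) (g ((s₁ • w₁ + t₁ • g w₁) + (s₂ • w₂ + t₂ • g w₂)))) +
      j (2 * Q ((s₁ • w₁ + t₁ • g w₁) + (s₂ • w₂ + t₂ • g w₂)) - 1) * ρ = 0 := by
    have : κ ((s₁ • w₁ + t₁ • g w₁) + (s₂ • w₂ + t₂ • g w₂)) = j (pB Q ((s₁ • w₁ + t₁ • g w₁) + (s₂ • w₂ + t₂ • g w₂)) (g ((s₁ • w₁ + t₁ • g w₁) + (s₂ • w₂ + t₂ • g w₂)))) +
      j (2 * Q ((s₁ • w₁ + t₁ • g w₁) + (s₂ • w₂ + t₂ • g w₂))) * ρ := rfl
    rw [map_sub, map_one]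
    linear_combination hk - this
  obtain ⟨h5, h6⟩ := hind _ _ hk'
  refine ⟨fun h0 => ?_, h5⟩
  rw [h0, mul_zero, zero_sub, neg_eq_zero] at h6
  exact one_ne_zero h6

end quad

section refl2

variable {F V : Type*} [Field F] [AddCommGroup V] [Module F V] {Q : QuadraticForm F V}

/-- two orthogonal reflections -/
theorem refl_orth {a b : V} (ha : Q a ≠ 0) (hb : Q b ≠ 0) (hab : pB Q a b = 0) (x : V) :
    refl ha (refl hb x) = x - ((Q a)⁻¹ * pB Q a x) • a - ((Q b)⁻¹ * pB Q b x) • b := by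
  rw [refl_apply, refl_apply, pr_sub, pr_smul, hab]
  module

theorem refl_orth_comm {a b : V} (ha : Q a ≠ 0) (hb : Q b ≠ 0) (hab : pB Q a b = 0) : refl ha * refl hb = refl hb * refl ha := by
  apply og_ext
  intro x
  rw [og_mul, og_mul, refl_orth ha hb hab, refl_orth hb ha (by rw [pB_symm]; exact hab)]
  module

theorem ssc_comm (p : SSG Q) (hp : p.1.2 = 1) (c : Fˣ) : scSS Q c * p = p * scSS Q c := by
  apply ss_ext
  · intro x
    show c • p.1.1 x = p.1.1 (c • x)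
    rw [Units.smul_def, Units.smul_def, ss_smul, hp]; rfl
  · show 1 * p.1.2 = p.1.2 * 1
    rw [one_mul, mul_one]

/-- conjugating a product of two reflections -/
theorem conj_two (p : SSG Q) {u v : V} (hu : Q u ≠ 0) (hv : Q v ≠ 0) (h : refl (ss_refl_ne p hu) * refl (ss_refl_ne p hv) = refl hu * refl hv) :
    p * ogSS Q (refl hu * refl hv) = ogSS Q (refl hu * refl hv) * p := by
  have h1 : p * ogSS Q (refl hu * refl hv) * p⁻¹ = ogSS Q (refl hu * refl hv) := by
    rw [map_mul]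
    have : p * (ogSS Q (refl hu) * ogSS Q (refl hv)) * p⁻¹ = (p * ogSS Q (refl hu) * p⁻¹) * (p * ogSS Q (refl hv) * p⁻¹) := by group
    rw [this, ss_conj_refl, ss_conj_refl, ← map_mul, h, map_mul]
  calc p * ogSS Q (refl hu * refl hv) = (p * ogSS Q (refl hu * refl hv) * p⁻¹) * p := by group
    _ = _ := by rw [h1]

theorem refl_eq_of_eq {u v : V} (hu : Q u ≠ 0) (hv : Q v ≠ 0) (h : u = v) : refl hu = refl hv := by
  subst h; rfl

theorem refl_eq_of_smul {u v : V} (hu : Q u ≠ 0) (hv : Q v ≠ 0) {a : F} (ha : a ≠ 0) (h : u = a • v) : refl hu = refl hv := by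
  subst h
  exact refl_smul ha hv hu

end refl2

section zl

universe u
variable {F : Type u} [Field F] [Finite F] {V : Type*} [AddCommGroup V] [Module F V] [FiniteDimensional F V] {Q : QuadraticForm F V}

/-- the conclusion -/
def ZC (Q : QuadraticForm F V) (p : SSG Q) : Prop := ∃ (u v : V) (hu : Q u ≠ 0) (hv : Q v ≠ 0), ¬ IsSquare (Q u * Q v) ∧
  p * ogSS Q (refl hu * refl hv) = ogSS Q (refl hu * refl hv) * p

theorem zl_iso (h2 : (2 : F) ≠ 0) (hnd : ND Q) (hn : 3 ≤ finrank F V) {p : SSG Q} (hp1 : p.1.2 = 1) (hpp : ∀ x, p.1.1 (p.1.1 x) = x)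
    (hκ : ∀ x, Q (p.1.1 x) = Q x) : ZC Q p := by
  have hB : ∀ x y, pB Q (p.1.1 x) (p.1.1 y) = pB Q x y := by
    intro x y
    rw [pB_apply, pB_apply, QuadraticMap.polar, QuadraticMap.polar, ← ss_add, hκ, hκ, hκ]
  have hsm : ∀ (a : F) x, p.1.1 (a • x) = a • p.1.1 x := fun a x => by rw [ss_smul, hp1]; rfl
  let L : V →ₗ[F] V := { toFun := p.1.1, map_add' := ss_add p, map_smul' := hsm }
  let W := LinearMap.ker (L - LinearMap.id)
  have hW : ∀ x, x ∈ W ↔ p.1.1 x = x := by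
    intro x
    rw [LinearMap.mem_ker, LinearMap.sub_apply, sub_eq_zero]; rfl
  have hneg : ∀ x ∈ oc Q W, p.1.1 x = -x := by
    intro x hx
    have h1 : x + p.1.1 x ∈ W := by rw [hW, ss_add, hpp, add_comm]
    have h3 : x + p.1.1 x = 0 := by
      apply hnd
      intro y
      have h4 : pB Q (x + p.1.1 x) y = pB Q x (y + p.1.1 y) := by
        rw [pl_add, pr_add]
        congr 1
        rw [← hB, hpp]
      rw [h4, pB_symm]
      exact mem_oc.mp hx _ (by rw [hW, ss_add, hpp, add_comm])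
    rw [eq_neg_iff_add_eq_zero, add_comm]; exact h3
  have hNDS : NDS Q W := by
    intro x hx h
    apply hnd
    intro y
    have h1 : y + p.1.1 y ∈ W := by rw [hW, ss_add, hpp, add_comm]
    have h3 := h _ h1
    have h4 : pB Q x (p.1.1 y) = pB Q x y := by
      conv_lhs => rw [← (hW x).mp hx]
      rw [hB]
    rw [pr_add, h4, ← two_mul] at h3
    exact (mul_eq_zero.mp h3).resolve_left h2
  have hfr := finrank_oc hnd W
  have key : ∀ u v : V, (p.1.1 u = u ∧ p.1.1 v = v ∨ p.1.1 u = -u ∧ p.1.1 v = -v) → Q u ≠ 0 → Q v ≠ 0 → ¬ IsSquare (Q u * Q v) → ZC Q p := by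
    intro u v h hu hv hns
    refine ⟨u, v, hu, hv, hns, conj_two p hu hv ?_⟩
    rcases h with ⟨h1, h3⟩ | ⟨h1, h3⟩
    · rw [refl_eq_of_eq (ss_refl_ne p hu) hu h1, refl_eq_of_eq (ss_refl_ne p hv) hv h3]
    · rw [refl_eq_of_smul (ss_refl_ne p hu) hu (a := -1) (neg_ne_zero.mpr one_ne_zero) (by rw [h1, neg_smul, one_smul]),
        refl_eq_of_smul (ss_refl_ne p hv) hv (a := -1) (neg_ne_zero.mpr one_ne_zero) (by rw [h3, neg_smul, one_smul])]
  by_cases h3 : 2 ≤ finrank F W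
  · obtain ⟨u, hu, v, hv, a1, a2, a3⟩ := exists_nonsq_pair h2 hNDS h3
    exact key u v (Or.inl ⟨(hW u).mp hu, (hW v).mp hv⟩) a1 a2 a3
  · obtain ⟨u, hu, v, hv, a1, a2, a3⟩ := exists_nonsq_pair h2 (hNDS.oc hnd) (by omega)
    exact key u v (Or.inr ⟨hneg u hu, hneg v hv⟩) a1 a2 a3

theorem zl_skew1 (h2 : (2 : F) ≠ 0) (hnd : ND Q) (hn : 1 ≤ finrank F V) {p : SSG Q} (hp1 : p.1.2 = 1) (hpp : ∀ x, p.1.1 (p.1.1 x) = x)
    (hκ : ∀ x, Q (p.1.1 x) = -Q x) : ZC Q p := by
  have hB : ∀ x y, pB Q (p.1.1 x) (p.1.1 y) = -pB Q x y := by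
    intro x y
    rw [pB_apply, pB_apply, QuadraticMap.polar, QuadraticMap.polar, ← ss_add, hκ, hκ, hκ]; ring
  have h2' : ∀ a : F, a = -a → a = 0 := fun a h => by
    have : 2 * a = 0 := by linear_combination h
    exact (mul_eq_zero.mp this).resolve_left h2
  -- e with p e = e
  obtain ⟨x, hx⟩ := exists_ne_q hnd hn
  have he0 : x + p.1.1 x ≠ 0 := by
    intro h
    have h1 : p.1.1 x = -x := by rw [eq_neg_iff_add_eq_zero, add_comm]; exact h
    have h3 := hκ x
    rw [h1, q_neg] at h3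
    exact hx (h2' _ h3)
  set e := x + p.1.1 x with he
  have hpe : p.1.1 e = e := by rw [he, ss_add, hpp, add_comm]
  have hQe : Q e = 0 := h2' _ (by have := hκ e; rwa [hpe] at this)
  obtain ⟨y, hy⟩ := hnd.one he0
  have hsm : ∀ (a : F) x, p.1.1 (a • x) = a • p.1.1 x := fun a x => by rw [ss_smul, hp1]; rfl
  set f := (2 : F)⁻¹ • (y - p.1.1 y) with hf
  have hpf : p.1.1 f = -f := by
    rw [hf, hsm, ss_sub, hpp, ← smul_neg, neg_sub]
  have hQf : Q f = 0 := h2' _ (by have := hκ f; rwa [hpf, q_neg] at this)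
  have hef : pB Q e f = 1 := by
    have h1 : pB Q e (p.1.1 y) = -pB Q e y := by
      conv_lhs => rw [← hpe]
      rw [hB]
    rw [hf, pr_smul, pr_sub, h1, hy]
    field_simp; ring
  obtain ⟨d, hd⟩ := exists_nonsq h2
  have hd0 : d ≠ 0 := by rintro rfl; exact hd IsSquare.zero
  have q1 : ∀ t : F, Q (e - t • f) = -t := by
    intro t
    rw [sub_eq_add_neg, q_add, hQe, q_neg, q_smul, hQf, pr_neg, pr_smul, hef]; ring
  have hu : Q (e - (1 : F) • f) ≠ 0 := by rw [q1]; exact neg_ne_zero.mpr one_ne_zero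
  have hv : Q (e - d • f) ≠ 0 := by rw [q1]; exact neg_ne_zero.mpr hd0
  refine ⟨e - (1 : F) • f, e - d • f, hu, hv, ?_, conj_two p hu hv ?_⟩
  · rw [q1, q1]
    rintro ⟨s, hs⟩
    exact hd ⟨s, by linear_combination hs⟩
  · have e1 : ∀ t : F, p.1.1 (e - t • f) = e - (-t) • f := by
      intro t
      rw [ss_sub, hsm, hpe, hpf]; module
    have q2 : ∀ t : F, Q (e - (-t) • f) = t := by intro t; rw [q1, neg_neg]
    rw [refl_eq_of_eq (ss_refl_ne p hu) (v := e - (-1 : F) • f) (by rw [q2]; exact one_ne_zero) (e1 1),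
      refl_eq_of_eq (ss_refl_ne p hv) (v := e - (-d) • f) (by rw [q2]; exact hd0) (e1 d)]
    apply og_ext
    intro z
    have hfe : pB Q f e = 1 := by rw [pB_symm, hef]
    have hee : pB Q e e = 0 := by rw [pB_self, hQe, mul_zero]
    have hff : pB Q f f = 0 := by rw [pB_self, hQf, mul_zero]
    rw [og_mul, og_mul, refl_apply, refl_apply, refl_apply, refl_apply]
    simp only [q1, pl_sub, pl_smul, pr_sub, pr_smul, hef, hfe, hee, hff]
    match_scalars <;> field_simp <;> ring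

theorem zl_self (h2 : (2 : F) ≠ 0) (hnd : ND Q) (hn : 3 ≤ finrank F V) {c : F} (hc : ¬ IsSquare c) {p : SSG Q} (hp1 : p.1.2 = 1)
    (hpp : ∀ x, p.1.1 (p.1.1 x) = c • x) (hκ : ∀ x, Q (p.1.1 x) = c * Q x) : ZC Q p := by
  have hc0 : c ≠ 0 := by rintro rfl; exact hc IsSquare.zero
  have hsm : ∀ (a : F) x, p.1.1 (a • x) = a • p.1.1 x := fun a x => by rw [ss_smul, hp1]; rfl
  let L : V →ₗ[F] V := { toFun := p.1.1, map_add' := ss_add p, map_smul' := hsm }
  obtain ⟨w, hw, hw'⟩ := exists_w h2 hnd hn hc L hpp hκ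
  have hv : Q (p.1.1 w) ≠ 0 := by rw [hκ]; exact mul_ne_zero hc0 hw
  refine ⟨w, p.1.1 w, hw, hv, ?_, conj_two p hw hv ?_⟩
  · rw [hκ]
    have : Q w * (c * Q w) = (Q w * Q w) * c := by ring
    rw [this]
    exact sq_mul_nonsq ⟨Q w, rfl⟩ (mul_ne_zero hw hw) hc
  · rw [refl_eq_of_smul (ss_refl_ne p hv) hw hc0 (hpp w)]
    exact refl_orth_comm _ _ (by rw [pB_symm]; exact hw')

theorem zl_skew2 (h2 : (2 : F) ≠ 0) (hnd : ND Q) (hn : 1 ≤ finrank F V) {c : F} (hc : ¬ IsSquare c) {p : SSG Q} (hp1 : p.1.2 = 1)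
    (hpp : ∀ x, p.1.1 (p.1.1 x) = c • x) (hκ : ∀ x, Q (p.1.1 x) = -c * Q x) : ZC Q p := by
  have hc0 : c ≠ 0 := by rintro rfl; exact hc IsSquare.zero
  have hsm : ∀ (a : F) x, p.1.1 (a • x) = a • p.1.1 x := fun a x => by rw [ss_smul, hp1]; rfl
  have hB : ∀ x y, pB Q (p.1.1 x) (p.1.1 y) = -c * pB Q x y := by
    intro x y
    rw [pB_apply, pB_apply, QuadraticMap.polar, QuadraticMap.polar, ← ss_add, hκ, hκ, hκ]; ring
  have hB0 : ∀ x, pB Q x (p.1.1 x) = 0 := by
    intro x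
    have h1 := hB x (p.1.1 x)
    rw [hpp, pr_smul, pB_symm] at h1
    have : 2 * c * pB Q x (p.1.1 x) = 0 := by linear_combination h1
    exact (mul_eq_zero.mp this).resolve_left (mul_ne_zero h2 hc0)
  obtain ⟨x, hx⟩ := exists_ne_q hnd hn
  obtain ⟨d, hd⟩ := exists_nonsq h2
  have hd0 : d ≠ 0 := by rintro rfl; exact hd IsSquare.zero
  obtain ⟨s, t, hst⟩ := diag_univ h2 (one_ne_zero (α := F)) (neg_ne_zero.mpr hc0) d
  set y := s • x + t • p.1.1 x with hy
  have hQy : Q y = d * Q x := by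
    rw [hy, q_add, q_smul, q_smul, hκ, pl_smul, pr_smul, hB0]
    linear_combination Q x * hst
  have hpy : p.1.1 y = s • p.1.1 x + (t * c) • x := by
    rw [hy, ss_add, hsm, hsm, hpp, smul_smul]
  have hyn : Q y ≠ 0 := by rw [hQy]; exact mul_ne_zero hd0 hx
  refine ⟨x, y, hx, hyn, ?_, conj_two p hx hyn ?_⟩
  · rw [hQy]
    have : Q x * (d * Q x) = (Q x * Q x) * d := by ring
    rw [this]
    exact sq_mul_nonsq ⟨Q x, rfl⟩ (mul_ne_zero hx hx) hd
  · -- the common involution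
    have hN : refl hx * refl (ss_refl_ne p hx) = refl hyn * refl (ss_refl_ne p hyn) := by
      apply og_ext
      intro z
      rw [og_mul, og_mul, refl_orth hx (ss_refl_ne p hx) (hB0 x), refl_orth hyn (ss_refl_ne p hyn) (hB0 y), hκ, hκ, hQy, hpy]
      have hyz : pB Q y z = s * pB Q x z + t * pB Q (p.1.1 x) z := by rw [hy, pl_add, pl_smul, pl_smul]
      rw [hyz, hy]
      simp only [pl_add, pl_smul]
      have hd' : s ^ 2 - t ^ 2 * c = d := by linear_combination hst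
      rw [← hd'] at hd0 ⊢
      have hd5 : s ^ 2 - c * t ^ 2 ≠ 0 := by rw [mul_comm c]; exact hd0
      match_scalars <;> field_simp <;> ring
    have h3 : H5.refl (ss_refl_ne p hx) = H5.refl hx * (H5.refl hx * H5.refl (ss_refl_ne p hx)) := by
      rw [← mul_assoc, refl_mul_self, one_mul]
    have h4 : H5.refl (ss_refl_ne p hyn) = (H5.refl hyn * H5.refl (ss_refl_ne p hyn)) * H5.refl hyn := by
      rw [refl_orth_comm hyn (ss_refl_ne p hyn) (hB0 y), mul_assoc, refl_mul_self, mul_one]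
    rw [h3, h4, hN]
    have h5 : (H5.refl hyn * H5.refl (ss_refl_ne p hyn)) * (H5.refl hyn * H5.refl (ss_refl_ne p hyn)) = 1 := by
      have hcc := refl_orth_comm hyn (ss_refl_ne p hyn) (hB0 y)
      calc (H5.refl hyn * H5.refl (ss_refl_ne p hyn)) * (H5.refl hyn * H5.refl (ss_refl_ne p hyn)) =
          (H5.refl hyn * H5.refl (ss_refl_ne p hyn)) * (H5.refl (ss_refl_ne p hyn) * H5.refl hyn) := by rw [← hcc]
        _ = H5.refl hyn * (H5.refl (ss_refl_ne p hyn) * H5.refl (ss_refl_ne p hyn)) * H5.refl hyn := by group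
        _ = 1 := by rw [refl_mul_self, mul_one, refl_mul_self]
    calc H5.refl hx * (H5.refl hyn * H5.refl (ss_refl_ne p hyn)) * (H5.refl hyn * H5.refl (ss_refl_ne p hyn) * H5.refl hyn) =
        H5.refl hx * ((H5.refl hyn * H5.refl (ss_refl_ne p hyn)) * (H5.refl hyn * H5.refl (ss_refl_ne p hyn))) * H5.refl hyn := by group
      _ = H5.refl hx * H5.refl hyn := by rw [h5, mul_one]

/-- every projective involution commutes with a rotation of nonsquare spinor norm -/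
theorem z_lemma (h2 : (2 : F) ≠ 0) (hnd : ND Q) (hn : 3 ≤ finrank F V) {p : SSG Q} (hp1 : p.1.2 = 1) {c : Fˣ} (hpc : p * p = scSS Q c) : ZC Q p := by
  have hne : ∃ x, Q x ≠ 0 := exists_ne_q hnd (by omega)
  have hpp : ∀ x, p.1.1 (p.1.1 x) = (c : F) • x := fun x => congrArg (fun q : SSG Q => q.1.1 x) hpc
  have hQ : ∀ x, Q (p.1.1 x) = ssK p * Q x := fun x => by rw [ss_Q, hp1]; rfl
  have hκ : (ssK p : F) * ssK p = c * c := by
    obtain ⟨x, hx⟩ := hne
    have h1 : Q (p.1.1 (p.1.1 x)) = Q ((c : F) • x) := by rw [hpp]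
    rw [hQ, hQ, q_smul, ← mul_assoc] at h1
    exact mul_right_cancel₀ hx h1
  have hκ' : (ssK p : F) = c ∨ (ssK p : F) = -c := mul_self_eq_mul_self_iff.mp hκ
  by_cases hsq : IsSquare (c : F)
  · obtain ⟨d, hd⟩ := hsq
    have hd0 : d ≠ 0 := by rintro rfl; rw [mul_zero] at hd; exact c.ne_zero hd
    set δ : Fˣ := Units.mk0 d hd0 with hδ
    set p' := scSS Q δ⁻¹ * p with hp'
    have hp'1 : p'.1.2 = 1 := hp1
    have ha : ∀ x, p'.1.1 x = d⁻¹ • p.1.1 x := fun x => by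
      show (δ⁻¹ : Fˣ) • p.1.1 x = _
      rw [Units.smul_def, Units.val_inv_eq_inv_val]; rfl
    have hpp' : ∀ x, p'.1.1 (p'.1.1 x) = x := by
      intro x
      rw [ha, ha, ss_smul, hp1]
      show d⁻¹ • d⁻¹ • p.1.1 (p.1.1 x) = x
      rw [hpp, smul_smul, smul_smul, hd]
      have : d⁻¹ * d⁻¹ * (d * d) = 1 := by field_simp
      rw [this, one_smul]
    have hZ : ZC Q p' := by
      rcases hκ' with h | h
      · refine zl_iso h2 hnd hn hp'1 hpp' (fun x => ?_)
        rw [ha, q_smul, hQ, h, hd]; field_simp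
      · refine zl_skew1 h2 hnd (by omega) hp'1 hpp' (fun x => ?_)
        rw [ha, q_smul, hQ, h, hd]; field_simp
    obtain ⟨u, v, hu, hv, hns, hc⟩ := hZ
    refine ⟨u, v, hu, hv, hns, ?_⟩
    have hpe : p = scSS Q δ * p' := by rw [hp', ← mul_assoc, ← map_mul, mul_inv_cancel, map_one, one_mul]
    calc p * ogSS Q (H5.refl hu * H5.refl hv) = scSS Q δ * (p' * ogSS Q (H5.refl hu * H5.refl hv)) := by rw [← mul_assoc, ← hpe]
      _ = scSS Q δ * (ogSS Q (H5.refl hu * H5.refl hv) * p') := by rw [hc]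
      _ = ogSS Q (H5.refl hu * H5.refl hv) * (scSS Q δ * p') := by
        rw [← mul_assoc, ssc_comm (ogSS Q (H5.refl hu * H5.refl hv)) rfl δ, mul_assoc]
      _ = _ := by rw [← hpe]
  · rcases hκ' with h | h
    · exact zl_self h2 hnd hn hsq hp1 hpp (fun x => by rw [hQ, h])
    · exact zl_skew2 h2 hnd (by omega) hsq hp1 hpp (fun x => by rw [hQ, h])

end zl

end Cfsg.Agent.H17
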