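import Mathlib
import Cfsg.Agent.H17.InvZ

set_option autoImplicit false

/-! Splitting of classes of involutory graph automorphisms of orthogonal groups. -/

namespace Cfsg.Agent.H17

open Cfsg Cfsg.Agent.H5 Module
open scoped MatrixGroups Matrix

section det

universe v
variable {F : Type*} [Field F]

theorem det_sq_nonsq {c : F} (hc : ¬ IsSquare c) : ∀ (k : ℕ) {V : Type v} [AddCommGroup V] [Module F V] [FiniteDimensional F V]
    (L : V →ₗ[F] V) (_ : ∀ x, L (L x) = c • x) (_ : finrank F V = 2 * k), LinearMap.det L = (-c) ^ k := by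
  intro k
  induction k with
  | zero =>
    intro V _ _ _ L hL hk
    rw [mul_zero] at hk
    rw [pow_zero, LinearMap.det_eq_one_of_finrank_eq_zero hk]
  | succ k ih =>
    intro V _ _ _ L hL hk
    haveI : Nontrivial V := Module.nontrivial_of_finrank_pos (R := F) (by omega)
    obtain ⟨v, hv⟩ := exists_ne (0 : V)
    have hli : LinearIndependent F ![v, L v] := by
      rw [LinearIndependent.pair_iff]
      intro s t h
      by_cases ht : t = 0
      · subst ht
        rw [zero_smul, add_zero] at h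
        exact ⟨(smul_eq_zero.mp h).resolve_right hv, rfl⟩
      · exfalso
        have h1 : L v = (-(s / t)) • v := by
          have : t • L v = -(s • v) := by rw [eq_neg_iff_add_eq_zero, add_comm]; exact h
          calc L v = t⁻¹ • (t • L v) := by rw [smul_smul, inv_mul_cancel₀ ht, one_smul]
            _ = _ := by rw [this, smul_neg, smul_smul, neg_smul]; congr 2; field_simp
        have h3 := hL v
        rw [h1, LinearMap.map_smul, h1, smul_smul] at h3
        have h4 : (-(s / t) * -(s / t) - c) • v = 0 := by rw [sub_smul, h3, sub_self]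
        have h5 := (smul_eq_zero.mp h4).resolve_right hv
        exact hc ⟨-(s / t), by linear_combination -h5⟩
    set W := Submodule.span F (Set.range ![v, L v]) with hW
    let b : Basis (Fin 2) F W := Basis.span hli
    have hb0 : (b 0 : V) = v := by
      show ((Basis.span hli 0 : W) : V) = v
      rw [Basis.span_apply]; rfl
    have hb1 : (b 1 : V) = L v := by
      show ((Basis.span hli 1 : W) : V) = L v
      rw [Basis.span_apply]; rfl
    have he : W ≤ W.comap L := by
      rw [hW, Submodule.span_le]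
      rintro _ ⟨i, rfl⟩
      fin_cases i
      · exact Submodule.subset_span ⟨1, rfl⟩
      · show L (L v) ∈ W
        rw [hL]
        exact W.smul_mem _ (Submodule.subset_span ⟨0, rfl⟩)
    rw [LinearMap.det_eq_det_mul_det W L he]
    have hfW : finrank F W = 2 := by rw [Module.finrank_eq_card_basis b, Fintype.card_fin]
    have hfQ : finrank F (V ⧸ W) = 2 * k := by
      have := Submodule.finrank_quotient_add_finrank W
      omega
    have h1 : LinearMap.det (L.restrict he) = -c := by
      have f0 : L.restrict he (b 0) = b 1 := Subtype.ext (by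
        show L (b 0 : V) = (b 1 : V)
        rw [hb0, hb1])
      have f1 : L.restrict he (b 1) = c • b 0 := Subtype.ext (by
        show L (b 1 : V) = c • (b 0 : V)
        rw [hb0, hb1, hL])
      rw [← LinearMap.det_toMatrix b, Matrix.det_fin_two]
      simp only [LinearMap.toMatrix_apply, f0, f1, map_smul, Basis.repr_self, Finsupp.smul_apply, Finsupp.single_apply]
      simp
    rw [h1, ih (W.mapQ W L he) ?_ hfQ, pow_succ, mul_comm]
    intro x
    obtain ⟨y, rfl⟩ := W.mkQ_surjective x
    show W.mkQ (L (L y)) = c • W.mkQ y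
    rw [hL, map_smul]

end det

section split

universe u
variable {F : Type u} [Field F] [Finite F] {ι : Type} [Fintype ι] [DecidableEq ι] {Q : QuadraticForm F (ι → F)}
  {E : Subgroup (SSG Q)} {k : ℕ}

namespace CH

variable (H : CH Q E k)

include H

theorem nonsq_not_comm (hneg : ogNeg Q ∈ EG Q) {h p : SSG Q} (hh : h ∈ E) (hns : ¬ IsSquare (ssK h : F)) (hp1 : p.1.2 = 1) (hp : p ∉ E) :
    outE Q h * outE Q p ≠ outE Q p * outE Q h := by
  intro hcomm
  obtain ⟨u, v, R⟩ := H.rd
  have hh1 := H.P.le h hh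
  have hδ := R.swap_u h hh1 hns
  have hδv := R.swap_v h hh1 hns
  have hz1 := R.uv_ne_one hneg
  set t := oG Q (H5.refl R.hu) with ht
  set w := oG Q (H5.refl R.hv) with hw
  set δ := outE Q h with hδd
  have htt : t * t = 1 := R.sq_u
  have htw : t * w = w * t := R.comm
  have hδt : δ * t = w * δ := by rw [← hδ]; group
  have hδw : δ * w = t * δ := by rw [← hδv]; group
  have hδz : δ * (t * w) = (t * w) * δ := by
    rw [← mul_assoc, hδt, mul_assoc, hδw, ← mul_assoc, htw]
  have hsq : ∀ q ∈ E, IsSquare (ssK q : F) → outE Q q = 1 ∨ outE Q q = t * w := by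
    intro q hq hs
    obtain ⟨g, hg, hg2⟩ := (H.dgA_iff q (H.P.le q hq)).mpr ⟨hs, hq⟩
    have e1 : outE Q q = oG Q g := by
      rw [outE_apply, ← hg2]; rfl
    rw [e1]
    exact R.det_one (odet_dg hg)
  have hcE : ∀ q ∈ E, δ * outE Q q = outE Q q * δ := by
    intro q hq
    by_cases hs : IsSquare (ssK q : F)
    · rcases hsq q hq hs with h1 | h1
      · rw [h1, one_mul, mul_one]
      · rw [h1, hδz]
    · have h3 : IsSquare (ssK (h * q) : F) := by
        rw [ssK_mul H.ne, hh1]
        exact nonsq_mul H.h2 hns hs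
      have h4 : outE Q q = δ⁻¹ * outE Q (h * q) := by
        rw [map_mul, ← mul_assoc, inv_mul_cancel, one_mul]
      rcases hsq (h * q) (mul_mem hh hq) h3 with h1 | h1
      · rw [h4, h1, mul_one, mul_inv_cancel, inv_mul_cancel]
      · rw [h4, h1]
        have : δ⁻¹ * (t * w) = (t * w) * δ⁻¹ := by
          rw [inv_mul_eq_iff_eq_mul, ← mul_assoc, hδz, mul_assoc, mul_inv_cancel, mul_one]
        rw [this]
        calc δ * (t * w * δ⁻¹) = (δ * (t * w)) * δ⁻¹ := by group
          _ = (t * w * δ⁻¹) * δ := by rw [hδz]; group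
  have hpr : p * ogSS Q (H5.refl R.hu) ∈ E := by
    rw [H.P.mul _ _ hp1 rfl]
    exact ⟨fun h3 => absurd h3 hp, fun h3 => absurd h3 (H.P.refl u R.hu)⟩
  have h5 := hcE _ hpr
  rw [map_mul] at h5
  have e5 : outE Q (ogSS Q (H5.refl R.hu)) = t := rfl
  rw [e5] at h5
  have h6 : outE Q p * (δ * t) = outE Q p * (t * δ) := by
    calc outE Q p * (δ * t) = (outE Q p * δ) * t := by group
      _ = (δ * outE Q p) * t := by rw [hcomm]
      _ = δ * (outE Q p * t) := by group
      _ = _ := by rw [h5]; group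
  have h7 := mul_left_cancel h6
  rw [hδt] at h7
  have h8 := mul_right_cancel h7
  apply hz1
  rw [h8, htt]

theorem inn_le_E : Inn (PE Q) ≤ E.map (aE Q) := H.inn_le_dgA.trans H.dgA_le_E

theorem comm_out {h p : SSG Q} (hc : aE Q h * aE Q p = aE Q p * aE Q h) : outE Q h * outE Q p = outE Q p * outE Q h := by
  rw [outE_apply, outE_apply, ← QuotientGroup.mk_mul, hc, QuotientGroup.mk_mul]

theorem split_inv_pos (hneg : ogNeg Q ∈ EG Q) {p : SSG Q} (hp1 : p.1.2 = 1) (hp : p ∉ E) {c : Fˣ} (hpc : p * p = scSS Q c) :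
    splitClassCount (E.map (aE Q)) (Inn (PE Q)) (aE Q p) = 2 := by
  rw [splitClassCount_eq H.inn_le_E]
  have hL : Inn (PE Q) ⊔ (E.map (aE Q) ⊓ Subgroup.centralizer {aE Q p}) = dgA Q := by
    apply le_antisymm
    · refine sup_le H.inn_le_dgA ?_
      rintro _ ⟨⟨h, hh, rfl⟩, hc⟩
      have hc := Subgroup.mem_centralizer_singleton_iff.mp hc
      rw [H.dgA_iff h (H.P.le h hh)]
      refine ⟨?_, hh⟩
      by_contra hns
      exact H.nonsq_not_comm hneg hh hns hp1 hp (H.comm_out hc)
    · obtain ⟨u, v, hu, hv, hns, hcomm⟩ := z_lemma H.h2 H.nd (by have := H.hn; omega) hp1 hpc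
      have hz : aE Q (ogSS Q (H5.refl hu * H5.refl hv)) ∈ Inn (PE Q) ⊔ (E.map (aE Q) ⊓ Subgroup.centralizer {aE Q p}) := by
        apply Subgroup.mem_sup_right
        refine ⟨⟨_, H.P.dg (dg_mem hu hv), rfl⟩, Subgroup.mem_centralizer_singleton_iff.mpr ?_⟩
        rw [← map_mul, ← map_mul, hcomm]
      rintro _ ⟨g, hg, rfl⟩
      show aE Q (ogSS Q g) ∈ _
      rcases dg_cases H.h2 H.nd H.hn hu hv hns hg with h3 | h3
      · exact Subgroup.mem_sup_left (aE_eg_mem_inn h3)
      · have h4 := Subgroup.mem_sup_left (T := E.map (aE Q) ⊓ Subgroup.centralizer {aE Q p}) (aE_eg_mem_inn h3)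
        rw [map_mul, map_mul, map_inv, map_inv] at h4
        exact (Subgroup.mul_mem_cancel_right _ (inv_mem hz)).mp h4
  rw [hL, H.relIndex_E]

theorem relIndex_E' (hneg : ogNeg Q ∉ EG Q) : (Inn (PE Q)).relIndex (E.map (aE Q)) = 2 := by
  rw [← H.dgA_eq_inn hneg, H.relIndex_E]

theorem split_le (hneg : ogNeg Q ∉ EG Q) (α : MulAut (PE Q)) :
    splitClassCount (E.map (aE Q)) (Inn (PE Q)) α = 1 ∨ splitClassCount (E.map (aE Q)) (Inn (PE Q)) α = 2 := by
  rw [splitClassCount_eq H.inn_le_E]
  have h1 : (Inn (PE Q) ⊔ (E.map (aE Q) ⊓ Subgroup.centralizer {α})).relIndex (E.map (aE Q)) ∣ (Inn (PE Q)).relIndex (E.map (aE Q)) :=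
    Subgroup.relIndex_dvd_of_le_left _ le_sup_left
  rw [H.relIndex_E' hneg] at h1
  exact (Nat.dvd_prime Nat.prime_two).mp h1

/-- structure of improper involutions when the half dimension is even and there is no maximal singular subspace -/
theorem improper_struct (hke : Even k) (hno : ¬ ∃ U : Submodule F (ι → F), TS Q U ∧ finrank F U = k)
    (hcr : ∀ (p : SSG Q) (L : (ι → F) →ₗ[F] (ι → F)), p.1.2 = 1 → (∀ x, L x = p.1.1 x) → LinearMap.det L = (ssK p : F) ^ k → p ∈ E)
    {p : SSG Q} (hp1 : p.1.2 = 1) (hp : p ∉ E) {c : Fˣ} (hpc : p * p = scSS Q c) :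
    ∃ (y : Fˣ) (g : OG Q), scSS Q y * p = ogSS Q g ∧ g * g = 1 ∧ Odd (finrank F (fixS g)) := by
  have hne := H.ne
  have hpp : ∀ x, p.1.1 (p.1.1 x) = (c : F) • x := fun x => congrArg (fun q : SSG Q => q.1.1 x) hpc
  have hQ : ∀ x, Q (p.1.1 x) = ssK p * Q x := fun x => by rw [ss_Q, hp1]; rfl
  have hκ : (ssK p : F) * ssK p = c * c := by
    obtain ⟨x, hx⟩ := hne
    have h1 : Q (p.1.1 (p.1.1 x)) = Q ((c : F) • x) := by rw [hpp]
    rw [hQ, hQ, q_smul, ← mul_assoc] at h1
    exact mul_right_cancel₀ hx h1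
  have hκ' : (ssK p : F) = c ∨ (ssK p : F) = -c := mul_self_eq_mul_self_iff.mp hκ
  have hsm : ∀ (a : F) x, p.1.1 (a • x) = a • p.1.1 x := fun a x => by rw [ss_smul, hp1]; rfl
  by_cases hsq : IsSquare (c : F)
  · obtain ⟨d, hd⟩ := hsq
    have hd0 : d ≠ 0 := by rintro rfl; rw [mul_zero] at hd; exact c.ne_zero hd
    set δ : Fˣ := Units.mk0 d hd0 with hδ
    have ha : ∀ x, (scSS Q δ⁻¹ * p).1.1 x = d⁻¹ • p.1.1 x := fun x => by
      show (δ⁻¹ : Fˣ) • p.1.1 x = _
      rw [Units.smul_def, Units.val_inv_eq_inv_val]; rfl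
    have hpp' : ∀ x, (scSS Q δ⁻¹ * p).1.1 ((scSS Q δ⁻¹ * p).1.1 x) = x := by
      intro x
      rw [ha, ha, ss_smul, hp1]
      show d⁻¹ • d⁻¹ • p.1.1 (p.1.1 x) = x
      rw [hpp, smul_smul, smul_smul, hd]
      have : d⁻¹ * d⁻¹ * (d * d) = 1 := by field_simp
      rw [this, one_smul]
    have hpE : scSS Q δ⁻¹ * p ∉ E := fun h => hp ((Subgroup.mul_mem_cancel_left _ (H.P.sc _)).mp h)
    rcases hκ' with h | h
    · obtain ⟨g, hg⟩ := exists_og (scSS Q δ⁻¹ * p) hp1 (fun x => by
        rw [ha, q_smul, hQ, h, hd]; field_simp)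
      refine ⟨δ⁻¹, g, hg.symm, og_ext fun x => ?_, ?_⟩
      · have := hpp' x
        rw [← hg] at this
        exact this
      · rw [← hg] at hpE
        rw [H.P.og_iff H.nd H.rg, dg_iff_parity H.nd H.rg, H.hk] at hpE
        rw [← Nat.not_even_iff_odd]
        intro h5
        exact hpE (h5.add (even_two_mul k))
    · exfalso
      apply hno
      -- eigenspaces
      set s := scSS Q δ⁻¹ * p with hs
      have hs1 : s.1.2 = 1 := hp1
      have hsm' : ∀ (a : F) x, s.1.1 (a • x) = a • s.1.1 x := fun a x => by rw [ss_smul, hs1]; rfl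
      have hsQ : ∀ x, Q (s.1.1 x) = -Q x := fun x => by rw [ha, q_smul, hQ, h, hd]; field_simp
      let L : (ι → F) →ₗ[F] (ι → F) := { toFun := s.1.1, map_add' := ss_add s, map_smul' := hsm' }
      have h2' : ∀ a : F, a = -a → a = 0 := fun a h => by
        have : 2 * a = 0 := by linear_combination h
        exact (mul_eq_zero.mp this).resolve_left H.h2
      let W₁ := LinearMap.ker (L - LinearMap.id)
      let W₂ := LinearMap.ker (L + LinearMap.id)
      have hW₁ : ∀ x, x ∈ W₁ ↔ s.1.1 x = x := fun x => by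
        rw [LinearMap.mem_ker, LinearMap.sub_apply, sub_eq_zero]; rfl
      have hW₂ : ∀ x, x ∈ W₂ ↔ s.1.1 x = -x := fun x => by
        rw [LinearMap.mem_ker, LinearMap.add_apply, eq_neg_iff_add_eq_zero]; rfl
      have t1 : TS Q W₁ := fun x hx => h2' _ (by have := hsQ x; rwa [(hW₁ x).mp hx] at this)
      have t2 : TS Q W₂ := fun x hx => h2' _ (by have := hsQ x; rwa [(hW₂ x).mp hx, q_neg] at this)
      have hsup : W₁ ⊔ W₂ = ⊤ := by
        rw [eq_top_iff]
        intro x _
        have : x = (2 : F)⁻¹ • (x + s.1.1 x) + (2 : F)⁻¹ • (x - s.1.1 x) := by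
          rw [← smul_add, add_add_sub_cancel, ← two_smul F x, smul_smul, inv_mul_cancel₀ H.h2, one_smul]
        rw [this]
        refine Submodule.add_mem_sup (W₁.smul_mem _ ?_) (W₂.smul_mem _ ?_)
        · rw [hW₁, ss_add, hpp', add_comm]
        · rw [hW₂, ss_sub, hpp', neg_sub]
      have hinf : W₁ ⊓ W₂ = ⊥ := by
        rw [eq_bot_iff]
        rintro x ⟨h1, h3⟩
        have h4 := (hW₁ x).mp h1
        rw [(hW₂ x).mp h3] at h4
        have h5 : (2 : F) • x = 0 := by
          rw [two_smul]; nth_rewrite 1 [← h4]; exact neg_add_cancel x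
        exact (smul_eq_zero.mp h5).resolve_left H.h2
      have hdim := Submodule.finrank_sup_add_finrank_inf_eq W₁ W₂
      rw [hsup, hinf, finrank_bot, finrank_top, H.hk] at hdim
      have d1 := t1.finrank_le H.nd H.hk
      have d2 := t2.finrank_le H.nd H.hk
      exact ⟨W₁, t1, by omega⟩
  · exfalso
    apply hp
    let L : (ι → F) →ₗ[F] (ι → F) := { toFun := p.1.1, map_add' := ss_add p, map_smul' := hsm }
    apply hcr p L hp1 (fun x => rfl)
    rw [det_sq_nonsq hsq k L hpp H.hk]
    rcases hκ' with h | h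
    · rw [h, hke.neg_pow]
    · rw [h]

/-- even half dimension, minus type -/
theorem split_inv_neg (hneg : ogNeg Q ∉ EG Q) (hke : Even k) (hno : ¬ ∃ U : Submodule F (ι → F), TS Q U ∧ finrank F U = k)
    (hcr : ∀ (p : SSG Q) (L : (ι → F) →ₗ[F] (ι → F)), p.1.2 = 1 → (∀ x, L x = p.1.1 x) → LinearMap.det L = (ssK p : F) ^ k → p ∈ E)
    {p : SSG Q} (hp1 : p.1.2 = 1) (hp : p ∉ E) {c : Fˣ} (hpc : p * p = scSS Q c) :
    splitClassCount (E.map (aE Q)) (Inn (PE Q)) (aE Q p) = 2 := by
  rw [splitClassCount_eq H.inn_le_E]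
  have hL : Inn (PE Q) ⊔ (E.map (aE Q) ⊓ Subgroup.centralizer {aE Q p}) = Inn (PE Q) := by
    rw [sup_eq_left, ← H.dgA_eq_inn hneg]
    rintro _ ⟨⟨h, hh, rfl⟩, hc⟩
    have hc := Subgroup.mem_centralizer_singleton_iff.mp hc
    have hh1 := H.P.le h hh
    rw [H.dgA_iff h hh1]
    refine ⟨?_, hh⟩
    obtain ⟨y, g, hg, hgg, hodd⟩ := H.improper_struct hke hno hcr hp1 hp hpc
    have hay : aE Q (scSS Q y) = 1 := by
      have : scSS Q y ∈ (aE Q).ker := by rw [aE_ker H.nd H.hn]; exact ⟨_, rfl⟩
      exact this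
    have hag : aE Q p = aE Q (ogSS Q g) := by rw [← hg, map_mul, hay, one_mul]
    rw [hag, ← map_mul, ← map_mul] at hc
    have hk1 : (h * ogSS Q g) * (ogSS Q g * h)⁻¹ ∈ (aE Q).ker := by
      rw [MonoidHom.mem_ker, map_mul, map_inv, hc, mul_inv_cancel]
    rw [aE_ker H.nd H.hn] at hk1
    obtain ⟨l, hl⟩ := hk1
    have hl' : h * ogSS Q g = scSS Q l * (ogSS Q g * h) := by rw [hl]; group
    have hlx : ∀ x, h.1.1 (g x) = (l : F) • g (h.1.1 x) := fun x => congrArg (fun q : SSG Q => q.1.1 x) hl'
    have hgx : ∀ x, g (g x) = x := fun x => by rw [← og_mul, hgg]; rfl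
    have hsm : ∀ (a : F) x, h.1.1 (a • x) = a • h.1.1 x := fun a x => by rw [ss_smul, hh1]; rfl
    have hQh : ∀ x, Q (h.1.1 x) = ssK h * Q x := fun x => by rw [ss_Q, hh1]; rfl
    have hl2 : (l : F) * l = 1 := by
      obtain ⟨x, hx⟩ := H.ne
      have h1 : h.1.1 x = ((l : F) * l) • h.1.1 x := by
        conv_lhs => rw [← hgx x, hlx, hlx, og_smul, hgx, smul_smul]
      have h3 : (((l : F) * l) - 1) • h.1.1 x = 0 := by rw [sub_smul, one_smul, ← h1, sub_self]
      have h4 : h.1.1 x ≠ 0 := by
        intro h0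
        have := hQh x
        rw [h0, q_zero] at this
        exact mul_ne_zero (Units.ne_zero _) hx this.symm
      linear_combination (smul_eq_zero.mp h3).resolve_right h4
    have hcases : (l : F) = 1 ∨ (l : F) = -1 := by
      have : (l : F) * l = 1 * 1 := by rw [hl2, one_mul]
      exact mul_self_eq_mul_self_iff.mp this
    -- W = fixS g, W' = (-1)-space
    set W := fixS g with hWd
    have hNDS : NDS Q W := by
      intro x hx hxx
      apply H.nd
      intro z
      have h1 : z + g z ∈ W := by rw [hWd, mem_fixS, og_add, hgx, add_comm]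
      have h3 := hxx _ h1
      have h4 : pB Q x (g z) = pB Q x z := by
        conv_lhs => rw [← (mem_fixS g x).mp hx]
        rw [og_p]
      rw [pr_add, h4, ← two_mul] at h3
      exact (mul_eq_zero.mp h3).resolve_left H.h2
    have hocg : ∀ x, x ∈ oc Q W ↔ g x = -x := by
      intro x
      constructor
      · intro hx
        have h3 : x + g x = 0 := by
          apply H.nd
          intro z
          have h4 : pB Q (x + g x) z = pB Q x (z + g z) := by
            rw [pl_add, pr_add]
            congr 1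
            conv_rhs => rw [← og_p g, hgx]
          rw [h4, pB_symm]
          exact mem_oc.mp hx _ (by rw [hWd, mem_fixS, og_add, hgx, add_comm])
        rw [eq_neg_iff_add_eq_zero, add_comm]; exact h3
      · intro hx
        rw [mem_oc]
        intro n hn
        have h4 : pB Q n x = -pB Q n x := by
          conv_lhs => rw [← og_p g, (mem_fixS g n).mp hn, hx, pr_neg]
        have : 2 * pB Q n x = 0 := by linear_combination h4
        exact (mul_eq_zero.mp this).resolve_left H.h2
    rcases hcases with h1 | h1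
    · -- h preserves W
      have hst : ∀ x ∈ W, h.1.1 x ∈ W := by
        intro x hx
        rw [hWd, mem_fixS]
        have h3 := hlx x
        rw [(mem_fixS g x).mp hx, h1, one_smul] at h3
        exact h3.symm
      let φ : W →ₗ[F] W := { toFun := fun x => ⟨h.1.1 x, hst x x.2⟩
                             map_add' := fun x y => Subtype.ext (ss_add h x.1 y.1)
                             map_smul' := fun a x => Subtype.ext (hsm a x.1) }
      have h3 := sim_det (hNDS.nd) (κ := (ssK h : F)) (φ := φ) (fun x => hQh x.1)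
      obtain ⟨r, hr⟩ := hodd
      have h5 : IsSquare ((ssK h : F) ^ (2 * r) * ssK h) := by
        rw [← pow_succ, ← hr, h3]
        exact ⟨_, rfl⟩
      have h6 : IsSquare ((ssK h : F) ^ (2 * r)) := ⟨(ssK h : F) ^ r, by ring⟩
      exact ((sq_mul_iff (pow_ne_zero _ (Units.ne_zero _)) (Units.ne_zero _)).mp h5).mp h6
    · -- h swaps
      exfalso
      have hst : ∀ x ∈ W, h.1.1 x ∈ oc Q W := by
        intro x hx
        rw [hocg]
        have h3 := hlx x
        rw [(mem_fixS g x).mp hx, h1, neg_smul, one_smul] at h3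
        have h4 := congrArg Neg.neg h3
        rw [neg_neg] at h4
        exact h4.symm
      have hst' : ∀ x ∈ oc Q W, h.1.1 x ∈ W := by
        intro x hx
        rw [hWd, mem_fixS]
        have h3 := hlx x
        rw [(hocg x).mp hx, h1, neg_smul, one_smul, ss_neg] at h3
        exact (neg_injective h3).symm
      have hinj : Function.Injective h.1.1 := h.1.1.injective
      let φ : W →ₗ[F] oc Q W := { toFun := fun x => ⟨h.1.1 x, hst x x.2⟩
                                  map_add' := fun x y => Subtype.ext (ss_add h x.1 y.1)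
                                  map_smul' := fun a x => Subtype.ext (hsm a x.1) }
      let ψ : oc Q W →ₗ[F] W := { toFun := fun x => ⟨h.1.1 x, hst' x x.2⟩
                                  map_add' := fun x y => Subtype.ext (ss_add h x.1 y.1)
                                  map_smul' := fun a x => Subtype.ext (hsm a x.1) }
      have l1 := LinearMap.finrank_le_finrank_of_injective (f := φ) (fun x y hxy => Subtype.ext (hinj (congrArg Subtype.val hxy)))
      have l2 := LinearMap.finrank_le_finrank_of_injective (f := ψ) (fun x y hxy => Subtype.ext (hinj (congrArg Subtype.val hxy)))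
      have hfr := finrank_oc H.nd W
      rw [H.hk] at hfr
      have : finrank F W = k := by omega
      rw [this] at hodd
      exact (Nat.not_even_iff_odd.mpr hodd) hke
  rw [hL, H.relIndex_E' hneg]

end CH

end split

end Cfsg.Agent.H17
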