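import Mathlib
import Cfsg.Agent.H17.InvS

set_option autoImplicit false

/-! Splitting of classes of involutory graph automorphisms of orthogonal groups: final statements. -/

namespace Cfsg.Agent.H17

open Cfsg Cfsg.Agent.H5 Module
open scoped MatrixGroups Matrix

section lift

variable {F : Type*} [Field F] [Finite F] {V : Type*} [AddCommGroup V] [Module F V] [FiniteDimensional F V] {Q : QuadraticForm F V}

theorem sq_lift (hnd : ND Q) (hn : 5 ≤ finrank F V) {p : SSG Q} (h : aE Q p ^ 2 = 1) : ∃ c : Fˣ, p * p = scSS Q c := by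
  rw [sq, ← map_mul] at h
  have : p * p ∈ (aE Q).ker := h
  rw [aE_ker hnd hn] at this
  obtain ⟨c, hc⟩ := this
  exact ⟨c, hc.symm⟩

end lift

section plus

variable {F : Type*} [Field F] [Fintype F] {m : ℕ}

theorem inv_plus (hodd : Odd (Fintype.card F)) (hm : 4 ≤ m) (QP : (Fin m ⊕ Fin m → F) → F) (hQP : QP = ⇑(qPlus m F)) (ID : Subgroup (MulAut (POmega F QP)))
    (hID : ID = autSubgroupOf (fun β => ∃ g : GL (Fin m ⊕ Fin m) F, g ∈ Geo.quadSimilarityGroup (F := F) QP ∧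
      PreservesSingularClasses QP (g : Matrix (Fin m ⊕ Fin m) (Fin m ⊕ Fin m) F) ∧
      IsInducedBySemilinearPOmega QP g (RingEquiv.refl F) β)) (γ : MulAut (POmega F QP))
    (hγ : ∃ g : GL (Fin m ⊕ Fin m) F, g ∈ Geo.quadSimilarityGroup (F := F) QP ∧
      ¬ PreservesSingularClasses QP (g : Matrix (Fin m ⊕ Fin m) (Fin m ⊕ Fin m) F) ∧
      IsInducedBySemilinearPOmega QP g (RingEquiv.refl F) γ) (hγ2 : orderOf γ = 2) :
    (splitClassCount ID (Inn (POmega F QP)) γ = 1 ∨ splitClassCount ID (Inn (POmega F QP)) γ = 2) ∧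
    (¬ (Odd m ∧ Fintype.card F % 4 = 3) → splitClassCount ID (Inn (POmega F QP)) γ = 2) := by
  subst hQP hID
  have h2 := two_ne_card hodd
  have H := ch_plus (F := F) h2 (by omega : 3 ≤ m)
  have hn := card_plus5 (m := m) (by omega)
  have hP : ∀ β, β ∈ autSubgroupOf (fun β => ∃ g : GL (Fin m ⊕ Fin m) F, g ∈ Geo.quadSimilarityGroup (F := F) ⇑(qPlus m F) ∧
      PreservesSingularClasses ⇑(qPlus m F) (g : Matrix (Fin m ⊕ Fin m) (Fin m ⊕ Fin m) F) ∧
      IsInducedBySemilinearPOmega ⇑(qPlus m F) g (RingEquiv.refl F) β) ↔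
      MulAut.congr (pomEquiv (Q := qPlus m F) nd_plus hn) β ∈ (eS (qPlus m F) (evS (PT_plus F m))).map (aE (qPlus m F)) := by
    intro β
    rw [← HS_eq]
    exact inndiagPlus_iff hn β
  have hKI : ∀ β, β ∈ Inn (POmega F ⇑(qPlus m F)) ↔ MulAut.congr (pomEquiv (Q := qPlus m F) nd_plus hn) β ∈ Inn (PE (qPlus m F)) := fun β => inn_iff nd_plus hn β
  rw [split_equiv (MulAut.congr (pomEquiv (Q := qPlus m F) nd_plus hn)) hP hKI]
  obtain ⟨g, hg1, hg2, hg3⟩ := hγ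
  have hg4 := (inducedPOm_iff nd_plus hn (σ := 1) hg1 γ).mp hg3
  have hg5 : MulAut.congr (pomEquiv (Q := qPlus m F) nd_plus hn) γ = aE (qPlus m F) (goSS _ ⟨g, hg1⟩) := hg4
  rw [hg5]
  have hg2' : γ ^ 2 = 1 := orderOf_dvd_iff_pow_eq_one.mp (by rw [hγ2])
  have hord : (MulAut.congr (pomEquiv (Q := qPlus m F) nd_plus hn) γ) ^ 2 = 1 := by
    rw [← map_pow, hg2', map_one]
  rw [hg5] at hord
  obtain ⟨c, hc⟩ := sq_lift H.nd H.hn hord
  have hpE : goSS (qPlus m F) ⟨g, hg1⟩ ∉ eS (qPlus m F) (evS (PT_plus F m)) := by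
    rw [goSS_mem_eS]
    intro h
    exact hg2 ((psc_iff (PT_plus F m) ⟨g, hg1⟩).mpr ((mem_evS hg1).mp h))
  by_cases hneg : ogNeg (qPlus m F) ∈ EG (qPlus m F)
  · have h3 := H.split_inv_pos hneg rfl hpE hc
    exact ⟨Or.inr h3, fun _ => h3⟩
  · exact ⟨H.split_le hneg _, fun h => absurd ((neg_plus_q hodd (by omega)).mpr h) hneg⟩

end plus

section minus

universe u
variable {F : Type u} [Field F] [Fintype F] {m : ℕ} {a b : F}

theorem inv_minus (hodd : Odd (Fintype.card F)) (hm : 3 ≤ m) (Qf : F → F → ((Fin m ⊕ Fin m) ⊕ Fin 2 → F) → F) (hQf : Qf = fun a b => ⇑(qMinus m F a b))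
    (hab : ∀ z₁ z₂ : F, z₁ ^ 2 + a * z₁ * z₂ + b * z₂ ^ 2 = 0 → z₁ = 0 ∧ z₂ = 0) (ID : Subgroup (MulAut (POmega F (Qf a b))))
    (hID : ID = autSubgroupOf (fun β => ∃ g : GL ((Fin m ⊕ Fin m) ⊕ Fin 2) F, g ∈ Geo.quadSimilarityGroup (F := F) (Qf a b) ∧
      PreservesSingularClassesMinus m a b (g : Matrix ((Fin m ⊕ Fin m) ⊕ Fin 2) ((Fin m ⊕ Fin m) ⊕ Fin 2) F) ∧
      IsInducedBySemilinearPOmega (Qf a b) g (RingEquiv.refl F) β)) (γ : MulAut (POmega F (Qf a b))) (hγ : γ ∉ ID) (hγ2 : orderOf γ = 2) :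
    (splitClassCount ID (Inn (POmega F (Qf a b))) γ = 1 ∨ splitClassCount ID (Inn (POmega F (Qf a b))) γ = 2) ∧
    (¬ (Even m ∧ Fintype.card F % 4 = 1) → splitClassCount ID (Inn (POmega F (Qf a b))) γ = 2) := by
  subst hQf hID
  have h2 := two_ne_card hodd
  obtain ⟨K, _, _, j, P, hsq⟩ := exists_K F h2 m hab
  have H := ch_minus h2 (by omega : 2 ≤ m) hab P
  have hn := card_minus5 (m := m) (by omega)
  have hP : ∀ β, β ∈ autSubgroupOf (fun β => ∃ g : GL ((Fin m ⊕ Fin m) ⊕ Fin 2) F, g ∈ Geo.quadSimilarityGroup (F := F) ⇑(qMinus m F a b) ∧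
      PreservesSingularClassesMinus m a b (g : Matrix ((Fin m ⊕ Fin m) ⊕ Fin 2) ((Fin m ⊕ Fin m) ⊕ Fin 2) F) ∧
      IsInducedBySemilinearPOmega ⇑(qMinus m F a b) g (RingEquiv.refl F) β) ↔
      MulAut.congr (pomEquiv (Q := qMinus m F a b) (nd_minus hab) hn) β ∈ (eS (qMinus m F a b) (mS j P)).map (aE (qMinus m F a b)) := by
    intro β
    rw [← HS_eq]
    exact inndiagMinus_iff hab (by omega) P hsq hn β
  have hKI : ∀ β, β ∈ Inn (POmega F ⇑(qMinus m F a b)) ↔ MulAut.congr (pomEquiv (Q := qMinus m F a b) (nd_minus hab) hn) β ∈ Inn (PE (qMinus m F a b)) := fun β => inn_iff (nd_minus hab) hn β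
  show (splitClassCount _ (Inn (POmega F ⇑(qMinus m F a b))) γ = 1 ∨ splitClassCount _ (Inn (POmega F ⇑(qMinus m F a b))) γ = 2) ∧
    (_ → splitClassCount _ (Inn (POmega F ⇑(qMinus m F a b))) γ = 2)
  rw [split_equiv (MulAut.congr (pomEquiv (Q := qMinus m F a b) (nd_minus hab) hn)) hP hKI]
  have hg2 : γ ^ 2 = 1 := orderOf_dvd_iff_pow_eq_one.mp (by rw [hγ2])
  have hord : (MulAut.congr (pomEquiv (Q := qMinus m F a b) (nd_minus hab) hn) γ) ^ 2 = 1 := by
    rw [← map_pow, hg2, map_one]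
  have hγ' : MulAut.congr (pomEquiv (Q := qMinus m F a b) (nd_minus hab) hn) γ ∉ (eS (qMinus m F a b) (mS j P)).map (aE (qMinus m F a b)) :=
    fun h => hγ ((hP γ).mpr h)
  obtain ⟨p, hp⟩ := surj_minus (m := m) hab (by omega) (MulAut.congr (pomEquiv (Q := qMinus m F a b) (nd_minus hab) hn) γ)
  rw [← hp] at hord hγ' ⊢
  have hp1 : p.1.2 = 1 := by
    by_contra hne
    have hτ := ss_order H.nd H.hn Nat.prime_two hord hne
    obtain ⟨y, hy⟩ := ss_normalize H.nd H.hn p hτ (by norm_num) hord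
    exact no_two_minus hab (scSS _ y * p) hy (by
      have : (scSS (qMinus m F a b) y * p).1.2 = p.1.2 := by show 1 * p.1.2 = p.1.2; rw [one_mul]
      rw [this]; exact hτ) (by omega)
  have hpE : p ∉ eS (qMinus m F a b) (mS j P) := fun h => hγ' ⟨p, h, rfl⟩
  obtain ⟨c, hc⟩ := sq_lift H.nd H.hn hord
  by_cases hneg : ogNeg (qMinus m F a b) ∈ EG (qMinus m F a b)
  · have h3 := H.split_inv_pos hneg hp1 hpE hc
    exact ⟨Or.inr h3, fun _ => h3⟩
  · refine ⟨H.split_le hneg _, fun h => ?_⟩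
    have hmo : Even (m + 1) := by
      by_contra hne
      have hme : Even m := by
        by_contra h3
        exact hne (Nat.even_add_one.mpr h3)
      rcases odd_four hodd with h4 | h4
      · exact h ⟨hme, h4⟩
      · exact hneg ((neg_minus_q hodd (by omega) hab).mpr ⟨hme, h4⟩)
    refine H.split_inv_neg hneg hmo (no_ts_minus hab) ?_ hp1 hpE hc
    intro s L hs1 hL hdet
    obtain ⟨g, hg⟩ := exists_goSS s hs1
    rw [← hg, goSS_mem_eS, mem_mS_cr (qMinus_jV j a b) (nd_minus hab) hn (card_minus_ι m) P hsq]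
    refine Or.inl ⟨h2, ?_⟩
    have e : L = Matrix.toLin' ((g.1 : GL ((Fin m ⊕ Fin m) ⊕ Fin 2) F) : Matrix ((Fin m ⊕ Fin m) ⊕ Fin 2) ((Fin m ⊕ Fin m) ⊕ Fin 2) F) := by
      apply LinearMap.ext
      intro x
      rw [hL, ← hg, goSS_apply, Matrix.toLin'_apply]
    rw [e, LinearMap.det_toLin', ← hg] at hdet
    exact hdet

end minus

end Cfsg.Agent.H17
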