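import Mathlib
import Cfsg.Agent.H17.InvT
import Cfsg.Agent.H17.Desc3
import Cfsg.Agent.H5.OrthExt

set_option autoImplicit false

/-! Local balance for improper involutions of orthogonal groups: the block lemma. -/

namespace Cfsg.Agent.H17

open Cfsg Cfsg.Agent.H5 Module

section block

variable {K V' : Type*} [Field K] [Finite K] [AddCommGroup V'] [Module K V'] [FiniteDimensional K V'] {Q' : QuadraticForm K V'}

theorem finEG (Q' : QuadraticForm K V') : Finite (EG Q') := by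
  haveI : Finite V' := Module.finite_of_finite K
  exact Finite.of_injective (fun g : EG Q' => fun x : V' => g.1 x)
    (fun g g' hgg => Subtype.ext (og_ext fun x => congrFun hgg x))

/-- an odd order group normalized by a block acts trivially on it -/
theorem block {X : Type*} [Group X] (h2 : (2 : K) ≠ 0) (hnd : ND Q') (hn : 5 ≤ finrank K V') (Θ : EG Q' →* X) (hΘ : Function.Injective Θ)
    {N : Subgroup X} (hodd : Odd (Nat.card N)) (hN : ∀ h, ∀ n ∈ N, Θ h * n * (Θ h)⁻¹ ∈ N) {n : X} (hn' : n ∈ N) (p : SSG Q')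
    (hp : ∀ h : EG Q', n * Θ h * n⁻¹ = Θ ⟨conjOG p h.1, conjOG_mem p h.2⟩) : aE Q' p = 1 := by
  haveI := finEG Q'
  obtain ⟨M, hM⟩ : ∃ M : Subgroup (EG Q'), M = N.comap Θ := ⟨_, rfl⟩
  have hMm : ∀ h, h ∈ M ↔ Θ h ∈ N := fun h => by rw [hM]; exact Iff.rfl
  haveI hMn : M.Normal := ⟨fun h hh k => by
    rw [hMm] at hh ⊢
    rw [map_mul, map_mul, map_inv]
    exact hN k _ hh⟩
  haveI hsimp : IsSimpleGroup (EG Q' ⧸ Subgroup.center (EG Q')) := eg_simple hnd hn
  have hle : M ≤ Subgroup.center (EG Q') := by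
    have h1 : (M.map (QuotientGroup.mk' (Subgroup.center (EG Q')))).Normal := hMn.map _ (QuotientGroup.mk'_surjective _)
    rcases h1.eq_bot_or_eq_top with h3 | h3
    · rw [Subgroup.map_eq_bot_iff, QuotientGroup.ker_mk'] at h3
      exact h3
    · exfalso
      have h4 : M ⊔ Subgroup.center (EG Q') = ⊤ := by
        have h5 := Subgroup.comap_map_eq (QuotientGroup.mk' (Subgroup.center (EG Q'))) M
        rw [h3, QuotientGroup.ker_mk', Subgroup.comap_top] at h5
        exact h5.symm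
      have h5 : commutator (EG Q') ≤ M := Subgroup.Normal.commutator_le_of_self_sup_commutative_eq_top h4 inferInstance
      rw [eg_perfect hnd hn, top_le_iff] at h5
      have h6 : 2 ∣ Nat.card (EG Q') := by
        refine (even_card_PE h2 hnd hn).trans ?_
        exact Subgroup.card_quotient_dvd_card _
      haveI : Fact (Nat.Prime 2) := ⟨Nat.prime_two⟩
      obtain ⟨h, hh⟩ := exists_prime_orderOf_dvd_card' (G := EG Q') 2 h6
      have h7 : Θ h ∈ N := by rw [← hMm, h5]; exact Subgroup.mem_top _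
      have h8 : orderOf (Θ h) = 2 := by rw [← hh]; exact orderOf_injective Θ hΘ h
      have h9 := Subgroup.orderOf_dvd_natCard N h7
      rw [h8] at h9
      exact (Nat.not_even_iff_odd.mpr hodd) (even_iff_two_dvd.mpr h9)
  apply autPE_ext
  intro h
  rw [aE_mk, MulAut.one_apply, QuotientGroup.eq]
  apply hle
  rw [hMm]
  have h1 : n⁻¹ ∈ N := N.inv_mem hn'
  have h3 : Θ h⁻¹ * n * (Θ h⁻¹)⁻¹ ∈ N := hN _ _ hn'
  have h4 : Θ ((conjEG Q' p h)⁻¹ * h) = (n * (Θ h⁻¹ * n⁻¹ * (Θ h⁻¹)⁻¹)) := by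
    have h5 : Θ (conjEG Q' p h) = n * Θ h * n⁻¹ := (hp h).symm
    rw [map_mul, map_inv, h5, map_inv]
    group
  rw [h4]
  exact mul_mem hn' (hN _ _ h1)

end block

section hom

variable {F V : Type*} [Field F] [Finite F] [AddCommGroup V] [Module F V] [FiniteDimensional F V] {Q : QuadraticForm F V}
variable {K V' : Type*} [Field K] [Finite K] [AddCommGroup V'] [Module K V'] [FiniteDimensional K V'] {Q' : QuadraticForm K V'}

/-- homomorphisms carry `EG` into `EG` -/
theorem hom_EG (hnd : ND Q) (hn : 5 ≤ finrank F V) (hnd' : ND Q') (hn' : 5 ≤ finrank K V') (φ : OG Q' →* OG Q) {g : OG Q'} (hg : g ∈ EG Q') :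
    φ g ∈ EG Q := by
  rw [eg_eq_comm hnd hn (exists_sing hnd (by omega))]
  have h1 := eg_perfect_le hnd' hn' hg
  have h3 : ⁅EG Q', EG Q'⁆ ≤ commutator (OG Q') := Subgroup.commutator_mono le_top le_top
  have h4 : φ g ∈ (commutator (OG Q')).map φ := ⟨g, h3 h1, rfl⟩
  rw [commutator_def, Subgroup.map_commutator] at h4
  exact Subgroup.commutator_mono le_top le_top h4

end hom

section res

variable {F V : Type*} [Field F] [AddCommGroup V] [Module F V] {Q : QuadraticForm F V} {W : Submodule F V}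

/-- restriction of a semisimilarity -/
noncomputable def resSS (g : SSG Q) (h : ∀ x ∈ W, g.1.1 x ∈ W) (h' : ∀ x ∈ W, g.1.1.symm x ∈ W) : SSG (resQ Q W) :=
  ⟨({ toFun := fun x => ⟨g.1.1 x, h x.1 x.2⟩
      invFun := fun x => ⟨g.1.1.symm x, h' x.1 x.2⟩
      left_inv := fun x => Subtype.ext (g.1.1.symm_apply_apply x.1)
      right_inv := fun x => Subtype.ext (g.1.1.apply_symm_apply x.1) }, g.1.2),
    fun x y => Subtype.ext (ss_add g x.1 y.1), fun a x => Subtype.ext (ss_smul g a x.1), ssK g, fun x => ss_Q g x.1⟩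

theorem resSS_apply (g : SSG Q) (h : ∀ x ∈ W, g.1.1 x ∈ W) (h' : ∀ x ∈ W, g.1.1.symm x ∈ W) (x : W) :
    (((resSS g h h').1.1 x : W) : V) = g.1.1 x := rfl

theorem resSS_symm (g : SSG Q) (h : ∀ x ∈ W, g.1.1 x ∈ W) (h' : ∀ x ∈ W, g.1.1.symm x ∈ W) (x : W) :
    (((resSS g h h').1.1.symm x : W) : V) = g.1.1.symm x := rfl

theorem ss_oc {g : SSG Q} (h' : ∀ x ∈ W, g.1.1.symm x ∈ W) {z : V} (hz : z ∈ oc Q W) : g.1.1 z ∈ oc Q W := by
  intro y hy
  have h1 : y = g.1.1 (g.1.1.symm y) := (Equiv.apply_symm_apply _ _).symm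
  rw [h1, ss_B, hz _ (h' y hy), map_zero, mul_zero]

theorem conj_ext [FiniteDimensional F V] (hW : NDS Q W) (g : SSG Q) (h : ∀ x ∈ W, g.1.1 x ∈ W) (h' : ∀ x ∈ W, g.1.1.symm x ∈ W) (k : OG (resQ Q W)) :
    g * ogSS Q (extOG hW k) = ogSS Q (extOG hW (conjOG (resSS g h h') k)) * g := by
  refine ss_ext (fun x => ?_) ?_
  · obtain ⟨w, hw, z, hz, rfl⟩ := hW.decomp x
    show g.1.1 (extOG hW k (w + z)) = extOG hW (conjOG (resSS g h h') k) (g.1.1 (w + z))
    rw [og_add, extOG_oc hW k hz, ss_add, ss_add, og_add, extOG_oc hW _ (ss_oc h' hz)]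
    congr 1
    have e1 : extOG hW k w = (k ⟨w, hw⟩ : W) := extOG_mem hW k ⟨w, hw⟩
    have e2 : extOG hW (conjOG (resSS g h h') k) (g.1.1 w) = (conjOG (resSS g h h') k ⟨g.1.1 w, h w hw⟩ : W) := extOG_mem hW _ ⟨g.1.1 w, h w hw⟩
    rw [e1, e2, conjOG_apply, resSS_apply]
    congr 3
    apply Subtype.ext
    rw [resSS_symm]
    exact (Equiv.symm_apply_apply _ _).symm
  · show g.1.2 * 1 = 1 * g.1.2
    rw [one_mul, mul_one]

end res

end Cfsg.Agent.H17
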