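import Mathlib
import Cfsg.Agent.H17.BalA

set_option autoImplicit false

/-! Odd order normal subgroups of three-dimensional orthogonal groups are trivial. -/

namespace Cfsg.Agent.H17

open Cfsg Cfsg.Agent.H5 Module

section dihedral

/-- two involutions with odd order product are conjugate by a power of the product -/
theorem inv_conj {G : Type*} [Group G] {N : Subgroup G} (hodd : Odd (Nat.card N)) {τ τ' : G} (h1 : τ * τ = 1) (h2 : τ' * τ' = 1)
    (h : τ * τ' ∈ N) : ∃ c ∈ N, c * τ * c⁻¹ = τ' := by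
  obtain ⟨k, hk⟩ := hodd
  haveI : Finite N := Nat.finite_of_card_ne_zero (by omega)
  obtain ⟨a, ha⟩ : ∃ a, a = τ * τ' := ⟨_, rfl⟩
  rw [← ha] at h
  have hak : a ^ (2 * k + 1) = 1 := by
    have h3 : (⟨a, h⟩ : N) ^ Nat.card N = 1 := pow_card_eq_one'
    rw [hk] at h3
    exact congrArg Subtype.val h3
  have hτi : τ⁻¹ = τ := inv_eq_of_mul_eq_one_left h1
  have hτi' : τ'⁻¹ = τ' := inv_eq_of_mul_eq_one_left h2
  have hinv : τ * a * τ⁻¹ = a⁻¹ := by
    rw [ha, mul_inv_rev, hτi, hτi', ← mul_assoc, h1, one_mul]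
  refine ⟨a ^ k, N.pow_mem h k, ?_⟩
  have h4 : τ * (a ^ k)⁻¹ = a ^ k * τ := by
    have h5 : τ * (a ^ k) * τ⁻¹ = (a⁻¹) ^ k := by rw [← conj_pow, hinv]
    have h6 : τ * (a ^ k)⁻¹ * τ⁻¹ = a ^ k := by
      rw [← conj_inv, h5, inv_pow, inv_inv]
    exact mul_inv_eq_iff_eq_mul.mp h6
  rw [mul_assoc, h4, ← mul_assoc, ← pow_add, ← two_mul]
  have h7 : a ^ (2 * k) = a⁻¹ := by
    rw [eq_inv_iff_mul_eq_one, ← pow_succ]; exact hak
  rw [h7, ha, mul_inv_rev, hτi, hτi', mul_assoc, h1, mul_one]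

end dihedral

section conic

variable {F V : Type*} [Field F] [Finite F] [AddCommGroup V] [Module F V] [FiniteDimensional F V] {Q : QuadraticForm F V}

theorem coord3 (hnd : ND Q) (h3 : finrank F V = 3) {e : V} (he0 : e ≠ 0) (he : Q e = 0) :
    ∃ f w, Q f = 0 ∧ pB Q e f = 1 ∧ Q w ≠ 0 ∧ pB Q e w = 0 ∧ pB Q f w = 0 ∧ ∀ x, ∃ s t r : F, x = s • e + t • f + r • w := by
  obtain ⟨f, hf, hef⟩ := exists_partner hnd he0 he
  have hN := hyp_nds he hf hef
  have hd := finrank_oc hnd (Submodule.span F {e, f})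
  rw [finrank_pair (indep_sing he hf (by rw [hef]; exact one_ne_zero)), h3] at hd
  obtain ⟨w', hw'⟩ := exists_ne_q (hN.oc hnd).nd (by omega)
  obtain ⟨w, hwm⟩ := w'
  have hw : Q w ≠ 0 := hw'
  have hw0 : w ≠ 0 := by rintro rfl; exact hw (q_zero Q)
  obtain ⟨hew, hfw⟩ := mem_oc_pair.mp hwm
  refine ⟨f, w, hf, hef, hw, hew, hfw, fun x => ?_⟩
  obtain ⟨y, hy, z, hz, rfl⟩ := hN.decomp x
  rw [Submodule.mem_span_pair] at hy
  obtain ⟨s, t, rfl⟩ := hy
  have h5 : finrank F (oc Q (Submodule.span F {e, f})) = 1 := by omega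
  obtain ⟨r, hr⟩ := (finrank_eq_one_iff_of_nonzero' (⟨w, hwm⟩ : oc Q (Submodule.span F {e, f})) (fun h => hw0 (congrArg Subtype.val h))).mp h5 ⟨z, hz⟩
  refine ⟨s, t, r, ?_⟩
  have h6 : r • w = z := congrArg Subtype.val hr
  rw [h6]

theorem prop_of_orth (hnd : ND Q) (h3 : finrank F V = 3) {e y : V} (he0 : e ≠ 0) (he : Q e = 0) (hy : Q y = 0) (hey : pB Q e y = 0) :
    ∃ s : F, y = s • e := by
  obtain ⟨f, w, hf, hef, hw, hew, hfw, hall⟩ := coord3 hnd h3 he0 he
  obtain ⟨s, t, r, rfl⟩ := hall y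
  have hee : pB Q e e = 0 := by rw [pB_self, he, mul_zero]
  have ht : t = 0 := by
    rw [map_add, map_add, map_smul, map_smul, map_smul, hee, hef, hew, smul_zero, smul_zero, zero_add, add_zero, smul_eq_mul, mul_one] at hey
    exact hey
  subst ht
  have hr : r = 0 := by
    rw [zero_smul, add_zero, q_add, q_smul, q_smul, he, pl_smul, pr_smul, hew] at hy
    have h1 : r * r * Q w = 0 := by linear_combination hy
    exact mul_self_eq_zero.mp ((mul_eq_zero.mp h1).resolve_right hw)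
  subst hr
  exact ⟨s, by rw [zero_smul, zero_smul, add_zero, add_zero]⟩

theorem conic_move (h2 : (2 : F) ≠ 0) (hnd : ND Q) (h3 : finrank F V = 3) (n : OG Q) (hn : ∀ x, Q x = 0 → ∃ a : F, n x = a • x) : n * n = 1 := by
  obtain ⟨e, he0, he⟩ := exists_sing hnd (by omega)
  obtain ⟨f, w, hf, hef, hw, hew, hfw, hall⟩ := coord3 hnd h3 he0 he
  have hfe : pB Q f e = 1 := by rw [pB_symm, hef]
  have hwe : pB Q w e = 0 := by rw [pB_symm, hew]
  have hwf : pB Q w f = 0 := by rw [pB_symm, hfw]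
  have hee : pB Q e e = 0 := by rw [pB_self, he, mul_zero]
  have hff : pB Q f f = 0 := by rw [pB_self, hf, mul_zero]
  obtain ⟨α, hα⟩ := hn e he
  obtain ⟨β, hβ⟩ := hn f hf
  have hαβ : α * β = 1 := by
    have h1 := og_p n e f
    rw [hα, hβ, pl_smul, pr_smul, hef] at h1
    linear_combination h1
  obtain ⟨c, hc⟩ := hn (e + w - Q w • f) (by
    rw [sub_eq_add_neg, ← neg_smul, q_add, q_add, q_smul, he, hf, hew, pB_symm, map_add, pl_smul, pl_smul, hfe, hfw]
    simp)
  obtain ⟨s, t, r, hnw⟩ := hall (n w)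
  have hs : s = 0 := by
    have h1 := og_p n f w
    rw [hfw, hβ, pl_smul, hnw, map_add, map_add, map_smul, map_smul, map_smul, hfe, hff, hfw] at h1
    have h5 : β * s = 0 := by simpa using h1
    have hβ0 : β ≠ 0 := right_ne_zero_of_mul_eq_one hαβ
    exact (mul_eq_zero.mp h5).resolve_left hβ0
  have ht : t = 0 := by
    have h1 := og_p n e w
    rw [hew, hα, pl_smul, hnw, map_add, map_add, map_smul, map_smul, map_smul, hee, hef, hew] at h1
    have h5 : α * t = 0 := by simpa using h1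
    have hα0 : α ≠ 0 := left_ne_zero_of_mul_eq_one hαβ
    exact (mul_eq_zero.mp h5).resolve_left hα0
  rw [hs, ht, zero_smul, zero_smul, zero_add, zero_add] at hnw
  have hlin : α • e + r • w - (Q w * β) • f = c • (e + w - Q w • f) := by
    rw [← hc, og_sub, og_add, og_smul, hα, hβ, hnw, smul_smul]
  -- compare coefficients
  have c1 : α = c := by
    have h1 := congrArg (fun x => pB Q f x) hlin
    simp only [map_sub, map_add, map_smul, hfe, hff, hfw, smul_eq_mul, mul_one, mul_zero, add_zero, sub_zero] at h1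
    exact h1
  have c2 : β = c := by
    have h1 := congrArg (fun x => pB Q e x) hlin
    simp only [map_sub, map_add, map_smul, hee, hef, hew, smul_eq_mul, mul_one, mul_zero, add_zero, zero_sub] at h1
    have h5 : Q w * β = Q w * c := by linear_combination -h1
    exact mul_left_cancel₀ hw h5
  have c3 : r = c := by
    have hww : pB Q w w = 2 * Q w := pB_self Q w
    have h1 := congrArg (fun x => pB Q w x) hlin
    simp only [map_sub, map_add, map_smul, hwe, hwf, hww, smul_eq_mul, mul_zero, add_zero, sub_zero, zero_add] at h1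
    exact mul_right_cancel₀ (mul_ne_zero h2 hw) h1
  have hcc : c * c = 1 := by rw [← c1] at *; rw [c2] at hαβ; rw [c1] at hαβ ⊢; exact hαβ
  apply og_ext
  intro x
  obtain ⟨s, t, r', rfl⟩ := hall x
  have e1 : n (n e) = e := by rw [hα, og_smul, hα, c1, smul_smul, hcc, one_smul]
  have e2 : n (n f) = f := by rw [hβ, og_smul, hβ, c2, smul_smul, hcc, one_smul]
  have e3 : n (n w) = w := by rw [hnw, og_smul, hnw, c3, smul_smul, hcc, one_smul]
  rw [og_mul, og_one]
  simp only [og_add, og_smul]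
  rw [e1, e2, e3]

/-- odd order normal subgroups of three-dimensional orthogonal groups are trivial -/
theorem conic (h2 : (2 : F) ≠ 0) (hnd : ND Q) (h3 : finrank F V = 3) (N : Subgroup (OG Q)) (hN : ∀ h, ∀ n ∈ N, h * n * h⁻¹ ∈ N)
    (hodd : Odd (Nat.card N)) : N = ⊥ := by
  haveI : Finite V := Module.finite_of_finite F
  haveI : Finite (OG Q) := Finite.of_injective (fun g : OG Q => fun x : V => g x) (fun g g' hgg => og_ext fun x => congrFun hgg x)
  have hsq : ∀ n ∈ N, n * n = 1 → n = 1 := by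
    intro n hn h
    have h1 := Subgroup.orderOf_dvd_natCard N hn
    have h4 : orderOf n ∣ 2 := orderOf_dvd_of_pow_eq_one (by rw [pow_two, h])
    rcases (Nat.dvd_prime Nat.prime_two).mp h4 with h5 | h5
    · exact orderOf_eq_one_iff.mp h5
    · exfalso
      rw [h5] at h1
      exact (Nat.not_even_iff_odd.mpr hodd) (even_iff_two_dvd.mpr h1)
  rw [eq_bot_iff]
  intro n hn
  by_contra hn1
  have hn1' : n ≠ 1 := hn1
  obtain ⟨e, he, hne⟩ : ∃ e, Q e = 0 ∧ ∀ a : F, n e ≠ a • e := by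
    by_contra hcon
    apply hn1'
    apply hsq n hn
    apply conic_move h2 hnd h3
    intro x hx
    by_contra hx'
    exact hcon ⟨x, hx, fun a h => hx' ⟨a, h⟩⟩
  have he0 : e ≠ 0 := by
    rintro rfl
    exact hne 0 (by rw [og_zero, smul_zero])
  obtain ⟨f, w, hf, hef, hw, hew, hfw, hall⟩ := coord3 hnd h3 he0 he
  have hfe : pB Q f e = 1 := by rw [pB_symm, hef]
  have hee : pB Q e e = 0 := by rw [pB_self, he, mul_zero]
  have hff : pB Q f f = 0 := by rw [pB_self, hf, mul_zero]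
  obtain ⟨δ, hδ⟩ := exists_nonsq (F := F) h2
  have hδ0 : δ ≠ 0 := by rintro rfl; exact hδ IsSquare.zero
  obtain ⟨b, hb⟩ : ∃ b, b = e + (Q w * δ) • f := ⟨_, rfl⟩
  have hQb : Q b = Q w * δ := by
    rw [hb, q_add, q_smul, he, hf, pr_smul, hef]; ring
  have hQb0 : Q b ≠ 0 := by rw [hQb]; exact mul_ne_zero hw hδ0
  have haniso : ∀ x, Q x = 0 → pB Q b x = 0 → x = 0 := by
    intro x hx hbx
    obtain ⟨s, t, r, rfl⟩ := hall x
    rw [hb] at hbx
    simp only [map_add, map_smul, LinearMap.add_apply, LinearMap.smul_apply, smul_eq_mul, hee, hef, hew, hfe, hff, hfw] at hbx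
    have ht : t = -(Q w * δ) * s := by linear_combination hbx
    rw [q_add, q_add, q_smul, q_smul, q_smul, he, hf, pl_smul, pr_smul, hef] at hx
    simp only [map_add, map_smul, LinearMap.add_apply, LinearMap.smul_apply, smul_eq_mul, hew, hfw] at hx
    have h5 : Q w * (r * r - δ * (s * s)) = 0 := by
      rw [ht] at hx
      linear_combination hx
    have h6 : r * r = δ * (s * s) := by
      have := (mul_eq_zero.mp h5).resolve_left hw
      linear_combination this
    have hs : s = 0 := by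
      by_contra hs0
      apply hδ
      refine ⟨r / s, ?_⟩
      field_simp
      linear_combination -h6
    subst hs
    have hr : r = 0 := by
      rw [mul_zero, mul_zero] at h6
      exact mul_self_eq_zero.mp h6
    subst hr
    rw [ht, mul_zero, zero_smul, zero_smul, zero_smul, add_zero, add_zero]
  obtain ⟨τ, hτ⟩ : ∃ τ, τ = H5.refl hQb0 := ⟨_, rfl⟩
  have hττ : τ * τ = 1 := by rw [hτ]; exact refl_mul_self _
  have hmove : ∀ x, x ≠ 0 → Q x = 0 → ∀ a : F, τ x ≠ a • x := by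
    intro x hx0 hx a h
    have hbx : pB Q b x ≠ 0 := fun h => hx0 (haniso x hx h)
    rw [hτ, refl_apply] at h
    have h5 : ((Q b)⁻¹ * pB Q b x) • b = (1 - a) • x := by
      rw [sub_smul, one_smul, ← h]; abel
    have h6 : Q (((Q b)⁻¹ * pB Q b x) • b) = 0 := by rw [h5, q_smul, hx, mul_zero]
    rw [q_smul] at h6
    have h7 : (Q b)⁻¹ * pB Q b x ≠ 0 := mul_ne_zero (inv_ne_zero hQb0) hbx
    exact (mul_ne_zero (mul_ne_zero h7 h7) hQb0) h6
  -- an element of `N` carrying `e` to a multiple of `τ e`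
  have hy : Q (n e) = 0 := by rw [og_q, he]
  have hz : Q (τ e) = 0 := by rw [og_q, he]
  have hβ : pB Q e (n e) ≠ 0 := by
    intro h
    obtain ⟨s, hs⟩ := prop_of_orth hnd h3 he0 he hy h
    exact hne s hs
  have hβ' : pB Q e (τ e) ≠ 0 := by
    intro h
    obtain ⟨s, hs⟩ := prop_of_orth hnd h3 he0 he hz h
    exact hmove e he0 he s hs
  obtain ⟨c, hc⟩ : ∃ c, c = pB Q e (n e) / pB Q e (τ e) := ⟨_, rfl⟩
  have hc0 : c ≠ 0 := by rw [hc]; exact div_ne_zero hβ hβ'
  have hzc : Q (c • τ e) = 0 := by rw [q_smul, hz, mul_zero]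
  have hBc : pB Q e (c • τ e) = pB Q e (n e) := by
    rw [pr_smul, hc]; field_simp
  obtain ⟨h, hhe, hhn⟩ := og_witt2 hnd (indep_sing he hy hβ) (indep_sing (v := c • τ e) he hzc (by rw [hBc]; exact hβ)) rfl (by rw [hzc, hy]) hBc
  obtain ⟨n', hn'⟩ : ∃ n', n' = h * n * h⁻¹ := ⟨_, rfl⟩
  have hn'N : n' ∈ N := by rw [hn']; exact hN h n hn
  have hhe' : (h⁻¹ : OG Q) e = e := by
    have h5 : (h⁻¹ : OG Q) (h e) = e := og_inv h e
    rwa [hhe] at h5
  have hn'e : n' e = c • τ e := by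
    rw [hn', og_mul, og_mul, hhe', hhn]
  obtain ⟨ν, hν⟩ : ∃ ν, ν = n'⁻¹ * τ := ⟨_, rfl⟩
  have hνe : ν e = c⁻¹ • e := by
    have h5 : τ e = c⁻¹ • n' e := by rw [hn'e, smul_smul, inv_mul_cancel₀ hc0, one_smul]
    rw [hν, og_mul, h5, og_smul, og_inv]
  have hνν : ν * ν ∈ N := by
    have h5 : ν * ν = n'⁻¹ * (τ * n'⁻¹ * τ⁻¹) * (τ * τ) := by rw [hν]; group
    rw [h5, hττ, mul_one]
    exact mul_mem (inv_mem hn'N) (hN _ _ (inv_mem hn'N))
  obtain ⟨k, hk⟩ := hodd
  have hνk : (ν * ν) ^ (2 * k + 1) = 1 := by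
    have h5 : (⟨ν * ν, hνν⟩ : N) ^ Nat.card N = 1 := pow_card_eq_one'
    rw [hk] at h5
    exact congrArg Subtype.val h5
  obtain ⟨τ', hτ'⟩ : ∃ τ', τ' = ν ^ (2 * k + 1) := ⟨_, rfl⟩
  have hττ' : τ' * τ' = 1 := by
    rw [hτ', ← pow_add, ← two_mul, pow_mul, pow_two]; exact hνk
  have hmem : τ * τ' ∈ N := by
    have h5 : τ * τ' = (τ * n'⁻¹ * τ⁻¹) * (τ * τ) * (ν * ν) ^ k := by
      rw [hτ', pow_succ', pow_mul, pow_two]
      nth_rewrite 1 [hν]
      group
    rw [h5, hττ, mul_one]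
    exact mul_mem (hN _ _ (inv_mem hn'N)) (N.pow_mem hνν k)
  obtain ⟨g, hg, hgτ⟩ := inv_conj ⟨k, hk⟩ hττ hττ' hmem
  have hpow : ∀ i : ℕ, ∃ a : F, (ν ^ i) e = a • e := by
    intro i
    induction i with
    | zero => exact ⟨1, by rw [pow_zero, og_one, one_smul]⟩
    | succ i ih =>
      obtain ⟨a, ha⟩ := ih
      exact ⟨a * c⁻¹, by rw [pow_succ', og_mul, ha, og_smul, hνe, smul_smul]⟩
  obtain ⟨a, ha⟩ := hpow (2 * k + 1)
  rw [← hτ', ← hgτ, og_mul, og_mul] at ha
  have h5 : τ ((g⁻¹ : OG Q) e) = a • (g⁻¹ : OG Q) e := by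
    have h6 := congrArg (fun x => (g⁻¹ : OG Q) x) ha
    simp only [og_inv, og_smul] at h6
    exact h6
  refine hmove _ ?_ ?_ a h5
  · intro h6
    apply he0
    have h7 := og_inv' g e
    rw [h6, og_zero] at h7
    exact h7.symm
  · rw [og_q, he]

end conic

end Cfsg.Agent.H17
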