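import Mathlib
import Cfsg.Agent.H17.BalB

set_option autoImplicit false

/-! Odd order groups centralizing an improper isometric involution. -/

namespace Cfsg.Agent.H17

open Cfsg Cfsg.Agent.H5 Module

section main

variable {F V : Type*} [Field F] [Finite F] [AddCommGroup V] [Module F V] [FiniteDimensional F V] {Q : QuadraticForm F V}

theorem finOG (Q : QuadraticForm F V) : Finite (OG Q) := by
  haveI : Finite V := Module.finite_of_finite F
  exact Finite.of_injective (fun g : OG Q => fun x : V => g x) (fun g g' hgg => og_ext fun x => congrFun hgg x)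

theorem sq_of_odd {G : Type*} [Group G] {N : Subgroup G} (hodd : Odd (Nat.card N)) {n : G} (hn : n ∈ N) (h : n * n = 1) : n = 1 := by
  have h1 := Subgroup.orderOf_dvd_natCard N hn
  have h4 : orderOf n ∣ 2 := orderOf_dvd_of_pow_eq_one (by rw [pow_two, h])
  rcases (Nat.dvd_prime Nat.prime_two).mp h4 with h5 | h5
  · exact orderOf_eq_one_iff.mp h5
  · exfalso
    rw [h5] at h1
    exact (Nat.not_even_iff_odd.mpr hodd) (even_iff_two_dvd.mpr h1)

/-- odd order normal subgroups of odd-dimensional orthogonal groups are trivial -/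
theorem odd_core_OG (h2 : (2 : F) ≠ 0) (hnd : ND Q) (ho : Odd (finrank F V)) (N : Subgroup (OG Q)) (hN : ∀ h, ∀ n ∈ N, h * n * h⁻¹ ∈ N)
    (hodd : Odd (Nat.card N)) : N = ⊥ := by
  have hc : finrank F V = 1 ∨ finrank F V = 3 ∨ 5 ≤ finrank F V := by
    obtain ⟨k, hk⟩ := ho
    omega
  rcases hc with h | h | h
  · rw [eq_bot_iff]
    intro n hn
    apply Subgroup.mem_bot.mpr
    apply sq_of_odd hodd hn
    obtain ⟨v, hv0⟩ := finrank_pos_iff_exists_ne_zero.mp (by rw [h]; norm_num : 0 < finrank F V)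
    have hall := (finrank_eq_one_iff_of_nonzero' v hv0).mp h
    obtain ⟨c, hc⟩ := hall (n v)
    have hQv : Q v ≠ 0 := by
      intro h0
      apply hv0
      apply hnd
      intro y
      obtain ⟨a, rfl⟩ := hall y
      rw [pr_smul, pB_self, h0, mul_zero, mul_zero]
    have hcc : c * c = 1 := by
      have h3 := og_q n v
      rw [← hc, q_smul] at h3
      exact (mul_left_eq_self₀.mp h3).resolve_right hQv
    apply og_ext
    intro y
    obtain ⟨a, rfl⟩ := hall y
    rw [og_mul, og_smul, ← hc, og_smul, og_smul, ← hc, og_one, smul_smul c c, hcc, one_smul]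
  · exact conic h2 hnd h N hN hodd
  · rw [eq_bot_iff]
    intro n hn
    apply Subgroup.mem_bot.mpr
    apply sq_of_odd hodd hn
    have h3 := block h2 hnd h (EG Q).subtype (Subgroup.subtype_injective _) hodd (fun k m hm => hN k.1 m hm) hn (ogSS Q n) (by
      intro k
      apply og_ext
      intro x
      show n (k.1 ((n⁻¹ : OG Q) x)) = n (k.1 _)
      rfl)
    rw [aE_eq_one_iff hnd h] at h3
    obtain ⟨_, c, hc⟩ := h3
    have hc' : ∀ x, n x = (c : F) • x := fun x => hc x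
    obtain ⟨v, hv⟩ := exists_ne_q hnd (by omega)
    have hcc : (c : F) * c = 1 := by
      have h3 := og_q n v
      rw [hc', q_smul] at h3
      exact (mul_left_eq_self₀.mp h3).resolve_right hv
    apply og_ext
    intro y
    rw [og_mul, hc', hc', og_one, smul_smul, hcc, one_smul]

/-- the embedding of the orthogonal group of a nondegenerate subspace in the automorphism group -/
noncomputable def thW {W : Submodule F V} (hW : NDS Q W) : OG (resQ Q W) →* MulAut (PE Q) :=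
  (aE Q).comp ((ogSS Q).comp (extOG hW))

theorem thW_apply {W : Submodule F V} (hW : NDS Q W) (h : OG (resQ Q W)) : thW hW h = aE Q (ogSS Q (extOG hW h)) := rfl

theorem thW_inj (hnd : ND Q) (hn : 5 ≤ finrank F V) {W : Submodule F V} (hW : NDS Q W) (h0 : oc Q W ≠ ⊥) : Function.Injective (thW hW) := by
  rw [injective_iff_map_eq_one]
  intro h hh
  rw [thW_apply, aE_eq_one_iff hnd hn] at hh
  obtain ⟨_, c, hc⟩ := hh
  obtain ⟨z, hz, hz0⟩ := (Submodule.ne_bot_iff _).mp h0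
  have h1 : (c : F) • z = z := by
    have h3 : extOG hW h z = (c : F) • z := hc z
    rw [← h3, extOG_oc hW h hz]
  have h3 : (c : F) = 1 := by
    have h4 : ((c : F) - 1) • z = 0 := by rw [sub_smul, one_smul, h1, sub_self]
    exact sub_eq_zero.mp ((smul_eq_zero.mp h4).resolve_right hz0)
  apply extOG_injective hW
  rw [map_one]
  apply og_ext
  intro x
  have h4 : extOG hW h x = (c : F) • x := hc x
  rw [h4, h3, one_smul, og_one]

theorem ext_comm {W : Submodule F V} (hW : NDS Q W) (hU : NDS Q (oc Q W)) (h : OG (resQ Q W)) (k : OG (resQ Q (oc Q W))) :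
    extOG hW h * extOG hU k = extOG hU k * extOG hW h := by
  have hWU : ∀ x ∈ W, x ∈ oc Q (oc Q W) := fun x hx z hz => by rw [pB_symm]; exact hz x hx
  apply og_ext
  intro x
  obtain ⟨w, hw, z, hz, rfl⟩ := hW.decomp x
  rw [og_mul, og_mul, og_add, og_add, og_add, og_add]
  have e1 : extOG hU k w = w := extOG_oc hU k (hWU w hw)
  have e2 : extOG hW h z = z := extOG_oc hW h hz
  have e3 : extOG hW h w = (h ⟨w, hw⟩ : W) := extOG_mem hW h ⟨w, hw⟩
  have e4 : extOG hU k z = (k ⟨z, hz⟩ : oc Q W) := extOG_mem hU k ⟨z, hz⟩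
  rw [e1, e2, e3, e4, extOG_oc hW h (k ⟨z, hz⟩).2, extOG_oc hU k (hWU _ (h ⟨w, hw⟩).2)]

theorem og_EG_sup (h2 : (2 : F) ≠ 0) (hnd : ND Q) (hn : 5 ≤ finrank F V) {W : Submodule F V} (hW : NDS Q W) (h5 : 2 ≤ finrank F W) (z : OG Q) :
    ∃ k : OG (resQ Q W), z * extOG hW k ∈ EG Q := by
  have hsup : EG Q ⊔ (extOG hW).range = ⊤ := by
    rw [eq_top_iff]
    intro g _
    have hg := rg_odd h2 hnd g
    unfold RG at hg
    induction hg using Subgroup.closure_induction with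
    | mem x hx =>
      obtain ⟨v, hv, rfl⟩ := hx
      obtain ⟨b', hb'⟩ := exists_val h2 hW.nd h5 (Q v)
      obtain ⟨b, hbW⟩ := b'
      have hb : Q b = Q v := hb'
      have hb0 : Q b ≠ 0 := by rw [hb]; exact hv
      have h1 : H5.refl hv = (H5.refl hv * H5.refl hb0) * H5.refl hb0 := by
        rw [mul_assoc, refl_mul_self, mul_one]
      rw [h1]
      refine mul_mem (Subgroup.mem_sup_left (uv_mem_eg hnd hn hv hb0 ⟨Q v, by rw [hb]⟩)) (Subgroup.mem_sup_right ?_)
      rw [extOG_range hnd hW]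
      intro z hz
      rw [refl_apply, hz b hbW, mul_zero, zero_smul, sub_zero]
    | one => exact one_mem _
    | mul a b _ _ ha hb => exact mul_mem (ha (Subgroup.mem_top _)) (hb (Subgroup.mem_top _))
    | inv a _ ha => exact inv_mem (ha (Subgroup.mem_top _))
  haveI : (EG Q).Normal := by
    rw [eg_eq_comm hnd hn (exists_sing hnd (by omega))]
    infer_instance
  have hz : z ∈ EG Q ⊔ (extOG hW).range := by rw [hsup]; exact Subgroup.mem_top _
  rw [Subgroup.mem_sup_of_normal_left] at hz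
  obtain ⟨y, hy, _, ⟨k, rfl⟩, rfl⟩ := hz
  exact ⟨k⁻¹, by rw [map_inv, mul_inv_cancel_right]; exact hy⟩

theorem b1_aux (h2 : (2 : F) ≠ 0) (hnd : ND Q) (hn : 5 ≤ finrank F V) {W : Submodule F V} (hW : NDS Q W) (h5 : 5 ≤ finrank F W)
    (ho : Odd (finrank F (oc Q W))) {N : Subgroup (MulAut (PE Q))} (hodd : Odd (Nat.card N))
    (hNg : ∀ n ∈ N, ∃ g : SSG Q, aE Q g = n ∧ (∀ x ∈ W, g.1.1 x ∈ W) ∧ (∀ x ∈ W, g.1.1.symm x ∈ W))
    (hNn : ∀ y ∈ EG Q, (∀ x ∈ W, y x ∈ W) → (∀ x ∈ oc Q W, y x ∈ oc Q W) → ∀ n ∈ N, aE Q (ogSS Q y) * n * (aE Q (ogSS Q y))⁻¹ ∈ N) :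
    N = ⊥ := by
  have hU : NDS Q (oc Q W) := hW.oc hnd
  have hU0 : oc Q W ≠ ⊥ := by
    intro h
    rw [h, finrank_bot] at ho
    exact absurd ho (by decide)
  have hWU : ∀ x ∈ W, x ∈ oc Q (oc Q W) := fun x hx z hz => by rw [pB_symm]; exact hz x hx
  have hocW : oc Q (oc Q W) ≠ ⊥ := by
    intro h
    obtain ⟨x, hx0⟩ := finrank_pos_iff_exists_ne_zero.mp (by omega : 0 < finrank F W)
    apply hx0
    have h1 := hWU x.1 x.2
    rw [h, Submodule.mem_bot] at h1
    exact Subtype.ext h1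
  -- extensions preserve the decomposition
  have stW : ∀ k : OG (resQ Q W), (∀ x ∈ W, extOG hW k x ∈ W) ∧ (∀ x ∈ oc Q W, extOG hW k x ∈ oc Q W) := by
    intro k
    refine ⟨fun x hx => ?_, fun x hx => ?_⟩
    · have e : extOG hW k x = (k ⟨x, hx⟩ : W) := extOG_mem hW k ⟨x, hx⟩
      rw [e]; exact (k ⟨x, hx⟩).2
    · rw [extOG_oc hW k hx]; exact hx
  have stU : ∀ k : OG (resQ Q (oc Q W)), (∀ x ∈ W, extOG hU k x ∈ W) ∧ (∀ x ∈ oc Q W, extOG hU k x ∈ oc Q W) := by
    intro k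
    refine ⟨fun x hx => ?_, fun x hx => ?_⟩
    · rw [extOG_oc hU k (hWU x hx)]; exact hx
    · have e : extOG hU k x = (k ⟨x, hx⟩ : oc Q W) := extOG_mem hU k ⟨x, hx⟩
      rw [e]; exact (k ⟨x, hx⟩).2
  -- `N₁`
  obtain ⟨N₁, hN₁⟩ : ∃ N₁ : Subgroup (OG (resQ Q (oc Q W))), N₁ = N.comap (thW hU) := ⟨_, rfl⟩
  have hN₁m : ∀ h, h ∈ N₁ ↔ thW hU h ∈ N := fun h => by rw [hN₁]; exact Iff.rfl
  have hinjU := thW_inj hnd hn hU hocW
  have hbot : N₁ = ⊥ := by
    apply odd_core_OG h2 hU.nd ho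
    · intro k h hh
      rw [hN₁m] at hh ⊢
      obtain ⟨k₁, hk₁⟩ := og_EG_sup h2 hnd hn hW (by omega) (extOG hU k)
      have h1 := hNn _ hk₁ (fun x hx => by rw [og_mul]; exact (stU k).1 _ ((stW k₁).1 x hx))
        (fun x hx => by rw [og_mul]; exact (stU k).2 _ ((stW k₁).2 x hx)) _ hh
      rw [thW_apply, ← map_inv, ← map_mul, ← map_mul, ← map_inv, ← map_mul, ← map_mul] at h1
      have h3 : extOG hU k * extOG hW k₁ * extOG hU h * (extOG hU k * extOG hW k₁)⁻¹ = extOG hU (k * h * k⁻¹) := by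
        rw [map_mul, map_mul, map_inv]
        have h4 := ext_comm hW hU k₁ h
        calc extOG hU k * extOG hW k₁ * extOG hU h * (extOG hU k * extOG hW k₁)⁻¹
            = extOG hU k * (extOG hW k₁ * extOG hU h) * (extOG hW k₁)⁻¹ * (extOG hU k)⁻¹ := by group
          _ = extOG hU k * extOG hU h * (extOG hU k)⁻¹ := by rw [h4]; group
      rw [h3] at h1
      exact h1
    · have h1 := Subgroup.card_comap_dvd_of_injective N (thW hU) hinjU
      rw [← hN₁] at h1
      exact Odd.of_dvd_nat hodd h1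
  rw [eq_bot_iff]
  intro n hn'
  obtain ⟨g, hg, hgW, hgW'⟩ := hNg n hn'
  -- the action on `W`
  have hblock := block (Q' := resQ Q W) h2 hW.nd h5 ((thW hW).comp (EG (resQ Q W)).subtype)
    ((thW_inj hnd hn hW hU0).comp (Subgroup.subtype_injective _)) hodd (fun h m hm => by
      apply hNn _ (hom_EG hnd hn hW.nd h5 (extOG hW) h.2) (stW h.1).1 (stW h.1).2 m hm) hn' (resSS g hgW hgW') (by
      intro h
      show n * aE Q (ogSS Q (extOG hW h.1)) * n⁻¹ = aE Q (ogSS Q (extOG hW (conjOG (resSS g hgW hgW') h.1)))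
      rw [← hg, ← map_inv, ← map_mul, ← map_mul, conj_ext hW g hgW hgW', mul_inv_cancel_right])
  rw [aE_eq_one_iff hW.nd h5] at hblock
  obtain ⟨hσ, c, hc⟩ := hblock
  have hσ' : g.1.2 = 1 := hσ
  have hc' : ∀ x ∈ W, g.1.1 x = (c : F) • x := fun x hx => congrArg Subtype.val (hc ⟨x, hx⟩)
  obtain ⟨v', hv'⟩ := exists_ne_q hW.nd (by omega)
  obtain ⟨v, hvW⟩ := v'
  have hv : Q v ≠ 0 := hv'
  have hκ : (ssK g : F) = c * c := by
    have h1 := ss_Q g v
    rw [hc' v hvW, q_smul, hσ'] at h1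
    exact (mul_right_cancel₀ hv h1).symm
  obtain ⟨h₀, hh₀⟩ := exists_og (scSS Q c⁻¹ * g) hσ' (fun x => by
    show Q ((c⁻¹ : Fˣ) • g.1.1 x) = Q x
    rw [Units.smul_def, q_smul, ss_Q, hκ, hσ', Units.val_inv_eq_inv_val]
    have hc0 : (c : F) ≠ 0 := c.ne_zero
    show (c : F)⁻¹ * (c : F)⁻¹ * (c * c * Q x) = Q x
    field_simp)
  have hfix : h₀ ∈ fixer Q (oc Q (oc Q W)) := by
    rw [oc_oc hnd]
    intro x hx
    have h1 : h₀ x = (scSS Q c⁻¹ * g).1.1 x := by rw [← hh₀]; rfl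
    rw [h1]
    show (c⁻¹ : Fˣ) • g.1.1 x = x
    rw [hc' x hx, Units.smul_def, smul_smul, Units.inv_mul, one_smul]
  rw [← extOG_range hnd hU] at hfix
  obtain ⟨h, rfl⟩ := hfix
  have hn1 : n = thW hU h := by
    rw [thW_apply, hh₀, map_mul, ← hg, aE_ker_sc hnd hn, one_mul]
  have h3 : h ∈ N₁ := by rw [hN₁m, ← hn1]; exact hn'
  rw [hbot, Subgroup.mem_bot] at h3
  rw [Subgroup.mem_bot, hn1, h3, map_one]

end main

end Cfsg.Agent.H17
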