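import Mathlib
import Cfsg.Agent.H17.BalC

set_option autoImplicit false

/-! Odd order groups centralizing an improper involution: the isometric case. -/

namespace Cfsg.Agent.H17

open Cfsg Cfsg.Agent.H5 Module

theorem odd_sqrt {G : Type*} [Group G] {N : Subgroup G} (hodd : Odd (Nat.card N)) {n : G} (hn : n ∈ N) : ∃ m ∈ N, m * m = n := by
  obtain ⟨k, hk⟩ := hodd
  haveI : Finite N := Nat.finite_of_card_ne_zero (by omega)
  have h3 : (⟨n, hn⟩ : N) ^ Nat.card N = 1 := pow_card_eq_one'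
  rw [hk] at h3
  have h4 : n ^ (2 * k + 1) = 1 := congrArg Subtype.val h3
  refine ⟨n ^ (k + 1), N.pow_mem hn _, ?_⟩
  rw [← pow_add, show k + 1 + (k + 1) = (2 * k + 1) + 1 by ring, pow_succ, h4, one_mul]

section main

variable {F V : Type*} [Field F] [Finite F] [AddCommGroup V] [Module F V] [FiniteDimensional F V] {Q : QuadraticForm F V}

/-- commutation up to a scalar -/
theorem comm_scalar (hnd : ND Q) (hn : 5 ≤ finrank F V) {g p : SSG Q} (h : aE Q g * aE Q p = aE Q p * aE Q g) :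
    ∃ a : Fˣ, ∀ x, g.1.1 (p.1.1 x) = (a : F) • p.1.1 (g.1.1 x) := by
  have h1 : aE Q (g * p * (p * g)⁻¹) = 1 := by
    rw [map_mul, map_inv, map_mul, map_mul, h, mul_inv_cancel]
  rw [aE_eq_one_iff hnd hn] at h1
  obtain ⟨_, a, ha⟩ := h1
  refine ⟨a, fun x => ?_⟩
  have h3 := ha (p.1.1 (g.1.1 x))
  have h4 : (g * p * (p * g)⁻¹).1.1 (p.1.1 (g.1.1 x)) = g.1.1 (p.1.1 x) := by
    have h5 : (p * g)⁻¹.1.1 (p.1.1 (g.1.1 x)) = x := (p * g).1.1.symm_apply_apply x
    show (g * p).1.1 ((p * g)⁻¹.1.1 (p.1.1 (g.1.1 x))) = _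
    rw [h5]; rfl
  rw [h4] at h3
  exact h3

omit [Finite F] in
theorem nds_fix (h2 : (2 : F) ≠ 0) (hnd : ND Q) {t : OG Q} (ht : t * t = 1) : NDS Q (fixS t) := by
  have htt : ∀ x, t (t x) = x := fun x => by rw [← og_mul, ht, og_one]
  intro x hx h
  rw [mem_fixS] at hx
  apply hnd
  intro v
  have h1 : v = (2 : F)⁻¹ • (v + t v) + (2 : F)⁻¹ • (v - t v) := by
    rw [← smul_add, add_add_sub_cancel, ← two_smul F v, smul_smul, inv_mul_cancel₀ h2, one_smul]
  have h3 : pB Q x (v + t v) = 0 := h _ (by rw [mem_fixS, og_add, htt, add_comm])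
  have h4 : pB Q x (v - t v) = 0 := by
    have h5 : pB Q x (t v) = pB Q x v := by
      conv_lhs => rw [← hx]
      rw [og_p]
    rw [map_sub, h5, sub_self]
  rw [h1, map_add, map_smul, map_smul, h3, h4, smul_zero, add_zero]

omit [Finite F] in
theorem oc_fix (h2 : (2 : F) ≠ 0) (hnd : ND Q) {t : OG Q} (ht : t * t = 1) (x : V) : x ∈ oc Q (fixS t) ↔ t x = -x := by
  have htt : ∀ x, t (t x) = x := fun x => by rw [← og_mul, ht, og_one]
  constructor
  · intro hx
    have h1 : x + t x = 0 := by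
      apply nds_fix h2 hnd ht
      · rw [mem_fixS, og_add, htt, add_comm]
      · intro y hy
        have h3 : pB Q y x = 0 := hx y hy
        rw [mem_fixS] at hy
        have h4 : pB Q y (t x) = pB Q y x := by
          conv_lhs => rw [← hy]
          rw [og_p]
        rw [pl_add, pB_symm, h3, pB_symm, h4, h3, add_zero]
    exact (neg_eq_of_add_eq_zero_right h1).symm
  · intro hx y hy
    rw [mem_fixS] at hy
    have h4 : pB Q y x = -pB Q y x := by
      conv_lhs => rw [← og_p t, hy, hx, map_neg]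
    have h5 : 2 * pB Q y x = 0 := by linear_combination h4
    exact (mul_eq_zero.mp h5).resolve_left h2

theorem b1 (h2 : (2 : F) ≠ 0) (hnd : ND Q) (hn8 : 8 ≤ finrank F V) (hev : Even (finrank F V)) (hsurj : Function.Surjective (aE Q))
    {t : OG Q} (ht : t * t = 1) (ht1 : Odd (finrank F (fixS t))) {N : Subgroup (MulAut (PE Q))} (hodd : Odd (Nat.card N))
    (hNc : ∀ n ∈ N, n * aE Q (ogSS Q t) = aE Q (ogSS Q t) * n)
    (hNn : ∀ y ∈ EG Q, y * t = t * y → ∀ n ∈ N, aE Q (ogSS Q y) * n * (aE Q (ogSS Q y))⁻¹ ∈ N) : N = ⊥ := by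
  have hn : 5 ≤ finrank F V := by omega
  have hW := nds_fix h2 hnd ht
  have hoc := finrank_oc hnd (fixS t)
  have ht2 : Odd (finrank F (oc Q (fixS t))) := by
    obtain ⟨k, hk⟩ := ht1
    obtain ⟨l, hl⟩ := hev
    exact ⟨l - k - 1, by omega⟩
  -- lifts commuting with `t`
  have hlift : ∀ n ∈ N, ∃ g : SSG Q, aE Q g = n ∧ ∀ x, g.1.1 (t x) = t (g.1.1 x) := by
    intro n hn'
    obtain ⟨m, hm, rfl⟩ := odd_sqrt hodd hn'
    obtain ⟨g, rfl⟩ := hsurj m
    obtain ⟨a, ha⟩ := comm_scalar hnd hn (hNc _ hm)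
    have ha' : ∀ x, g.1.1 (t x) = (a : F) • t (g.1.1 x) := ha
    have htt : ∀ x, t (t x) = x := fun x => by rw [← og_mul, ht, og_one]
    have haa : (a : F) * a = 1 := by
      obtain ⟨v, hv⟩ := exists_ne_q hnd (by omega)
      have hv0 : v ≠ 0 := by rintro rfl; exact hv (q_zero Q)
      have hgv : g.1.1 v ≠ 0 := by
        intro h
        apply hv0
        apply g.1.1.injective
        rw [h, ss_zero]
      have h1 : g.1.1 (t (t v)) = ((a : F) * a) • g.1.1 v := by rw [ha', ha', og_smul, htt, smul_smul]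
      rw [htt] at h1
      have h3 : ((a : F) * a - 1) • g.1.1 v = 0 := by rw [sub_smul, one_smul, ← h1, sub_self]
      exact sub_eq_zero.mp ((smul_eq_zero.mp h3).resolve_right hgv)
    refine ⟨g * g, map_mul _ _ _, fun x => ?_⟩
    show g.1.1 (g.1.1 (t x)) = t (g.1.1 (g.1.1 x))
    rw [ha', ss_smul, ha', smul_smul]
    -- `g.1.2 a * a = 1`
    have haa' : (a : F) = 1 ∨ (a : F) = -1 := mul_self_eq_one_iff.mp haa
    rcases haa' with h | h
    · rw [h, map_one, one_mul, one_smul]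
    · rw [h, map_neg, map_one]
      norm_num
  have hsymm : ∀ g : SSG Q, (∀ x, g.1.1 (t x) = t (g.1.1 x)) → ∀ x, g.1.1.symm (t x) = t (g.1.1.symm x) := by
    intro g hg x
    rw [Equiv.symm_apply_eq, hg, Equiv.apply_symm_apply]
  have hcases : 5 ≤ finrank F (fixS t) ∨ 5 ≤ finrank F (oc Q (fixS t)) := by
    obtain ⟨k, hk⟩ := ht1
    obtain ⟨l, hl⟩ := ht2
    omega
  have hneg : ∀ (g : SSG Q) (x : V), g.1.1 (-x) = -g.1.1 x := by
    intro g x
    have h1 := ss_add g x (-x)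
    rw [add_neg_cancel, ss_zero] at h1
    exact (neg_eq_of_add_eq_zero_right h1.symm).symm
  have hneg' : ∀ (g : SSG Q) (x : V), g.1.1.symm (-x) = -g.1.1.symm x := by
    intro g x
    rw [Equiv.symm_apply_eq, hneg, Equiv.apply_symm_apply]
  have hcomm : ∀ y : OG Q, (∀ x ∈ fixS t, y x ∈ fixS t) → (∀ x ∈ oc Q (fixS t), y x ∈ oc Q (fixS t)) → y * t = t * y := by
    intro y h1 h3
    apply og_ext
    intro x
    obtain ⟨w, hw, z, hz, rfl⟩ := hW.decomp x
    rw [og_mul, og_mul, og_add, og_add, og_add, og_add]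
    have e1 : t w = w := (mem_fixS t w).mp hw
    have e2 : t z = -z := (oc_fix h2 hnd ht z).mp hz
    have e3 : t (y w) = y w := (mem_fixS t _).mp (h1 w hw)
    have e4 : t (y z) = -(y z) := (oc_fix h2 hnd ht _).mp (h3 z hz)
    rw [e1, e2, e3, e4, og_neg]
  rcases hcases with h5 | h5
  · apply b1_aux h2 hnd hn hW h5 ht2 hodd
    · intro n hn'
      obtain ⟨g, hg, hgt⟩ := hlift n hn'
      refine ⟨g, hg, fun x hx => ?_, fun x hx => ?_⟩
      · rw [mem_fixS] at hx ⊢
        rw [← hgt, hx]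
      · rw [mem_fixS] at hx ⊢
        rw [← hsymm g hgt, hx]
    · intro y hy h1 h3
      exact hNn y hy (hcomm y h1 h3)
  · have hWU : oc Q (oc Q (fixS t)) = fixS t := oc_oc hnd _
    apply b1_aux h2 hnd hn (hW.oc hnd) h5 (by rw [hWU]; exact ht1) hodd
    · intro n hn'
      obtain ⟨g, hg, hgt⟩ := hlift n hn'
      refine ⟨g, hg, fun x hx => ?_, fun x hx => ?_⟩
      · rw [oc_fix h2 hnd ht] at hx ⊢
        rw [← hgt, hx, hneg]
      · rw [oc_fix h2 hnd ht] at hx ⊢
        rw [← hsymm g hgt, hx, hneg']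
    · intro y hy h1 h3
      rw [hWU] at h3
      exact hNn y hy (hcomm y h3 h1)

end main

end Cfsg.Agent.H17
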