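import Mathlib
import Cfsg.Agent.H17.BalD

set_option autoImplicit false

/-! Odd order groups centralizing an improper involution: the case of a nonsquare. -/

namespace Cfsg.Agent.H17

open Cfsg Cfsg.Agent.H5 Module

section quad

variable {F K V : Type*} [Field F] [Finite F] [Field K] [Finite K] [AddCommGroup V] [Module F V] [FiniteDimensional F V]
  [Module K V] [FiniteDimensional K V] {Q : QuadraticForm F V}

/-- the data of a self-adjoint square root of a nonsquare -/
structure KD (Q : QuadraticForm F V) (j : F →+* K) (ρ : K) (c : F) (p : V →ₗ[F] V) : Prop where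
  h2 : (2 : F) ≠ 0
  hc : c ≠ 0
  hρ : ρ * ρ = j c
  hind : ∀ s t : F, j s + j t * ρ = 0 → s = 0 ∧ t = 0
  hrep : ∀ θ : K, ∃ s t : F, θ = j s + j t * ρ
  hsm : ∀ (s t : F) (x : V), (j s + j t * ρ) • x = s • x + t • p x
  hpp : ∀ x, p (p x) = c • x
  hpQ : ∀ x, Q (p x) = c * Q x

variable {j : F →+* K} {ρ : K} {c : F} {p : V →ₗ[F] V}

namespace KD

variable (D : KD Q j ρ c p)

include D

omit [Finite F] [Finite K] [FiniteDimensional F V] [FiniteDimensional K V] in
theorem js (s : F) (x : V) : j s • x = s • x := by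
  have := D.hsm s 0 x
  rwa [map_zero, zero_mul, add_zero, zero_smul, add_zero] at this

omit [Finite F] [Finite K] [FiniteDimensional F V] [FiniteDimensional K V] in
theorem rs (x : V) : ρ • x = p x := by
  have := D.hsm 0 1 x
  rwa [map_zero, zero_add, map_one, one_mul, zero_smul, zero_add, one_smul] at this

omit [Finite F] [Finite K] [FiniteDimensional F V] [FiniteDimensional K V] in
theorem sa (x y : V) : pB Q (p x) y = pB Q x (p y) := by
  have h1 := sim_pB D.hpQ x (p y)
  rw [D.hpp, pr_smul] at h1
  exact mul_left_cancel₀ D.hc h1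

omit [Finite F] [Finite K] [FiniteDimensional F V] [FiniteDimensional K V] in
theorem ρ0 : ρ ≠ 0 := by
  intro h
  have h1 := D.hρ
  rw [h, mul_zero] at h1
  exact D.hc ((map_eq_zero j).mp h1.symm)

omit [Finite F] [Finite K] [FiniteDimensional F V] [FiniteDimensional K V] in
theorem h2K : (2 : K) ≠ 0 := by
  have : j (2 : F) = 2 := map_ofNat j 2
  rw [← this]
  exact fun h => D.h2 ((map_eq_zero j).mp h)

/-- the `K`-bilinear form -/
noncomputable def bil : V →ₗ[K] V →ₗ[K] K :=
  LinearMap.mk₂ K (fun x y => j (pB Q x y) + j (pB Q (p x) y) * ρ⁻¹)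
    (fun x x' y => by rw [pl_add, map_add p, pl_add, map_add, map_add]; ring)
    (fun θ x y => by
      obtain ⟨s, t, rfl⟩ := D.hrep θ
      have hρ0 := D.ρ0
      rw [D.hsm, map_add p, map_smul p, map_smul p, D.hpp, pl_add, pl_add, pl_smul, pl_smul, pl_smul, pl_smul, pl_smul, map_add, map_add,
        map_mul, map_mul, map_mul, map_mul, map_mul, smul_eq_mul]
      have h1 := D.hρ
      have h3 : ρ * ρ⁻¹ = 1 := mul_inv_cancel₀ hρ0
      have h4 : j c * ρ⁻¹ = ρ := by rw [← h1]; field_simp
      linear_combination (j t * j (pB Q x y)) * h4 - (j t * j (pB Q (p x) y)) * h3)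
    (fun x y y' => by rw [map_add, map_add, map_add, map_add]; ring)
    (fun θ x y => by
      obtain ⟨s, t, rfl⟩ := D.hrep θ
      have hρ0 := D.ρ0
      rw [D.hsm, pr_add, pr_add, pr_smul, pr_smul, pr_smul, pr_smul, ← D.sa x y, ← D.sa (p x) y, D.hpp, pl_smul, map_add, map_add,
        map_mul, map_mul, map_mul, map_mul, map_mul, smul_eq_mul]
      have h1 := D.hρ
      have h3 : ρ * ρ⁻¹ = 1 := mul_inv_cancel₀ hρ0
      have h4 : j c * ρ⁻¹ = ρ := by rw [← h1]; field_simp
      linear_combination (j t * j (pB Q x y)) * h4 - (j t * j (pB Q (p x) y)) * h3)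

omit [Finite F] [Finite K] [FiniteDimensional F V] [FiniteDimensional K V] in
theorem bil_apply (x y : V) : D.bil x y = j (pB Q x y) + j (pB Q (p x) y) * ρ⁻¹ := rfl

/-- the `K`-quadratic form -/
noncomputable def QK : QuadraticForm K V := LinearMap.BilinMap.toQuadraticMap D.bil

omit [Finite F] [Finite K] [FiniteDimensional F V] [FiniteDimensional K V] in
theorem QK_apply (x : V) : D.QK x = j (2 * Q x) + j (pB Q (p x) x) * ρ⁻¹ := by
  show D.bil x x = _
  rw [bil_apply, pB_self]

omit [Finite F] [Finite K] [FiniteDimensional F V] [FiniteDimensional K V] in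
theorem pB_QK (x y : V) : pB D.QK x y = 2 * D.bil x y := by
  rw [pB_apply, QuadraticMap.polar]
  show D.bil (x + y) (x + y) - D.bil x x - D.bil y y = _
  have h1 : D.bil y x = D.bil x y := by
    rw [bil_apply, bil_apply, D.sa y x, pB_symm Q y x, pB_symm Q y (p x)]
  rw [map_add, map_add, LinearMap.add_apply, LinearMap.add_apply, h1]
  ring

omit [Finite F] [Finite K] [FiniteDimensional F V] [FiniteDimensional K V] in
theorem coef {s t s' t' : F} (h : j s + j t * ρ = j s' + j t' * ρ) : s = s' ∧ t = t' := by
  have h1 := D.hind (s - s') (t - t') (by rw [map_sub, map_sub]; linear_combination h)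
  exact ⟨sub_eq_zero.mp h1.1, sub_eq_zero.mp h1.2⟩

omit [Finite F] [Finite K] [FiniteDimensional F V] [FiniteDimensional K V] in
theorem coef' {s t s' t' : F} (h : j s + j t * ρ⁻¹ = j s' + j t' * ρ⁻¹) : s = s' ∧ t = t' := by
  have hρ0 := D.ρ0
  have h3 : ρ⁻¹ * ρ = 1 := inv_mul_cancel₀ hρ0
  have h1 := D.coef (s := t) (t := s) (s' := t') (t' := s') (by linear_combination ρ * h - (j t - j t') * h3)
  exact ⟨h1.2, h1.1⟩

omit [Finite F] [Finite K] [FiniteDimensional F V] [FiniteDimensional K V] in
theorem nd (hnd : ND Q) : ND D.QK := by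
  intro x hx
  apply hnd
  intro y
  have h1 := hx y
  rw [D.pB_QK] at h1
  have h3 := (mul_eq_zero.mp h1).resolve_left D.h2K
  rw [bil_apply] at h3
  exact (D.coef' (s' := 0) (t' := 0) (by rw [h3, map_zero, zero_mul, add_zero])).1

omit [Finite F] [Finite K] [FiniteDimensional F V] [FiniteDimensional K V] in
theorem QK_eq {x y : V} (h : D.QK x = D.QK y) : Q x = Q y := by
  rw [QK_apply, QK_apply] at h
  exact mul_left_cancel₀ D.h2 (D.coef' h).1

/-- `K`-isometries are `F`-isometries -/
noncomputable def phi : OG D.QK →* OG Q where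
  toFun h := ⟨{ toFun := fun x => h x
                map_add' := fun x y => og_add h x y
                map_smul' := fun s x => by
                  show h (s • x) = s • h x
                  rw [← D.js, og_smul, D.js]
                invFun := fun x => (h⁻¹ : OG D.QK) x
                left_inv := fun x => og_inv h x
                right_inv := fun x => og_inv' h x }, fun x => D.QK_eq (og_q h x)⟩
  map_one' := og_ext fun x => rfl
  map_mul' g h := og_ext fun x => rfl

omit [Finite F] [Finite K] [FiniteDimensional F V] [FiniteDimensional K V] in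
theorem phi_apply (h : OG D.QK) (x : V) : D.phi h x = h x := rfl

omit [Finite F] [Finite K] [FiniteDimensional F V] [FiniteDimensional K V] in
theorem phi_p (h : OG D.QK) (x : V) : D.phi h (p x) = p (D.phi h x) := by
  rw [phi_apply, phi_apply, ← D.rs, og_smul, D.rs]

theorem cardK : Nat.card K = Nat.card F ^ 2 := by
  let e : F × F → K := fun st => j st.1 + j st.2 * ρ
  have he : Function.Bijective e := by
    constructor
    · rintro ⟨s, t⟩ ⟨s', t'⟩ h
      obtain ⟨h1, h3⟩ := D.coef h
      exact Prod.ext h1 h3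
    · intro θ
      obtain ⟨s, t, h⟩ := D.hrep θ
      exact ⟨(s, t), h.symm⟩
  rw [← Nat.card_congr (Equiv.ofBijective e he), Nat.card_prod, pow_two]

theorem dimK : finrank F V = 2 * finrank K V := by
  haveI : Finite V := Module.finite_of_finite F
  have h1 : Nat.card V = Nat.card F ^ finrank F V := Module.natCard_eq_pow_finrank
  have h3 : Nat.card V = Nat.card K ^ finrank K V := Module.natCard_eq_pow_finrank
  rw [h1, D.cardK, ← pow_mul] at h3
  exact Nat.pow_right_injective (Finite.one_lt_card : 1 < Nat.card F) h3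

end KD

end quad

end Cfsg.Agent.H17
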