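import Mathlib
import Cfsg.Agent.H17.BalE

set_option autoImplicit false

/-! Odd order groups centralizing an improper involution: the case of a nonsquare, conclusion. -/

namespace Cfsg.Agent.H17

open Cfsg Cfsg.Agent.H5 Module

section quad

variable {F K V : Type*} [Field F] [Finite F] [Field K] [Finite K] [AddCommGroup V] [Module F V] [FiniteDimensional F V]
  [Module K V] [FiniteDimensional K V] {Q : QuadraticForm F V} {j : F →+* K} {ρ : K} {c : F} {p : V →ₗ[F] V}

namespace KD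

variable (D : KD Q j ρ c p)

include D

omit [Finite F] [Finite K] [FiniteDimensional F V] [FiniteDimensional K V] in
theorem QK_apply' (x : V) : D.QK x = j (2 * Q x) + j (pB Q (p x) x * c⁻¹) * ρ := by
  rw [QK_apply, map_mul j _ c⁻¹, map_inv₀, ← D.hρ]
  have := D.ρ0
  field_simp

omit [Finite F] [FiniteDimensional F V] [FiniteDimensional K V] in
theorem exists_ext (σ : F ≃+* F) {a : F} (ha0 : a ≠ 0) (ha : σ c = a * a * c) :
    ∃ E : K ≃+* K, ∀ s t : F, E (j s + j t * ρ) = j (σ s) + j (σ t * a) * ρ := by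
  choose S T hST using D.hrep
  obtain ⟨E, hE⟩ : ∃ E : K → K, E = fun θ => j (σ (S θ)) + j (σ (T θ) * a) * ρ := ⟨_, rfl⟩
  have hE' : ∀ s t : F, E (j s + j t * ρ) = j (σ s) + j (σ t * a) * ρ := by
    intro s t
    obtain ⟨h1, h3⟩ := D.coef (hST (j s + j t * ρ)).symm
    rw [hE]
    show j (σ (S (j s + j t * ρ))) + j (σ (T (j s + j t * ρ)) * a) * ρ = _
    rw [h1, h3]
  let R : K →+* K :=
    { toFun := E
      map_one' := by
        have h1 : (1 : K) = j 1 + j 0 * ρ := by rw [map_one, map_zero, zero_mul, add_zero]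
        rw [h1, hE', map_one, map_zero, zero_mul]
      map_zero' := by
        have h1 : (0 : K) = j 0 + j 0 * ρ := by rw [map_zero, zero_mul, add_zero]
        rw [h1, hE', map_zero, zero_mul]
      map_add' := fun θ η => by
        obtain ⟨s, t, rfl⟩ := D.hrep θ
        obtain ⟨s', t', rfl⟩ := D.hrep η
        have h1 : j s + j t * ρ + (j s' + j t' * ρ) = j (s + s') + j (t + t') * ρ := by
          rw [map_add, map_add]; ring
        rw [h1, hE', hE', hE', map_add σ, map_add σ, add_mul, map_add j, map_add j]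
        ring
      map_mul' := fun θ η => by
        obtain ⟨s, t, rfl⟩ := D.hrep θ
        obtain ⟨s', t', rfl⟩ := D.hrep η
        have h1 : (j s + j t * ρ) * (j s' + j t' * ρ) = j (s * s' + t * t' * c) + j (s * t' + t * s') * ρ := by
          simp only [map_add, map_mul, ← D.hρ]; ring
        rw [h1, hE', hE', hE']
        simp only [map_add, map_mul, ha, ← D.hρ]
        ring }
  have hb : Function.Bijective R := by
    rw [← Finite.injective_iff_bijective]
    exact R.injective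
  exact ⟨RingEquiv.ofBijective R hb, hE'⟩

omit [FiniteDimensional F V] [FiniteDimensional K V] in
theorem exists_lift (g : SSG Q) {a : F} (ha0 : a ≠ 0) (ha : g.1.2 c = a * a * c) (hg : ∀ x, g.1.1 (p x) = a • p (g.1.1 x)) :
    ∃ g' : SSG D.QK, (∀ x, g'.1.1 x = g.1.1 x) ∧ (∀ s : F, g'.1.2 (j s) = j (g.1.2 s)) ∧ (∀ x, D.QK (g'.1.1 x) = j (ssK g) * g'.1.2 (D.QK x)) := by
  obtain ⟨E, hE⟩ := D.exists_ext g.1.2 ha0 ha
  have hform : ∀ x, D.QK (g.1.1 x) = j (ssK g) * E (D.QK x) := by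
    intro x
    have hc := D.hc
    have h1 : pB Q (p (g.1.1 x)) (g.1.1 x) = a⁻¹ * (ssK g * g.1.2 (pB Q (p x) x)) := by
      rw [← ss_B, hg, pl_smul, ← mul_assoc, inv_mul_cancel₀ ha0, one_mul]
    rw [D.QK_apply' (g.1.1 x), D.QK_apply' x, hE, ss_Q, h1]
    have h3 : g.1.2 (pB Q (p x) x * c⁻¹) * a = a⁻¹ * g.1.2 (pB Q (p x) x) * c⁻¹ := by
      rw [map_mul, map_inv₀, ha]; field_simp
    rw [h3, map_mul g.1.2, map_ofNat]
    simp only [map_mul, map_inv₀, map_ofNat]
    ring
  have hsm : ∀ (θ : K) (x : V), g.1.1 (θ • x) = E θ • g.1.1 x := by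
    intro θ x
    obtain ⟨s, t, rfl⟩ := D.hrep θ
    rw [D.hsm, hE, D.hsm, ss_add, ss_smul, ss_smul, hg, smul_smul]
  have hk0 : j (ssK g : F) ≠ 0 := (map_ne_zero j).mpr (Units.ne_zero _)
  refine ⟨⟨(g.1.1, E), ss_add g, hsm, Units.mk0 _ hk0, hform⟩, fun x => rfl, fun s => ?_, hform⟩
  show E (j s) = _
  have h1 : j s = j s + j 0 * ρ := by rw [map_zero, zero_mul, add_zero]
  rw [h1, hE, map_zero, zero_mul, map_zero, zero_mul, add_zero]

theorem b2_main (hnd : ND Q) (hn : 5 ≤ finrank F V) (hK5 : 5 ≤ finrank K V) (hKo : Odd (finrank K V)) (hsurj : Function.Surjective (aE Q))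
    {N : Subgroup (MulAut (PE Q))} (hodd : Odd (Nat.card N)) {P : SSG Q} (hP : ∀ x, P.1.1 x = p x)
    (hNc : ∀ n ∈ N, n * aE Q P = aE Q P * n)
    (hNn : ∀ y ∈ EG Q, (∀ x, y (p x) = p (y x)) → ∀ n ∈ N, aE Q (ogSS Q y) * n * (aE Q (ogSS Q y))⁻¹ ∈ N) : N = ⊥ := by
  have hndK := D.nd hnd
  obtain ⟨Θ, hΘ⟩ : ∃ Θ : EG D.QK →* MulAut (PE Q), ∀ h, Θ h = aE Q (ogSS Q (D.phi h.1)) :=
    ⟨(aE Q).comp ((ogSS Q).comp (D.phi.comp (EG D.QK).subtype)), fun h => rfl⟩
  obtain ⟨v, hv⟩ := exists_ne_q hnd (by omega)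
  have hv0 : v ≠ 0 := by rintro rfl; exact hv (q_zero Q)
  have hinj : Function.Injective Θ := by
    rw [injective_iff_map_eq_one]
    intro h hh
    rw [hΘ, aE_eq_one_iff hnd hn] at hh
    obtain ⟨_, d, hd⟩ := hh
    have hd' : ∀ x, h.1 x = (d : F) • x := fun x => hd x
    have hdd : (d : F) * d = 1 := by
      have h1 : Q (h.1 v) = Q v := og_q (D.phi h.1) v
      rw [hd', q_smul] at h1
      exact (mul_left_eq_self₀.mp h1).resolve_right hv
    rcases mul_self_eq_one_iff.mp hdd with h1 | h1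
    · apply Subtype.ext
      apply og_ext
      intro x
      rw [hd', h1, one_smul]; rfl
    · exfalso
      have h3 := odet_EG hndK hK5 h.2
      have h5 : (h.1.1 : V →ₗ[K] V) = (-1 : K) • LinearMap.id := by
        apply LinearMap.ext
        intro x
        show h.1 x = (-1 : K) • x
        rw [hd', h1, neg_smul, neg_smul, one_smul, one_smul]
      have h6 : odet D.QK h.1 = -1 := by
        show LinearMap.det _ = _
        rw [h5, LinearMap.det_smul, LinearMap.det_id, mul_one, hKo.neg_one_pow]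
      rw [h6] at h3
      apply D.h2K
      linear_combination -h3
  rw [eq_bot_iff]
  intro n hn'
  apply Subgroup.mem_bot.mpr
  apply sq_of_odd hodd hn'
  obtain ⟨g, hg⟩ := hsurj n
  obtain ⟨a, ha⟩ := comm_scalar hnd hn (g := g) (p := P) (by rw [hg]; exact hNc n hn')
  have hga : ∀ x, g.1.1 (p x) = (a : F) • p (g.1.1 x) := fun x => by rw [← hP, ← hP]; exact ha x
  have hgv : g.1.1 v ≠ 0 := by
    intro h
    apply hv0
    apply g.1.1.injective
    rw [h, ss_zero]
  have hac : g.1.2 c = a * a * c := by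
    have h1 : g.1.1 (p (p v)) = ((a : F) * a * c) • g.1.1 v := by
      rw [hga, hga, map_smul, D.hpp, smul_smul, smul_smul, mul_assoc]
    rw [D.hpp, ss_smul] at h1
    have h3 : (g.1.2 c - (a : F) * a * c) • g.1.1 v = 0 := by rw [sub_smul, h1, sub_self]
    exact sub_eq_zero.mp ((smul_eq_zero.mp h3).resolve_right hgv)
  obtain ⟨g', h1, h3, h4⟩ := D.exists_lift g a.ne_zero hac hga
  have hsymm : ∀ x, g'.1.1.symm x = g.1.1.symm x := by
    intro x
    rw [Equiv.symm_apply_eq, h1, Equiv.apply_symm_apply]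
  have hblock := block (Q' := D.QK) D.h2K hndK hK5 Θ hinj hodd (fun h m hm => by
      rw [hΘ]
      exact hNn _ (hom_EG hnd hn hndK hK5 D.phi h.2) (D.phi_p h.1) m hm) hn' g' (by
      intro h
      rw [hΘ, hΘ, ← hg, ← map_inv, ← map_mul, ← map_mul]
      congr 1
      rw [mul_inv_eq_iff_eq_mul]
      refine ss_ext (fun x => ?_) ?_
      · show g.1.1 (h.1 x) = conjOG g' h.1 (g.1.1 x)
        rw [conjOG_apply, hsymm, Equiv.symm_apply_apply, h1]
      · show g.1.2 * 1 = 1 * g.1.2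
        rw [one_mul, mul_one])
  rw [aE_eq_one_iff hndK hK5] at hblock
  obtain ⟨hσ, l, hl⟩ := hblock
  have hl' : ∀ x, g.1.1 x = (l : K) • x := fun x => by rw [← h1]; exact hl x
  have hσ' : g.1.2 = 1 := by
    apply RingEquiv.ext
    intro s
    apply j.injective
    rw [← h3, hσ]; rfl
  have hll : (l : K) * l = j (ssK g) := by
    obtain ⟨u, hu⟩ := exists_ne_q hndK (by omega)
    have h5 := h4 u
    rw [h1, hl', q_smul, hσ] at h5
    exact mul_right_cancel₀ hu h5
  rw [← hg, ← map_mul, aE_eq_one_iff hnd hn]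
  refine ⟨by show g.1.2 * g.1.2 = 1; rw [hσ', one_mul], ssK g, fun x => ?_⟩
  show g.1.1 (g.1.1 x) = (ssK g : F) • x
  rw [hl', hl', smul_smul, hll, D.js]

end KD

end quad

end Cfsg.Agent.H17
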