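import Mathlib
import Cfsg.Agent.H17.BalF

set_option autoImplicit false

/-! Odd order groups centralizing an improper involution: the case of a nonsquare, without the auxiliary field. -/

namespace Cfsg.Agent.H17

open Cfsg Cfsg.Agent.H5 Module

section quad

universe u
variable {F : Type u} [Field F] [Finite F] {V : Type*} [AddCommGroup V] [Module F V] [FiniteDimensional F V] {Q : QuadraticForm F V}

theorem b2 (h2 : (2 : F) ≠ 0) {c : F} (hc : ¬ IsSquare c) (hnd : ND Q) {k : ℕ} (hk : finrank F V = 2 * k) (hk5 : 5 ≤ k) (hko : Odd k)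
    (hsurj : Function.Surjective (aE Q)) {N : Subgroup (MulAut (PE Q))} (hodd : Odd (Nat.card N)) {P : SSG Q} (hP1 : P.1.2 = 1)
    (hPP : ∀ x, P.1.1 (P.1.1 x) = c • x) (hPQ : ∀ x, Q (P.1.1 x) = c * Q x)
    (hNc : ∀ n ∈ N, n * aE Q P = aE Q P * n)
    (hNn : ∀ y ∈ EG Q, (∀ x, y (P.1.1 x) = P.1.1 (y x)) → ∀ n ∈ N, aE Q (ogSS Q y) * n * (aE Q (ogSS Q y))⁻¹ ∈ N) : N = ⊥ := by
  have hc0 : c ≠ 0 := by rintro rfl; exact hc IsSquare.zero
  obtain ⟨K, _, _, j, ρ, hρ, hind, hrep⟩ := exists_rho h2 hc
  let p : V →ₗ[F] V := { toFun := P.1.1, map_add' := ss_add P, map_smul' := fun s x => by rw [ss_smul, hP1]; rfl }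
  have hpa : ∀ x, p x = P.1.1 x := fun x => rfl
  have hcf : ∀ {s t s' t' : F}, j s + j t * ρ = j s' + j t' * ρ → s = s' ∧ t = t' := by
    intro s t s' t' h
    have h1 := hind (s - s') (t - t') (by rw [map_sub, map_sub]; linear_combination h)
    exact ⟨sub_eq_zero.mp h1.1, sub_eq_zero.mp h1.2⟩
  choose S T hST using hrep
  have hS : ∀ s t : F, S (j s + j t * ρ) = s ∧ T (j s + j t * ρ) = t := fun s t => hcf (hST _).symm
  letI : SMul K V := ⟨fun θ x => S θ • x + T θ • p x⟩
  have hsd : ∀ (θ : K) (x : V), θ • x = S θ • x + T θ • p x := fun θ x => rfl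
  have hsm : ∀ (s t : F) (x : V), (j s + j t * ρ) • x = s • x + t • p x := by
    intro s t x
    rw [hsd, (hS s t).1, (hS s t).2]
  letI : Module K V :=
    { one_smul := fun x => by
        have h1 : (1 : K) = j 1 + j 0 * ρ := by rw [map_one, map_zero, zero_mul, add_zero]
        rw [h1, hsm, one_smul, zero_smul, add_zero]
      mul_smul := fun θ η x => by
        have h1 : θ * η = j (S θ * S η + T θ * T η * c) + j (S θ * T η + T θ * S η) * ρ := by
          nth_rewrite 1 [hST θ, hST η]
          simp only [map_add, map_mul, ← hρ]; ring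
        rw [h1, hsm, hsd θ, hsd η, map_add p, map_smul p, map_smul p, hpa (p x), hpa x, hPP]
        module
      smul_zero := fun θ => by rw [hsd, map_zero, smul_zero, smul_zero, add_zero]
      smul_add := fun θ x y => by
        rw [hsd, hsd, hsd, map_add p]
        module
      add_smul := fun θ η x => by
        have h1 : θ + η = j (S θ + S η) + j (T θ + T η) * ρ := by
          nth_rewrite 1 [hST θ, hST η]
          simp only [map_add]; ring
        rw [h1, hsm, hsd θ, hsd η]
        module
      zero_smul := fun x => by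
        have h1 : (0 : K) = j 0 + j 0 * ρ := by rw [map_zero, zero_mul, add_zero]
        rw [h1, hsm, zero_smul, zero_smul, add_zero] }
  haveI : Finite V := Module.finite_of_finite F
  haveI : FiniteDimensional K V := Module.Finite.of_finite
  have D : KD Q j ρ c p := ⟨h2, hc0, hρ, hind, fun θ => ⟨S θ, T θ, hST θ⟩, hsm, hPP, hPQ⟩
  have hd := D.dimK
  exact D.b2_main hnd (by omega) (by omega) (by rw [show finrank K V = k by omega]; exact hko) hsurj hodd (fun x => rfl) hNc hNn

end quad

end Cfsg.Agent.H17
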