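import Mathlib
import Cfsg.Agent.H17.BalG
import Cfsg.Agent.H17.InvT

set_option autoImplicit false

/-! Structure of improper involutions of orthogonal groups without maximal singular subspaces. -/

namespace Cfsg.Agent.H17

open Cfsg Cfsg.Agent.H5 Module

section split

universe u
variable {F : Type u} [Field F] [Finite F] {ι : Type} [Fintype ι] [DecidableEq ι] {Q : QuadraticForm F (ι → F)}
  {E : Subgroup (SSG Q)} {k : ℕ}

namespace CH

variable (H : CH Q E k)

include H

theorem improper_struct' (hno : ¬ ∃ U : Submodule F (ι → F), TS Q U ∧ finrank F U = k)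
    (hcr : ∀ (p : SSG Q) (L : (ι → F) →ₗ[F] (ι → F)), p.1.2 = 1 → (∀ x, L x = p.1.1 x) → LinearMap.det L = (ssK p : F) ^ k → p ∈ E)
    {p : SSG Q} (hp1 : p.1.2 = 1) (hp : p ∉ E) {c : Fˣ} (hpc : p * p = scSS Q c) :
    (∃ (y : Fˣ) (g : OG Q), scSS Q y * p = ogSS Q g ∧ g * g = 1 ∧ Odd (finrank F (fixS g))) ∨
      (Odd k ∧ ¬ IsSquare (c : F) ∧ ∀ x, Q (p.1.1 x) = c * Q x) := by
  have hne := H.ne
  have hpp : ∀ x, p.1.1 (p.1.1 x) = (c : F) • x := fun x => congrArg (fun q : SSG Q => q.1.1 x) hpc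
  have hQ : ∀ x, Q (p.1.1 x) = ssK p * Q x := fun x => by rw [ss_Q, hp1]; rfl
  have hκ : (ssK p : F) * ssK p = c * c := by
    obtain ⟨x, hx⟩ := hne
    have h1 : Q (p.1.1 (p.1.1 x)) = Q ((c : F) • x) := by rw [hpp]
    rw [hQ, hQ, q_smul, ← mul_assoc] at h1
    exact mul_right_cancel₀ hx h1
  have hκ' : (ssK p : F) = c ∨ (ssK p : F) = -c := mul_self_eq_mul_self_iff.mp hκ
  have hsm : ∀ (a : F) x, p.1.1 (a • x) = a • p.1.1 x := fun a x => by rw [ss_smul, hp1]; rfl
  by_cases hsq : IsSquare (c : F)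
  · left
    obtain ⟨d, hd⟩ := hsq
    have hd0 : d ≠ 0 := by rintro rfl; rw [mul_zero] at hd; exact c.ne_zero hd
    set δ : Fˣ := Units.mk0 d hd0 with hδ
    have ha : ∀ x, (scSS Q δ⁻¹ * p).1.1 x = d⁻¹ • p.1.1 x := fun x => by
      show (δ⁻¹ : Fˣ) • p.1.1 x = _
      rw [Units.smul_def, Units.val_inv_eq_inv_val]; rfl
    have hpp' : ∀ x, (scSS Q δ⁻¹ * p).1.1 ((scSS Q δ⁻¹ * p).1.1 x) = x := by
      intro x
      rw [ha, ha, ss_smul, hp1]
      show d⁻¹ • d⁻¹ • p.1.1 (p.1.1 x) = x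
      rw [hpp, smul_smul, smul_smul, hd]
      have : d⁻¹ * d⁻¹ * (d * d) = 1 := by field_simp
      rw [this, one_smul]
    have hpE : scSS Q δ⁻¹ * p ∉ E := fun h => hp ((Subgroup.mul_mem_cancel_left _ (H.P.sc _)).mp h)
    rcases hκ' with h | h
    · obtain ⟨g, hg⟩ := exists_og (scSS Q δ⁻¹ * p) hp1 (fun x => by
        rw [ha, q_smul, hQ, h, hd]; field_simp)
      refine ⟨δ⁻¹, g, hg.symm, og_ext fun x => ?_, ?_⟩
      · have := hpp' x
        rw [← hg] at this
        exact this
      · rw [← hg] at hpE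
        rw [H.P.og_iff H.nd H.rg, dg_iff_parity H.nd H.rg, H.hk] at hpE
        rw [← Nat.not_even_iff_odd]
        intro h5
        exact hpE (h5.add (even_two_mul k))
    · exfalso
      apply hno
      -- eigenspaces
      set s := scSS Q δ⁻¹ * p with hs
      have hs1 : s.1.2 = 1 := hp1
      have hsm' : ∀ (a : F) x, s.1.1 (a • x) = a • s.1.1 x := fun a x => by rw [ss_smul, hs1]; rfl
      have hsQ : ∀ x, Q (s.1.1 x) = -Q x := fun x => by rw [ha, q_smul, hQ, h, hd]; field_simp
      let L : (ι → F) →ₗ[F] (ι → F) := { toFun := s.1.1, map_add' := ss_add s, map_smul' := hsm' }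
      have h2' : ∀ a : F, a = -a → a = 0 := fun a h => by
        have : 2 * a = 0 := by linear_combination h
        exact (mul_eq_zero.mp this).resolve_left H.h2
      let W₁ := LinearMap.ker (L - LinearMap.id)
      let W₂ := LinearMap.ker (L + LinearMap.id)
      have hW₁ : ∀ x, x ∈ W₁ ↔ s.1.1 x = x := fun x => by
        rw [LinearMap.mem_ker, LinearMap.sub_apply, sub_eq_zero]; rfl
      have hW₂ : ∀ x, x ∈ W₂ ↔ s.1.1 x = -x := fun x => by
        rw [LinearMap.mem_ker, LinearMap.add_apply, eq_neg_iff_add_eq_zero]; rfl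
      have t1 : TS Q W₁ := fun x hx => h2' _ (by have := hsQ x; rwa [(hW₁ x).mp hx] at this)
      have t2 : TS Q W₂ := fun x hx => h2' _ (by have := hsQ x; rwa [(hW₂ x).mp hx, q_neg] at this)
      have hsup : W₁ ⊔ W₂ = ⊤ := by
        rw [eq_top_iff]
        intro x _
        have : x = (2 : F)⁻¹ • (x + s.1.1 x) + (2 : F)⁻¹ • (x - s.1.1 x) := by
          rw [← smul_add, add_add_sub_cancel, ← two_smul F x, smul_smul, inv_mul_cancel₀ H.h2, one_smul]
        rw [this]
        refine Submodule.add_mem_sup (W₁.smul_mem _ ?_) (W₂.smul_mem _ ?_)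
        · rw [hW₁, ss_add, hpp', add_comm]
        · rw [hW₂, ss_sub, hpp', neg_sub]
      have hinf : W₁ ⊓ W₂ = ⊥ := by
        rw [eq_bot_iff]
        rintro x ⟨h1, h3⟩
        have h4 := (hW₁ x).mp h1
        rw [(hW₂ x).mp h3] at h4
        have h5 : (2 : F) • x = 0 := by
          rw [two_smul]; nth_rewrite 1 [← h4]; exact neg_add_cancel x
        exact (smul_eq_zero.mp h5).resolve_left H.h2
      have hdim := Submodule.finrank_sup_add_finrank_inf_eq W₁ W₂
      rw [hsup, hinf, finrank_bot, finrank_top, H.hk] at hdim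
      have d1 := t1.finrank_le H.nd H.hk
      have d2 := t2.finrank_le H.nd H.hk
      exact ⟨W₁, t1, by omega⟩
  · right
    let L : (ι → F) →ₗ[F] (ι → F) := { toFun := p.1.1, map_add' := ss_add p, map_smul' := hsm }
    have hdet := det_sq_nonsq hsq k L hpp H.hk
    rcases hκ' with h | h
    · rcases Nat.even_or_odd k with hke | hko
      · exfalso
        apply hp
        apply hcr p L hp1 (fun x => rfl)
        rw [hdet, h, hke.neg_pow]
      · exact ⟨hko, hsq, fun x => by rw [hQ, h]⟩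
    · exfalso
      apply hp
      apply hcr p L hp1 (fun x => rfl)
      rw [hdet, h]


end CH

end split

end Cfsg.Agent.H17
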