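import Mathlib
import Cfsg.Agent.H17.BalH
import Cfsg.Agent.H17.Minus7
import Cfsg.Agent.H17.Desc3

set_option autoImplicit false

/-! Local balance for minus type orthogonal groups. -/

namespace Cfsg.Agent.H17

open Cfsg Cfsg.Agent.H5 Module
open scoped MatrixGroups Matrix

universe u

theorem core_two {X Y : Type*} [Group X] [Group Y] (e : X ≃* Y) {x : X} (A : Subgroup X)
    (H : ∀ N : Subgroup Y, Odd (Nat.card N) → (∀ n ∈ N, n * e x = e x * n) →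
      (∀ a ∈ A, a * x = x * a → ∀ n ∈ N, e a * n * (e a)⁻¹ ∈ N) → N = ⊥) :
    pPrimeCore 2 ↥(A ⊓ Subgroup.centralizer {x}) = ⊥ := by
  obtain ⟨C, hC⟩ : ∃ C : Subgroup X, C = A ⊓ Subgroup.centralizer {x} := ⟨_, rfl⟩
  rw [← hC]
  unfold pPrimeCore
  rw [sSup_eq_bot]
  rintro N ⟨hN, hNc⟩
  have hCx : ∀ c ∈ C, c ∈ A ⊓ Subgroup.centralizer {x} := by
    rw [hC]
    exact fun c hc => hc
  obtain ⟨f, hf⟩ : ∃ f : C →* Y, ∀ c : C, f c = e (c : X) := ⟨e.toMonoidHom.comp C.subtype, fun c => rfl⟩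
  have hfi : Function.Injective f := by
    intro c c' h
    rw [hf, hf] at h
    exact Subtype.ext (e.injective h)
  have h1 : N.map f = ⊥ := by
    apply H
    · have h3 : Nat.card (N.map f) = Nat.card N := Nat.card_congr (N.equivMapOfInjective _ hfi).toEquiv.symm
      rw [h3]
      exact (Nat.coprime_two_right).mp hNc
    · rintro _ ⟨n, hn, rfl⟩
      have h3 : (n : X) * x = x * n := Subgroup.mem_centralizer_singleton_iff.mp (hCx _ n.2).2
      rw [hf, ← map_mul, ← map_mul, h3]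
    · rintro a ha hax _ ⟨n, hn, rfl⟩
      have haC : a ∈ C := by
        rw [hC]
        exact ⟨ha, Subgroup.mem_centralizer_singleton_iff.mpr hax⟩
      refine ⟨⟨a, haC⟩ * n * ⟨a, haC⟩⁻¹, hN.conj_mem _ hn _, ?_⟩
      rw [hf, hf, ← map_mul, ← map_inv, ← map_mul]
      rfl
  exact (Subgroup.map_eq_bot_iff_of_injective _ hfi).mp h1

section minus

variable {F : Type u} [Field F] [Finite F] {m : ℕ} {a b : F}

/-- automorphisms of prime order with nontrivial field part are field automorphisms -/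
theorem field_class_minus (hm : 3 ≤ m) (hab : ∀ z₁ z₂ : F, z₁ ^ 2 + a * z₁ * z₂ + b * z₂ ^ 2 = 0 → z₁ = 0 ∧ z₂ = 0)
    (hn : 5 ≤ Fintype.card ((Fin m ⊕ Fin m) ⊕ Fin 2)) {r : ℕ} (hr : r.Prime)
    {x : MulAut (POmega F ⇑(qMinus m F a b))} {q : SSG (qMinus m F a b)} (hx : MulAut.congr (pomEquiv (nd_minus hab) hn) x = aE (qMinus m F a b) q)
    (hq : q.1.2 ≠ 1) (hxr : orderOf x = r) : r ≠ 2 ∧
    ∃ (a' b' : F) (ψ : POmega F ⇑(qMinus m F a b) ≃* POmega F ⇑(qMinus m F a' b')) (σ : F ≃+* F),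
      (∀ z₁ z₂ : F, z₁ ^ 2 + a' * z₁ * z₂ + b' * z₂ ^ 2 = 0 → z₁ = 0 ∧ z₂ = 0) ∧
      σ ≠ RingEquiv.refl F ∧ σ a' = a' ∧ σ b' = b' ∧
      IsFieldAutPOmegaOf ⇑(qMinus m F a' b') σ ((ψ.symm.trans x).trans ψ) := by
  have hn' : 5 ≤ finrank F ((Fin m ⊕ Fin m) ⊕ Fin 2 → F) := semi_card (F := F) hn
  have hnd := nd_minus (m := m) hab
  have hne : ∃ x, qMinus m F a b x ≠ 0 := exists_ne_q hnd (by omega)
  have hord : ∀ y : MulAut (POmega F ⇑(qMinus m F a b)), orderOf (MulAut.congr (pomEquiv (nd_minus hab) hn) y) = orderOf y := fun y =>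
      orderOf_injective (MulAut.congr (pomEquiv (nd_minus hab) hn)).toMonoidHom (MulAut.congr (pomEquiv (nd_minus hab) hn)).injective y
  have hxr' : aE (qMinus m F a b) q ^ r = 1 := by rw [← hx, ← hxr, ← hord, pow_orderOf_eq_one]
  have hτ := ss_order hnd hn' hr hxr' hq
  obtain ⟨y, hy⟩ := ss_normalize hnd hn' q hτ hr.pos hxr'
  obtain ⟨s, hs⟩ : ∃ s, s = scSS _ y * q := ⟨_, rfl⟩
  rw [← hs] at hy
  have hs2 : s.1.2 = q.1.2 := by rw [hs]; show 1 * q.1.2 = q.1.2; rw [one_mul]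
  have hsa : aE _ s = aE _ q := by rw [hs, map_mul, aE_sc hnd hn', one_mul]
  rw [← hs2] at hτ
  rw [← hsa] at hx
  refine ⟨?_, ?_⟩
  · intro h
    subst h
    exact no_two_minus hab s hy hτ (by omega)
  obtain ⟨F₀, _, _, j, hj⟩ := exists_fixF F hr.ne_zero hτ
  obtain ⟨a₀, b₀, hab₀⟩ := exists_ab (F := F₀)
  have hnd₀ := nd_minus (m := m) hab₀
  have hj' : ∀ y, s.1.2 (j y) = j y := fun y => (hj _).mpr ⟨y, rfl⟩
  obtain ⟨B, e, hB, hBe⟩ := std_of_zn hne hnd (card_minus_ι m) s hτ hr.pos hj hy (qMinus_jV (m := m) j a₀ b₀) hnd₀ (by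
    intro Q₀ β d D
    have hfr : finrank F₀ ((Fin m ⊕ Fin m) ⊕ Fin 2 → F₀) = finrank F ((Fin m ⊕ Fin m) ⊕ Fin 2 → F) := by
      rw [fr_minus, fr_minus]
    apply class_even_ts (m + 1) hnd₀ (D.nd hnd) (fr_minus F₀ m) (fr_minus F₀ m)
    refine ⟨fun h => absurd h (no_ts_minus hab₀), ?_⟩
    rintro ⟨U, hU, hUm⟩
    exact absurd ⟨_, D.bc_TS hU, (D.bc_finrank hfr U).trans hUm⟩ (no_ts_minus hab))
  have habs : ∀ z₁ z₂ : F, z₁ ^ 2 + j a₀ * z₁ * z₂ + j b₀ * z₂ ^ 2 = 0 → z₁ = 0 ∧ z₂ = 0 := by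
    intro z₁ z₂ hz
    by_contra hcon
    obtain ⟨E, hE, hEm⟩ := exists_ts_of_zero (m := m) hz hcon
    exact no_ts_minus hab ⟨_, (simGL B e hBe).TS_map hE, by
      rw [← hEm]; exact LinearEquiv.finrank_map_eq (simGL B e hBe).φ E⟩
  have hnds := nd_minus (m := m) habs
  have hQσ : ∀ x, qMinus m F (j a₀) (j b₀) (svI s.1.2 x) = s.1.2 (qMinus m F (j a₀) (j b₀) x) := qMinus_svI s.1.2 (hj' _) (hj' _)
  have hstd : MulAut.congr (simGL B e hBe).pe (aE _ (stdS (qMinus m F (j a₀) (j b₀)) s.1.2 hQσ)) = aE _ s := by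
    rw [Sim.congr_pe, std_ss hBe hB]
  refine ⟨j a₀, j b₀, (pomEquiv hnd hn).trans ((simGL B e hBe).pe.symm.trans (pomEquiv hnds hn).symm), s.1.2, habs,
    by rw [hs2]; exact hq, hj' _, hj' _, ?_⟩
  rw [fieldPOm_iff hnds hn hQσ]
  apply (MulAut.congr (simGL B e hBe).pe).injective
  rw [hstd, ← hx]
  apply MulEquiv.ext
  intro z
  simp

theorem mS_pow {K : Type*} [Field K] [Finite K] {QK : QuadraticForm K ((Fin m ⊕ Fin m) ⊕ Fin 2 → K)} {j : F →+* K} {k : ℕ}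
    (hext : ∀ v, j (qMinus m F a b v) = QK (jV j v)) (P : PT QK k) (g : Geo.quadSimilarityGroup (F := F) ⇑(qMinus m F a b)) (n : ℕ) :
    (g ^ n).1 ∈ mS j P ↔ (g.1 ∈ mS j P ∨ Even n) := by
  induction n with
  | zero =>
    have h1 : (g ^ 0).1 = 1 := by rw [pow_zero]; rfl
    rw [h1]
    exact ⟨fun _ => Or.inr Even.zero, fun _ => (mS j P).one_mem⟩
  | succ n ih =>
    rw [pow_succ, mS_mul hext, ih, Nat.even_add_one]
    tauto

end minus

end Cfsg.Agent.H17
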