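import Mathlib
import Cfsg.Agent.H17.BalI

set_option autoImplicit false

/-! Local balance for minus type orthogonal groups, conclusion. -/

namespace Cfsg.Agent.H17

open Cfsg Cfsg.Agent.H5 Module
open scoped MatrixGroups Matrix

universe u

section minus

variable {F : Type u} [Field F] [Finite F] {m : ℕ} {a b : F}

theorem aE_field_eq {V : Type*} [AddCommGroup V] [Module F V] [FiniteDimensional F V] {Q : QuadraticForm F V}
    (hnd : ND Q) (hn : 5 ≤ finrank F V) {p q : SSG Q} (h : aE Q p = aE Q q) : p.1.2 = q.1.2 := by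
  have h1 : aE Q (p * q⁻¹) = 1 := by rw [map_mul, map_inv, h, mul_inv_cancel]
  rw [aE_eq_one_iff hnd hn] at h1
  have h3 : p.1.2 * q.1.2⁻¹ = 1 := h1.1
  exact mul_inv_eq_one.mp h3

theorem balance_minus' (hm : 3 ≤ m) (hab : ∀ z₁ z₂ : F, z₁ ^ 2 + a * z₁ * z₂ + b * z₂ ^ 2 = 0 → z₁ = 0 ∧ z₂ = 0)
    (A : Subgroup (MulAut (POmega F ⇑(qMinus m F a b)))) (hA : ∀ k : POmega F ⇑(qMinus m F a b), MulAut.conj k ∈ A)
    {p : ℕ} [hp : Fact p.Prime] (hpF : p = 2 → (2 : F) ≠ 0) (x : MulAut (POmega F ⇑(qMinus m F a b))) (hxA : x ∈ A) (hord : orderOf x = p)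
    (hnot : ¬ ∃ g : GL ((Fin m ⊕ Fin m) ⊕ Fin 2) F, g ∈ Geo.quadSimilarityGroup (F := F) ⇑(qMinus m F a b) ∧
      PreservesSingularClassesMinus m a b (g : Matrix ((Fin m ⊕ Fin m) ⊕ Fin 2) ((Fin m ⊕ Fin m) ⊕ Fin 2) F) ∧
      IsInducedBySemilinearPOmega ⇑(qMinus m F a b) g (RingEquiv.refl F) x) :
    pPrimeCore p ↥(A ⊓ Subgroup.centralizer {x}) ≠ ⊥ ↔ ((∃ (a' b' : F) (ψ : POmega F ⇑(qMinus m F a b) ≃* POmega F ⇑(qMinus m F a' b')) (σ : F ≃+* F),
      (∀ z₁ z₂ : F, z₁ ^ 2 + a' * z₁ * z₂ + b' * z₂ ^ 2 = 0 → z₁ = 0 ∧ z₂ = 0) ∧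
      σ ≠ RingEquiv.refl F ∧ σ a' = a' ∧ σ b' = b' ∧
      IsFieldAutPOmegaOf ⇑(qMinus m F a' b') σ ((ψ.symm.trans x).trans ψ)) ∧
      Nat.Coprime p (Nat.card ↥(MonoidHom.eqLocus x.toMonoidHom (MonoidHom.id (POmega F ⇑(qMinus m F a b)))))) := by
  have hn : 5 ≤ Fintype.card ((Fin m ⊕ Fin m) ⊕ Fin 2) := by rw [card_minus_ι]; omega
  have hn' : 5 ≤ finrank F ((Fin m ⊕ Fin m) ⊕ Fin 2 → F) := semi_card (F := F) hn
  have hnd := nd_minus (m := m) hab
  have hsurj := surj_minus (m := m) hab (by omega)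
  obtain ⟨q, hq⟩ := hsurj (MulAut.congr (pomEquiv hnd hn) x)
  by_cases hq1 : q.1.2 = 1
  · -- involutions
    obtain ⟨K, _, _, hK2⟩ := exists_quad_ext F
    haveI : FiniteDimensional F K := FiniteDimensional.of_finrank_eq_succ hK2
    haveI : Finite K := Module.finite_of_finite F
    have P := PT_ext hK2 hab m
    have hsq : (2 : F) ≠ 0 → ∀ x : F, IsSquare (algebraMap F K x) := fun h20 x => sq_quad hK2 h20 x
    obtain ⟨g, hg⟩ := exists_goSS q hq1
    have hgm : g.1 ∉ mS (algebraMap F K) P := by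
      intro h
      apply hnot
      refine ⟨g.1, g.2, ?_, ?_⟩
      · rw [psm_iff hab (by omega) g, ← mem_mS_cr (qMinus_jV (algebraMap F K) a b) hnd hn (card_minus_ι m) P hsq]
        exact h
      · exact (inducedPOm_iff hnd hn (σ := 1) g.2 x).mpr (by rw [← hq, ← hg]; rfl)
    have hordx : ∀ y : MulAut (POmega F ⇑(qMinus m F a b)), orderOf (MulAut.congr (pomEquiv hnd hn) y) = orderOf y := fun y =>
      orderOf_injective (MulAut.congr (pomEquiv hnd hn)).toMonoidHom (MulAut.congr (pomEquiv hnd hn)).injective y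
    have hxr' : aE (qMinus m F a b) q ^ p = 1 := by rw [hq, ← hord, ← hordx, pow_orderOf_eq_one]
    have hp2 : p = 2 := by
      rcases hp.out.eq_two_or_odd' with h | h
      · exact h
      exfalso
      have h1 : q ^ p ∈ (aE (qMinus m F a b)).ker := by rw [MonoidHom.mem_ker, map_pow, hxr']
      rw [aE_ker hnd hn'] at h1
      obtain ⟨c, hc⟩ := h1
      have h3 := sI_mem_mS (j := algebraMap F K) (ι := (Fin m ⊕ Fin m) ⊕ Fin 2) P c
      have h4 : (g ^ p).1 ∈ mS (algebraMap F K) P := by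
        rw [← goSS_mem_eS, map_pow, hg, ← hc]
        have h5 : goSS (qMinus m F a b) ⟨sI _ c, sI_mem_qs _ _⟩ = scSS (qMinus m F a b) c := by
          apply ss_ext
          · intro x
            rw [goSS_apply, coe_sI', Matrix.smul_mulVec, Matrix.one_mulVec]
            rfl
          · rfl
        rw [← h5, goSS_mem_eS]
        exact h3
      rw [mS_pow (qMinus_jV (algebraMap F K) a b) P g] at h4
      rcases h4 with h4 | h4
      · exact hgm h4
      · exact (Nat.not_even_iff_odd.mpr h) h4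
    subst hp2
    have h2 := hpF rfl
    haveI := Fintype.ofFinite F
    have H := ch_minus h2 (by omega : 2 ≤ m) hab P
    have hqE : q ∉ eS (qMinus m F a b) (mS (algebraMap F K) P) := by
      rw [← hg, goSS_mem_eS]
      exact hgm
    obtain ⟨c, hc⟩ := sq_lift hnd hn' hxr'
    have hcr : ∀ (s : SSG (qMinus m F a b)) (L : ((Fin m ⊕ Fin m) ⊕ Fin 2 → F) →ₗ[F] ((Fin m ⊕ Fin m) ⊕ Fin 2 → F)), s.1.2 = 1 → (∀ x, L x = s.1.1 x) →
        LinearMap.det L = (ssK s : F) ^ (m + 1) → s ∈ eS (qMinus m F a b) (mS (algebraMap F K) P) := by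
      intro s L hs1 hL hdet
      obtain ⟨g, hg⟩ := exists_goSS s hs1
      rw [← hg, goSS_mem_eS, mem_mS_cr (qMinus_jV (algebraMap F K) a b) hnd hn (card_minus_ι m) P hsq]
      refine Or.inl ⟨h2, ?_⟩
      have e : L = Matrix.toLin' ((g.1 : GL ((Fin m ⊕ Fin m) ⊕ Fin 2) F) : Matrix ((Fin m ⊕ Fin m) ⊕ Fin 2) ((Fin m ⊕ Fin m) ⊕ Fin 2) F) := by
        apply LinearMap.ext
        intro x
        rw [hL, ← hg, goSS_apply, Matrix.toLin'_apply]
      rw [e, LinearMap.det_toLin', ← hg] at hdet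
      exact hdet
    constructor
    · intro hne
      exfalso
      apply hne
      apply core_two (MulAut.congr (pomEquiv hnd hn)) A
      rw [← hq]
      intro N hodd hNx hNA
      -- conjugation by commuting elements of EG
      have hNn : ∀ y ∈ EG (qMinus m F a b), ogSS (qMinus m F a b) y * q = q * ogSS (qMinus m F a b) y →
          ∀ n ∈ N, aE (qMinus m F a b) (ogSS _ y) * n * (aE (qMinus m F a b) (ogSS _ y))⁻¹ ∈ N := by
        intro y hy hyq n hn1
        have h1 := aE_eg_mem_inn hy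
        have h3 : (MulAut.congr (pomEquiv hnd hn)).symm (aE (qMinus m F a b) (ogSS _ y)) ∈ Inn (POmega F ⇑(qMinus m F a b)) := by
          rw [inn_iff hnd hn, MulEquiv.apply_symm_apply]
          exact h1
        obtain ⟨z, hz⟩ := h3
        have h5 : MulAut.congr (pomEquiv hnd hn) (MulAut.conj z) = aE (qMinus m F a b) (ogSS _ y) := by
          rw [hz, MulEquiv.apply_symm_apply]
        have h7 := hNA (MulAut.conj z) (hA z) (by
          apply (MulAut.congr (pomEquiv hnd hn)).injective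
          rw [map_mul, map_mul, h5, ← hq, ← map_mul, ← map_mul, hyq]) n hn1
        rw [h5] at h7
        exact h7
      rcases H.improper_struct' (no_ts_minus hab) hcr hq1 hqE hc with ⟨y, t, hyt, htt, hodd'⟩ | ⟨hko, hcs, hcQ⟩
      · have h1 : aE (qMinus m F a b) (ogSS _ t) = aE (qMinus m F a b) q := by
          rw [← hyt, map_mul, aE_sc hnd hn', one_mul]
        apply b1 h2 hnd (by rw [fr_minus]; omega) (by rw [fr_minus]; exact even_two_mul _) hsurj htt hodd' hodd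
        · intro n hn1
          rw [h1]; exact hNx n hn1
        · intro z hz hzt n hn1
          apply hNn z hz _ n hn1
          have h3 : scSS (qMinus m F a b) y * (ogSS _ z * q) = scSS (qMinus m F a b) y * (q * ogSS _ z) := by
            rw [← mul_assoc, ssc_comm (ogSS _ z) rfl, mul_assoc, hyt, ← mul_assoc, hyt, ← map_mul, ← map_mul, hzt]
          exact mul_left_cancel h3
      · have hpp : ∀ x, q.1.1 (q.1.1 x) = (c : F) • x := fun x => congrArg (fun q : SSG (qMinus m F a b) => q.1.1 x) hc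
        apply b2 h2 hcs hnd (fr_minus F m) (by obtain ⟨l, hl⟩ := hko; omega) hko hsurj hodd hq1 hpp hcQ hNx
        intro y hy hyq n hn1
        apply hNn y hy _ n hn1
        refine ss_ext (fun x => hyq x) ?_
        show 1 * q.1.2 = q.1.2 * 1
        rw [one_mul, mul_one]
    · rintro ⟨hx, _⟩
      exfalso
      obtain ⟨q', hq', hq2⟩ := field_form_minus hab (by omega) hn hx
      apply hq'
      rw [← aE_field_eq hnd hn' (hq.trans hq2)]
      exact hq1
  · have h1 := field_class_minus hm hab hn hp.out hq.symm hq1 hord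
    rw [balance_coords hnd hn hsurj hq.symm hq1 hord (fun h => absurd h h1.1) A hA]
    exact ⟨fun h => ⟨h1.2, h⟩, fun h => h.2⟩

theorem balance_minus'' (hm : 3 ≤ m) (Qf : F → F → ((Fin m ⊕ Fin m) ⊕ Fin 2 → F) → F)
    (hQf : Qf = fun a b => ⇑(qMinus m F a b)) (hab : ∀ z₁ z₂ : F, z₁ ^ 2 + a * z₁ * z₂ + b * z₂ ^ 2 = 0 → z₁ = 0 ∧ z₂ = 0)
    (A : Subgroup (MulAut (POmega F (Qf a b)))) (hA : ∀ k : POmega F (Qf a b), MulAut.conj k ∈ A)
    {p : ℕ} [hp : Fact p.Prime] (hpF : p = 2 → (2 : F) ≠ 0) (x : MulAut (POmega F (Qf a b))) (hxA : x ∈ A) (hord : orderOf x = p)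
    (hnot : ¬ ∃ g : GL ((Fin m ⊕ Fin m) ⊕ Fin 2) F, g ∈ Geo.quadSimilarityGroup (F := F) (Qf a b) ∧
      PreservesSingularClassesMinus m a b (g : Matrix ((Fin m ⊕ Fin m) ⊕ Fin 2) ((Fin m ⊕ Fin m) ⊕ Fin 2) F) ∧
      IsInducedBySemilinearPOmega (Qf a b) g (RingEquiv.refl F) x) :
    pPrimeCore p ↥(A ⊓ Subgroup.centralizer {x}) ≠ ⊥ ↔ ((∃ (a' b' : F) (ψ : POmega F (Qf a b) ≃* POmega F (Qf a' b')) (σ : F ≃+* F),
      (∀ z₁ z₂ : F, z₁ ^ 2 + a' * z₁ * z₂ + b' * z₂ ^ 2 = 0 → z₁ = 0 ∧ z₂ = 0) ∧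
      σ ≠ RingEquiv.refl F ∧ σ a' = a' ∧ σ b' = b' ∧
      IsFieldAutPOmegaOf (Qf a' b') σ ((ψ.symm.trans x).trans ψ)) ∧
      Nat.Coprime p (Nat.card ↥(MonoidHom.eqLocus x.toMonoidHom (MonoidHom.id (POmega F (Qf a b)))))) := by
  subst hQf
  exact balance_minus' hm hab A hA hpF x hxA hord hnot

end minus

end Cfsg.Agent.H17
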