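import Mathlib
import Cfsg.Agent.H17.CommInv
import Cfsg.Agent.H5.AltBasis

set_option autoImplicit false

/-! Isometries between invariant forms commuting with a given isometry. -/

namespace Cfsg.Agent.H17

open Module

section

universe u v
variable {F : Type u} [Field F] {V : Type v} [AddCommGroup V] [Module F V]

/-- some map commuting with `A` transforms `J₂` into `J₁` -/
def Good (J₁ J₂ : LinearMap.BilinForm F V) (A : V →ₗ[F] V) : Prop :=
  ∃ x : V →ₗ[F] V, (∀ u v, J₁ (x u) (x v) = J₂ u v) ∧ ∀ u, x (A u) = A (x u)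

/-- nondegenerate form with symmetry sign `ε` invariant under `A` -/
structure Dat (J : LinearMap.BilinForm F V) (ε : F) (A : V →ₗ[F] V) : Prop where
  sym : ∀ x y, J y x = ε * J x y
  nd : ∀ x, (∀ y, J x y = 0) → x = 0
  isom : ∀ x y, J (A x) (A y) = J x y

theorem Dat.nondeg {J : LinearMap.BilinForm F V} {ε : F} {A : V →ₗ[F] V} (H : Dat J ε A) : J.Nondegenerate :=
  ⟨H.nd, fun y hy => H.nd y fun x => by rw [H.sym x y, hy x, mul_zero]⟩

theorem isUnit_of_inj [FiniteDimensional F V] {f : Module.End F V} (h : ∀ x, f x = 0 → x = 0) : IsUnit f := by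
  rw [Module.End.isUnit_iff]
  have h1 : Function.Injective f := (injective_iff_map_eq_zero f).mpr h
  exact ⟨h1, LinearMap.injective_iff_surjective.mp h1⟩

theorem good_W [Finite F] [FiniteDimensional F V] {J₁ J₂ : LinearMap.BilinForm F V} {ε : F} {A : V →ₗ[F] V} (hε : ε * ε = 1)
    (H₁ : Dat J₁ ε A) (H₂ : Dat J₂ ε A) (hA : ∀ w, A (A w) = w → w = 0) : Good J₁ J₂ A := by
  classical
  haveI : Finite V := Module.finite_of_finite F
  haveI : Finite (Module.End F V) := Finite.of_injective (fun f : Module.End F V => (f : V → V)) DFunLike.coe_injective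
  -- adjoint
  let s : Module.End F V → Module.End F V := fun x => LinearMap.BilinForm.symmCompOfNondegenerate (J₁.compRight x) J₁ H₁.nondeg
  have hs : ∀ (x : Module.End F V) u v, J₁ (s x u) v = J₁ u (x v) := fun x u v =>
    LinearMap.BilinForm.symmCompOfNondegenerate_left_apply (J₁.compRight x) H₁.nondeg v u
  have hs' : ∀ (x : Module.End F V) u v, J₁ u (s x v) = J₁ (x u) v := by
    intro x u v
    rw [H₁.sym (s x v) u, hs, H₁.sym (x u) v, ← mul_assoc, hε, one_mul]
  have ext' : ∀ f g : Module.End F V, (∀ u v, J₁ (f u) v = J₁ (g u) v) → f = g := by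
    intro f g h
    apply LinearMap.ext
    intro u
    rw [← sub_eq_zero]
    apply H₁.nd
    intro v
    rw [map_sub, LinearMap.sub_apply, h, sub_self]
  have H : AI s :=
    { add := fun x y => ext' _ _ fun u v => by
        rw [hs, LinearMap.add_apply, LinearMap.add_apply, map_add, map_add, LinearMap.add_apply, hs, hs]
      mul := fun x y => ext' _ _ fun u v => by
        rw [hs, Module.End.mul_apply, Module.End.mul_apply, hs, hs]
      inv := fun x => ext' _ _ fun u v => by rw [hs, hs']
      one := ext' _ _ fun u v => by rw [hs]; rfl }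
  have hAinj : ∀ x, A x = 0 → x = 0 := fun x hx => H₁.nd x fun y => by rw [← H₁.isom, hx, map_zero, LinearMap.zero_apply]
  obtain ⟨a, ha⟩ := isUnit_of_inj (f := A) hAinj
  have haA : ∀ x, (a : Module.End F V) x = A x := fun x => by rw [ha]
  -- the element c
  let c : Module.End F V := LinearMap.BilinForm.symmCompOfNondegenerate J₂ J₁ H₁.nondeg
  have hc : ∀ u v, J₁ (c u) v = J₂ u v := fun u v => LinearMap.BilinForm.symmCompOfNondegenerate_left_apply J₂ H₁.nondeg v u
  have hcu : IsUnit c := isUnit_of_inj fun x hx => H₂.nd x fun y => by rw [← hc, hx, map_zero, LinearMap.zero_apply]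
  have hsA : s (a : Module.End F V) * (a : Module.End F V) = 1 := ext' _ _ fun u v => by
    rw [Module.End.mul_apply, hs, haA, haA, H₁.isom]; rfl
  have hcA : c * (a : Module.End F V) = (a : Module.End F V) * c := by
    -- test against A v
    apply LinearMap.ext
    intro u
    rw [← sub_eq_zero]
    apply H₁.nd
    intro v
    obtain ⟨w, rfl⟩ : ∃ w, A w = v := by
      refine ⟨((a⁻¹ : (Module.End F V)ˣ) : Module.End F V) v, ?_⟩
      rw [← haA, ← Module.End.mul_apply, Units.mul_inv]; rfl
    rw [map_sub, LinearMap.sub_apply, Module.End.mul_apply, Module.End.mul_apply, haA, haA, hc, H₂.isom, H₁.isom, hc, sub_self]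
  have hsc : s c = c := ext' _ _ fun u v => by
    rw [hs, hc, H₁.sym (c v) u, hc, H₂.sym u v, ← mul_assoc, hε, one_mul]
  have e1 : ((1⁻¹ : (Module.End F V)ˣ) : Module.End F V) * s ((1 : (Module.End F V)ˣ) : Module.End F V) = 1 := by
    rw [inv_one, Units.val_one, H.one, one_mul]
  obtain ⟨x, hx1, hx2⟩ := (H.sum_main 1 a (by rw [Units.val_one, mul_one, hsA]) hcA (by rw [e1, mul_one, one_mul])
    (by rw [Units.val_one, mul_one, one_mul, hsc]) (z := (a : Module.End F V)) (fun y h1 _ _ => h1.symm) (by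
      rw [inv_one, Units.val_one, one_mul, mul_one]
      have h1 : s (a : Module.End F V) = ((a⁻¹ : (Module.End F V)ˣ) : Module.End F V) := (Units.mul_eq_one_iff_eq_inv.mp hsA)
      rw [h1]
      apply isUnit_of_inj
      intro w hw
      rw [LinearMap.sub_apply, sub_eq_zero] at hw
      apply hA
      rw [← haA, ← haA, hw, ← Module.End.mul_apply, Units.mul_inv]; rfl)).1 hcu
  rw [Units.val_one, mul_one, one_mul] at hx2
  refine ⟨x, fun u v => ?_, fun u => ?_⟩
  · rw [← hs', ← Module.End.mul_apply, hx2, H₁.sym (c v) u, hc, H₂.sym u v, ← mul_assoc, hε, one_mul]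
  · have := congrArg (fun f : Module.End F V => f u) hx1
    simp only [Module.End.mul_apply, haA] at this
    exact this

/-- gluing -/
theorem good_glue {J₁ J₂ : LinearMap.BilinForm F V} {A : V →ₗ[F] V} {X Y : Submodule F V} (hXY : IsCompl X Y)
    (hAX : ∀ x ∈ X, A x ∈ X) (hAY : ∀ y ∈ Y, A y ∈ Y) (h1 : ∀ x ∈ X, ∀ y ∈ Y, J₁ x y = 0 ∧ J₁ y x = 0)
    (h2 : ∀ x ∈ X, ∀ y ∈ Y, J₂ x y = 0 ∧ J₂ y x = 0)
    (gX : Good (J₁.restrict X) (J₂.restrict X) (A.restrict hAX)) (gY : Good (J₁.restrict Y) (J₂.restrict Y) (A.restrict hAY)) : Good J₁ J₂ A := by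
  obtain ⟨f, hf1, hf2⟩ := gX
  obtain ⟨g, hg1, hg2⟩ := gY
  have hf1' : ∀ u v : X, J₁ (f u : V) (f v : V) = J₂ (u : V) (v : V) := hf1
  have hg1' : ∀ u v : Y, J₁ (g u : V) (g v : V) = J₂ (u : V) (v : V) := hg1
  have dec : ∀ v : V, ∃ (x : X) (y : Y), v = x + y := by
    intro v
    have : v ∈ X ⊔ Y := by rw [hXY.sup_eq_top]; trivial
    obtain ⟨x, hx, y, hy, h⟩ := Submodule.mem_sup.mp this
    exact ⟨⟨x, hx⟩, ⟨y, hy⟩, h.symm⟩
  set k : V →ₗ[F] V := LinearMap.ofIsCompl hXY (X.subtype ∘ₗ f) (Y.subtype ∘ₗ g) with hk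
  have kX : ∀ x : X, k x = f x := fun x => LinearMap.ofIsCompl_apply_left hXY x
  have kY : ∀ y : Y, k y = g y := fun y => LinearMap.ofIsCompl_apply_right hXY y
  refine ⟨k, fun u v => ?_, fun u => ?_⟩
  · obtain ⟨x, y, rfl⟩ := dec u
    obtain ⟨x', y', rfl⟩ := dec v
    simp only [map_add, LinearMap.add_apply, kX, kY]
    rw [hf1', hg1', (h1 _ (f x).2 _ (g y').2).1, (h1 _ (f x').2 _ (g y).2).2, (h2 _ x.2 _ y'.2).1, (h2 _ x'.2 _ y.2).2]
  · obtain ⟨x, y, rfl⟩ := dec u
    have e1 : A (x : V) = ((A.restrict hAX x : X) : V) := rfl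
    have e2 : A (y : V) = ((A.restrict hAY y : Y) : V) := rfl
    rw [map_add, map_add, map_add, map_add, e1, e2, kX, kY, kX, kY, hf2, hg2]
    rfl

/-- restriction of the data -/
theorem Dat.restrict {J : LinearMap.BilinForm F V} {ε : F} {A : V →ₗ[F] V} (H : Dat J ε A) {X Y : Submodule F V} (hXY : IsCompl X Y)
    (hAX : ∀ x ∈ X, A x ∈ X) (h1 : ∀ x ∈ X, ∀ y ∈ Y, J x y = 0) : Dat (J.restrict X) ε (A.restrict hAX) where
  sym x y := H.sym x y
  nd x hx := by
    apply Subtype.ext
    apply H.nd
    intro v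
    have : v ∈ X ⊔ Y := by rw [hXY.sup_eq_top]; trivial
    obtain ⟨x', hx', y, hy, rfl⟩ := Submodule.mem_sup.mp this
    rw [map_add, h1 _ x.2 _ hy, add_zero]
    exact hx ⟨x', hx'⟩
  isom x y := H.isom x y

/-- scalar `A` -/
theorem good_one [FiniteDimensional F V] {J₁ J₂ : LinearMap.BilinForm F V} {A : V →ₗ[F] V} {a : F} (hA : ∀ v, A v = a • v)
    (h1 : J₁.IsAlt) (h2 : J₂.IsAlt) (nd1 : ∀ x, (∀ y, J₁ x y = 0) → x = 0) (nd2 : ∀ x, (∀ y, J₂ x y = 0) → x = 0) : Good J₁ J₂ A := by
  classical
  obtain ⟨m, k, b, b1, b2, b3, b4⟩ := H5.alt_basis _ J₁ h1 rfl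
  obtain ⟨m', k', b', b1', b2', b3', b4'⟩ := H5.alt_basis _ J₂ h2 rfl
  have hk : k = 0 := by
    by_contra hk
    exact b.ne_zero _ (nd1 (b (Sum.inr ⟨0, Nat.pos_of_ne_zero hk⟩)) (b4 _))
  have hk' : k' = 0 := by
    by_contra hk
    exact b'.ne_zero _ (nd2 (b' (Sum.inr ⟨0, Nat.pos_of_ne_zero hk⟩)) (b4' _))
  subst hk hk'
  have hmm : m = m' := by
    have e1 := Module.finrank_eq_card_basis b
    have e2 := Module.finrank_eq_card_basis b'
    rw [Fintype.card_sum, Fintype.card_sum, Fintype.card_fin, Fintype.card_fin] at e1 e2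
    omega
  subst hmm
  let x : V →ₗ[F] V := (b'.equiv b (Equiv.refl _)).toLinearMap
  have hx : ∀ i, x (b' i) = b i := fun i => by
    show b'.equiv b (Equiv.refl _) (b' i) = b i
    rw [Basis.equiv_apply]; rfl
  refine ⟨x, ?_, fun u => by rw [hA, hA, map_smul]⟩
  have hbil : (J₁.comp x x) = J₂ := by
    apply LinearMap.BilinForm.ext_basis b'
    intro i j
    show J₁ (x (b' i)) (x (b' j)) = J₂ (b' i) (b' j)
    rw [hx, hx]
    have hneg : ∀ x y, J₁ x y = - J₁ y x := fun x y => (LinearMap.BilinForm.IsAlt.neg_eq h1 y x).symm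
    have hneg' : ∀ x y, J₂ x y = - J₂ y x := fun x y => (LinearMap.BilinForm.IsAlt.neg_eq h2 y x).symm
    rcases i with (i | i) | i
    · rcases j with (j | j) | j
      · rw [b2, b2']
      · rw [b1, b1']
      · exact j.elim0
    · rcases j with (j | j) | j
      · rw [hneg, hneg', b1, b1']
      · rw [b3, b3']
      · exact j.elim0
    · exact i.elim0
  intro u v
  have := congrArg (fun J : LinearMap.BilinForm F V => J u v) hbil
  exact this

end

section ss

universe u v
variable {F : Type u} [Field F] {V : Type v} [AddCommGroup V] [Module F V]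

/-- semisimplicity: kernel and range of `A - a` intersect trivially -/
theorem ker_inf_range {B : V →ₗ[F] V} {N : ℕ} (hN : (N : F) ≠ 0) (hB : B ^ N = 1) {x y : V} (hx : B x = x) (hxy : x = B y - y) : x = 0 := by
  have h1 : ∀ i : ℕ, (B ^ i) x = x := by
    intro i
    induction i with
    | zero => rfl
    | succ i ih => rw [pow_succ, Module.End.mul_apply, hx, ih]
  have h2 : ∀ i : ℕ, (B ^ i) y = y + (i : F) • x := by
    intro i
    induction i with
    | zero => rw [pow_zero, Nat.cast_zero, zero_smul, add_zero]; rfl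
    | succ i ih =>
      have e : B y = x + y := by rw [hxy]; abel
      rw [pow_succ, Module.End.mul_apply, e, map_add, h1, ih, Nat.cast_succ, add_smul, one_smul]
      abel
  have h3 := h2 N
  rw [hB, Module.End.one_apply] at h3
  have h4 : (N : F) • x = 0 := by
    have : y + (N : F) • x = y + 0 := by rw [← h3, add_zero]
    exact add_left_cancel this
  exact (smul_eq_zero.mp h4).resolve_left hN

theorem isCompl_of_inf [FiniteDimensional F V] {f : V →ₗ[F] V} (h : ∀ y, f (f y) = 0 → f y = 0) : IsCompl (LinearMap.ker f) (LinearMap.range f) := by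
  have hdis : LinearMap.ker f ⊓ LinearMap.range f = ⊥ := by
    rw [eq_bot_iff]
    rintro x ⟨hx, y, rfl⟩
    exact h y hx
  refine ⟨disjoint_iff.mpr hdis, codisjoint_iff.mpr ?_⟩
  apply Submodule.eq_top_of_finrank_eq
  have h1 := Submodule.finrank_sup_add_finrank_inf_eq (LinearMap.ker f) (LinearMap.range f)
  rw [hdis, finrank_bot] at h1
  have h2 := LinearMap.finrank_range_add_finrank_ker f
  omega

/-- the case of alternating forms -/
theorem good_alt [Finite F] [FiniteDimensional F V] {J₁ J₂ : LinearMap.BilinForm F V} {A : V →ₗ[F] V} {N : ℕ} (hN : (N : F) ≠ 0) (hAN : A ^ N = 1)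
    (h1 : J₁.IsAlt) (h2 : J₂.IsAlt) (H₁ : Dat J₁ (-1) A) (H₂ : Dat J₂ (-1) A) : Good J₁ J₂ A := by
  set f : V →ₗ[F] V := A ^ 2 - 1 with hf
  have hfx : ∀ x, f x = A (A x) - x := fun x => by rw [hf, sq]; rfl
  have hB : (A ^ 2) ^ N = 1 := by rw [← pow_mul, mul_comm, pow_mul, hAN, one_pow]
  have hsq : ∀ x, (A ^ 2) x = A (A x) := fun x => by rw [sq]; rfl
  have hff : ∀ y, f (f y) = 0 → f y = 0 := by
    intro y hy
    apply ker_inf_range (B := A ^ 2) hN hB (y := y)
    · rw [hsq]
      rw [hfx (f y), sub_eq_zero] at hy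
      exact hy
    · rw [hfx, hsq]
  have hC := isCompl_of_inf hff
  have hAf : ∀ x, f (A x) = A (f x) := fun x => by rw [hfx, hfx, map_sub]
  have hAX : ∀ x ∈ LinearMap.ker f, A x ∈ LinearMap.ker f := by
    intro x hx
    rw [LinearMap.mem_ker] at hx ⊢
    rw [hAf, hx, map_zero]
  have hAY : ∀ x ∈ LinearMap.range f, A x ∈ LinearMap.range f := by
    rintro _ ⟨x, rfl⟩
    exact ⟨A x, hAf x⟩
  have orth : ∀ (J : LinearMap.BilinForm F V), Dat J (-1) A → ∀ x ∈ LinearMap.ker f, ∀ y ∈ LinearMap.range f, J x y = 0 ∧ J y x = 0 := by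
    intro J H x hx y hy
    obtain ⟨w, rfl⟩ := hy
    have h3 : A (A x) = x := by
      have : f x = 0 := hx
      rw [hfx, sub_eq_zero] at this
      exact this
    have h4 : J x (f w) = 0 := by
      rw [hfx, map_sub]
      nth_rewrite 1 [← h3]
      rw [H.isom, H.isom, sub_self]
    exact ⟨h4, by rw [H.sym x (f w), h4, mul_zero]⟩
  have orth' : ∀ (J : LinearMap.BilinForm F V), Dat J (-1) A → ∀ x ∈ LinearMap.range f, ∀ y ∈ LinearMap.ker f, J x y = 0 :=
    fun J H x hx y hy => (orth J H y hy x hx).2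
  apply good_glue hC hAX hAY (orth J₁ H₁) (orth J₂ H₂)
  · -- the kernel of A² - 1
    have D₁ := H₁.restrict hC hAX (fun x hx y hy => (orth J₁ H₁ x hx y hy).1)
    have D₂ := H₂.restrict hC hAX (fun x hx y hy => (orth J₂ H₂ x hx y hy).1)
    set U := LinearMap.ker f with hU
    have hA2 : ∀ x : U, A.restrict hAX (A.restrict hAX x) = x := by
      intro x
      apply Subtype.ext
      show A (A (x : V)) = x
      have : f (x : V) = 0 := x.2
      rw [hfx, sub_eq_zero] at this
      exact this
    have a1 : (J₁.restrict U).IsAlt := fun x => h1 x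
    have a2 : (J₂.restrict U).IsAlt := fun x => h2 x
    by_cases hc : (2 : F) = 0
    · -- characteristic two
      have hodd : Odd N := by
        rw [← Nat.not_even_iff_odd]
        rintro ⟨k, hk⟩
        apply hN
        rw [hk, ← two_mul, Nat.cast_mul, Nat.cast_two, hc, zero_mul]
      obtain ⟨k, hk⟩ := hodd
      apply good_one (a := 1) _ a1 a2 D₁.nd D₂.nd
      intro x
      apply Subtype.ext
      rw [one_smul]
      show A (x : V) = x
      have h3 : (A ^ (2 * k)) (x : V) = x := by
        have : ∀ k : ℕ, (A ^ (2 * k)) (x : V) = x := by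
          intro k
          induction k with
          | zero => rfl
          | succ k ih =>
            rw [show 2 * (k + 1) = 2 * k + 2 by ring, pow_add, Module.End.mul_apply, hsq]
            have := congrArg Subtype.val (hA2 x)
            have h4 : A (A (x : V)) = x := this
            rw [h4, ih]
        exact this k
      have h4 : (A ^ N) (x : V) = x := by rw [hAN]; rfl
      rw [hk, pow_succ', Module.End.mul_apply, h3] at h4
      exact h4
    · -- split into eigenspaces
      set A' := A.restrict hAX with hA'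
      set g : U →ₗ[F] U := A' - 1 with hg
      have hgx : ∀ x, g x = A' x - x := fun x => rfl
      have hgg : ∀ y, g (g y) = 0 → g y = 0 := by
        intro y hy
        rw [hgx, hgx, map_sub, hA2] at hy
        have h3 : (2 : F) • (A' y - y) = 0 := by
          rw [two_smul]
          have : A' y - y + (A' y - y) = -(y - A' y - (A' y - y)) := by abel
          rw [this, hy, neg_zero]
        rw [hgx]
        exact (smul_eq_zero.mp h3).resolve_left hc
      have hC' := isCompl_of_inf hgg
      have hAg : ∀ x, g (A' x) = A' (g x) := fun x => by rw [hgx, hgx, map_sub]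
      have hAX' : ∀ x ∈ LinearMap.ker g, A' x ∈ LinearMap.ker g := by
        intro x hx
        rw [LinearMap.mem_ker] at hx ⊢
        rw [hAg, hx, map_zero]
      have hAY' : ∀ x ∈ LinearMap.range g, A' x ∈ LinearMap.range g := by
        rintro _ ⟨x, rfl⟩
        exact ⟨A' x, hAg x⟩
      have hneg : ∀ x ∈ LinearMap.range g, A' x = -x := by
        rintro _ ⟨x, rfl⟩
        rw [hgx, map_sub, hA2]; abel
      have hpos : ∀ x ∈ LinearMap.ker g, A' x = x := by
        intro x hx
        have : g x = 0 := hx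
        rwa [hgx, sub_eq_zero] at this
      have orthU : ∀ (J : LinearMap.BilinForm F U), Dat J (-1) A' → ∀ x ∈ LinearMap.ker g, ∀ y ∈ LinearMap.range g, J x y = 0 ∧ J y x = 0 := by
        intro J H x hx y hy
        have h3 := H.isom x y
        rw [hpos x hx, hneg y hy, map_neg] at h3
        have h4 : J x y = 0 := by
          have : (2 : F) * J x y = 0 := by linear_combination -h3
          exact (mul_eq_zero.mp this).resolve_left hc
        exact ⟨h4, by rw [H.sym x y, h4, mul_zero]⟩
      apply good_glue hC' hAX' hAY' (orthU _ D₁) (orthU _ D₂)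
      · have E₁ := D₁.restrict hC' hAX' (fun x hx y hy => (orthU _ D₁ x hx y hy).1)
        have E₂ := D₂.restrict hC' hAX' (fun x hx y hy => (orthU _ D₂ x hx y hy).1)
        exact good_one (a := 1) (fun x => Subtype.ext (by rw [one_smul]; exact hpos x x.2)) (fun x => a1 x) (fun x => a2 x) E₁.nd E₂.nd
      · have E₁ := D₁.restrict hC'.symm hAY' (fun x hx y hy => (orthU _ D₁ y hy x hx).2)
        have E₂ := D₂.restrict hC'.symm hAY' (fun x hx y hy => (orthU _ D₂ y hy x hx).2)
        exact good_one (a := -1) (fun x => Subtype.ext (by rw [neg_one_smul]; exact hneg x x.2)) (fun x => a1 x) (fun x => a2 x) E₁.nd E₂.nd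
  · have D₁ := H₁.restrict hC.symm hAY (orth' J₁ H₁)
    have D₂ := H₂.restrict hC.symm hAY (orth' J₂ H₂)
    apply good_W (by ring) D₁ D₂
    rintro ⟨x, y, rfl⟩ hw
    apply Subtype.ext
    show f y = 0
    apply hff
    have h3 : A (A (f y)) = f y := congrArg Subtype.val hw
    rw [hfx (f y), h3, sub_self]

end ss

end Cfsg.Agent.H17
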