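import Mathlib
import Cfsg.Agent.H17.InvTwoC
import Cfsg.Agent.H17.Spin2

set_option autoImplicit false

/-! Involution classes of the groups `Ω` in characteristic two. -/

namespace Cfsg.Agent.H17

open Module Cfsg.Agent.H5

section idx

theorem index_two_classes {G : Type*} [Group G] [Finite G] (S : Subgroup G) (hS : S.index = 2) (P : G → Prop) (hP : ∀ g x, P g → P (x * g * x⁻¹)) :
    Nat.card {C : ConjClasses S // ∃ g : S, ConjClasses.mk g = C ∧ P g} =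
      Nat.card {C : ConjClasses G // ∃ g, ConjClasses.mk g = C ∧ (g ∈ S ∧ P g)} +
      Nat.card {C : ConjClasses G // ∃ g, ConjClasses.mk g = C ∧ ((g ∈ S ∧ P g) ∧ ∀ c, c * g = g * c → c ∈ S)} := by
  classical
  haveI hN : S.Normal := Subgroup.normal_of_index_eq_two hS
  obtain ⟨t, ht⟩ : ∃ t, t ∉ S := by
    by_contra h
    push Not at h
    have : S = ⊤ := Subgroup.eq_top_iff' S |>.mpr h
    rw [this, Subgroup.index_top] at hS
    omega
  have hmul : ∀ {a b : G}, a * b ∈ S ↔ (a ∈ S ↔ b ∈ S) := Subgroup.mul_mem_iff_of_index_two hS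
  have hab : ∀ b : {C : ConjClasses G // ∃ g, ConjClasses.mk g = C ∧ ((g ∈ S ∧ P g) ∧ ∀ c, c * g = g * c → c ∈ S)}, ∃ g, ConjClasses.mk g = b.1 ∧ (g ∈ S ∧ P g) := by
    rintro ⟨C, g, hg, h1, h2⟩
    exact ⟨g, hg, h1⟩
  let rA : {C : ConjClasses G // ∃ g, ConjClasses.mk g = C ∧ (g ∈ S ∧ P g)} → G := fun a => a.2.choose
  have hrA : ∀ a, ConjClasses.mk (rA a) = a.1 ∧ (rA a ∈ S ∧ P (rA a)) := fun a => a.2.choose_spec
  let rB : {C : ConjClasses G // ∃ g, ConjClasses.mk g = C ∧ ((g ∈ S ∧ P g) ∧ ∀ c, c * g = g * c → c ∈ S)} → G := fun b => rA ⟨b.1, hab b⟩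
  have hrB : ∀ b, ConjClasses.mk (rB b) = b.1 ∧ (rB b ∈ S ∧ P (rB b)) := fun b => hrA ⟨b.1, hab b⟩
  have hrBc : ∀ b, ∀ c, c * rB b = rB b * c → c ∈ S := by
    intro b c hc
    obtain ⟨g, hg, -, hgc⟩ := b.2
    have h1 : IsConj g (rB b) := ConjClasses.mk_eq_mk_iff_isConj.mp (hg.trans (hrB b).1.symm)
    obtain ⟨x, hx⟩ := isConj_iff.mp h1
    have h2 : x⁻¹ * c * x ∈ S := by
      apply hgc
      rw [← hx] at hc
      calc x⁻¹ * c * x * g = x⁻¹ * (c * (x * g * x⁻¹)) * x := by group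
        _ = g * (x⁻¹ * c * x) := by rw [hc]; group
    have h3 := hN.conj_mem _ h2 x
    have h4 : x * (x⁻¹ * c * x) * x⁻¹ = c := by group
    rwa [h4] at h3
  rw [← Nat.card_sum]
  symm
  refine Nat.card_congr (Equiv.ofBijective (fun z => match z with
    | Sum.inl a => ⟨ConjClasses.mk (⟨rA a, (hrA a).2.1⟩ : S), ⟨rA a, (hrA a).2.1⟩, rfl, (hrA a).2.2⟩
    | Sum.inr b => ⟨ConjClasses.mk (⟨t * rB b * t⁻¹, hN.conj_mem _ (hrB b).2.1 t⟩ : S), ⟨t * rB b * t⁻¹, hN.conj_mem _ (hrB b).2.1 t⟩, rfl, hP _ t (hrB b).2.2⟩) ⟨?_, ?_⟩)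
  · have key : ∀ a b, IsConj (⟨rA a, (hrA a).2.1⟩ : S) (⟨t * rB b * t⁻¹, hN.conj_mem _ (hrB b).2.1 t⟩ : S) → False := by
      intro a b h
      obtain ⟨c, hc⟩ := isConj_iff.mp h
      have hc' : (c : G) * rA a * (c : G)⁻¹ = t * rB b * t⁻¹ := congrArg Subtype.val hc
      have h1 : a.1 = b.1 := by
        rw [← (hrA a).1, ← (hrB b).1, ConjClasses.mk_eq_mk_iff_isConj, isConj_iff]
        refine ⟨t⁻¹ * c, ?_⟩
        calc t⁻¹ * c * rA a * (t⁻¹ * c)⁻¹ = t⁻¹ * ((c : G) * rA a * (c : G)⁻¹) * t := by group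
          _ = rB b := by rw [hc']; group
      have h2 : rA a = rB b := congrArg rA (Subtype.ext h1)
      rw [h2] at hc'
      have h3 := hrBc b (t⁻¹ * c) (by
        have : (c : G) * rB b = t * rB b * t⁻¹ * c := by rw [← hc']; group
        rw [mul_assoc, this]; group)
      rw [hmul] at h3
      exact ht ((Subgroup.inv_mem_iff S).mp (h3.mpr c.2))
    rintro (a | b) (a' | b') h
    · have h1 := ConjClasses.mk_eq_mk_iff_isConj.mp (congrArg Subtype.val h)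
      obtain ⟨c, hc⟩ := isConj_iff.mp h1
      congr 1
      apply Subtype.ext
      rw [← (hrA a).1, ← (hrA a').1, ConjClasses.mk_eq_mk_iff_isConj, isConj_iff]
      exact ⟨c, congrArg Subtype.val hc⟩
    · exact (key a b' (ConjClasses.mk_eq_mk_iff_isConj.mp (congrArg Subtype.val h))).elim
    · exact (key a' b (ConjClasses.mk_eq_mk_iff_isConj.mp (congrArg Subtype.val h)).symm).elim
    · have h1 := ConjClasses.mk_eq_mk_iff_isConj.mp (congrArg Subtype.val h)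
      obtain ⟨c, hc⟩ := isConj_iff.mp h1
      have hc' : (c : G) * (t * rB b * t⁻¹) * (c : G)⁻¹ = t * rB b' * t⁻¹ := congrArg Subtype.val hc
      congr 1
      apply Subtype.ext
      rw [← (hrB b).1, ← (hrB b').1, ConjClasses.mk_eq_mk_iff_isConj, isConj_iff]
      refine ⟨t⁻¹ * c * t, ?_⟩
      calc t⁻¹ * c * t * rB b * (t⁻¹ * c * t)⁻¹ = t⁻¹ * ((c : G) * (t * rB b * t⁻¹) * (c : G)⁻¹) * t := by group
        _ = rB b' := by rw [hc']; group
  · rintro ⟨C, g, rfl, hg⟩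
    have hex : ∃ g' : G, ConjClasses.mk g' = ConjClasses.mk (g : G) ∧ (g' ∈ S ∧ P g') := ⟨g, rfl, g.2, hg⟩
    obtain ⟨x, hx⟩ := isConj_iff.mp (ConjClasses.mk_eq_mk_iff_isConj.mp (hrA ⟨_, hex⟩).1)
    have hin : ∀ y : G, y ∈ S → y * rA ⟨_, hex⟩ * y⁻¹ = g → ∃ z, (fun z => match z with
        | Sum.inl a => (⟨ConjClasses.mk (⟨rA a, (hrA a).2.1⟩ : S), ⟨rA a, (hrA a).2.1⟩, rfl, (hrA a).2.2⟩ : {C : ConjClasses S // ∃ g : S, ConjClasses.mk g = C ∧ P g})
        | Sum.inr b => ⟨ConjClasses.mk (⟨t * rB b * t⁻¹, hN.conj_mem _ (hrB b).2.1 t⟩ : S), ⟨t * rB b * t⁻¹, hN.conj_mem _ (hrB b).2.1 t⟩, rfl, hP _ t (hrB b).2.2⟩) z = ⟨ConjClasses.mk g, g, rfl, hg⟩ := by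
      intro y hy hyg
      refine ⟨Sum.inl ⟨_, hex⟩, ?_⟩
      apply Subtype.ext
      show ConjClasses.mk (⟨rA ⟨_, hex⟩, (hrA ⟨_, hex⟩).2.1⟩ : S) = ConjClasses.mk g
      rw [ConjClasses.mk_eq_mk_iff_isConj, isConj_iff]
      exact ⟨⟨y, hy⟩, Subtype.ext hyg⟩
    by_cases hxS : x ∈ S
    · exact hin x hxS hx
    · by_cases hc : ∀ c, c * rA ⟨_, hex⟩ = rA ⟨_, hex⟩ * c → c ∈ S
      · have hexB : ∃ g' : G, ConjClasses.mk g' = ConjClasses.mk (g : G) ∧ ((g' ∈ S ∧ P g') ∧ ∀ c, c * g' = g' * c → c ∈ S) := ⟨rA ⟨_, hex⟩, (hrA ⟨_, hex⟩).1, (hrA ⟨_, hex⟩).2, hc⟩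
        refine ⟨Sum.inr ⟨_, hexB⟩, ?_⟩
        apply Subtype.ext
        show ConjClasses.mk (⟨t * rB ⟨_, hexB⟩ * t⁻¹, _⟩ : S) = ConjClasses.mk g
        rw [ConjClasses.mk_eq_mk_iff_isConj, isConj_iff]
        refine ⟨⟨x * t⁻¹, hmul.mpr ⟨fun h => absurd h hxS, fun h => absurd ((Subgroup.inv_mem_iff S).mp h) ht⟩⟩, Subtype.ext ?_⟩
        show x * t⁻¹ * (t * rA ⟨_, hex⟩ * t⁻¹) * (x * t⁻¹)⁻¹ = g
        calc x * t⁻¹ * (t * rA ⟨_, hex⟩ * t⁻¹) * (x * t⁻¹)⁻¹ = x * rA ⟨_, hex⟩ * x⁻¹ := by group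
          _ = g := hx
      · push Not at hc
        obtain ⟨c, hc1, hc2⟩ := hc
        apply hin (x * c) (hmul.mpr ⟨fun h => absurd h hxS, fun h => absurd h hc2⟩)
        calc x * c * rA ⟨_, hex⟩ * (x * c)⁻¹ = x * (c * rA ⟨_, hex⟩) * c⁻¹ * x⁻¹ := by group
          _ = x * rA ⟨_, hex⟩ * x⁻¹ := by rw [hc1]; group
          _ = g := hx

end idx

section filter

variable {F : Type*} [Field F] {V : Type*} [AddCommGroup V] [Module F V] {B : LinearMap.BilinForm F V} {N : V → F}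

noncomputable def iR (g : IG B N) : ℕ := finrank F (LinearMap.range ((g : V ≃ₗ[F] V).toLinearMap - LinearMap.id))

def iA (g : IG B N) : Prop := ∀ v, B v ((g : V ≃ₗ[F] V) v - v) = 0

end filter

section filter2

variable {F : Type*} [Field F] [Finite F] [CharP F 2] {V : Type*} [AddCommGroup V] [Module F V] [FiniteDimensional F V]
  {B : LinearMap.BilinForm F V} {N : V → F} {μ : F → F} {m M : ℕ}

theorem inv_filter (H : ISet B N μ m M) (p : ℕ → Prop → Prop) :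
    Nat.card {C : ConjClasses (IG B N) // ∃ g, ConjClasses.mk g = C ∧ (orderOf g = 2 ∧ p (iR g) (iA g))} =
      Nat.card {i : Fin m // p (i.val + 1) False} + Nat.card {i : Fin (M / 2) // p (2 * (i.val + 1)) True} := by
  classical
  -- representatives
  have hrepc : ∀ i : Fin m, ∃ g : IG B N, ∃ e : Fin (i.val + 1) → V, LinearIndependent F e ∧ (∀ i j, B (e i) (e j) = 0) ∧ (∀ i, N (e i) = μ 1) ∧ ∀ v, (g : V ≃ₗ[F] V) v - v = TT B e id v := by
    intro i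
    obtain ⟨e, h1, h2, h3⟩ := H.exc (i.val + 1) i.2
    obtain ⟨g, hg, hgT⟩ := invol_of_TT H h2 (τ := id) (fun _ => rfl) (H.nc e h2 h3)
    exact ⟨⟨g, hg⟩, e, h1, h2, h3, hgT⟩
  have hrepa : ∀ i : Fin (M / 2), ∃ g : IG B N, ∃ e : Fin (i.val + 1) ⊕ Fin (i.val + 1) → V, LinearIndependent F e ∧ (∀ i j, B (e i) (e j) = 0) ∧ (∀ i, N (e i) = μ 0) ∧ ∀ v, (g : V ≃ₗ[F] V) v - v = TT B e Sum.swap v := by
    intro i
    obtain ⟨e, h1, h2, h3⟩ := H.exa (i.val + 1) (by have := i.2; omega)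
    obtain ⟨g, hg, hgT⟩ := invol_of_TT H h2 (τ := Sum.swap) (fun x => Sum.swap_swap x) (H.na e h2 h3)
    exact ⟨⟨g, hg⟩, e, h1, h2, h3, hgT⟩
  choose gc ec hc1 hc2 hc3 hc4 using hrepc
  choose ga ea ha1 ha2 ha3 ha4 using hrepa
  -- invariants
  let R : IG B N → ℕ := iR
  let A : IG B N → Prop := iA
  have hRA : ∀ g h : IG B N, IsConj g h → R g = R h ∧ (A g → A h) := by
    intro g h hgh
    obtain ⟨c, hc⟩ := isConj_iff.mp hgh
    have h1 : ∀ v, (h : V ≃ₗ[F] V) ((c : V ≃ₗ[F] V) v) = (c : V ≃ₗ[F] V) ((g : V ≃ₗ[F] V) v) := by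
      intro v
      have : h * c = c * g := by rw [← hc]; group
      exact LinearEquiv.congr_fun (congrArg Subtype.val this) v
    constructor
    · have h2 : LinearMap.range ((h : V ≃ₗ[F] V).toLinearMap - LinearMap.id) = (LinearMap.range ((g : V ≃ₗ[F] V).toLinearMap - LinearMap.id)).map ((c : V ≃ₗ[F] V) : V →ₗ[F] V) := by
        ext x
        constructor
        · rintro ⟨v, rfl⟩
          refine ⟨(g : V ≃ₗ[F] V) ((c : V ≃ₗ[F] V).symm v) - (c : V ≃ₗ[F] V).symm v, ⟨_, rfl⟩, ?_⟩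
          show (c : V ≃ₗ[F] V) ((g : V ≃ₗ[F] V) ((c : V ≃ₗ[F] V).symm v) - (c : V ≃ₗ[F] V).symm v) = (h : V ≃ₗ[F] V) v - v
          rw [map_sub, ← h1, LinearEquiv.apply_symm_apply]
        · rintro ⟨_, ⟨v, rfl⟩, rfl⟩
          refine ⟨(c : V ≃ₗ[F] V) v, ?_⟩
          show (h : V ≃ₗ[F] V) ((c : V ≃ₗ[F] V) v) - (c : V ≃ₗ[F] V) v = (c : V ≃ₗ[F] V) ((g : V ≃ₗ[F] V) v - v)
          rw [map_sub, h1]
      show finrank F _ = finrank F _
      rw [h2]
      exact (LinearEquiv.finrank_map_eq (c : V ≃ₗ[F] V) _).symm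
    · intro hA v
      obtain ⟨w, rfl⟩ := (c : V ≃ₗ[F] V).surjective v
      rw [h1, ← map_sub, c.2.1, hA]
  have hR : ∀ (g : IG B N) {ι : Type} [Fintype ι] (e : ι → V) (τ : ι → ι) (_ : Function.Involutive τ) (_ : LinearIndependent F e) (_ : ∀ v, (g : V ≃ₗ[F] V) v - v = TT B e τ v), R g = Fintype.card ι := by
    intro g ι _ e τ hτ he hgT
    rw [← TT_rank H.nd he hτ]
    have h1 : (g : V ≃ₗ[F] V).toLinearMap - LinearMap.id = TT B e τ := LinearMap.ext fun v => hgT v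
    show finrank F (LinearMap.range ((g : V ≃ₗ[F] V).toLinearMap - LinearMap.id)) = _
    rw [h1]
  have hAc : ∀ (g : IG B N) {s : ℕ} (e : Fin s → V) (_ : 0 < s) (_ : LinearIndependent F e) (_ : ∀ v, (g : V ≃ₗ[F] V) v - v = TT B e id v), ¬ A g := by
    intro g s e hs he hgT hA
    obtain ⟨v, hv⟩ := exists_dual_inv H.nd he (fun j => if j = ⟨0, hs⟩ then 1 else 0)
    have h1 := hA v
    rw [hgT, TT_apply, map_sum, Finset.sum_eq_single ⟨0, hs⟩] at h1
    · rw [map_smul] at h1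
      simp only [id] at h1
      rw [hv, if_pos rfl, smul_eq_mul, mul_one] at h1
      exact one_ne_zero h1
    · intro j _ hj
      rw [hv, if_neg hj, zero_smul, map_zero]
    · intro h
      exact absurd (Finset.mem_univ _) h
  have hAa : ∀ (g : IG B N) {k : ℕ} (e : Fin k ⊕ Fin k → V) (_ : ∀ v, (g : V ≃ₗ[F] V) v - v = TT B e Sum.swap v), A g := by
    intro g k e hgT v
    rw [hgT, TT_apply, map_sum, Fintype.sum_sum_type]
    simp only [map_smul, smul_eq_mul, Sum.swap_inl, Sum.swap_inr]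
    rw [← Finset.sum_add_distrib]
    refine Finset.sum_eq_zero fun i _ => ?_
    linear_combination (B v (e (Sum.inl i)) * B v (e (Sum.inr i))) * two_zero F
  have hordc : ∀ i, orderOf (gc i) = 2 := by
    intro i
    apply IG_order_two (gc i) (hc4 i) (TT_sq (hc2 i) id)
    intro h
    have h1 := TT_rank H.nd (hc1 i) (τ := id) (fun _ => rfl)
    rw [h, LinearMap.range_zero, finrank_bot, Fintype.card_fin] at h1
    omega
  have horda : ∀ i, orderOf (ga i) = 2 := by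
    intro i
    apply IG_order_two (ga i) (ha4 i) (TT_sq (ha2 i) Sum.swap)
    intro h
    have h1 := TT_rank H.nd (ha1 i) (τ := Sum.swap) (fun x => Sum.swap_swap x)
    rw [h, LinearMap.range_zero, finrank_bot, Fintype.card_sum, Fintype.card_fin] at h1
    omega
  have hpc : ∀ i : Fin m, p (iR (gc i)) (iA (gc i)) ↔ p (i.val + 1) False := by
    intro i
    have e1 : iR (gc i) = i.val + 1 := (hR (gc i) (ec i) id (fun _ => rfl) (hc1 i) (hc4 i)).trans (Fintype.card_fin _)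
    have e2 : iA (gc i) = False := eq_false (hAc _ (ec i) (Nat.succ_pos _) (hc1 i) (hc4 i))
    rw [e1, e2]
  have hpa : ∀ i : Fin (M / 2), p (iR (ga i)) (iA (ga i)) ↔ p (2 * (i.val + 1)) True := by
    intro i
    have e1 : iR (ga i) = 2 * (i.val + 1) := (hR (ga i) (ea i) Sum.swap (fun x => Sum.swap_swap x) (ha1 i) (ha4 i)).trans (by rw [Fintype.card_sum, Fintype.card_fin]; ring)
    have e2 : iA (ga i) = True := eq_true (hAa _ (ea i) (ha4 i))
    rw [e1, e2]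
  rw [← Nat.card_sum]
  symm
  refine Nat.card_congr (Equiv.ofBijective (fun x => match x with
    | Sum.inl i => ⟨ConjClasses.mk (gc i.1), gc i.1, rfl, hordc i.1, (hpc i.1).mpr i.2⟩
    | Sum.inr i => ⟨ConjClasses.mk (ga i.1), ga i.1, rfl, horda i.1, (hpa i.1).mpr i.2⟩) ⟨?_, ?_⟩)
  · rintro (⟨i, hi⟩ | ⟨i, hi⟩) (⟨j, hj⟩ | ⟨j, hj⟩) h
    · have h1 : IsConj (gc i) (gc j) := ConjClasses.mk_eq_mk_iff_isConj.mp (congrArg Subtype.val h)
      have h2 := (hRA _ _ h1).1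
      rw [hR (gc i) (ec i) id (fun _ => rfl) (hc1 i) (hc4 i), hR (gc j) (ec j) id (fun _ => rfl) (hc1 j) (hc4 j), Fintype.card_fin, Fintype.card_fin] at h2
      have h3 : i = j := Fin.ext (by omega)
      subst h3
      rfl
    · have h1 : IsConj (gc i) (ga j) := ConjClasses.mk_eq_mk_iff_isConj.mp (congrArg Subtype.val h)
      exact absurd ((hRA _ _ h1.symm).2 (hAa _ (ea j) (ha4 j))) (hAc _ (ec i) (Nat.succ_pos _) (hc1 i) (hc4 i))
    · have h1 : IsConj (ga i) (gc j) := ConjClasses.mk_eq_mk_iff_isConj.mp (congrArg Subtype.val h)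
      exact absurd ((hRA _ _ h1).2 (hAa _ (ea i) (ha4 i))) (hAc _ (ec j) (Nat.succ_pos _) (hc1 j) (hc4 j))
    · have h1 : IsConj (ga i) (ga j) := ConjClasses.mk_eq_mk_iff_isConj.mp (congrArg Subtype.val h)
      have h2 := (hRA _ _ h1).1
      rw [hR (ga i) (ea i) Sum.swap (fun x => Sum.swap_swap x) (ha1 i) (ha4 i), hR (ga j) (ea j) Sum.swap (fun x => Sum.swap_swap x) (ha1 j) (ha4 j), Fintype.card_sum, Fintype.card_sum, Fintype.card_fin, Fintype.card_fin] at h2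
      have h3 : i = j := Fin.ext (by omega)
      subst h3
      rfl
  · rintro ⟨C, g, rfl, hg, hpg⟩
    have hg2 : ∀ v, (g : V ≃ₗ[F] V) ((g : V ≃ₗ[F] V) v) = v := by
      intro v
      have h1 : g * g = 1 := by rw [← pow_two, ← hg, pow_orderOf_eq_one]
      exact LinearEquiv.congr_fun (congrArg Subtype.val h1) v
    have hconj : ∀ {ι : Type} [Fintype ι] (e e' : ι → V) (τ : ι → ι) (h : IG B N) (_ : LinearIndependent F e) (_ : LinearIndependent F e') (_ : ∀ i j, B (e i) (e j) = 0) (_ : ∀ i j, B (e' i) (e' j) = 0)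
        (_ : ∀ i, N (e' i) = N (e i)) (_ : ∀ v, (g : V ≃ₗ[F] V) v - v = TT B e τ v) (_ : ∀ v, (h : V ≃ₗ[F] V) v - v = TT B e' τ v), IsConj h g := by
      intro ι _ e e' τ h he he' h0 h0' hN h1 h2
      obtain ⟨c, hc, hce⟩ := H.witt e e' he he' (fun i j => by rw [h0, h0']) hN
      refine IsConj.symm (isConj_iff.mpr ⟨⟨c, hc⟩, ?_⟩)
      rw [mul_inv_eq_iff_eq_mul]
      apply Subtype.ext
      apply LinearEquiv.ext
      intro v
      show c ((g : V ≃ₗ[F] V) v) = (h : V ≃ₗ[F] V) (c v)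
      have e1 : (g : V ≃ₗ[F] V) v = TT B e τ v + v := by rw [← h1]; abel
      have e2 : (h : V ≃ₗ[F] V) (c v) = TT B e' τ (c v) + c v := by rw [← h2]; abel
      rw [e1, e2, map_add, TT_conj hc.1 hce]
    rcases invol_cases H g.2 hg2 with ⟨s, e, h1, h2, h3, h4, h5⟩ | ⟨k, e, h1, h2, h3, h5⟩
    · have hs : s ≤ m := H.bc e h1 h2
      obtain ⟨i, rfl⟩ : ∃ i, s = i + 1 := ⟨s - 1, by omega⟩
      have hcj : IsConj (gc ⟨i, hs⟩) g := hconj e (ec ⟨i, hs⟩) id _ h1 (hc1 ⟨i, hs⟩) h2 (hc2 ⟨i, hs⟩) (fun j => by rw [h3]; exact hc3 ⟨i, hs⟩ j) h5 (hc4 ⟨i, hs⟩)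
      refine ⟨Sum.inl ⟨⟨i, hs⟩, (hpc _).mp ?_⟩, ?_⟩
      · have e1 := (hRA _ _ hcj).1
        have e2 : A (gc ⟨i, hs⟩) = A g := propext ⟨(hRA _ _ hcj).2, (hRA _ _ hcj.symm).2⟩
        show p (R (gc ⟨i, hs⟩)) (A (gc ⟨i, hs⟩))
        rw [e1, e2]
        exact hpg
      · apply Subtype.ext
        show ConjClasses.mk (gc ⟨i, hs⟩) = ConjClasses.mk g
        rwa [ConjClasses.mk_eq_mk_iff_isConj]
    · have hk : 2 * k ≤ M := H.ba e h1 h2 h3
      have hk0 : 0 < k := by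
        by_contra hk0
        have hk0 : k = 0 := by omega
        subst hk0
        have h6 : g = 1 := by
          apply Subtype.ext
          apply LinearEquiv.ext
          intro v
          show (g : V ≃ₗ[F] V) v = v
          have := h5 v
          rw [TT_apply, Fintype.sum_empty] at this
          exact sub_eq_zero.mp this
        rw [h6, orderOf_one] at hg
        omega
      obtain ⟨i, rfl⟩ : ∃ i, k = i + 1 := ⟨k - 1, by omega⟩
      have hi : i < M / 2 := by omega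
      have hcj : IsConj (ga ⟨i, hi⟩) g := hconj e (ea ⟨i, hi⟩) Sum.swap _ h1 (ha1 ⟨i, hi⟩) h2 (ha2 ⟨i, hi⟩) (fun j => by rw [h3]; exact ha3 ⟨i, hi⟩ j) h5 (ha4 ⟨i, hi⟩)
      refine ⟨Sum.inr ⟨⟨i, hi⟩, (hpa _).mp ?_⟩, ?_⟩
      · have e1 := (hRA _ _ hcj).1
        have e2 : A (ga ⟨i, hi⟩) = A g := propext ⟨(hRA _ _ hcj).2, (hRA _ _ hcj.symm).2⟩
        show p (R (ga ⟨i, hi⟩)) (A (ga ⟨i, hi⟩))
        rw [e1, e2]
        exact hpg
      · apply Subtype.ext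
        show ConjClasses.mk (ga ⟨i, hi⟩) = ConjClasses.mk g
        rwa [ConjClasses.mk_eq_mk_iff_isConj]

end filter2

end Cfsg.Agent.H17
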