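import Mathlib
import Cfsg.Agent.H17.InvTwoD
import Cfsg.Agent.H5.OmegaQuot

set_option autoImplicit false

/-! Involution classes of the groups `Ω` in characteristic two. -/

namespace Cfsg.Agent.H17

open Module Cfsg.Agent.H5

section rg

variable {F V : Type*} [Field F] [Finite F] [AddCommGroup V] [Module F V] [FiniteDimensional F V] {Q : QuadraticForm F V}

theorem rg_top_no_plane (hnd : ND Q) (hno : ∀ U : Submodule F V, TS Q U → finrank F V = 4 → finrank F U ≤ 1) : RG Q = ⊤ := by
  by_cases hex : (∀ a : F, a = 0 ∨ a = 1) → Module.finrank F V ≠ 4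
  · exact rg_top hnd hex
  push Not at hex
  obtain ⟨hF, h4⟩ := hex
  by_cases h2 : (2 : F) = 0
  swap
  · exact Subgroup.eq_top_iff' _ |>.mpr (rg_odd h2 hnd)
  have hone : ∀ v : V, Q v ≠ 0 → Q v = 1 := fun v hv => (hF _).resolve_left hv
  have htr : ∀ v v' : V, Q v ≠ 0 → Q v = Q v' → ∃ r ∈ RG Q, r v = v' := by
    intro v v' hv hvv'
    have hneg : ∀ a : F, -a = a := fun a => by linear_combination (-a) * h2
    have hsub : ∀ y z : V, Q y = Q z → Q (y - z) = - pB Q y z := by
      intro y z h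
      rw [q_sub, h]
      linear_combination Q z * h2
    have hbase : ∀ y z : V, Q y = Q z → pB Q y z ≠ 0 → ∃ r ∈ RG Q, r y = z := by
      intro y z h hne
      have : Q (y - z) ≠ 0 := by rw [hsub _ _ h, neg_ne_zero]; exact hne
      exact ⟨refl this, refl_mem _, refl_move h this⟩
    by_cases hp : pB Q v v' = 0
    swap
    · exact hbase _ _ hvv' hp
    by_cases hvveq : v = v'
    · exact ⟨1, one_mem _, by rw [og_one, hvveq]⟩
    have hv0 : v ≠ 0 := by rintro rfl; exact hv (q_zero Q)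
    have hind : LinearIndependent F ![v, v'] := by
      rw [LinearIndependent.pair_iff' hv0]
      intro a ha
      apply hvveq
      rcases hF a with h | h
      · exfalso
        rw [h, zero_smul] at ha
        apply hv
        rw [hvv', ← ha, q_zero]
      · rw [← ha, h, one_smul]
    have hQv := hone v hv
    have hQv' : Q v' = 1 := hvv'.symm.trans hQv
    obtain ⟨u0, hu1, hu2⟩ := exists_prescribed hnd hind 1 1
    have hu0 : Q u0 = 1 := by
      apply hone
      intro hq
      have hs0 : Q (v + v') = 0 := by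
        rw [q_add, hp, hQv, hQv']
        linear_combination h2
      have hsu : pB Q (v + v') u0 = 0 := by
        rw [pl_add, hu1, hu2]
        linear_combination h2
      have hU : TS Q (Submodule.span F {v + v', u0}) := by
        intro x hx
        obtain ⟨a, b, rfl⟩ := Submodule.mem_span_pair.mp hx
        rw [q_add, q_smul, q_smul, hs0, hq, pl_smul, map_smul, hsu]
        simp
      have h5 := hno _ hU h4
      have hind2 : LinearIndependent F ![v + v', u0] := by
        have hs : v + v' ≠ 0 := by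
          intro h
          apply hvveq
          have h6 : v' = -v := by rw [eq_neg_iff_add_eq_zero, add_comm]; exact h
          rw [h6, neg_eq_iff_add_eq_zero.mpr]
          rw [← two_smul F v, h2, zero_smul]
        rw [LinearIndependent.pair_iff' hs]
        intro a ha
        rw [← ha] at hu1
        rw [pr_smul, pr_add, hp, pB_self2 h2, add_zero, mul_zero] at hu1
        exact zero_ne_one hu1
      have h7 : finrank F (Submodule.span F {v + v', u0}) = 2 := by
        have := finrank_span_eq_card hind2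
        rw [Matrix.range_cons, Matrix.range_cons, Matrix.range_empty, Set.union_empty] at this
        rw [Set.insert_eq, this]; rfl
      omega
    obtain ⟨r1, hr1, hr1'⟩ := hbase v u0 (by rw [hQv, hu0]) (by rw [hu1]; exact one_ne_zero)
    obtain ⟨r2, hr2, hr2'⟩ := hbase u0 v' (by rw [hQv', hu0]) (by rw [pB_symm, hu2]; exact one_ne_zero)
    exact ⟨r2 * r1, mul_mem hr2 hr1, by rw [og_mul, hr1', hr2']⟩
  refine Subgroup.eq_top_iff' _ |>.mpr fun g => ?_
  by_cases h0 : ∀ v, Q v = 0
  · rw [nd_triv hnd h0 g]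
    exact one_mem _
  · push Not at h0
    obtain ⟨v, hv⟩ := h0
    obtain ⟨r, hr, hrv⟩ := htr (g v) v (by rw [og_q]; exact hv) (og_q g v)
    have h1 : r * g ∈ RG Q := rg_of_fix h2 hnd hv (r * g) (by rw [og_mul, hrv])
    have : g = r⁻¹ * (r * g) := by group
    rw [this]
    exact mul_mem (inv_mem hr) h1

end rg

section count

variable {F V : Type*} [Field F] [Finite F] [CharP F 2] [AddCommGroup V] [Module F V] [FiniteDimensional F V] {Q : QuadraticForm F V} {m M : ℕ}

theorem iR_ogIG (g : OG Q) : iR (ogIG Q g) = finrank F (movS g) := rfl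

theorem mov_fix (g : OG Q) : finrank F (movS g) + finrank F (fixS g) = finrank F V := LinearMap.finrank_range_add_finrank_ker _

theorem dg_even_mov (hnd : ND Q) (hrg : RG Q = ⊤) (hV : finrank F V = 2 * m) (g : OG Q) : g ∈ DG Q ↔ Even (finrank F (movS g)) := by
  rw [dg_iff_parity hnd hrg]
  have h1 := mov_fix g
  rw [hV] at h1 ⊢
  constructor
  · rintro ⟨k, hk⟩
    exact ⟨2 * m - k, by omega⟩
  · rintro ⟨k, hk⟩
    exact ⟨2 * m - k, by omega⟩

theorem mov_le_fix {g : OG Q} (hg : orderOf g = 2) : movS g ≤ fixS g := by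
  have hg2 : g * g = 1 := by rw [← pow_two, ← hg, pow_orderOf_eq_one]
  intro x hx
  obtain ⟨y, rfl⟩ := (mem_movS g x).mp hx
  rw [mem_fixS]
  have h1 : g (g y) = y := by rw [← og_mul, hg2, og_one]
  have h2 : ∀ z : V, z + z = 0 := fun z => by rw [← two_smul F z, two_zero, zero_smul]
  have h3 : g (g y - y) = g (g y) - g y := map_sub (g : V ≃ₗ[F] V) _ _
  rw [h3, h1]
  have h4 : y - g y - (g y - y) = (y + y) - (g y + g y) := by abel
  rw [← sub_eq_zero, h4, h2, h2, sub_zero]

theorem special_iff (H : ISet (pB Q) (fun v => Q v) id m M) (hnd : ND Q) (hV : finrank F V = 2 * m) (hrg : RG Q = ⊤) (hMm : M ≤ m)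
    (hM : ∀ U : Submodule F V, TS Q U → finrank F U ≤ M) {g : OG Q} (hg : orderOf g = 2) :
    (∀ c, c * g = g * c → c ∈ DG Q) ↔ (∀ v, pB Q v (g v - v) = 0) ∧ finrank F (movS g) = m ∧ M = m := by
  have hle := mov_le_fix hg
  have hle' := Submodule.finrank_mono hle
  have hmf := mov_fix g
  have hnT : ∀ v, Q (g v - v) = pB Q v (g v - v) := fun v => H.nT _ (ogIG Q g).2 v
  constructor
  · intro h
    have hts : TS Q (fixS g) := by
      intro v hv
      by_contra hq
      have hgv : g v = v := (mem_fixS g v).mp hv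
      apply refl_notMem_dg hnd hq
      apply h
      have h1 := refl_conj g hq (by rw [hgv]; exact hq)
      have h2 : refl (show Q (g v) ≠ 0 by rw [hgv]; exact hq) = refl hq := by
        congr 1
      rw [h2] at h1
      exact (mul_inv_eq_iff_eq_mul.mp h1).symm
    have h1 := hM _ hts
    refine ⟨fun v => ?_, by omega, by omega⟩
    rw [← hnT]
    exact hts _ (hle ((mem_movS g _).mpr ⟨v, rfl⟩))
  · rintro ⟨hA, hr, -⟩ c hc
    have hts : TS Q (movS g) := by
      intro x hx
      obtain ⟨y, rfl⟩ := (mem_movS g x).mp hx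
      rw [hnT, hA]
    have P : PT Q m := ⟨hnd, hV, movS g, hts, hr⟩
    rw [← P.ev_og_iff' hrg]
    refine ev_of_stable P hts hr ?_
    have h1 : ∀ (d : OG Q), d * g = g * d → ∀ x ∈ movS g, d x ∈ movS g := by
      intro d hd x hx
      obtain ⟨y, rfl⟩ := (mem_movS g x).mp hx
      refine (mem_movS g _).mpr ⟨d y, ?_⟩
      have h3 : d (g y - y) = d (g y) - d y := map_sub (d : V ≃ₗ[F] V) _ _
      rw [h3, ← og_mul, ← og_mul, hd]
    ext y
    rw [mem_imS]
    have h2 : (ogSS Q c).1.1.symm y = (c⁻¹ : OG Q) y := rfl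
    rw [h2]
    constructor
    · intro h3
      have := h1 c hc _ h3
      rwa [← og_mul, mul_inv_cancel, og_one] at this
    · intro h3
      apply h1 _ _ _ h3
      rw [inv_mul_eq_iff_eq_mul, ← mul_assoc, hc, mul_assoc, mul_inv_cancel, mul_one]

theorem card_even_fin (m : ℕ) : Nat.card {i : Fin m // Even (i.val + 1)} = m / 2 := by
  have h : Nat.card (Fin (m / 2)) = m / 2 := Nat.card_fin _
  conv_rhs => rw [← h]
  refine Nat.card_congr ⟨fun i => ⟨i.1.val / 2, ?_⟩, fun j => ⟨⟨2 * j.val + 1, ?_⟩, ?_⟩, ?_, ?_⟩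
  · have := i.1.2
    obtain ⟨k, hk⟩ := i.2
    omega
  · have := j.2
    omega
  · exact ⟨j.val + 1, by show 2 * j.val + 1 + 1 = _; omega⟩
  · rintro ⟨⟨i, hi⟩, k, hk⟩
    apply Subtype.ext
    apply Fin.ext
    show 2 * (i / 2) + 1 = i
    have hk' : i + 1 = k + k := hk
    omega
  · rintro ⟨j, hj⟩
    apply Fin.ext
    show (2 * j + 1) / 2 = j
    omega

theorem omega_count (H : ISet (pB Q) (fun v => Q v) id m M) (hnd : ND Q) (hV : finrank F V = 2 * m) (hrg : RG Q = ⊤) (hm : 1 ≤ m) (hMm : M ≤ m)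
    (hM : ∀ U : Submodule F V, TS Q U → finrank F U ≤ M) :
    Nat.card {C : ConjClasses (DG Q) // ∃ g : DG Q, ConjClasses.mk g = C ∧ orderOf g = 2} = m / 2 + M / 2 + (if Even m ∧ M = m then 1 else 0) := by
  classical
  haveI : Finite V := Module.finite_of_finite F
  haveI : Finite (OG Q) := Finite.of_injective (fun g : OG Q => (fun v => g v : V → V)) (fun g h hgh => og_ext fun x => congrFun hgh x)
  obtain ⟨u, hu⟩ := exists_ne_q hnd (by rw [hV]; omega)
  have h1 : Nat.card {C : ConjClasses (DG Q) // ∃ g : DG Q, ConjClasses.mk g = C ∧ orderOf g = 2} =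
      Nat.card {C : ConjClasses (DG Q) // ∃ g : DG Q, ConjClasses.mk g = C ∧ orderOf (g : OG Q) = 2} := by
    congr 2
    funext C
    congr 1
    funext g
    rw [Subgroup.orderOf_coe]
  rw [h1, index_two_classes (DG Q) (dg_index hnd hrg hu) (fun g => orderOf g = 2) (fun g x h => by rw [← MulAut.conj_apply, MulEquiv.orderOf_eq]; exact h)]
  have h2 : Nat.card {C : ConjClasses (OG Q) // ∃ g, ConjClasses.mk g = C ∧ (g ∈ DG Q ∧ orderOf g = 2)} = m / 2 + M / 2 := by
    rw [card_classes_congr (ogIG Q) (fun g => g ∈ DG Q ∧ orderOf g = 2) (fun h => orderOf h = 2 ∧ (fun r (_ : Prop) => Even r) (iR h) (iA h)) (fun g => by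
      rw [MulEquiv.orderOf_eq, iR_ogIG, dg_even_mov hnd hrg hV]
      exact and_comm), inv_filter H (fun r _ => Even r), card_even_fin]
    congr 1
    have : ∀ i : Fin (M / 2), Even (2 * (i.val + 1)) := fun i => even_two_mul _
    rw [Nat.card_congr (Equiv.subtypeUnivEquiv this), Nat.card_fin]
  have h3 : Nat.card {C : ConjClasses (OG Q) // ∃ g, ConjClasses.mk g = C ∧ ((g ∈ DG Q ∧ orderOf g = 2) ∧ ∀ c, c * g = g * c → c ∈ DG Q)} = if Even m ∧ M = m then 1 else 0 := by
    rw [card_classes_congr (ogIG Q) (fun g => (g ∈ DG Q ∧ orderOf g = 2) ∧ ∀ c, c * g = g * c → c ∈ DG Q) (fun h => orderOf h = 2 ∧ (fun r (a : Prop) => Even r ∧ a ∧ r = m ∧ M = m) (iR h) (iA h)) (fun g => by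
      rw [MulEquiv.orderOf_eq, iR_ogIG, dg_even_mov hnd hrg hV]
      constructor
      · rintro ⟨⟨e1, e2⟩, e3⟩
        exact ⟨e2, e1, (special_iff H hnd hV hrg hMm hM e2).mp e3⟩
      · rintro ⟨e2, e1, e3⟩
        exact ⟨⟨e1, e2⟩, (special_iff H hnd hV hrg hMm hM e2).mpr e3⟩), inv_filter H (fun r a => Even r ∧ a ∧ r = m ∧ M = m)]
    have e1 : Nat.card {i : Fin m // Even (i.val + 1) ∧ False ∧ i.val + 1 = m ∧ M = m} = 0 := by
      haveI : IsEmpty {i : Fin m // Even (i.val + 1) ∧ False ∧ i.val + 1 = m ∧ M = m} := ⟨fun x => x.2.2.1⟩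
      exact Nat.card_of_isEmpty
    rw [e1, zero_add]
    split_ifs with hE
    · obtain ⟨⟨k, hk⟩, hMe⟩ := hE
      rw [Nat.card_eq_one_iff_unique]
      refine ⟨⟨?_⟩, ⟨⟨k - 1, by omega⟩, ?_⟩⟩
      · rintro ⟨i, hi⟩ ⟨j, hj⟩
        apply Subtype.ext
        apply Fin.ext
        have h5 : 2 * (i.val + 1) = m := hi.2.2.1
        have h6 : 2 * (j.val + 1) = m := hj.2.2.1
        show i.val = j.val
        omega
      · refine ⟨even_two_mul _, trivial, ?_, hMe⟩
        show 2 * (k - 1 + 1) = m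
        omega
    · haveI : IsEmpty {i : Fin (M / 2) // Even (2 * (i.val + 1)) ∧ True ∧ 2 * (i.val + 1) = m ∧ M = m} := ⟨fun x => hE ⟨by rw [← x.2.2.2.1]; exact even_two_mul _, x.2.2.2.2⟩⟩
      exact Nat.card_of_isEmpty
  rw [h2, h3]

end count

section om

variable {F : Type*} [Field F] [Finite F] [CharP F 2] {ι : Type} [Fintype ι] [DecidableEq ι] {Q : QuadraticForm F (ι → F)} {m M : ℕ}

noncomputable def omDG (hnd : ND Q) (hrg : RG Q = ⊤) : Cfsg.Omega F ⇑Q ≃* DG Q :=
  ((ogEquiv Q).subgroupMap (commutator _)).trans (MulEquiv.subgroupCongr ((comm_map_equiv (ogEquiv Q)).trans (comm_eq_dg_two (two_zero F) hnd hrg)))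

theorem Omega_count (H : ISet (pB Q) (fun v => Q v) id m M) (hnd : ND Q) (hV : finrank F (ι → F) = 2 * m) (hrg : RG Q = ⊤) (hm : 1 ≤ m) (hMm : M ≤ m)
    (hM : ∀ U : Submodule F (ι → F), TS Q U → finrank F U ≤ M) :
    Nat.card {C : ConjClasses ↥(Cfsg.Omega F ⇑Q) // ∃ g : Cfsg.Omega F ⇑Q, ConjClasses.mk g = C ∧ orderOf g = 2} = m / 2 + M / 2 + (if Even m ∧ M = m then 1 else 0) :=
  (card_invol_congr (omDG hnd hrg)).trans (omega_count H hnd hV hrg hm hMm hM)

end om

end Cfsg.Agent.H17
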