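import Mathlib
import Cfsg.Agent.H17.Singer

set_option autoImplicit false

/-! Orders of elements of classical groups: linear algebra. -/

namespace Cfsg.Agent.H17

open Module Polynomial

variable {F : Type*} [Field F] [Finite F]

theorem natDegree_dvd_finrank {V : Type*} [AddCommGroup V] [Module F V] [FiniteDimensional F V] {y : Module.End F V} {π : F[X]}
    (hπ : Irreducible π) (h : aeval y π = 0) : π.natDegree ∣ finrank F V := by
  by_cases hV : Nontrivial V
  · obtain ⟨E, _, _, _, θ, α, hα⟩ := exists_field_of_irreducible y π hπ h
    haveI : Module.Finite F E := Module.Finite.of_finite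
    have h1 : ∀ (f : F[X]) (x : E), aeval y f (θ x) = θ (aeval α f * x) := by
      intro f
      induction f using Polynomial.induction_on' with
      | add p q hp hq => intro x; rw [map_add, LinearMap.add_apply, hp, hq, map_add, add_mul, map_add]
      | monomial k a =>
        intro x
        rw [aeval_monomial, aeval_monomial]
        have h2 : ∀ k : ℕ, (y ^ k) (θ x) = θ (α ^ k * x) := by
          intro k
          induction k with
          | zero => simp
          | succ k ih => rw [pow_succ', Module.End.mul_apply, ih, hα, ← mul_assoc, ← pow_succ']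
        rw [Module.End.mul_apply, h2, Module.algebraMap_end_apply, mul_assoc, ← Algebra.smul_def, map_smul]
    have h2 : aeval α π = 0 := by
      have := h1 π 1
      rw [h, LinearMap.zero_apply, mul_one] at this
      exact θ.injective (by rw [← this, map_zero])
    have hint : IsIntegral F α := IsIntegral.of_finite F α
    have h3 : π.natDegree = (minpoly F α).natDegree := by
      have h4 : Associated (minpoly F α) π := (minpoly.irreducible hint).associated_of_dvd hπ (minpoly.dvd F α h2)
      exact (natDegree_eq_of_degree_eq (degree_eq_degree_of_associated h4)).symm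
    rw [h3, ← θ.finrank_eq]
    exact minpoly.degree_dvd hint
  · rw [not_nontrivial_iff_subsingleton] at hV
    rw [Module.finrank_zero_of_subsingleton]
    exact dvd_zero _

theorem aeval_restrict {V : Type*} [AddCommGroup V] [Module F V] {y : Module.End F V} {K : Submodule F V} (hK : ∀ v ∈ K, y v ∈ K) (f : F[X]) (v : K) :
    ((aeval (y.restrict hK) f v : K) : V) = aeval y f v := by
  induction f using Polynomial.induction_on' with
  | add p q hp hq => rw [map_add, map_add, LinearMap.add_apply, LinearMap.add_apply, Submodule.coe_add, hp, hq]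
  | monomial k a =>
    rw [aeval_monomial, aeval_monomial, Module.End.mul_apply, Module.End.mul_apply, Module.algebraMap_end_apply, Module.algebraMap_end_apply, Submodule.coe_smul]
    congr 1
    induction k with
    | zero => rfl
    | succ k ih => rw [pow_succ', pow_succ', Module.End.mul_apply, Module.End.mul_apply, ← ih]; rfl

theorem aeval_pres {V : Type*} [AddCommGroup V] [Module F V] {y : Module.End F V} {K : Submodule F V} (hK : ∀ v ∈ K, y v ∈ K) (f : F[X]) {v : V} (hv : v ∈ K) :
    aeval y f v ∈ K := by
  rw [← aeval_restrict hK f ⟨v, hv⟩]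
  exact Subtype.property _

/-- commuting nilpotent endomorphisms -/
theorem nilp_pow_eq_zero {V : Type*} [AddCommGroup V] [Module F V] [FiniteDimensional F V] {y N : Module.End F V} {π : F[X]}
    (hπ : Irreducible π) (h : aeval y π = 0) (hN : IsNilpotent N) (hc : N * y = y * N) {k : ℕ} (hk : finrank F V = k * π.natDegree) : N ^ k = 0 := by
  have hpres : ∀ i, ∀ v ∈ LinearMap.ker (N ^ i), y v ∈ LinearMap.ker (N ^ i) := by
    intro i v hv
    rw [LinearMap.mem_ker] at hv ⊢
    have h1 : N ^ i * y = y * N ^ i := (Commute.pow_left hc i)
    rw [← Module.End.mul_apply, h1, Module.End.mul_apply, hv, map_zero]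
  have hdvd : ∀ i, π.natDegree ∣ finrank F (LinearMap.ker (N ^ i)) := by
    intro i
    apply natDegree_dvd_finrank (y := y.restrict (hpres i)) hπ
    apply LinearMap.ext
    intro v
    apply Subtype.ext
    rw [aeval_restrict, h]
    rfl
  have claim : ∀ i, i * π.natDegree ≤ finrank F (LinearMap.ker (N ^ i)) ∨ N ^ i = 0 := by
    intro i
    induction i with
    | zero => left; simp
    | succ i ih =>
      by_cases h0 : N ^ (i + 1) = 0
      · right; exact h0
      · left
        have hi0 : N ^ i ≠ 0 := by
          intro h1; apply h0; rw [pow_succ, h1, zero_mul]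
        have ih' := ih.resolve_right hi0
        have hle : LinearMap.ker (N ^ i) ≤ LinearMap.ker (N ^ (i + 1)) := by
          intro v hv
          rw [LinearMap.mem_ker] at hv ⊢
          rw [pow_succ', Module.End.mul_apply, hv, map_zero]
        have hne : LinearMap.ker (N ^ i) ≠ LinearMap.ker (N ^ (i + 1)) := by
          intro heq
          obtain ⟨j, hj⟩ := hN
          have h2 := Module.End.ker_pow_constant (f := N) (k := i) heq j
          apply hi0
          rw [← LinearMap.ker_eq_top, h2, pow_add, hj, mul_zero, LinearMap.ker_zero]
        have hlt := Submodule.finrank_lt_finrank_of_lt (lt_of_le_of_ne hle hne)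
        obtain ⟨a, ha⟩ := hdvd i
        obtain ⟨b, hb⟩ := hdvd (i + 1)
        rw [ha] at ih' hlt
        rw [hb] at hlt ⊢
        have hd0 : 0 < π.natDegree := by
          rcases Nat.eq_zero_or_pos π.natDegree with h0 | h0
          · rw [h0] at hlt; simp at hlt
          · exact h0
        have hab : a < b := lt_of_mul_lt_mul_left hlt (Nat.zero_le _)
        have hia : i ≤ a := by
          rw [mul_comm] at ih'
          exact le_of_mul_le_mul_left ih' hd0
        rw [mul_comm]
        exact Nat.mul_le_mul_left _ (by omega)
  rcases claim k with h1 | h1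
  · rw [← hk] at h1
    rw [← LinearMap.ker_eq_top]
    exact Submodule.eq_top_of_finrank_eq (le_antisymm (Submodule.finrank_le _) h1)
  · exact h1

/-- roots of the same irreducible polynomial -/
theorem exists_frob_of_root {E : Type*} [Field E] [Finite E] [Algebra F E] {π : F[X]} (hπ : Irreducible π) {α β : E} (hα : aeval α π = 0)
    (hβ : aeval β π = 0) : ∃ j : ℕ, β = α ^ (Nat.card F ^ j) := by
  haveI := Fintype.ofFinite F
  haveI : Module.Finite F E := Module.Finite.of_finite
  have h1 : Associated (minpoly F β) π := (minpoly.irreducible (IsIntegral.of_finite F β)).associated_of_dvd hπ (minpoly.dvd F β hβ)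
  have h2 : aeval α (minpoly F β) = 0 := by
    obtain ⟨c, hc⟩ := h1.symm
    rw [← hc, map_mul, hα, zero_mul]
  obtain ⟨σ, hσ⟩ := minpoly.exists_algEquiv_of_root (K := F) (L := E) (x := α) (y := β) (Algebra.IsAlgebraic.isAlgebraic β) h2
  obtain ⟨⟨i, hi⟩, hi'⟩ := (FiniteField.bijective_frobeniusAlgEquivOfAlgebraic_pow F E).2 σ
  refine ⟨i, ?_⟩
  rw [← hσ, ← hi']
  simp only
  rw [AlgEquiv.coe_pow, FiniteField.coe_frobeniusAlgEquivOfAlgebraic_iterate, Nat.card_eq_fintype_card]

end Cfsg.Agent.H17
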