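import Mathlib
import Cfsg.Agent.H17.OrdA
import Cfsg.Agent.H17.FormIso

set_option autoImplicit false

/-! Orthogonally indecomposable isometries. -/

namespace Cfsg.Agent.H17

open Module Polynomial

variable {F : Type*} [Field F] {V : Type*} [AddCommGroup V] [Module F V]

/-- reflexive nondegenerate sesquilinear forms -/
structure SF (σ : F ≃+* F) (B : V → V → F) : Prop where
  addl : ∀ u v w, B (u + v) w = B u w + B v w
  addr : ∀ u v w, B u (v + w) = B u v + B u w
  smull : ∀ (c : F) u v, B (c • u) v = c * B u v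
  smulr : ∀ (c : F) u v, B u (c • v) = σ c * B u v
  nd : ∀ v, (∀ w, B v w = 0) → v = 0
  refl : ∀ u v, B u v = 0 → B v u = 0
  inv : ∀ c, σ (σ c) = c

variable {σ : F ≃+* F} {B : V → V → F}

/-- adjoints -/
def Adj (B : V → V → F) (a b : Module.End F V) : Prop := ∀ u v, B (a u) v = B u (b v)

theorem SF.zerol (H : SF σ B) (v : V) : B 0 v = 0 := by
  have := H.smull 0 0 v
  rwa [zero_smul, zero_mul] at this

theorem SF.zeror (H : SF σ B) (v : V) : B v 0 = 0 := by
  have := H.smulr 0 v 0
  rwa [zero_smul, map_zero, zero_mul] at this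

theorem Adj.mul {a b c d : Module.End F V} (h1 : Adj B a b) (h2 : Adj B c d) : Adj B (a * c) (d * b) := by
  intro u v
  rw [Module.End.mul_apply, h1, h2, Module.End.mul_apply]

theorem SF.adj_aeval (H : SF σ B) {s s' : Module.End F V} (hs : Adj B s s') (f : F[X]) : Adj B (aeval s f) (aeval s' (f.map (σ : F →+* F))) := by
  intro u v
  induction f using Polynomial.induction_on' with
  | add p q hp hq => rw [map_add, LinearMap.add_apply, H.addl, hp, hq, Polynomial.map_add, map_add, LinearMap.add_apply, H.addr]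
  | monomial k a =>
    rw [Polynomial.map_monomial, aeval_monomial, aeval_monomial, Module.End.mul_apply, Module.End.mul_apply, Module.algebraMap_end_apply,
      Module.algebraMap_end_apply, H.smull, H.smulr]
    have h2 : ∀ k : ℕ, ∀ u, B ((s ^ k) u) v = B u ((s' ^ k) v) := by
      intro k
      induction k with
      | zero => intro u; rfl
      | succ k ih => intro u; rw [pow_succ, Module.End.mul_apply, ih, hs, pow_succ', Module.End.mul_apply]
    rw [h2]
    congr 1
    exact (H.inv a).symm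

/-- a subspace is nondegenerate -/
def NDS (B : V → V → F) (Y : Submodule F V) : Prop := ∀ v ∈ Y, (∀ w ∈ Y, B v w = 0) → v = 0

/-- orthogonally indecomposable -/
def Indec (B : V → V → F) (x : Module.End F V) : Prop := ∀ Y : Submodule F V, (∀ v ∈ Y, x v ∈ Y) → NDS B Y → Y = ⊥ ∨ Y = ⊤

theorem aeval_comm_of {x s : Module.End F V} (h : x * s = s * x) (f : F[X]) : x * aeval s f = aeval s f * x := by
  induction f using Polynomial.induction_on' with
  | add p q hp hq => rw [map_add, mul_add, add_mul, hp, hq]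
  | monomial k a =>
    rw [aeval_monomial]
    have h1 : x * s ^ k = s ^ k * x := (Commute.pow_right h k)
    rw [← mul_assoc, ← Algebra.commutes a x, mul_assoc, h1, mul_assoc]

/-- polynomials in an element of order prime to `p` are semisimple -/
theorem aeval_ss [Finite F] {s : Module.End F V} {m : ℕ} (hm : Nat.Coprime (Nat.card F) m) (hm0 : 0 < m) (hs : s ^ m = 1) (f : F[X]) {v : V} (h : aeval s f (aeval s f v) = 0) :
    aeval s f v = 0 := by
  haveI := Fintype.ofFinite F
  obtain ⟨M, hM⟩ : ∃ M, M = Nat.totient m := ⟨_, rfl⟩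
  have hM0 : 0 < M := by rw [hM]; exact Nat.totient_pos.mpr hm0
  have h1 : s ^ (Nat.card F ^ M) = s := by
    have h2 : Nat.card F ^ M ≡ 1 [MOD m] := by rw [hM]; exact Nat.ModEq.pow_totient hm
    obtain ⟨k, hk⟩ : ∃ k, Nat.card F ^ M = 1 + m * k := by
      have h3 : 1 ≤ Nat.card F ^ M := Nat.one_le_pow _ _ Nat.card_pos
      obtain ⟨k, hk⟩ := (Nat.modEq_iff_dvd' h3).mp h2.symm
      exact ⟨k, by omega⟩
    rw [hk, pow_add, pow_one, pow_mul, hs, one_pow, mul_one]
  have h2 : ∀ M : ℕ, aeval (s ^ (Nat.card F ^ M)) f = (aeval s f) ^ (Nat.card F ^ M) := by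
    intro M
    induction M with
    | zero => simp
    | succ M ih =>
      rw [pow_succ, pow_mul, pow_mul, ← ih]
      generalize s ^ Nat.card F ^ M = t
      have h3 := FiniteField.expand_card f
      have h4 := congrArg (aeval t) h3
      rw [Polynomial.expand_aeval, map_pow] at h4
      rw [Nat.card_eq_fintype_card]
      exact h4
  have h3 := h2 M
  rw [h1] at h3
  have h4 : 2 ≤ Nat.card F ^ M := by
    calc 2 ≤ Nat.card F := Finite.one_lt_card
      _ = Nat.card F ^ 1 := (pow_one _).symm
      _ ≤ Nat.card F ^ M := Nat.pow_le_pow_right Nat.card_pos hM0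
  obtain ⟨k, hk⟩ := Nat.exists_eq_add_of_le' h4
  rw [h3, hk, pow_add, pow_two, Module.End.mul_apply, Module.End.mul_apply, h, map_zero]

/-- the dichotomy -/
theorem dich [Finite F] [FiniteDimensional F V] [Nontrivial V] (H : SF σ B) {x s s' : Module.End F V} (hI : Indec B x) (hxs : x * s = s * x) (hxs' : x * s' = s' * x)
    (hadj : Adj B s s') (hadj' : Adj B s' s) (hss : s * s' = 1) (hss' : s' * s = 1) {m : ℕ} (hm : Nat.Coprime (Nat.card F) m) (hm0 : 0 < m) (hs : s ^ m = 1) :
    ∃ π : F[X], Irreducible π ∧ ((aeval s π = 0 ∧ aeval s' (π.map (σ : F →+* F)) = 0) ∨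
      (∃ K₁ K₂ : Submodule F V, IsCompl K₁ K₂ ∧ (∀ v ∈ K₁, aeval s π v = 0) ∧ (∀ v ∈ K₂, aeval s' (π.map (σ : F →+* F)) v = 0) ∧
        (∀ v, aeval s π v = 0 → v ∈ K₁) ∧ (∀ v, aeval s' (π.map (σ : F →+* F)) v = 0 → v ∈ K₂) ∧ finrank F K₁ = finrank F K₂)) := by
  classical
  have hs' : s' ^ m = 1 := by
    have h1 : (s' * s) ^ m = s' ^ m * s ^ m := Commute.mul_pow (show Commute s' s by rw [Commute, SemiconjBy, hss, hss']) m
    rw [hss', one_pow, hs, mul_one] at h1
    exact h1.symm
  -- an irreducible factor of the minimal polynomial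
  obtain ⟨π, hπ, hπk⟩ : ∃ π : F[X], Irreducible π ∧ LinearMap.ker (aeval s π) ≠ ⊥ := by
    have hint : IsIntegral F s := IsIntegral.of_finite F s
    have hnu : ¬ IsUnit (minpoly F s) := minpoly.not_isUnit F s
    obtain ⟨π, hπ, g, hg⟩ := WfDvdMonoid.exists_irreducible_factor hnu (minpoly.ne_zero hint)
    refine ⟨π, hπ, fun hk => ?_⟩
    have h1 : aeval s g = 0 := by
      apply LinearMap.ext
      intro v
      have h2 : aeval s π (aeval s g v) = 0 := by
        rw [← Module.End.mul_apply, ← map_mul, ← hg, minpoly.aeval]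
        rfl
      have h3 : aeval s g v ∈ LinearMap.ker (aeval s π) := h2
      rw [hk, Submodule.mem_bot] at h3
      rw [h3]; rfl
    have hg0 : g ≠ 0 := by
      rintro rfl
      rw [mul_zero] at hg
      exact minpoly.ne_zero hint hg
    have h2 := minpoly.dvd F s h1
    have h3 : (minpoly F s).natDegree ≤ g.natDegree := natDegree_le_of_dvd h2 hg0
    rw [hg, natDegree_mul hπ.ne_zero hg0] at h3
    have h4 := hπ.natDegree_pos
    omega
  refine ⟨π, hπ, ?_⟩
  obtain ⟨a, ha⟩ : ∃ a, a = aeval s π := ⟨_, rfl⟩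
  obtain ⟨b, hb⟩ : ∃ b, b = aeval s' (π.map (σ : F →+* F)) := ⟨_, rfl⟩
  rw [← ha, ← hb]
  rw [← ha] at hπk
  have hab : Adj B a b := by rw [ha, hb]; exact H.adj_aeval hadj π
  have hba : Adj B b a := by
    have h1 := H.adj_aeval hadj' (π.map (σ : F →+* F))
    rw [Polynomial.map_map] at h1
    have h2 : (σ : F →+* F).comp (σ : F →+* F) = RingHom.id F := RingHom.ext H.inv
    rw [h2, Polynomial.map_id] at h1
    rw [ha, hb]; exact h1
  -- `s'` is a polynomial in `s`
  have hs'p : s' = s ^ (m - 1) := by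
    have h1 : s ^ (m - 1) * s = 1 := by rw [← pow_succ, Nat.sub_add_cancel hm0, hs]
    calc s' = s ^ (m - 1) * s * s' := by rw [h1, one_mul]
      _ = s ^ (m - 1) := by rw [mul_assoc, hss, mul_one]
  have hbp : b = aeval s ((π.map (σ : F →+* F)).comp (X ^ (m - 1))) := by
    rw [hb, hs'p, aeval_comp, map_pow, aeval_X]
  have hcomm : a * b = b * a := by rw [ha, hbp, ← map_mul, ← map_mul, mul_comm]
  have hcomm' : ∀ v, a (b v) = b (a v) := fun v => by rw [← Module.End.mul_apply, hcomm, Module.End.mul_apply]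
  have hssa : ∀ v, a (a v) = 0 → a v = 0 := fun v h => by rw [ha] at h ⊢; exact aeval_ss hm hm0 hs π h
  have hssb : ∀ v, b (b v) = 0 → b v = 0 := fun v h => by rw [hb] at h ⊢; exact aeval_ss hm hm0 hs' _ h
  have habp : a * b = aeval s (π * (π.map (σ : F →+* F)).comp (X ^ (m - 1))) := by rw [map_mul, ← ha, ← hbp]
  have hssab : ∀ v, (a * b) ((a * b) v) = 0 → (a * b) v = 0 := fun v h => by rw [habp] at h ⊢; exact aeval_ss hm hm0 hs _ h
  have hxa : x * a = a * x := by rw [ha]; exact aeval_comm_of hxs π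
  have hxb : x * b = b * x := by rw [hb]; exact aeval_comm_of hxs' _
  have hxa' : ∀ v, a (x v) = x (a v) := fun v => by rw [← Module.End.mul_apply, ← hxa, Module.End.mul_apply]
  have hxb' : ∀ v, b (x v) = x (b v) := fun v => by rw [← Module.End.mul_apply, ← hxb, Module.End.mul_apply]
  -- step 1 : `a b = 0`
  have hCab := isCompl_of_inf hssab
  have hadjab : Adj B (a * b) (a * b) := hab.mul hba
  have hker : LinearMap.ker (a * b) = ⊤ := by
    rcases hI (LinearMap.ker (a * b)) (fun v hv => by
      rw [LinearMap.mem_ker, Module.End.mul_apply] at hv ⊢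
      rw [hxb', hxa', hv, map_zero]) (fun v hv hvw => by
      apply H.nd
      intro w
      obtain ⟨w1, hw1, w2, hw2, rfl⟩ : ∃ w1 ∈ LinearMap.ker (a * b), ∃ w2 ∈ LinearMap.range (a * b), w1 + w2 = w := by
        have : w ∈ LinearMap.ker (a * b) ⊔ LinearMap.range (a * b) := by rw [hCab.sup_eq_top]; trivial
        exact Submodule.mem_sup.mp this
      obtain ⟨w3, rfl⟩ := hw2
      rw [H.addr, hvw w1 hw1, zero_add, ← hadjab, LinearMap.mem_ker.mp hv, H.zerol]) with h | h
    · exfalso
      apply hπk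
      rw [eq_bot_iff, ← h]
      intro v hv
      rw [LinearMap.mem_ker] at hv ⊢
      rw [hcomm, Module.End.mul_apply, hv, map_zero]
    · exact h
  have hab0 : ∀ v, a (b v) = 0 := by
    intro v
    have : v ∈ LinearMap.ker (a * b) := by rw [hker]; trivial
    exact this
  have hba0 : ∀ v, b (a v) = 0 := fun v => by rw [← hcomm', hab0]
  have hCa := isCompl_of_inf hssa
  have hCb := isCompl_of_inf hssb
  -- step 2 : the intersection of the kernels
  rcases hI (LinearMap.ker a ⊓ LinearMap.ker b) (fun v hv => by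
      obtain ⟨h1, h2⟩ := hv
      refine ⟨?_, ?_⟩
      · show a (x v) = 0
        rw [hxa', show a v = 0 from h1, map_zero]
      · show b (x v) = 0
        rw [hxb', show b v = 0 from h2, map_zero]) (fun v hv hvw => by
      obtain ⟨hv1, hv2⟩ := hv
      have hv1 : a v = 0 := hv1
      have hv2 : b v = 0 := hv2
      apply H.nd
      intro w
      obtain ⟨w1, hw1, w2, hw2, rfl⟩ : ∃ w1 ∈ LinearMap.ker a, ∃ w2 ∈ LinearMap.range a, w1 + w2 = w := by
        have : w ∈ LinearMap.ker a ⊔ LinearMap.range a := by rw [hCa.sup_eq_top]; trivial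
        exact Submodule.mem_sup.mp this
      obtain ⟨w3, rfl⟩ := hw2
      obtain ⟨w4, hw4, w5, hw5, rfl⟩ : ∃ w4 ∈ LinearMap.ker b, ∃ w5 ∈ LinearMap.range b, w4 + w5 = w1 := by
        have : w1 ∈ LinearMap.ker b ⊔ LinearMap.range b := by rw [hCb.sup_eq_top]; trivial
        exact Submodule.mem_sup.mp this
      obtain ⟨w6, rfl⟩ := hw5
      have hw7 : a w4 = 0 := by
        have h1 : a (w4 + b w6) = 0 := hw1
        rwa [map_add, hab0, add_zero] at h1
      rw [H.addr, H.addr, hvw w4 ⟨hw7, hw4⟩, zero_add, ← hab, hv1, H.zerol, zero_add, ← hba, hv2, H.zerol]) with h | h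
  · right
    have hZ : ∀ v, a v = 0 → b v = 0 → v = 0 := by
      intro v h1 h2
      have : v ∈ LinearMap.ker a ⊓ LinearMap.ker b := ⟨h1, h2⟩
      rwa [h, Submodule.mem_bot] at this
    have hka : ∀ v, a v = 0 → ∃ w, v = b w := by
      intro v hv
      obtain ⟨w4, hw4, w5, ⟨w6, rfl⟩, rfl⟩ : ∃ w4 ∈ LinearMap.ker b, ∃ w5 ∈ LinearMap.range b, w4 + w5 = v := by
        have : v ∈ LinearMap.ker b ⊔ LinearMap.range b := by rw [hCb.sup_eq_top]; trivial
        exact Submodule.mem_sup.mp this
      rw [map_add, hab0, add_zero] at hv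
      exact ⟨w6, by rw [hZ w4 hv hw4, zero_add]⟩
    have hkb : ∀ v, b v = 0 → ∃ w, v = a w := by
      intro v hv
      obtain ⟨w4, hw4, w5, ⟨w6, rfl⟩, rfl⟩ : ∃ w4 ∈ LinearMap.ker a, ∃ w5 ∈ LinearMap.range a, w4 + w5 = v := by
        have : v ∈ LinearMap.ker a ⊔ LinearMap.range a := by rw [hCa.sup_eq_top]; trivial
        exact Submodule.mem_sup.mp this
      rw [map_add, hba0, add_zero] at hv
      exact ⟨w6, by rw [hZ w4 hw4 hv, zero_add]⟩
    have hcompl : IsCompl (LinearMap.ker a) (LinearMap.ker b) := by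
      refine ⟨disjoint_iff.mpr h, codisjoint_iff.mpr (eq_top_iff.mpr ?_)⟩
      rw [← hCa.sup_eq_top]
      refine sup_le_sup_left ?_ _
      rintro _ ⟨w, rfl⟩
      exact hba0 w
    -- isotropy
    have hta : ∀ v w, a v = 0 → a w = 0 → B v w = 0 := by
      intro v w hv hw
      obtain ⟨u, rfl⟩ := hka w hw
      rw [← hab, hv, H.zerol]
    have htb : ∀ v w, b v = 0 → b w = 0 → B v w = 0 := by
      intro v w hv hw
      obtain ⟨u, rfl⟩ := hkb w hw
      rw [← hba, hv, H.zerol]
    have hdual : ∀ (K₁ K₂ : Submodule F V), IsCompl K₁ K₂ → (∀ v ∈ K₁, ∀ w ∈ K₁, B v w = 0) → finrank F K₁ ≤ finrank F K₂ := by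
      intro K₁ K₂ hc hti
      haveI : Finite V := Module.finite_of_finite F
      let φ : K₁ → Module.Dual F K₂ := fun v =>
        { toFun := fun w => B (w : V) (v : V)
          map_add' := fun w w' => H.addl _ _ _
          map_smul' := fun c w => H.smull _ _ _ }
      have hφ : Function.Injective φ := by
        intro v v' hvv
        have h1 : ∀ w ∈ K₂, B w v = B w v' := fun w hw => congrFun (congrArg (fun f : Module.Dual F K₂ => (f : K₂ → F)) hvv) ⟨w, hw⟩
        have h2 : ∀ w, B w ((v : V) - v') = 0 := by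
          intro w
          obtain ⟨w1, hw1, w2, hw2, rfl⟩ : ∃ w1 ∈ K₁, ∃ w2 ∈ K₂, w1 + w2 = w := by
            have : w ∈ K₁ ⊔ K₂ := by rw [hc.sup_eq_top]; trivial
            exact Submodule.mem_sup.mp this
          have h3 : ∀ z, B z ((v : V) - v') = B z v - B z v' := by
            intro z
            rw [sub_eq_add_neg, H.addr, ← neg_one_smul F (v' : V), H.smulr, map_neg, map_one, neg_one_mul, sub_eq_add_neg]
          rw [H.addl, h3, h3, hti w1 hw1 v v.2, hti w1 hw1 v' v'.2, h1 w2 hw2]
          ring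
        have h3 := H.nd _ (fun w => H.refl _ _ (h2 w))
        exact Subtype.ext (sub_eq_zero.mp h3)
      haveI : Finite (Module.Dual F K₂) := Module.finite_of_finite F
      have h4 := Nat.card_le_card_of_injective φ hφ
      rw [Module.natCard_eq_pow_finrank (K := F) (V := K₁), Module.natCard_eq_pow_finrank (K := F) (V := Module.Dual F K₂), Subspace.dual_finrank_eq] at h4
      exact (Nat.pow_le_pow_iff_right Finite.one_lt_card).mp h4
    refine ⟨LinearMap.ker a, LinearMap.ker b, hcompl, fun v hv => hv, fun v hv => hv, fun v hv => hv, fun v hv => hv, le_antisymm ?_ ?_⟩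
    · exact hdual _ _ hcompl (fun v hv w hw => hta v w hv hw)
    · exact hdual _ _ hcompl.symm (fun v hv w hw => htb v w hv hw)
  · left
    constructor
    · apply LinearMap.ext
      intro v
      have : v ∈ LinearMap.ker a ⊓ LinearMap.ker b := by rw [h]; trivial
      exact this.1
    · apply LinearMap.ext
      intro v
      have : v ∈ LinearMap.ker a ⊓ LinearMap.ker b := by rw [h]; trivial
      exact this.2

end Cfsg.Agent.H17
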