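import Mathlib
import Cfsg.Agent.H17.OrdB

set_option autoImplicit false

/-! Orthogonally indecomposable isometries: orders. -/

namespace Cfsg.Agent.H17

open Module Polynomial

variable {F : Type*} [Field F] {V : Type*} [AddCommGroup V] [Module F V]

theorem pow_card_of_root [Finite F] {A : Type*} [Ring A] [Algebra F A] {y : A} {π : F[X]} (hπ : Irreducible π) (h : aeval y π = 0) :
    y ^ (Nat.card F ^ π.natDegree) = y := by
  haveI : Fact (Irreducible π) := ⟨hπ⟩
  have hfd : FiniteDimensional F (AdjoinRoot π) := (AdjoinRoot.powerBasis hπ.ne_zero).finite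
  haveI : Finite (AdjoinRoot π) := Module.finite_of_finite F
  haveI : Fintype (AdjoinRoot π) := Fintype.ofFinite _
  have hc : Nat.card (AdjoinRoot π) = Nat.card F ^ π.natDegree := by
    rw [Module.natCard_eq_pow_finrank (K := F) (V := AdjoinRoot π), (AdjoinRoot.powerBasis hπ.ne_zero).finrank, AdjoinRoot.powerBasis_dim]
  have h1 : (AdjoinRoot.root π) ^ (Nat.card F ^ π.natDegree) = AdjoinRoot.root π := by
    rw [← hc, Nat.card_eq_fintype_card, FiniteField.pow_card]
  have h2 : π ∣ X ^ (Nat.card F ^ π.natDegree) - X := by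
    rw [← AdjoinRoot.mk_eq_zero, map_sub, map_pow, AdjoinRoot.mk_X, h1, sub_self]
  obtain ⟨g, hg⟩ := h2
  have h3 := congrArg (aeval y) hg
  rw [map_sub, map_pow, aeval_X, map_mul, h, zero_mul, sub_eq_zero] at h3
  exact h3

theorem map_irr {σ : F ≃+* F} {π : F[X]} (hπ : Irreducible π) : Irreducible (π.map (σ : F →+* F)) := by
  have : π.map (σ : F →+* F) = Polynomial.mapEquiv σ π := rfl
  rw [this]
  exact (MulEquiv.irreducible_iff (Polynomial.mapEquiv σ)).mpr hπ

theorem natDegree_map_equiv {σ : F ≃+* F} (π : F[X]) : (π.map (σ : F →+* F)).natDegree = π.natDegree :=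
  Polynomial.natDegree_map _

/-- first case of the dichotomy -/
theorem dich_caseI [Finite F] [FiniteDimensional F V] {σ : F ≃+* F} {s s' N : Module.End F V} (hss : s * s' = 1) (hss' : s' * s = 1) {π : F[X]} (hπ : Irreducible π)
    {K₁ K₂ : Submodule F V} (hc : IsCompl K₁ K₂) (h1 : ∀ v ∈ K₁, aeval s π v = 0) (h2 : ∀ v ∈ K₂, aeval s' (π.map (σ : F →+* F)) v = 0)
    (h1' : ∀ v, aeval s π v = 0 → v ∈ K₁) (h2' : ∀ v, aeval s' (π.map (σ : F →+* F)) v = 0 → v ∈ K₂) (hr : finrank F K₁ = finrank F K₂)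
    (hN : IsNilpotent N) (hNs : N * s = s * N) (hNs' : N * s' = s' * N) :
    2 * finrank F K₁ = finrank F V ∧ π.natDegree ∣ finrank F K₁ ∧ s ^ (Nat.card F ^ π.natDegree) = s ∧ N ^ (finrank F K₁ / π.natDegree) = 0 := by
  have hfr : 2 * finrank F K₁ = finrank F V := by
    have := Submodule.finrank_add_eq_of_isCompl hc
    omega
  -- invariance
  have hinv : ∀ (t : Module.End F V), t * s = s * t → ∀ v ∈ K₁, t v ∈ K₁ := by
    intro t ht v hv
    apply h1'
    rw [← Module.End.mul_apply, ← aeval_comm_of ht, Module.End.mul_apply, h1 v hv, map_zero]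
  have hinv2 : ∀ (t : Module.End F V), t * s' = s' * t → ∀ v ∈ K₂, t v ∈ K₂ := by
    intro t ht v hv
    apply h2'
    rw [← Module.End.mul_apply, ← aeval_comm_of ht, Module.End.mul_apply, h2 v hv, map_zero]
  have r1 : aeval (s.restrict (hinv s rfl)) π = 0 := by
    apply LinearMap.ext
    intro v
    apply Subtype.ext
    rw [aeval_restrict, h1 v v.2]
    rfl
  have r2 : aeval (s'.restrict (hinv2 s' rfl)) (π.map (σ : F →+* F)) = 0 := by
    apply LinearMap.ext
    intro v
    apply Subtype.ext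
    rw [aeval_restrict, h2 v v.2]
    rfl
  have hd1 := natDegree_dvd_finrank hπ r1
  have hd2 := natDegree_dvd_finrank (map_irr (σ := σ) hπ) r2
  have hpow : ∀ (t : Module.End F V) (K : Submodule F V) (hK : ∀ v ∈ K, t v ∈ K) (n : ℕ) (v : K), (((t.restrict hK) ^ n) v : V) = (t ^ n) v := by
    intro t K hK n
    induction n with
    | zero => intro v; rfl
    | succ n ih => intro v; rw [pow_succ, pow_succ, Module.End.mul_apply, Module.End.mul_apply, ih]; rfl
  refine ⟨hfr, hd1, ?_, ?_⟩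
  · have e1 := pow_card_of_root hπ r1
    have e2 := pow_card_of_root (map_irr (σ := σ) hπ) r2
    rw [natDegree_map_equiv] at e2
    obtain ⟨M, hM⟩ : ∃ M, M = Nat.card F ^ π.natDegree := ⟨_, rfl⟩
    rw [← hM] at e1 e2 ⊢
    have hcs : Commute s s' := by rw [Commute, SemiconjBy, hss, hss']
    apply LinearMap.ext
    intro v
    obtain ⟨w1, hw1, w2, hw2, rfl⟩ : ∃ w1 ∈ K₁, ∃ w2 ∈ K₂, w1 + w2 = v := by
      have : v ∈ K₁ ⊔ K₂ := by rw [hc.sup_eq_top]; trivial
      exact Submodule.mem_sup.mp this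
    rw [map_add, map_add]
    congr 1
    · have := congrArg (fun f : Module.End F K₁ => ((f ⟨w1, hw1⟩ : K₁) : V)) e1
      rw [← hpow s K₁ (hinv s rfl) M ⟨w1, hw1⟩]
      exact this
    · -- on `K₂`, `s'^M = s'`
      have h3 : ∀ w ∈ K₂, (s' ^ M) w = s' w := by
        intro w hw
        have := congrArg (fun f : Module.End F K₂ => ((f ⟨w, hw⟩ : K₂) : V)) e2
        rw [← hpow s' K₂ (hinv2 s' rfl) M ⟨w, hw⟩]
        exact this
      have hsinv : ∀ v ∈ K₂, s v ∈ K₂ := hinv2 s (by rw [hss, hss'])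
      have h4 : ∀ w, s' (s w) = w := fun w => by rw [← Module.End.mul_apply, hss']; rfl
      have h5 := h3 (s w2) (hsinv w2 hw2)
      rw [h4] at h5
      have h6 : (s ^ M) ((s' ^ M) (s w2)) = s w2 := by
        rw [← Module.End.mul_apply, ← hcs.mul_pow, hss, one_pow]; rfl
      rw [h5] at h6
      exact h6
  · obtain ⟨k, hk⟩ := hd1
    have hd0 : 0 < π.natDegree := hπ.natDegree_pos
    have hkd : finrank F K₁ / π.natDegree = k := by rw [hk]; exact Nat.mul_div_cancel_left k hd0
    rw [hkd]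
    have hNpow : IsNilpotent (N.restrict (hinv N hNs)) ∧ IsNilpotent (N.restrict (hinv2 N hNs')) := by
      obtain ⟨j, hj⟩ := hN
      constructor
      · refine ⟨j, LinearMap.ext fun v => Subtype.ext ?_⟩
        rw [hpow, hj]; rfl
      · refine ⟨j, LinearMap.ext fun v => Subtype.ext ?_⟩
        rw [hpow, hj]; rfl
    have e1 := nilp_pow_eq_zero (y := s.restrict (hinv s rfl)) (N := N.restrict (hinv N hNs)) hπ r1 hNpow.1 (by
      apply LinearMap.ext; intro v; apply Subtype.ext
      exact congrArg (fun f : Module.End F V => f v) hNs) (k := k) (by rw [hk, mul_comm])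
    have e2 := nilp_pow_eq_zero (y := s'.restrict (hinv2 s' rfl)) (N := N.restrict (hinv2 N hNs')) (map_irr (σ := σ) hπ) r2 hNpow.2 (by
      apply LinearMap.ext; intro v; apply Subtype.ext
      exact congrArg (fun f : Module.End F V => f v) hNs') (k := k) (by rw [natDegree_map_equiv, ← hr, hk, mul_comm])
    apply LinearMap.ext
    intro v
    obtain ⟨w1, hw1, w2, hw2, rfl⟩ : ∃ w1 ∈ K₁, ∃ w2 ∈ K₂, w1 + w2 = v := by
      have : v ∈ K₁ ⊔ K₂ := by rw [hc.sup_eq_top]; trivial
      exact Submodule.mem_sup.mp this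
    have f1 : (N ^ k) w1 = 0 := by
      have := congrArg (fun f : Module.End F K₁ => ((f ⟨w1, hw1⟩ : K₁) : V)) e1
      rw [← hpow N K₁ (hinv N hNs) k ⟨w1, hw1⟩]
      exact this
    have f2 : (N ^ k) w2 = 0 := by
      have := congrArg (fun f : Module.End F K₂ => ((f ⟨w2, hw2⟩ : K₂) : V)) e2
      rw [← hpow N K₂ (hinv2 N hNs') k ⟨w2, hw2⟩]
      exact this
    rw [map_add, f1, f2, add_zero]
    rfl

/-- number theory of Frobenius orbits : `α⁻¹ = α ^ (q ^ j)` -/
theorem frob_inv {E : Type*} [Field E] [Finite E] [Algebra F E] [Finite F] {α : E} {j e : ℕ} (hα0 : α ≠ 0) (hα1 : α ^ 2 ≠ 1) (hj : α⁻¹ = α ^ (Nat.card F ^ j))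
    (he : α ^ (Nat.card F ^ e) = α) : ∃ d, 1 ≤ d ∧ 2 * d ∣ e ∧ α⁻¹ = α ^ (Nat.card F ^ d) := by
  obtain ⟨q, hq⟩ : ∃ q, q = Nat.card F := ⟨_, rfl⟩
  rw [← hq] at hj he ⊢
  have hit : ∀ (i : ℕ) (x : E), (fun y : E => y ^ q)^[i] x = x ^ (q ^ i) := by
    intro i x
    rw [pow_iterate]
  have hper : ∀ i, Function.IsPeriodicPt (fun y : E => y ^ q) i α ↔ α ^ (q ^ i) = α := by
    intro i
    rw [Function.IsPeriodicPt, Function.IsFixedPt, hit]
  obtain ⟨P, hP⟩ : ∃ P, P = Function.minimalPeriod (fun y : E => y ^ q) α := ⟨_, rfl⟩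
  have hPd : ∀ i, α ^ (q ^ i) = α ↔ P ∣ i := by
    intro i
    rw [← hper, hP, Function.isPeriodicPt_iff_minimalPeriod_dvd]
  have h1 : P ∣ 2 * j := by
    rw [← hPd, two_mul, pow_add, pow_mul, ← hj, inv_pow, ← hj, inv_inv]
  have h2 : ¬ P ∣ j := by
    rw [← hPd, ← hj]
    intro h
    apply hα1
    rw [pow_two]
    nth_rw 1 [← h]
    exact inv_mul_cancel₀ hα0
  have heven : Even P := by
    rw [← Nat.not_odd_iff_even]
    intro ho
    exact h2 ((Nat.Coprime.dvd_mul_left (Nat.Coprime.symm (Nat.coprime_two_left.mpr ho))).mp h1)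
  obtain ⟨d, hd⟩ := heven
  have hd2 : P = 2 * d := by omega
  have hd0 : 1 ≤ d := by
    rcases Nat.eq_zero_or_pos d with h | h
    · exfalso
      rw [hd2, h, mul_zero, zero_dvd_iff] at h1
      have : j = 0 := by omega
      apply h2
      rw [this]
      exact dvd_zero _
    · exact h
  refine ⟨d, hd0, ?_, ?_⟩
  · rw [← hd2, ← hPd]; exact he
  · rw [hd2] at h1 h2
    obtain ⟨c, hc⟩ := Nat.dvd_of_mul_dvd_mul_left (by norm_num : 0 < 2) h1
    have hco : Odd c := by
      rw [← Nat.not_even_iff_odd]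
      rintro ⟨c', hc'⟩
      apply h2
      exact ⟨c', by rw [hc, hc']; ring⟩
    obtain ⟨c', rfl⟩ := hco
    have h3 : α ^ (q ^ (2 * d * c')) = α := (hPd _).mpr ⟨c', by rw [hd2]⟩
    rw [hj, hc, show d * (2 * c' + 1) = 2 * d * c' + d by ring, pow_add, pow_mul, h3]

theorem sp_types [Finite F] [FiniteDimensional F V] [Nontrivial V] {B : V → V → F} (H : SF (RingEquiv.refl F) B) {x s s' N : Module.End F V} (hI : Indec B x) (hxs : x * s = s * x)
    (hxs' : x * s' = s' * x)
    (hadj : Adj B s s') (hadj' : Adj B s' s) (hss : s * s' = 1) (hss' : s' * s = 1) {m : ℕ} (hm : Nat.Coprime (Nat.card F) m) (hm0 : Odd m) (hs : s ^ m = 1)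
    (hs1 : s ≠ 1) (hN : IsNilpotent N) (hNs : N * s = s * N) (hNs' : N * s' = s' * N) :
    ∃ d, 1 ≤ d ∧ 2 * d ∣ finrank F V ∧ (s ^ (Nat.card F ^ d) = s ∨ s ^ (Nat.card F ^ d) = s') ∧ N ^ (finrank F V / (2 * d)) = 0 := by
  have hmpos : 0 < m := hm0.pos
  obtain ⟨π, hπ, h | ⟨K₁, K₂, hc, h1, h2, h1', h2', hr⟩⟩ := dich H hI hxs hxs' hadj hadj' hss hss' hm hmpos hs
  · obtain ⟨h1, h2⟩ := h
    have h2 : aeval s' π = 0 := by
      have : π.map ((RingEquiv.refl F : F ≃+* F) : F →+* F) = π := Polynomial.map_id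
      rwa [this] at h2
    obtain ⟨E, _, _, _, θ, α, hα⟩ := exists_field_of_irreducible s π hπ h1
    haveI : Module.Finite F E := Module.Finite.of_finite
    have hpol : ∀ (t : Module.End F V) (β : E), (∀ x, t (θ x) = θ (β * x)) → ∀ (f : F[X]) (x : E), aeval t f (θ x) = θ (aeval β f * x) := by
      intro t β ht f
      induction f using Polynomial.induction_on' with
      | add p q hp hq => intro x; rw [map_add, LinearMap.add_apply, hp, hq, map_add, add_mul, map_add]
      | monomial k a =>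
        intro x
        rw [aeval_monomial, aeval_monomial]
        have h2 : ∀ k : ℕ, (t ^ k) (θ x) = θ (β ^ k * x) := by
          intro k
          induction k with
          | zero => simp
          | succ k ih => rw [pow_succ', Module.End.mul_apply, ih, ht, ← mul_assoc, ← pow_succ']
        rw [Module.End.mul_apply, h2, Module.algebraMap_end_apply, mul_assoc, ← Algebra.smul_def, map_smul]
    have hα0 : α ≠ 0 := by
      rintro rfl
      have h3 := hα 1
      rw [zero_mul, map_zero] at h3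
      have h4 : s' (s (θ 1)) = θ 1 := by rw [← Module.End.mul_apply, hss']; rfl
      rw [h3, map_zero] at h4
      have := θ.injective (h4.symm.trans (map_zero θ).symm)
      exact one_ne_zero this
    have hα' : ∀ x, s' (θ x) = θ (α⁻¹ * x) := by
      intro x
      have h3 : s (θ (α⁻¹ * x)) = θ x := by rw [hα, mul_inv_cancel_left₀ hα0]
      rw [← h3, ← Module.End.mul_apply, hss']; rfl
    have hra : aeval α π = 0 := by
      have h3 := hpol s α hα π 1
      rw [h1, mul_one] at h3
      exact θ.injective (h3.symm.trans (map_zero θ).symm)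
    have hrb : aeval α⁻¹ π = 0 := by
      have h3 := hpol s' α⁻¹ hα' π 1
      rw [h2, mul_one] at h3
      exact θ.injective (h3.symm.trans (map_zero θ).symm)
    obtain ⟨j, hj⟩ := exists_frob_of_root hπ hra hrb
    have hspow : ∀ k : ℕ, ∀ x, (s ^ k) (θ x) = θ (α ^ k * x) := by
      intro k
      induction k with
      | zero => intro x; simp
      | succ k ih => intro x; rw [pow_succ', Module.End.mul_apply, ih, hα, ← mul_assoc, ← pow_succ']
    have hα2 : α ^ 2 ≠ 1 := by
      intro h3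
      apply hs1
      have h4 : s ^ 2 = 1 := by
        apply LinearMap.ext
        intro v
        obtain ⟨x, rfl⟩ := θ.surjective v
        rw [hspow, h3, one_mul]; rfl
      obtain ⟨k, rfl⟩ := hm0
      rw [pow_add, pow_mul, h4, one_pow, one_mul, pow_one] at hs
      exact hs
    obtain ⟨d, hd1, hd2, hd3⟩ := frob_inv (F := F) hα0 hα2 hj (e := π.natDegree) (pow_card_of_root hπ hra)
    have hdv := natDegree_dvd_finrank hπ h1
    refine ⟨d, hd1, hd2.trans hdv, Or.inr ?_, ?_⟩
    · apply LinearMap.ext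
      intro v
      obtain ⟨x, rfl⟩ := θ.surjective v
      rw [hspow, ← hd3, hα']
    · obtain ⟨k, hk⟩ := hdv
      have h3 := nilp_pow_eq_zero hπ h1 hN hNs (k := k) (by rw [hk, mul_comm])
      obtain ⟨c, hc⟩ := hd2
      have hπ0 := hπ.natDegree_pos
      have hc0 : 1 ≤ c := by
        rcases Nat.eq_zero_or_pos c with h | h
        · rw [h, mul_zero] at hc; omega
        · exact h
      have h4 : finrank F V / (2 * d) = c * k := by
        rw [hk, hc, mul_assoc]
        exact Nat.mul_div_cancel_left _ (by omega)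
      rw [h4]
      exact pow_eq_zero_of_le (Nat.le_mul_of_pos_left k hc0) h3
  · obtain ⟨e1, e2, e3, e4⟩ := dich_caseI hss hss' hπ hc h1 h2 h1' h2' hr hN hNs hNs'
    have hπ0 := hπ.natDegree_pos
    refine ⟨π.natDegree, hπ0, ?_, Or.inl e3, ?_⟩
    · rw [← e1]
      exact Nat.mul_dvd_mul_left 2 e2
    · rw [← e1, Nat.mul_div_mul_left _ _ (by norm_num : 0 < 2)]
      exact e4

end Cfsg.Agent.H17
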