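import Mathlib
import Cfsg.Agent.H17.SpBal4

set_option autoImplicit false

/-! Local balance for symplectic groups: divisibility and the main theorem. -/

namespace Cfsg.Agent.H17

open Module Cfsg Cfsg.Agent.H5
open scoped MatrixGroups Matrix LinearAlgebra.Projectivization

variable {F F₀ : Type*} [Field F] [Field F₀] {m : ℕ}

theorem Lz_div [Finite F] [Finite F₀] (hm : 2 ≤ m) (hm1 : 1 ≤ m) {p : ℕ} [hpf : Fact p.Prime] (hp : (p : F) ≠ 0) {τ : F ≃+* F} (hτ : orderOf τ = p) {j : F₀ →+* F}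
    (hj : ∀ x, τ x = x ↔ ∃ y, j y = x) (hpd : p ∣ Nat.card ↥(Inn (PSp m F) ⊓ Subgroup.centralizer {fS m F τ})) (M : Subgroup (MulAut (PSp m F))) (hM : M ≤ Lz hm1 j)
    (hn : ∀ l ∈ Lz hm1 j, ∀ k ∈ M, l * k * l⁻¹ ∈ M) (hMb : M ≠ ⊥) : p ∣ Nat.card M := by
  have hpp := hpf.out
  have hr : 0 < p := hpp.pos
  obtain ⟨ψ, hψ, hinj, hrange⟩ := exists_psi hm hm1 j
  obtain ⟨N, hNdef⟩ : ∃ N, N = M.comap ψ := ⟨_, rfl⟩
  have hNmap : N.map ψ = M := by
    rw [hNdef, Subgroup.map_comap_eq, hrange, inf_eq_right.mpr hM]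
  have hcard : Nat.card N = Nat.card M := by
    rw [← hNmap]
    exact Nat.card_congr (N.equivMapOfInjective ψ hinj).toEquiv
  have hNb : N ≠ ⊥ := by
    intro h
    apply hMb
    rw [← hNmap, h, Subgroup.map_bot]
  haveI hNn : N.Normal := by
    refine ⟨fun n hn' g => ?_⟩
    rw [hNdef, Subgroup.mem_comap] at hn' ⊢
    rw [map_mul, map_mul, map_inv]
    exact hn _ (hrange ▸ ⟨g, rfl⟩) _ hn'
  rw [← hcard]
  haveI := Fintype.ofFinite F₀
  by_cases hsimp : 3 ≤ m ∨ (m = 2 ∧ 3 ≤ Fintype.card F₀) ∨ 4 ≤ Fintype.card F₀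
  · haveI := PSp_isSimple (F := F₀) hm1 hsimp
    have hNt : N = ⊤ := by
      rcases hNn.eq_bot_or_eq_top with h | h
      · exact absurd h hNb
      · exact h
    rw [hNt, Subgroup.card_top]
    by_cases hp2 : p = 2
    · rw [hp2]; exact two_dvd_PSp hm
    · obtain ⟨⟨y, hy1, hy2⟩, hyo⟩ := exists_prime_orderOf_dvd_card' p hpd
      have hyo' : orderOf y = p := by rw [← hyo, ← Subgroup.orderOf_coe]
      obtain ⟨g, rfl⟩ := Inn_le_rangeSp hy1
      have hy2 : cS m F g ∈ Subgroup.centralizer {fS m F τ} := hy2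
      rw [Subgroup.mem_centralizer_singleton_iff] at hy2
      obtain ⟨h0, e, -⟩ := cent_form hm hτ hr hj hy2.symm
      rw [e] at hyo'
      have h1 : (cS m F (jS m j h0)) ^ 2 ∈ Lz hm1 j := by
        rw [← map_pow, ← map_pow]
        exact mem_Lz_of_sq hm hm1 j _ (muS hm1 h0) (map_pow _ _ _)
      rw [← hrange] at h1
      obtain ⟨z, hz⟩ := h1
      have h2 : orderOf z = p := by
        rw [← orderOf_injective ψ hinj, hz, orderOf_pow, hyo']
        have : Nat.gcd p 2 = 1 := (Nat.coprime_primes hpp Nat.prime_two).mpr hp2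
        rw [this, Nat.div_one]
      rw [← h2]
      exact orderOf_dvd_natCard _
  · push Not at hsimp
    obtain ⟨hs1, hs2, hs3⟩ := hsimp
    have hm2 : m = 2 := by omega
    subst hm2
    have hF0 : Fintype.card F₀ = 2 := by
      have h1 := hs2 rfl
      have h2 := Fintype.one_lt_card (α := F₀)
      omega
    have hF0' : Nat.card F₀ = 2 := by rw [Nat.card_eq_fintype_card, hF0]
    have h20 : (2 : F₀) = 0 := by
      have := FiniteField.cast_card_eq_zero F₀
      rw [hF0] at this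
      exact_mod_cast this
    have hp2 : p ≠ 2 := by
      rintro rfl
      apply hp
      have : j 2 = j 0 := by rw [h20]
      rw [map_ofNat, map_zero] at this
      exact_mod_cast this
    rw [← Lz_eq_two hm hm1 h20 hτ hr hj, ← hrange] at hpd
    have h1 : Nat.card ψ.range = Nat.card (PSp 2 F₀) := Nat.card_congr (MonoidHom.ofInjective hinj).toEquiv.symm
    rw [h1] at hpd
    have h2 : p ∣ Nat.card (Matrix.symplecticGroup (Fin 2) F₀) := hpd.trans (Subgroup.card_quotient_dvd_card _)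
    rw [card_Sp hF0] at h2
    have h3 : 2 ^ 2 ^ 2 * ∏ i ∈ Finset.range 2, (2 ^ (2 * (i + 1)) - 1) = 2 ^ 4 * (3 * (3 * 5)) := by decide
    rw [h3] at h2
    obtain ⟨N', hN'⟩ : ∃ N', N' = N.comap (QuotientGroup.mk' (Subgroup.center (Matrix.symplecticGroup (Fin 2) F₀))) := ⟨_, rfl⟩
    haveI : N'.Normal := by rw [hN']; infer_instance
    have hmkinj : Function.Injective (QuotientGroup.mk' (Subgroup.center (Matrix.symplecticGroup (Fin 2) F₀))) := by
      intro a b hab
      exact psp_inj hm1 h20 hab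
    have hmap : N'.map (QuotientGroup.mk' (Subgroup.center (Matrix.symplecticGroup (Fin 2) F₀))) = N := by
      rw [hN', Subgroup.map_comap_eq_self_of_surjective (QuotientGroup.mk'_surjective _)]
    have hc' : Nat.card N' = Nat.card N := by
      rw [← hmap]
      exact Nat.card_congr (N'.equivMapOfInjective _ hmkinj).toEquiv
    have h15 := fifteen_dvd hm1 hF0' N' (by
      intro h
      apply hNb
      rw [← hmap, h, Subgroup.map_bot])
    rw [hc'] at h15
    have h15' : 15 ∣ Nat.card N := h15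
    rcases (hpp.dvd_mul).mp h2 with h | h
    · exact absurd ((Nat.prime_dvd_prime_iff_eq hpp Nat.prime_two).mp (hpp.dvd_of_dvd_pow h)) hp2
    · rcases (hpp.dvd_mul).mp h with h | h
      · exact h.trans ((by decide : 3 ∣ 15).trans h15')
      · rcases (hpp.dvd_mul).mp h with h | h
        · exact h.trans ((by decide : 3 ∣ 15).trans h15')
        · exact h.trans ((by decide : 5 ∣ 15).trans h15')

theorem lb2_fS [Finite F] (hm : 2 ≤ m) (hs : m = 2 → ∃ a : F, a ≠ 0 ∧ a ≠ 1) {p : ℕ} [hpf : Fact p.Prime] (hp : (p : F) ≠ 0) {τ : F ≃+* F} (hτ : orderOf τ = p) :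
    LB2 p (Inn (PSp m F)) (fS m F τ) := by
  have hm1 : 1 ≤ m := by omega
  have hr : 0 < p := hpf.out.pos
  obtain ⟨F₀, _, _, j, hj⟩ := exists_fixF F hr.ne' hτ
  refine ⟨Lz hm1 j, ?_, Lz_le hm hm1 (fun y => (hj _).mpr ⟨y, rfl⟩), fun c hc l hl => Lz_norm hm hm1 hτ hr hj hc hl,
    fun c _ hcl => Lz_cent hm hm1 hs hj hcl, fun hpd M hM hn hMb => Lz_div hm hm1 hp hτ hj hpd M hM hn hMb⟩
  obtain ⟨ψ, hψ, hinj, hrange⟩ := exists_psi hm hm1 j
  intro h
  rw [← hrange] at h
  have h1 : Nat.card ψ.range = Nat.card (PSp m F₀) := Nat.card_congr (MonoidHom.ofInjective hinj).toEquiv.symm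
  rw [h, Subgroup.card_bot] at h1
  have h2 := two_dvd_PSp (F := F₀) hm
  rw [← h1] at h2
  omega

theorem Pol.TP.mul {V G PG : Type*} [AddCommGroup V] [Module F V] [Group G] [Group PG] {O : Pol F V G PG} {α β : MulAut PG} (h1 : O.TP α) (h2 : O.TP β) : O.TP (α * β) := by
  intro e he y hy hy1
  obtain ⟨e', he', h3⟩ := h2 e he y hy hy1
  exact h1 e' he' (β y) h3 (fun h => hy1 ((MulEquiv.map_eq_one_iff β).mp h))

theorem Pol.TP.pow {V G PG : Type*} [AddCommGroup V] [Module F V] [Group G] [Group PG] {O : Pol F V G PG} {α : MulAut PG} (h1 : O.TP α) (n : ℕ) : O.TP (α ^ n) := by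
  induction n with
  | zero => intro e he y hy _; exact ⟨e, he, hy⟩
  | succ n ih => rw [pow_succ]; exact ih.mul h1

theorem Pol.TP.inv {V G PG : Type*} [AddCommGroup V] [Module F V] [Group G] [Group PG] [Finite PG] {O : Pol F V G PG} {α : MulAut PG} (h1 : O.TP α) : O.TP α⁻¹ := by
  haveI : Finite (MulAut PG) := Finite.of_injective (fun f : MulAut PG => (f : PG → PG)) DFunLike.coe_injective
  obtain ⟨n, hn⟩ := (mem_powers_iff_mem_zpowers (x := α) (y := α⁻¹)).mpr (Subgroup.inv_mem _ (Subgroup.mem_zpowers α))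
  have hn' : α ^ n = α⁻¹ := hn
  rw [← hn']
  exact h1.pow n

/-- two non transvection preserving automorphisms of `Sp₄(2^f)` compose to a transvection preserving one -/
theorem tp_sq [Finite F] (hm : 2 ≤ m) (hm1 : 1 ≤ m) (h2 : (2 : F) = 0) {α β : MulAut (PSp m F)} (hα : ¬ (pspPol m F hm1).TP α) (hβ : ¬ (pspPol m F hm1).TP β) :
    (pspPol m F hm1).TP (α * β) := by
  haveI : CharP F 2 := CharTwo.of_one_ne_zero_of_two_eq_zero one_ne_zero h2
  have hC := ttype_Sp (F := F) hm1 h2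
  obtain ⟨u0, hu0⟩ : ∃ u0 : Fin m ⊕ Fin m → F, u0 ≠ 0 := ⟨Pi.single (Sum.inl ⟨0, by omega⟩) 1, by simp⟩
  have hX : ∀ (e : Fin m ⊕ Fin m → F) (z : F), (pspPol m F hm1).X e 0 z = spT e z := by
    intro e z
    apply pv_ext
    intro v
    have h3 := hC.Z_act e z v
    have h4 : (pspPol m F hm1).act ((pspPol m F hm1).X e 0 z) v = pv ((pspPol m F hm1).X e 0 z) v := rfl
    rw [← h4, h3]
    unfold pv
    rw [spT_mulVec, mul_comm]
    congr 3
    exact hC.sym e v
  have key : ∀ γ : MulAut (PSp m F), ¬ (pspPol m F hm1).TP γ → 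
      (m < 3 ∧ ∃ h : Matrix.symplecticGroup (Fin m) F, QuotientGroup.mk h = γ (QuotientGroup.mk (spT u0 1)) ∧ ∃ e' : Fin 1 ⊕ Fin 1 → (Fin m ⊕ Fin m → F), LinearIndependent F e' ∧
      (∀ i j, sympB m F (e' i) (e' j) = 0) ∧ ∀ v, pv h v - v = TT (sympB m F) e' Sum.swap v) := by
    intro γ hγ
    have hy : (QuotientGroup.mk (spT u0 1) : PSp m F) ∈ (pspPol m F hm1).Zs u0 := hC.mem_Zs'.mpr ⟨1, by rw [hX]; rfl⟩
    have hy1 : (QuotientGroup.mk (spT u0 1) : PSp m F) ≠ 1 := by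
      have := hC.Z_ne hu0 (z := 1) one_ne_zero
      rw [hX] at this
      exact this
    rcases tp_alt hm1 γ hy hy1 with ⟨e', he', h⟩ | h
    · exfalso
      apply hγ
      obtain ⟨z, hz⟩ := hC.mem_Zs'.mp h
      rw [hX] at hz
      exact tp_of_fix hm1 h2 hu0 he' (b := z) hz
    · exact h
  obtain ⟨-, h, hh, e, he, he0, heT⟩ := key β hβ
  have hα' : ¬ (pspPol m F hm1).TP α⁻¹ := by
    intro ht
    apply hα
    have := ht.inv
    rwa [inv_inv] at this
  obtain ⟨-, k, hk, e', he', he0', heT'⟩ := key α⁻¹ hα'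
  -- `h` and `k` are conjugate
  obtain ⟨g, hg, hge⟩ := (iset_sp m).witt e' e he' he (fun i j => by rw [he0, he0']) (fun _ => rfl)
  obtain ⟨g', hg'⟩ := (spIG m F).surjective ⟨g, hg⟩
  have hgk : g' * k * g'⁻¹ = h := by
    rw [mul_inv_eq_iff_eq_mul]
    apply pv_ext
    intro v
    have hgg : ∀ x, g x = pv g' x := by
      intro x
      rw [← spIG_apply, hg']
    have hmul : ∀ (A B : Matrix.symplecticGroup (Fin m) F) x, pv (A * B) x = pv A (pv B x) := fun A B x => sp_mul_mulVec _ _ _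
    have e1 := heT' v
    have e2 := heT (pv g' v)
    rw [hmul, hmul, ← hgg]
    have e3 : pv k v = v + TT (sympB m F) e' Sum.swap v := by rw [← e1]; abel
    have e4 : pv h (pv g' v) = pv g' v + TT (sympB m F) e Sum.swap (pv g' v) := by rw [← e2]; abel
    rw [e3, e4, map_add, TT_conj (fun u v => hg.1 u v) hge, hgg]
  obtain ⟨x', hx'⟩ := QuotientGroup.mk_surjective (α (QuotientGroup.mk g'))
  have hfin : (α * β) (QuotientGroup.mk (spT u0 1)) = QuotientGroup.mk (spT ((x' : Matrix (Fin m ⊕ Fin m) (Fin m ⊕ Fin m) F) *ᵥ u0) 1) := by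
    rw [MulAut.mul_apply, ← hh, ← hgk, QuotientGroup.mk_mul, QuotientGroup.mk_mul, QuotientGroup.mk_inv, map_mul, map_mul, map_inv, hk,
      ← MulAut.mul_apply, mul_inv_cancel, MulAut.one_apply, ← hx', ← spT_conj, QuotientGroup.mk_mul, QuotientGroup.mk_mul, QuotientGroup.mk_inv]
  exact tp_of_fix hm1 h2 hu0 (sp_mulVec_ne_zero x' hu0) hfin

end Cfsg.Agent.H17
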