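import Mathlib
import Cfsg.Agent.H17.SpBal5

set_option autoImplicit false

/-! Local balance for symplectic groups. -/

namespace Cfsg.Agent.H17

open Module Cfsg Cfsg.Agent.H5
open scoped MatrixGroups Matrix LinearAlgebra.Projectivization

variable {F : Type*} [Field F] {m : ℕ}

theorem balance_Sp [Fintype F] {r : ℕ} [hr : Fact r.Prime] [CharP F r] (hm : 2 ≤ m) (hs : m = 2 → 3 ≤ Fintype.card F) (A : Subgroup (MulAut (PSp m F)))
    (hinn : ∀ k : PSp m F, MulAut.conj k ∈ A) {p : ℕ} [hpf : Fact p.Prime] (hpr : p ≠ r) (x : MulAut (PSp m F)) (hord : orderOf x = p)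
    (hnot : ¬ IsInnerDiagonalAutPSp x) :
    pPrimeCore p ↥(A ⊓ Subgroup.centralizer {x}) ≠ ⊥ ↔ (IsFieldAutClassPSp x ∧
      Nat.Coprime p (Nat.card ↥(MonoidHom.eqLocus x.toMonoidHom (MonoidHom.id (PSp m F))))) := by
  have hm1 : 1 ≤ m := by omega
  have hpp := hpf.out
  haveI : Finite (MulAut (PSp m F)) := Finite.of_injective (fun f : MulAut (PSp m F) => (f : PSp m F → PSp m F)) DFunLike.coe_injective
  have hpF : (p : F) ≠ 0 := by
    intro h
    rw [CharP.cast_eq_zero_iff F r] at h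
    exact hpr ((Nat.prime_dvd_prime_iff_eq hr.out hpp).mp h).symm
  have hs' : m = 2 → ∃ a : F, a ≠ 0 ∧ a ≠ 1 := by
    intro h
    have h3 := hs h
    by_contra hcon
    push Not at hcon
    have : Fintype.card F ≤ 2 := by
      classical
      have h5 : (Finset.univ : Finset F) ⊆ {0, 1} := by
        intro a _
        by_cases ha : a = 0
        · simp [ha]
        · simp [hcon a ha]
      exact (Finset.card_le_card h5).trans (Finset.card_le_two)
    omega
  obtain ⟨a, τ, rfl⟩ : ∃ (g : GSp m F) (τ : F ≃+* F), x = cS m F g * fS m F τ := by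
    by_cases h2 : (2 : F) = 0
    · have htp : (pspPol m F hm1).TP x := by
        by_contra hcon
        have h3 := tp_sq hm hm1 h2 hcon hcon
        have hr2 : r = 2 := by
          have : ((2 : ℕ) : F) = 0 := by exact_mod_cast h2
          rw [CharP.cast_eq_zero_iff F r] at this
          exact (Nat.prime_dvd_prime_iff_eq hr.out Nat.prime_two).mp this
        have hp2 : p ≠ 2 := hr2 ▸ hpr
        obtain ⟨k, hk⟩ := hpp.odd_of_ne_two hp2
        apply hcon
        have h4 : x = (x * x) ^ (k + 1) := by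
          rw [← pow_two, ← pow_mul, show 2 * (k + 1) = p + 1 by omega, pow_succ, ← hord, pow_orderOf_eq_one, one_mul]
        rw [h4]
        exact h3.pow _
      exact aut_of_tp hm hm1 hs' h2 htp htp.inv
    · exact aut_PSp hm h2 x
  have hτ1 : τ ≠ 1 := by
    rintro rfl
    apply hnot
    rw [innDiagSp_iff]
    exact ⟨a, by rw [map_one, mul_one]⟩
  have hxp : (cS m F a * fS m F τ) ^ p = 1 := by rw [← hord, pow_orderOf_eq_one]
  have hτp : τ ^ p = 1 := by
    obtain ⟨t, -, ht⟩ := cS_fS_pow τ a p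
    rw [hxp] at ht
    exact (cS_fS_eq_one hm t _ ht.symm).1
  have hτ : orderOf τ = p := orderOf_eq_prime hτp hτ1
  obtain ⟨F₀, _, _, j, hj⟩ := exists_fixF F hpp.ne_zero hτ
  obtain ⟨b, hb⟩ := field_conj_Sp hm hτ hpp.pos hj a hxp
  have hfc : (cS m F b)⁻¹ * (cS m F a * fS m F τ) * (cS m F b)⁻¹⁻¹ = fS m F τ := by
    rw [hb]; group
  haveI : (Inn (PSp m F)).Normal := by unfold Inn; infer_instance
  have hLB : LB2 p (Inn (PSp m F)) (cS m F a * fS m F τ) := by
    apply LB2.conj (β := (cS m F b)⁻¹)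
    rw [hfc]
    exact lb2_fS hm hs' hpF hτ
  rw [hLB.main A (by rintro _ ⟨k, rfl⟩; exact hinn k) hord, fix_card (center_PSp hm)]
  constructor
  · intro h
    refine ⟨⟨(cS m F b)⁻¹, τ, hτ1, ?_⟩, h⟩
    rw [hfc]
    exact fieldSp_iff.mpr rfl
  · exact fun h => h.2

end Cfsg.Agent.H17
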