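import Mathlib
import Cfsg.Agent.H17.OrdC
import Cfsg.Agent.H17.SpAdj
import Cfsg.Agent.H17.SpBal4
import Cfsg.Agent.H17.ProdOrders

set_option autoImplicit false

/-! Elements of symplectic groups of given orders. -/

namespace Cfsg.Agent.H17

open Module Cfsg Cfsg.Agent.H5
open scoped MatrixGroups Matrix

variable {F : Type*} [Field F]

theorem to_sp {V : Type*} [AddCommGroup V] [Module F V] [FiniteDimensional F V] {n : ℕ} (B : LinearMap.BilinForm F V) (hB : B.IsAlt) (hnd : ∀ u, (∀ v, B u v = 0) → u = 0)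
    (hfr : finrank F V = 2 * n) : ∃ ψ : Module.End F V ≃ₐ[F] Matrix (Fin n ⊕ Fin n) (Fin n ⊕ Fin n) F,
      ∀ x : Module.End F V, (∀ u v, B (x u) (x v) = B u v) → ψ x ∈ Matrix.symplecticGroup (Fin n) F := by
  have hfr' : finrank F (Fin n ⊕ Fin n → F) = finrank F V := by
    rw [Module.finrank_fintype_fun_eq_card, hfr]; simp; ring
  obtain ⟨θ⟩ : Nonempty ((Fin n ⊕ Fin n → F) ≃ₗ[F] V) := ⟨LinearEquiv.ofFinrankEq _ _ hfr'⟩
  obtain ⟨c, hc⟩ := alt_equiv (B.compl₁₂ θ.toLinearMap θ.toLinearMap) (fun x => hB (θ x)) (fun u hu => by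
    have h1 := hnd (θ u) (fun v => by
      have := hu (θ.symm v)
      rwa [LinearMap.compl₁₂_apply, LinearEquiv.coe_coe, LinearEquiv.apply_symm_apply] at this)
    exact θ.injective (h1.trans (map_zero θ).symm))
  -- the isometry `c ∘ θ⁻¹`
  let C : (Fin n ⊕ Fin n → F) ≃ₗ[F] (Fin n ⊕ Fin n → F) := Matrix.toLinearEquiv' (c : Matrix (Fin n ⊕ Fin n) (Fin n ⊕ Fin n) F) (by infer_instance)
  have hC : ∀ x, C x = (c : Matrix (Fin n ⊕ Fin n) (Fin n ⊕ Fin n) F) *ᵥ x := fun x => rfl
  let e : V ≃ₗ[F] (Fin n ⊕ Fin n → F) := θ.symm.trans C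
  have he : ∀ u v, sympB n F (e u) (e v) = B u v := by
    intro u v
    have h1 := hc (θ.symm u) (θ.symm v)
    rw [LinearMap.compl₁₂_apply, LinearEquiv.coe_coe, LinearEquiv.apply_symm_apply, LinearEquiv.apply_symm_apply] at h1
    exact h1
  refine ⟨(LinearEquiv.conjAlgEquiv F e).trans (LinearMap.toMatrixAlgEquiv' (R := F) (n := Fin n ⊕ Fin n)), fun x hx => ?_⟩
  rw [mem_Sp_iff]
  intro u v
  have h1 : ∀ w, ((LinearEquiv.conjAlgEquiv F e).trans (LinearMap.toMatrixAlgEquiv' (R := F) (n := Fin n ⊕ Fin n)) x) *ᵥ w = e (x (e.symm w)) := by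
    intro w
    show (LinearMap.toMatrix' (LinearEquiv.conjAlgEquiv F e x)) *ᵥ w = _
    rw [LinearMap.toMatrix'_mulVec]
    rfl
  rw [h1, h1, he, hx, ← he, LinearEquiv.apply_symm_apply, LinearEquiv.apply_symm_apply]

/-- scalar elements of `Sp` -/
theorem sp_scalar [NeZero (2 : F)] {n : ℕ} (hn : 1 ≤ n) {s : Matrix.symplecticGroup (Fin n) F} {c : F} (h : (s : Matrix (Fin n ⊕ Fin n) (Fin n ⊕ Fin n) F) = c • 1) : c = 1 ∨ c = -1 := by
  obtain ⟨e, f, he⟩ := exists_hyp_Sp (F := F) hn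
  have he1 : sympB n F e f = 1 := he.ef
  have h1 := mem_Sp_iff.mp s.2 e f
  rw [h, Matrix.smul_mulVec, Matrix.smul_mulVec, Matrix.one_mulVec, Matrix.one_mulVec, map_smul, map_smul, LinearMap.smul_apply, he1, smul_eq_mul, smul_eq_mul, mul_one] at h1
  exact mul_self_eq_one_iff.mp h1

theorem order_PSp [NeZero (2 : F)] [Finite F] {n : ℕ} (hn : 2 ≤ n) {M : Matrix (Fin n ⊕ Fin n) (Fin n ⊕ Fin n) F} (hM : M ∈ Matrix.symplecticGroup (Fin n) F) {k : ℕ}
    (hk : ∀ j, (M ^ j = 1 ∨ M ^ j = -1) → k ∣ j) : k ∣ orderOf (QuotientGroup.mk ⟨M, hM⟩ : PSp n F) := by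
  apply hk
  have h1 := pow_orderOf_eq_one (QuotientGroup.mk ⟨M, hM⟩ : PSp n F)
  generalize orderOf (QuotientGroup.mk ⟨M, hM⟩ : PSp n F) = j at h1
  rw [← QuotientGroup.mk_pow, mk_eq_one_iff_Sp hn] at h1
  obtain ⟨c, hc⟩ := h1
  have h2 : (((⟨M, hM⟩ : Matrix.symplecticGroup (Fin n) F) ^ j : Matrix.symplecticGroup (Fin n) F) : Matrix (Fin n ⊕ Fin n) (Fin n ⊕ Fin n) F) = (c : F) • 1 := by
    rw [← coe_spGSp, hc, coe_sI']
  have h3 : M ^ j = (c : F) • 1 := by
    rw [← h2]; rfl
  rcases sp_scalar (by omega) h2 with h4 | h4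
  · left; rw [h3, h4, one_smul]
  · right; rw [h3, h4, neg_smul, one_smul]

theorem exists_sp_prod {d l : ℕ} {A : Matrix (Fin d ⊕ Fin d) (Fin d ⊕ Fin d) F} (hA : A ∈ Matrix.symplecticGroup (Fin d) F)
    {C : Matrix (Fin l ⊕ Fin l) (Fin l ⊕ Fin l) F} (hC : C ∈ Matrix.symplecticGroup (Fin l) F) :
    ∃ D : Matrix (Fin (d + l) ⊕ Fin (d + l)) (Fin (d + l) ⊕ Fin (d + l)) F, D ∈ Matrix.symplecticGroup (Fin (d + l)) F ∧
      ∀ j, (D ^ j = 1 → A ^ j = 1 ∧ C ^ j = 1) ∧ (D ^ j = -1 → A ^ j = -1 ∧ C ^ j = -1) := by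
  let B : LinearMap.BilinForm F ((Fin d ⊕ Fin d → F) × (Fin l ⊕ Fin l → F)) :=
    (sympB d F).compl₁₂ (LinearMap.fst F _ _) (LinearMap.fst F _ _) + (sympB l F).compl₁₂ (LinearMap.snd F _ _) (LinearMap.snd F _ _)
  have hB : ∀ u v, B u v = sympB d F u.1 v.1 + sympB l F u.2 v.2 := fun u v => rfl
  obtain ⟨ψ, hψ⟩ := to_sp (n := d + l) B (fun u => by rw [hB, sympB_isAlt, sympB_isAlt, add_zero]) (fun u hu => by
    apply Prod.ext
    · apply sympB_nondegenerate.1
      intro v
      have := hu (v, 0)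
      rwa [hB, map_zero, add_zero] at this
    · apply sympB_nondegenerate.1
      intro v
      have := hu (0, v)
      rwa [hB, map_zero, zero_add] at this) (by
    rw [Module.finrank_prod, Module.finrank_fintype_fun_eq_card, Module.finrank_fintype_fun_eq_card]; simp; ring)
  have hp : ∀ j : ℕ, ((Matrix.toLin' A).prodMap (Matrix.toLin' C)) ^ j = (Matrix.toLin' (A ^ j)).prodMap (Matrix.toLin' (C ^ j)) := by
    intro j
    induction j with
    | zero => rw [pow_zero, pow_zero, pow_zero, Matrix.toLin'_one, Matrix.toLin'_one]; rfl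
    | succ j ih =>
      rw [pow_succ, ih, pow_succ, pow_succ]
      rw [Matrix.toLin'_mul, Matrix.toLin'_mul]
      rfl
  refine ⟨ψ ((Matrix.toLin' A).prodMap (Matrix.toLin' C)), hψ _ (fun u v => ?_), fun j => ?_⟩
  · rw [hB, hB]
    congr 1
    · exact mem_Sp_iff.mp hA u.1 v.1
    · exact mem_Sp_iff.mp hC u.2 v.2
  · rw [← map_pow, hp]
    constructor
    · intro h
      have h1 : (Matrix.toLin' (A ^ j)).prodMap (Matrix.toLin' (C ^ j)) = 1 := ψ.injective (by rw [h, map_one])
      constructor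
      · apply Matrix.toLin'.injective
        rw [Matrix.toLin'_one]
        apply LinearMap.ext
        intro v
        exact congrArg Prod.fst (congrArg (fun f : Module.End F ((Fin d ⊕ Fin d → F) × (Fin l ⊕ Fin l → F)) => f (v, 0)) h1)
      · apply Matrix.toLin'.injective
        rw [Matrix.toLin'_one]
        apply LinearMap.ext
        intro v
        exact congrArg Prod.snd (congrArg (fun f : Module.End F ((Fin d ⊕ Fin d → F) × (Fin l ⊕ Fin l → F)) => f (0, v)) h1)
    · intro h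
      have h1 : (Matrix.toLin' (A ^ j)).prodMap (Matrix.toLin' (C ^ j)) = -1 := ψ.injective (by rw [h, map_neg, map_one])
      constructor
      · apply Matrix.toLin'.injective
        rw [map_neg, Matrix.toLin'_one]
        apply LinearMap.ext
        intro v
        exact congrArg Prod.fst (congrArg (fun f : Module.End F ((Fin d ⊕ Fin d → F) × (Fin l ⊕ Fin l → F)) => f (v, 0)) h1)
      · apply Matrix.toLin'.injective
        rw [map_neg, Matrix.toLin'_one]
        apply LinearMap.ext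
        intro v
        exact congrArg Prod.snd (congrArg (fun f : Module.End F ((Fin d ⊕ Fin d → F) × (Fin l ⊕ Fin l → F)) => f (0, v)) h1)

/-- the split torus -/
theorem exists_torus_pos [Finite F] (d : ℕ) (hd : d ≠ 0) : ∃ A : Matrix (Fin d ⊕ Fin d) (Fin d ⊕ Fin d) F, A ∈ Matrix.symplecticGroup (Fin d) F ∧
    A ^ (Nat.card F ^ d - 1) = 1 ∧ ∀ j, (A ^ j = 1 ∨ A ^ j = -1) → (Nat.card F ^ d - 1) ∣ 2 * j := by
  obtain ⟨E, _, _, _, hE⟩ := exists_extension (F := F) d hd
  haveI : Module.Finite F E := Module.Finite.of_finite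
  have hcE : Nat.card E = Nat.card F ^ d := by rw [Module.natCard_eq_pow_finrank (K := F) (V := E), hE]
  obtain ⟨ζ, hζ⟩ := exists_orderOf_eq_card_units E
  rw [hcE] at hζ
  haveI := Fintype.ofFinite F
  haveI := Fintype.ofFinite E
  have htr : ∀ x : E, (∀ y, Algebra.trace F E (x * y) = 0) → x = 0 := by
    intro x hx
    exact (traceForm_nondegenerate F E).1 x (fun y => by rw [Algebra.traceForm_apply]; exact hx y)
  let T : LinearMap.BilinForm F E := Algebra.traceForm F E
  have hT : ∀ x y, T x y = Algebra.trace F E (x * y) := fun x y => Algebra.traceForm_apply F x y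
  let B : LinearMap.BilinForm F (E × E) := T.compl₁₂ (LinearMap.fst F _ _) (LinearMap.snd F _ _) - T.compl₁₂ (LinearMap.snd F _ _) (LinearMap.fst F _ _)
  have hB : ∀ u v, B u v = Algebra.trace F E (u.1 * v.2) - Algebra.trace F E (u.2 * v.1) := fun u v => by
    show T u.1 v.2 - T u.2 v.1 = _
    rw [hT, hT]
  obtain ⟨ψ, hψ⟩ := to_sp (n := d) B (fun u => by rw [hB, mul_comm, sub_self]) (fun u hu => by
    apply Prod.ext
    · apply htr
      intro y
      have := hu (0, y)
      rwa [hB, mul_zero, map_zero, sub_zero] at this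
    · apply htr
      intro y
      have := hu (y, 0)
      rwa [hB, mul_zero, map_zero, zero_sub, neg_eq_zero] at this) (by rw [Module.finrank_prod, hE]; ring)
  let x : Module.End F (E × E) := (LinearMap.mulLeft F (ζ : E)).prodMap (LinearMap.mulLeft F ((ζ⁻¹ : Eˣ) : E))
  have hp : ∀ j : ℕ, x ^ j = (LinearMap.mulLeft F ((ζ : E) ^ j)).prodMap (LinearMap.mulLeft F (((ζ⁻¹ : Eˣ) : E) ^ j)) := by
    intro j
    induction j with
    | zero => rw [pow_zero, pow_zero, pow_zero, LinearMap.mulLeft_one]; rfl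
    | succ j ih =>
      rw [pow_succ, ih, pow_succ, pow_succ, LinearMap.mulLeft_mul, LinearMap.mulLeft_mul]
      rfl
  refine ⟨ψ x, hψ x (fun u v => ?_), ?_, ?_⟩
  · rw [hB, hB]
    show Algebra.trace F E ((ζ : E) * u.1 * (((ζ⁻¹ : Eˣ) : E) * v.2)) - Algebra.trace F E ((((ζ⁻¹ : Eˣ) : E) * u.2) * ((ζ : E) * v.1)) = _
    have h1 : (ζ : E) * ((ζ⁻¹ : Eˣ) : E) = 1 := Units.mul_inv ζ
    rw [show (ζ : E) * u.1 * (((ζ⁻¹ : Eˣ) : E) * v.2) = ((ζ : E) * ((ζ⁻¹ : Eˣ) : E)) * (u.1 * v.2) by ring,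
      show (((ζ⁻¹ : Eˣ) : E) * u.2) * ((ζ : E) * v.1) = ((ζ : E) * ((ζ⁻¹ : Eˣ) : E)) * (u.2 * v.1) by ring, h1, one_mul, one_mul]
  · rw [← map_pow, hp, ← Units.val_pow_eq_pow_val, ← Units.val_pow_eq_pow_val, inv_pow, ← hζ, pow_orderOf_eq_one, inv_one, Units.val_one, LinearMap.mulLeft_one]
    have : (LinearMap.id : E →ₗ[F] E).prodMap (LinearMap.id : E →ₗ[F] E) = (1 : Module.End F (E × E)) := rfl
    rw [this, map_one]
  · intro j hj
    have h1 : (ζ : E) ^ j = 1 ∨ (ζ : E) ^ j = -1 := by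
      rcases hj with h | h
      · left
        have h2 : x ^ j = 1 := ψ.injective (by rw [map_pow, h, map_one])
        rw [hp] at h2
        have h3 := congrArg Prod.fst (congrArg (fun f : Module.End F (E × E) => f (1, 0)) h2)
        simpa using h3
      · right
        have h2 : x ^ j = -1 := ψ.injective (by rw [map_pow, h, map_neg, map_one])
        rw [hp] at h2
        have h3 := congrArg Prod.fst (congrArg (fun f : Module.End F (E × E) => f (1, 0)) h2)
        simpa using h3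
    rw [← hζ]
    apply orderOf_dvd_of_pow_eq_one
    apply Units.ext
    rw [Units.val_pow_eq_pow_val, mul_comm, pow_mul, Units.val_one]
    rcases h1 with h1 | h1 <;> rw [h1] <;> ring

/-- the non-split torus -/
theorem exists_torus_neg [Finite F] [NeZero (2 : F)] (d : ℕ) (hd : d ≠ 0) : ∃ A : Matrix (Fin d ⊕ Fin d) (Fin d ⊕ Fin d) F, A ∈ Matrix.symplecticGroup (Fin d) F ∧
    A ^ (Nat.card F ^ d + 1) = 1 ∧ ∀ j, (A ^ j = 1 ∨ A ^ j = -1) → (Nat.card F ^ d + 1) ∣ 2 * j := by
  obtain ⟨E, _, _, _, hE⟩ := exists_extension (F := F) (2 * d) (by omega)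
  haveI : Module.Finite F E := Module.Finite.of_finite
  haveI := Fintype.ofFinite F
  haveI := Fintype.ofFinite E
  obtain ⟨Q, hQ⟩ : ∃ Q, Q = Nat.card F ^ d := ⟨_, rfl⟩
  have hcE : Nat.card E = Q * Q := by rw [Module.natCard_eq_pow_finrank (K := F) (V := E), hE, hQ, ← pow_add]; congr 1; ring
  rw [← hQ]
  have hqodd : Odd (Nat.card F) := by
    rw [← Nat.not_even_iff_odd]
    intro h
    have h1 := FiniteField.cast_card_eq_zero F
    rw [Nat.card_eq_fintype_card] at h
    have h2 : ringChar F ∣ Fintype.card F := by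
      rw [← ringChar.spec]; exact h1
    have h3 := FiniteField.even_card_iff_char_two (F := F)
    have h4 : ringChar F = 2 := h3.mpr (Nat.even_iff.mp h)
    have h5 : (2 : F) = 0 := by
      have := (ringChar.spec F 2).mpr (by rw [h4])
      exact_mod_cast this
    exact NeZero.ne (2 : F) h5
  have hQodd : Odd Q := by rw [hQ]; exact hqodd.pow
  have hQ1 : 1 < Q := by rw [hQ]; exact Nat.one_lt_pow hd Finite.one_lt_card
  obtain ⟨g, hg⟩ := exists_orderOf_eq_card_units E
  rw [hcE] at hg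
  have hfac : Q * Q - 1 = (Q + 1) * (Q - 1) := by
    obtain ⟨k, rfl⟩ : ∃ k, Q = k + 1 := ⟨Q - 1, by omega⟩
    have : (k + 1) * (k + 1) = k * k + 2 * k + 1 := by ring
    rw [this]
    simp only [Nat.add_sub_cancel]
    ring
  rw [hfac] at hg
  -- frobenius
  let σ : E ≃ₐ[F] E := FiniteField.frobeniusAlgEquivOfAlgebraic F E ^ d
  have hσ : ∀ x, σ x = x ^ Q := by
    intro x
    show (FiniteField.frobeniusAlgEquivOfAlgebraic F E ^ d) x = _
    rw [AlgEquiv.coe_pow, FiniteField.coe_frobeniusAlgEquivOfAlgebraic_iterate, hQ, Nat.card_eq_fintype_card]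
  have hσσ : ∀ x, σ (σ x) = x := by
    intro x
    rw [hσ, hσ, ← pow_mul, ← hcE, Nat.card_eq_fintype_card, FiniteField.pow_card]
  -- the element c
  obtain ⟨t, ht⟩ : ∃ t, Q + 1 = 2 * t := by
    obtain ⟨k, hk⟩ := hQodd
    exact ⟨k + 1, by omega⟩
  have hcz : ((g : E) ^ t) ^ (Q - 1) = -1 := by
    have h1 : (((g : E) ^ t) ^ (Q - 1)) ^ 2 = 1 := by
      rw [← pow_mul, ← pow_mul, show t * ((Q - 1) * 2) = (2 * t) * (Q - 1) by ring, ← ht, ← hg, ← Units.val_pow_eq_pow_val, pow_orderOf_eq_one, Units.val_one]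
    have h2 : ((g : E) ^ t) ^ (Q - 1) ≠ 1 := by
      rw [← pow_mul, ← Units.val_pow_eq_pow_val]
      intro h
      have h3 := orderOf_dvd_of_pow_eq_one (Units.ext h : g ^ (t * (Q - 1)) = 1)
      rw [hg, ht] at h3
      have h4 : 0 < t * (Q - 1) := Nat.mul_pos (by omega) (by omega)
      have h5 := Nat.le_of_dvd h4 h3
      rw [mul_assoc] at h5
      omega
    rcases (mul_self_eq_one_iff.mp ((pow_two _).symm.trans h1)) with h | h
    · exact absurd h h2
    · exact h
  let c : E := (g : E) ^ t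
  have hc : ((g : E) ^ t) ^ (Q - 1) = -1 := hcz
  have hc0 : c ≠ 0 := pow_ne_zero _ g.ne_zero
  have hσc : σ c = -c := by
    rw [hσ]
    show c ^ Q = -c
    calc c ^ Q = c ^ (Q - 1) * c := by rw [← pow_succ, Nat.sub_add_cancel (by omega)]
      _ = -c := by rw [show c ^ (Q - 1) = -1 from hc]; ring
  let T : LinearMap.BilinForm F E := Algebra.traceForm F E
  have hT : ∀ x y, T x y = Algebra.trace F E (x * y) := fun x y => Algebra.traceForm_apply F x y
  have htr : ∀ x : E, (∀ y, Algebra.trace F E (x * y) = 0) → x = 0 := by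
    intro x hx
    exact (traceForm_nondegenerate F E).1 x (fun y => by rw [Algebra.traceForm_apply]; exact hx y)
  have htσ : ∀ x, Algebra.trace F E (σ x) = Algebra.trace F E x := fun x => Algebra.trace_eq_of_algEquiv σ x
  let B : LinearMap.BilinForm F E := T.compl₁₂ (LinearMap.mulLeft F c) σ.toLinearMap
  have hB : ∀ u v, B u v = Algebra.trace F E (c * u * σ v) := fun u v => hT _ _
  have h20 : (2 : F) ≠ 0 := NeZero.ne _
  obtain ⟨ψ, hψ⟩ := to_sp (n := d) B (fun u => by
      have h1 : B u u = - B u u := by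
        rw [hB]
        nth_rw 1 [← htσ]
        have e1 : σ (c * u * σ u) = -(c * u * σ u) := by
          rw [map_mul, map_mul, hσc, hσσ]; ring
        rw [e1, map_neg]
      have h2 : (2 : F) * B u u = 0 := by linear_combination h1
      exact (mul_eq_zero.mp h2).resolve_left h20) (fun u hu => by
    have h1 := htr (c * u) (fun y => by
      have := hu (σ y)
      rwa [hB, hσσ] at this)
    exact (mul_eq_zero.mp h1).resolve_left hc0) (by rw [hE])
  let z : E := (g : E) ^ (Q - 1)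
  have hz1 : z * σ z = 1 := by
    rw [hσ]
    show (g : E) ^ (Q - 1) * ((g : E) ^ (Q - 1)) ^ Q = 1
    rw [← pow_succ', ← pow_mul, mul_comm (Q - 1), ← hg, ← Units.val_pow_eq_pow_val, pow_orderOf_eq_one, Units.val_one]
  have hp : ∀ j : ℕ, (LinearMap.mulLeft F z) ^ j = LinearMap.mulLeft F (z ^ j) := fun j => LinearMap.pow_mulLeft F E z j
  refine ⟨ψ (LinearMap.mulLeft F z), hψ _ (fun u v => ?_), ?_, ?_⟩
  · rw [hB, hB, LinearMap.mulLeft_apply, LinearMap.mulLeft_apply]
    have e1 : c * (z * u) * σ (z * v) = c * u * σ v := by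
      rw [map_mul]
      linear_combination (c * u * σ v) * hz1
    rw [e1]
  · rw [← map_pow, hp]
    have : z ^ (Q + 1) = 1 := by
      rw [pow_succ', ← hσ, hz1]
    rw [this, LinearMap.mulLeft_one]
    exact map_one ψ
  · intro j hj
    have h1 : z ^ j = 1 ∨ z ^ j = -1 := by
      rcases hj with h | h
      · left
        have h2 : (LinearMap.mulLeft F z) ^ j = 1 := ψ.injective (by rw [map_pow, h, map_one])
        rw [hp] at h2
        have h3 := congrArg (fun f : Module.End F E => f 1) h2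
        simpa using h3
      · right
        have h2 : (LinearMap.mulLeft F z) ^ j = -1 := ψ.injective (by rw [map_pow, h, map_neg, map_one])
        rw [hp] at h2
        have h3 := congrArg (fun f : Module.End F E => f 1) h2
        simpa using h3
    have h2 : g ^ ((Q - 1) * (j * 2)) = 1 := by
      apply Units.ext
      rw [Units.val_pow_eq_pow_val, pow_mul, pow_mul, Units.val_one]
      rcases h1 with h1 | h1
      · rw [show ((g : E) ^ (Q - 1)) ^ j = 1 from h1, one_pow]
      · rw [show ((g : E) ^ (Q - 1)) ^ j = -1 from h1]; ring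
    have h3 := orderOf_dvd_of_pow_eq_one h2
    rw [hg, mul_comm (Q + 1)] at h3
    have h4 := Nat.dvd_of_mul_dvd_mul_left (by omega : 0 < Q - 1) h3
    rwa [mul_comm] at h4

end Cfsg.Agent.H17
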