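import Mathlib
import Cfsg.Agent.H17.SpOrdA
import Cfsg.Agent.H17.RegUni

set_option autoImplicit false

/-! Orders of elements of `PSp` : the dichotomy. -/

namespace Cfsg.Agent.H17

open Module Cfsg Cfsg.Agent.H5
open scoped MatrixGroups Matrix

variable {F : Type*} [Field F]

/-- unipotent elements of large order -/
theorem exists_unip (p : ℕ) [Fact p.Prime] [CharP F p] [NeZero (2 : F)] {l : ℕ} (hl : 1 ≤ l) {c : ℕ} (hc : c = 0 ∨ p ^ (c - 1) < 2 * l) :
    ∃ A : Matrix (Fin l ⊕ Fin l) (Fin l ⊕ Fin l) F, A ∈ Matrix.symplecticGroup (Fin l) F ∧ (∀ j, A ^ j = 1 → p ^ c ∣ j) ∧ ∀ j, A ^ j ≠ -1 := by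
  obtain ⟨u, hu0, hu1⟩ := exists_sp_reg F hl
  obtain ⟨A, hA⟩ : ∃ A, A = (u : Matrix (Fin l ⊕ Fin l) (Fin l ⊕ Fin l) F) := ⟨_, rfl⟩
  rw [← hA] at hu0 hu1
  have hcard : Fintype.card (Fin l ⊕ Fin l) = 2 * l := by simp; ring
  haveI : CharP (Matrix (Fin l ⊕ Fin l) (Fin l ⊕ Fin l) F) p := by
    haveI : Nonempty (Fin l ⊕ Fin l) := ⟨Sum.inl ⟨0, by omega⟩⟩
    infer_instance
  have hpow : ∀ c : ℕ, A ^ (p ^ c) - 1 = (A - 1) ^ (p ^ c) := by
    intro c
    have := sub_pow_char_pow_of_commute (p := p) (n := c) (Commute.one_right A)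
    rw [this, one_pow]
  obtain ⟨M, hM⟩ : ∃ M, A ^ (p ^ M) = 1 := by
    refine ⟨2 * l, ?_⟩
    rw [← sub_eq_zero, hpow]
    exact pow_eq_zero_of_le (Nat.lt_pow_self (Fact.out : p.Prime).one_lt).le hu0
  refine ⟨A, hA ▸ u.2, ?_, ?_⟩
  · intro j hj
    rcases hc with rfl | hc
    · simp
    by_cases hc0 : c = 0
    · subst hc0; simp
    have h1 : orderOf A ∣ p ^ M := orderOf_dvd_of_pow_eq_one hM
    obtain ⟨k, -, hk⟩ := (Nat.dvd_prime_pow Fact.out).mp h1
    have h2 : orderOf A ∣ j := orderOf_dvd_of_pow_eq_one hj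
    have h3 : c ≤ k := by
      by_contra hcon
      push Not at hcon
      have h4 : A ^ (p ^ (c - 1)) = 1 := by
        rw [← orderOf_dvd_iff_pow_eq_one, hk]
        exact pow_dvd_pow p (by omega)
      rw [← sub_eq_zero, hpow] at h4
      have h5 := reg_rank_pow hcard hu0 hu1 (p ^ (c - 1))
      rw [h4, Matrix.rank_zero] at h5
      omega
    exact ((pow_dvd_pow p h3).trans (dvd_of_eq hk.symm)).trans h2
  · intro j hj
    have h1 : (A ^ j) ^ (p ^ M) = 1 := by rw [← pow_mul, mul_comm, pow_mul, hM, one_pow]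
    have hodd : Odd (p ^ M) := by
      apply Odd.pow
      apply (Fact.out : p.Prime).odd_of_ne_two
      rintro rfl
      exact NeZero.ne (2 : F) (two_zero F)
    rw [hj, hodd.neg_one_pow] at h1
    have h2 := congrFun (congrFun h1 (Sum.inl ⟨0, by omega⟩)) (Sum.inl ⟨0, by omega⟩)
    rw [Matrix.neg_apply, Matrix.one_apply_eq] at h2
    apply NeZero.ne (2 : F)
    linear_combination -h2

/-- elements of odd order dividing `q^d ± 1`, negated -/
theorem exists_neg_torus [Finite F] [NeZero (2 : F)] (d : ℕ) (hd : d ≠ 0) {m : ℕ} (hm : Odd m) (hmd : m ∣ Nat.card F ^ d - 1 ∨ m ∣ Nat.card F ^ d + 1) :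
    ∃ A : Matrix (Fin d ⊕ Fin d) (Fin d ⊕ Fin d) F, A ∈ Matrix.symplecticGroup (Fin d) F ∧ (∀ j, A ^ j = 1 → 2 * m ∣ j) := by
  have key : ∀ N : ℕ, 0 < N → m ∣ N → (∃ A : Matrix (Fin d ⊕ Fin d) (Fin d ⊕ Fin d) F, A ∈ Matrix.symplecticGroup (Fin d) F ∧
    A ^ N = 1 ∧ ∀ j, (A ^ j = 1 ∨ A ^ j = -1) → N ∣ 2 * j) → ∃ A : Matrix (Fin d ⊕ Fin d) (Fin d ⊕ Fin d) F, A ∈ Matrix.symplecticGroup (Fin d) F ∧ (∀ j, A ^ j = 1 → 2 * m ∣ j) := by
    rintro N hN ⟨t, ht⟩ ⟨A, hA, hA1, hA2⟩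
    have ht0 : 0 < t := by
      rcases Nat.eq_zero_or_pos t with h | h
      · rw [h, mul_zero] at ht; omega
      · exact h
    refine ⟨-(A ^ t), ?_, ?_⟩
    · have h1 : A ^ t ∈ Matrix.symplecticGroup (Fin d) F := pow_mem hA t
      rw [mem_Sp_iff] at h1 ⊢
      intro u v
      rw [Matrix.neg_mulVec, Matrix.neg_mulVec, map_neg, map_neg, LinearMap.neg_apply, neg_neg, h1]
    · intro j hj
      have h1 : (A ^ t) ^ m = 1 := by rw [← pow_mul, mul_comm, ← ht, hA1]
      have h2 : Even j := by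
        by_contra ho
        rw [Nat.not_even_iff_odd] at ho
        rw [ho.neg_pow] at hj
        have h3 : ((A ^ t) ^ j) ^ m = -1 := by
          have h4 : (A ^ t) ^ j = -1 := by rw [← neg_eq_iff_eq_neg]; exact hj
          rw [h4, hm.neg_one_pow]
        rw [← pow_mul, mul_comm, pow_mul, h1, one_pow] at h3
        have h5 := congrFun (congrFun h3 (Sum.inl ⟨0, by omega⟩)) (Sum.inl ⟨0, by omega⟩)
        rw [Matrix.neg_apply, Matrix.one_apply_eq] at h5
        apply NeZero.ne (2 : F)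
        linear_combination h5
      have h3 : (A ^ t) ^ j = 1 := by rw [← h2.neg_pow]; exact hj
      rw [← pow_mul] at h3
      have h4 := hA2 _ (Or.inl h3)
      rw [ht, show 2 * (t * j) = t * (2 * j) by ring, mul_comm m t] at h4
      have h5 := Nat.dvd_of_mul_dvd_mul_left ht0 h4
      have h6 : m ∣ j := (Nat.Coprime.dvd_mul_left (Nat.coprime_two_right.mpr hm)).mp h5
      exact Nat.Coprime.mul_dvd_of_dvd_of_dvd (Nat.coprime_two_left.mpr hm) h2.two_dvd h6
  rcases hmd with h | h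
  · refine key _ ?_ h (exists_torus_pos d hd)
    have := Nat.one_lt_pow hd (Finite.one_lt_card (α := F))
    omega
  · exact key _ (Nat.succ_pos _) h (exists_torus_neg d hd)

theorem SF_symp {n : ℕ} : SF (RingEquiv.refl F) (fun u v : Fin n ⊕ Fin n → F => sympB n F u v) where
  addl u v w := by rw [map_add, LinearMap.add_apply]
  addr u v w := by rw [map_add]
  smull c u v := by rw [map_smul, LinearMap.smul_apply, smul_eq_mul]
  smulr c u v := by rw [map_smul, smul_eq_mul]; rfl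
  nd := sympB_nondegenerate.1
  refl u v h := by rw [sympB_neg, h, neg_zero]
  inv c := rfl

/-- a commuting involution from an orthogonal decomposition -/
theorem exists_inv_of_nondeg [NeZero (2 : F)] {n : ℕ} (hn : 2 ≤ n) (M : Matrix.symplecticGroup (Fin n) F) (Y : Submodule F (Fin n ⊕ Fin n → F))
    (hY : ∀ v ∈ Y, (M : Matrix (Fin n ⊕ Fin n) (Fin n ⊕ Fin n) F) *ᵥ v ∈ Y) (hnd : NDS (fun u v => sympB n F u v) Y) (h0 : Y ≠ ⊥) (h1 : Y ≠ ⊤) :
    ∃ h : PSp n F, Commute (QuotientGroup.mk M : PSp n F) h ∧ orderOf h = 2 := by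
  obtain ⟨Z, hZ⟩ : ∃ Z : Submodule F (Fin n ⊕ Fin n → F), Z = (sympB n F).orthogonal Y := ⟨_, rfl⟩
  have hmemZ : ∀ v, v ∈ Z ↔ ∀ y ∈ Y, sympB n F y v = 0 := by
    intro v
    rw [hZ, LinearMap.BilinForm.mem_orthogonal_iff]
  have hc : IsCompl Y Z := by
    rw [hZ]
    apply LinearMap.BilinForm.isCompl_orthogonal_of_restrict_nondegenerate
    · intro u v h
      rw [sympB_neg, h, neg_zero]
    · have h2 : ∀ v : Y, (∀ w : Y, ((sympB n F).restrict Y) v w = 0) → v = 0 := by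
        intro v hv
        exact Subtype.ext (hnd v v.2 (fun w hw => hv ⟨w, hw⟩))
      refine ⟨h2, fun v hv => h2 v (fun w => ?_)⟩
      have := hv w
      show sympB n F v w = 0
      rw [sympB_neg]
      have h3 : sympB n F w v = 0 := this
      rw [h3, neg_zero]
  have hdec : ∀ v, ∃ y ∈ Y, ∃ z ∈ Z, y + z = v := by
    intro v
    have : v ∈ Y ⊔ Z := by rw [hc.sup_eq_top]; trivial
    exact Submodule.mem_sup.mp this
  have huniq : ∀ y ∈ Y, y ∈ Z → y = 0 := by
    intro y h2 h3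
    have : y ∈ Y ⊓ Z := ⟨h2, h3⟩
    rwa [hc.inf_eq_bot, Submodule.mem_bot] at this
  let P : (Fin n ⊕ Fin n → F) →ₗ[F] (Fin n ⊕ Fin n → F) := Y.subtype ∘ₗ Y.linearProjOfIsCompl Z hc
  have hP : ∀ y ∈ Y, ∀ z ∈ Z, P (y + z) = y := by
    intro y hy z hz
    show ((Y.linearProjOfIsCompl Z hc (y + z) : Y) : Fin n ⊕ Fin n → F) = y
    rw [map_add]
    have e1 : Y.linearProjOfIsCompl Z hc y = ⟨y, hy⟩ := Submodule.linearProjOfIsCompl_apply_left hc ⟨y, hy⟩
    have e2 : Y.linearProjOfIsCompl Z hc z = 0 := (Submodule.linearProjOfIsCompl_apply_eq_zero_iff hc).mpr hz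
    rw [e1, e2, add_zero]
  let f : (Fin n ⊕ Fin n → F) →ₗ[F] (Fin n ⊕ Fin n → F) := LinearMap.id - (2 : F) • P
  have hf : ∀ y ∈ Y, ∀ z ∈ Z, f (y + z) = -y + z := by
    intro y hy z hz
    show (y + z) - (2 : F) • P (y + z) = _
    rw [hP y hy z hz]
    module
  have hYZ : ∀ y ∈ Y, ∀ z ∈ Z, sympB n F y z = 0 ∧ sympB n F z y = 0 := by
    intro y hy z hz
    have := (hmemZ z).mp hz y hy
    exact ⟨this, by rw [sympB_neg, this, neg_zero]⟩
  obtain ⟨A, hA⟩ := exists_pv f (by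
    intro u v
    obtain ⟨y, hy, z, hz, rfl⟩ := hdec u
    obtain ⟨y', hy', z', hz', rfl⟩ := hdec v
    rw [hf y hy z hz, hf y' hy' z' hz']
    simp only [map_add, map_neg, LinearMap.add_apply, LinearMap.neg_apply]
    rw [(hYZ y hy z' hz').1, (hYZ y' hy' z hz).2]
    ring)
  have hpM : ∀ v ∈ Z, (M : Matrix (Fin n ⊕ Fin n) (Fin n ⊕ Fin n) F) *ᵥ v ∈ Z := by
    intro v hv
    rw [hmemZ] at hv ⊢
    intro y hy
    -- `M` is surjective on `Y`
    have hinj : Function.Injective ((Matrix.toLin' (M : Matrix (Fin n ⊕ Fin n) (Fin n ⊕ Fin n) F)).restrict hY) := by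
      rw [injective_iff_map_eq_zero]
      intro a ha
      have h2 : (M : Matrix (Fin n ⊕ Fin n) (Fin n ⊕ Fin n) F) *ᵥ (a : Fin n ⊕ Fin n → F) = 0 := congrArg Subtype.val ha
      apply Subtype.ext
      by_contra hne
      exact sp_mulVec_ne_zero M hne h2
    have hsurj := (LinearMap.injective_iff_surjective (f := (Matrix.toLin' (M : Matrix (Fin n ⊕ Fin n) (Fin n ⊕ Fin n) F)).restrict hY)).mp hinj
    obtain ⟨y', hy'⟩ := hsurj ⟨y, hy⟩
    have h3 : (M : Matrix (Fin n ⊕ Fin n) (Fin n ⊕ Fin n) F) *ᵥ (y' : Fin n ⊕ Fin n → F) = y := congrArg Subtype.val hy'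
    rw [← h3, mem_Sp_iff.mp M.2]
    exact hv y' y'.2
  have hfe : ∀ v, (A : Matrix (Fin n ⊕ Fin n) (Fin n ⊕ Fin n) F) *ᵥ v = f v := hA
  refine ⟨QuotientGroup.mk A, ?_, ?_⟩
  · show (QuotientGroup.mk M : PSp n F) * QuotientGroup.mk A = QuotientGroup.mk A * QuotientGroup.mk M
    rw [← QuotientGroup.mk_mul, ← QuotientGroup.mk_mul]
    congr 1
    apply pv_ext
    intro v
    rw [pv_mul, pv_mul]
    obtain ⟨y, hy, z, hz, rfl⟩ := hdec v
    unfold pv
    rw [hfe, hfe, hf y hy z hz, Matrix.mulVec_add, Matrix.mulVec_add, hf _ (hY y hy) _ (hpM z hz), Matrix.mulVec_neg]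
  · haveI : Fact (Nat.Prime 2) := ⟨Nat.prime_two⟩
    apply orderOf_eq_prime
    · rw [← QuotientGroup.mk_pow]
      have : A ^ 2 = 1 := by
        apply pv_ext
        intro v
        rw [pow_two, pv_mul]
        obtain ⟨y, hy, z, hz, rfl⟩ := hdec v
        unfold pv
        rw [hfe, hfe, hf y hy z hz, hf _ (Y.neg_mem hy) z hz, neg_neg]
        exact (Matrix.one_mulVec _).symm
      rw [this]; rfl
    · intro h2
      obtain ⟨c, hc2⟩ := (mk_eq_one_iff_Sp hn A).mp h2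
      have h3 : ∀ v, f v = (c : F) • v := by
        intro v
        rw [← hfe, ← coe_spGSp, hc2, sI_mulVec]
      obtain ⟨y, hy, hy0⟩ := Submodule.exists_mem_ne_zero_of_ne_bot h0
      have h4 := h3 y
      have h5 := hf y hy 0 Z.zero_mem
      rw [add_zero, add_zero] at h5
      rw [h5] at h4
      have hZ0 : Z ≠ ⊥ := by
        intro h
        apply h1
        have := hc.sup_eq_top
        rwa [h, sup_bot_eq] at this
      obtain ⟨z, hz, hz0⟩ := Submodule.exists_mem_ne_zero_of_ne_bot hZ0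
      have h6 := h3 z
      have h7 := hf 0 Y.zero_mem z hz
      rw [zero_add, neg_zero, zero_add] at h7
      rw [h7] at h6
      have hc1 : (c : F) = 1 := by
        have : ((c : F) - 1) • z = 0 := by rw [sub_smul, one_smul, sub_eq_zero]; exact h6.symm
        exact sub_eq_zero.mp ((smul_eq_zero.mp this).resolve_right hz0)
      rw [hc1, one_smul] at h4
      have h8 : (2 : F) • y = 0 := by
        rw [two_smul]
        nth_rw 1 [← h4]
        exact neg_add_cancel y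
      exact hy0 ((smul_eq_zero.mp h8).resolve_left (NeZero.ne _))

end Cfsg.Agent.H17
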