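import Mathlib
import Cfsg.Agent.H17.SpOrdB

set_option autoImplicit false

/-! Orders of elements of `PSp` : the dichotomy. -/

namespace Cfsg.Agent.H17

open Module Cfsg Cfsg.Agent.H5
open scoped MatrixGroups Matrix

variable {F : Type*} [Field F]

/-- the odd one of `(q^n ± 1)/2` -/
def oddTor (q n : ℕ) : ℕ := if q ^ n % 4 = 3 then (q ^ n - 1) / 2 else (q ^ n + 1) / 2

theorem sp_dichotomy [Finite F] (p : ℕ) [hpf : Fact p.Prime] [CharP F p] [NeZero (2 : F)] {n : ℕ} (hn : 2 ≤ n) {T : ℕ} (hT : 2 * n ≤ p ^ T)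
    (hqodd : Odd (Nat.card F))
    (g : PSp n F) (hg : ¬ 2 ∣ orderOf g) :
    (∃ g' : PSp n F, orderOf g' = 2 * orderOf g) ∨ orderOf g ∣ oddTor (Nat.card F) n * p ^ T := by
  have hpp := hpf.out
  have hp2 : Odd p := by
    apply hpp.odd_of_ne_two
    rintro rfl
    exact NeZero.ne (2 : F) (two_zero F)
  have hgo : Odd (orderOf g) := Nat.not_even_iff_odd.mp (fun h => hg h.two_dvd)
  -- lift
  obtain ⟨M, hMk, hMg⟩ : ∃ M : Matrix.symplecticGroup (Fin n) F, M ^ orderOf g = 1 ∧ (QuotientGroup.mk M : PSp n F) = g := by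
    obtain ⟨g₀, hg₀⟩ := QuotientGroup.mk_surjective g
    have h1 : (QuotientGroup.mk (g₀ ^ orderOf g) : PSp n F) = 1 := by rw [QuotientGroup.mk_pow, hg₀, pow_orderOf_eq_one]
    obtain ⟨c, hc⟩ := (mk_eq_one_iff_Sp hn _).mp h1
    have h2 : ((g₀ ^ orderOf g : Matrix.symplecticGroup (Fin n) F) : Matrix (Fin n ⊕ Fin n) (Fin n ⊕ Fin n) F) = (c : F) • 1 := by
      rw [← coe_spGSp, hc, coe_sI']
    rcases sp_scalar (by omega) h2 with h3 | h3
    · refine ⟨g₀, ?_, hg₀⟩
      apply Subtype.ext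
      rw [h2, h3, one_smul]; rfl
    · have hneg : -(g₀ : Matrix (Fin n ⊕ Fin n) (Fin n ⊕ Fin n) F) ∈ Matrix.symplecticGroup (Fin n) F := by
        have h1 := g₀.2
        rw [mem_Sp_iff] at h1 ⊢
        intro u v
        rw [Matrix.neg_mulVec, Matrix.neg_mulVec, map_neg, map_neg, LinearMap.neg_apply, neg_neg, h1]
      refine ⟨⟨-(g₀ : Matrix (Fin n ⊕ Fin n) (Fin n ⊕ Fin n) F), hneg⟩, ?_, ?_⟩
      · apply Subtype.ext
        show (-(g₀ : Matrix (Fin n ⊕ Fin n) (Fin n ⊕ Fin n) F)) ^ orderOf g = 1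
        rw [hgo.neg_pow]
        have h4 : (g₀ : Matrix (Fin n ⊕ Fin n) (Fin n ⊕ Fin n) F) ^ orderOf g = (c : F) • 1 := h2
        rw [h4, h3, neg_smul, one_smul, neg_neg]
      · rw [← hg₀, QuotientGroup.eq]
        rw [Subgroup.mem_center_iff]
        intro a
        apply Subtype.ext
        have e1 : (((⟨-(g₀ : Matrix (Fin n ⊕ Fin n) (Fin n ⊕ Fin n) F), hneg⟩ : Matrix.symplecticGroup (Fin n) F)⁻¹ * g₀ : Matrix.symplecticGroup (Fin n) F) : Matrix (Fin n ⊕ Fin n) (Fin n ⊕ Fin n) F) = -1 := by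
          have e2 : (⟨-(g₀ : Matrix (Fin n ⊕ Fin n) (Fin n ⊕ Fin n) F), hneg⟩ : Matrix.symplecticGroup (Fin n) F)⁻¹ * g₀ = (⟨-(1 : Matrix (Fin n ⊕ Fin n) (Fin n ⊕ Fin n) F), by
              rw [mem_Sp_iff]
              intro u v
              rw [Matrix.neg_mulVec, Matrix.neg_mulVec, map_neg, map_neg, LinearMap.neg_apply, neg_neg, Matrix.one_mulVec, Matrix.one_mulVec]⟩ : Matrix.symplecticGroup (Fin n) F) := by
            rw [inv_mul_eq_iff_eq_mul]
            apply Subtype.ext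
            show (g₀ : Matrix (Fin n ⊕ Fin n) (Fin n ⊕ Fin n) F) = (-(g₀ : Matrix (Fin n ⊕ Fin n) (Fin n ⊕ Fin n) F)) * (-1)
            rw [neg_mul_neg, mul_one]
          rw [e2]
        show (a : Matrix (Fin n ⊕ Fin n) (Fin n ⊕ Fin n) F) * _ = _ * (a : Matrix (Fin n ⊕ Fin n) (Fin n ⊕ Fin n) F)
        rw [e1, mul_neg, neg_mul, mul_one, one_mul]
  obtain ⟨k, hk⟩ : ∃ k, k = orderOf g := ⟨_, rfl⟩
  rw [← hk] at hMk hgo ⊢
  have hordM : orderOf M = k := by
    apply Nat.dvd_antisymm (orderOf_dvd_of_pow_eq_one hMk)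
    rw [hk, ← hMg]
    exact orderOf_map_dvd (QuotientGroup.mk' (Subgroup.center (Matrix.symplecticGroup (Fin n) F))) M
  obtain ⟨x, hx⟩ : ∃ x : Module.End F (Fin n ⊕ Fin n → F), x = Matrix.toLin' (M : Matrix (Fin n ⊕ Fin n) (Fin n ⊕ Fin n) F) := ⟨_, rfl⟩
  have hxap : ∀ v, x v = (M : Matrix (Fin n ⊕ Fin n) (Fin n ⊕ Fin n) F) *ᵥ v := fun v => by rw [hx, Matrix.toLin'_apply]
  have hxpow : ∀ j : ℕ, x ^ j = 1 ↔ M ^ j = 1 := by
    intro j
    have h1 : x ^ j = Matrix.toLin' ((M : Matrix (Fin n ⊕ Fin n) (Fin n ⊕ Fin n) F) ^ j) := by rw [hx, Matrix.toLin'_pow]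
    rw [h1]
    constructor
    · intro h
      apply Subtype.ext
      show (M : Matrix (Fin n ⊕ Fin n) (Fin n ⊕ Fin n) F) ^ j = 1
      apply Matrix.toLin'.injective
      rw [h, Matrix.toLin'_one]; rfl
    · intro h
      have h2 : (M : Matrix (Fin n ⊕ Fin n) (Fin n ⊕ Fin n) F) ^ j = 1 := congrArg Subtype.val h
      rw [h2, Matrix.toLin'_one]; rfl
  have hxord : ∀ j : ℕ, x ^ j = 1 ↔ k ∣ j := by
    intro j
    rw [hxpow, ← orderOf_dvd_iff_pow_eq_one, hordM]
  by_cases hI : Indec (fun u v => sympB n F u v) x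
  swap
  · -- decomposable
    left
    unfold Indec at hI
    push Not at hI
    obtain ⟨Y, hY, hnd, h0, h1⟩ := hI
    obtain ⟨h, hc, ho⟩ := exists_inv_of_nondeg hn M Y (fun v hv => by rw [← hxap]; exact hY v hv) hnd h0 h1
    rw [hMg] at hc
    rw [hk]
    exact exists_orderOf_mul_of_commute Nat.prime_two g h hc hg ho
  -- the `p'`-part
  have hk0 : k ≠ 0 := hgo.pos.ne'
  obtain ⟨b, m, hpm, hkm⟩ : ∃ b m, ¬ p ∣ m ∧ k = p ^ b * m := Nat.exists_eq_pow_mul_and_not_dvd hk0 p hpp.ne_one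
  have hmodd : Odd m := by rw [hkm, Nat.odd_mul] at hgo; exact hgo.2
  haveI : Nontrivial (Fin n ⊕ Fin n → F) := by
    haveI : Nonempty (Fin n ⊕ Fin n) := ⟨Sum.inl ⟨0, by omega⟩⟩
    infer_instance
  haveI : Nontrivial (Module.End F (Fin n ⊕ Fin n → F)) := inferInstance
  haveI : CharP (Module.End F (Fin n ⊕ Fin n → F)) p := charP_of_injective_algebraMap (algebraMap F (Module.End F (Fin n ⊕ Fin n → F))).injective p
  have hchar : ∀ (w : Module.End F (Fin n ⊕ Fin n → F)) (c : ℕ), w ^ (p ^ c) - 1 = (w - 1) ^ (p ^ c) := by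
    intro w c
    have := sub_pow_char_pow_of_commute (p := p) (n := c) (Commute.one_right w)
    rw [this, one_pow]
  have hfr : finrank F (Fin n ⊕ Fin n → F) = 2 * n := by rw [Module.finrank_fintype_fun_eq_card]; simp; ring
  obtain ⟨s, hs⟩ : ∃ s, s = x ^ (p ^ b) := ⟨_, rfl⟩
  obtain ⟨s', hs'⟩ : ∃ s', s' = x ^ (p ^ b * (m - 1)) := ⟨_, rfl⟩
  have hm0 : 0 < m := hmodd.pos
  have hxk : x ^ k = 1 := (hxord k).mpr (dvd_refl k)
  have hss : s * s' = 1 := by
    rw [hs, hs', ← pow_add]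
    have : p ^ b + p ^ b * (m - 1) = k := by
      rw [hkm]
      obtain ⟨m', rfl⟩ : ∃ m', m = m' + 1 := ⟨m - 1, by omega⟩
      simp only [Nat.add_sub_cancel]; ring
    rw [this, hxk]
  have hss' : s' * s = 1 := by
    rw [← hss, hs, hs', ← pow_add, ← pow_add, add_comm]
  have hsm : s ^ m = 1 := by rw [hs, ← pow_mul, ← hkm, hxk]
  by_cases hs1 : s = 1
  · right
    have h1 : x ^ (p ^ T) = 1 := by
      have h2 : IsNilpotent (x - 1) := ⟨p ^ b, by rw [← hchar, ← hs, hs1, sub_self]⟩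
      have h3 := pow_finrank_eq_zero h2
      rw [hfr] at h3
      rw [← sub_eq_zero, hchar]
      exact pow_eq_zero_of_le hT h3
    exact ((hxord _).mp h1).trans (dvd_mul_left _ _)
  -- types
  have hisox : ∀ u v, sympB n F (x u) (x v) = sympB n F u v := fun u v => by rw [hxap, hxap]; exact mem_Sp_iff.mp M.2 u v
  have hisopow : ∀ j : ℕ, ∀ u v, sympB n F ((x ^ j) u) ((x ^ j) v) = sympB n F u v := by
    intro j
    induction j with
    | zero => intro u v; rfl
    | succ j ih => intro u v; rw [pow_succ', Module.End.mul_apply, Module.End.mul_apply, hisox, ih]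
  have hadj : Adj (fun u v => sympB n F u v) s s' := by
    intro u v
    have h1 : sympB n F (s u) (s (s' v)) = sympB n F u (s' v) := by rw [hs]; exact hisopow _ _ _
    have h2 : s (s' v) = v := by rw [← Module.End.mul_apply, hss]; rfl
    rw [h2] at h1
    exact h1
  have hadj' : Adj (fun u v => sympB n F u v) s' s := by
    intro u v
    have h1 : sympB n F (s' u) (s' (s v)) = sympB n F u (s v) := by rw [hs']; exact hisopow _ _ _
    have h2 : s' (s v) = v := by rw [← Module.End.mul_apply, hss']; rfl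
    rw [h2] at h1
    exact h1
  have hcpow : ∀ i j : ℕ, x ^ i * x ^ j = x ^ j * x ^ i := fun i j => by rw [← pow_add, ← pow_add, add_comm]
  have hqm : Nat.Coprime (Nat.card F) m := by
    haveI := Fintype.ofFinite F
    obtain ⟨⟨f, hf0⟩, -, hF⟩ := FiniteField.card F p
    simp only [PNat.mk_coe] at hF
    rw [Nat.card_eq_fintype_card, hF]
    exact Nat.Coprime.pow_left _ ((Nat.Prime.coprime_iff_not_dvd hpp).mpr hpm)
  have hN : IsNilpotent (x ^ m - 1) := ⟨p ^ b, by rw [← hchar, ← pow_mul, mul_comm m, ← hkm, hxk, sub_self]⟩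
  obtain ⟨d, hd1, hd2, hd3, hd4⟩ := sp_types (x := x) (s := s) (s' := s') (N := x ^ m - 1) SF_symp hI
    (by rw [hs]; exact (Commute.refl x).pow_right _) (by rw [hs']; exact (Commute.refl x).pow_right _) hadj hadj' hss hss' hqm hmodd hsm hs1 hN
    (by rw [sub_mul, mul_sub, one_mul, mul_one, hs, hcpow]) (by rw [sub_mul, mul_sub, one_mul, mul_one, hs', hcpow])
  rw [hfr] at hd2 hd4
  obtain ⟨κ, hκ⟩ := Nat.dvd_of_mul_dvd_mul_left (by norm_num : 0 < 2) hd2
  have hκ1 : 1 ≤ κ := by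
    rcases Nat.eq_zero_or_pos κ with h | h
    · rw [h, mul_zero] at hκ; omega
    · exact h
  have hκ2 : 2 * n / (2 * d) = κ := by
    rw [hκ, ← mul_assoc]
    exact Nat.mul_div_cancel_left κ (by omega)
  rw [hκ2] at hd4
  -- `m ∣ q^d ± 1`
  have hmord : ∀ j : ℕ, s ^ j = 1 → m ∣ j := by
    intro j hj
    rw [hs, ← pow_mul, hxord, hkm] at hj
    exact Nat.dvd_of_mul_dvd_mul_left (pow_pos hpp.pos b) hj
  have hQ1 : 1 < Nat.card F ^ d := Nat.one_lt_pow (by omega) Finite.one_lt_card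
  have hmd : m ∣ Nat.card F ^ d - 1 ∨ m ∣ Nat.card F ^ d + 1 := by
    rcases hd3 with h | h
    · left
      apply hmord
      have h1 : s ^ (Nat.card F ^ d - 1) * s = s := by rw [← pow_succ, Nat.sub_add_cancel hQ1.le, h]
      calc s ^ (Nat.card F ^ d - 1) = s ^ (Nat.card F ^ d - 1) * s * s' := by rw [mul_assoc, hss, mul_one]
        _ = 1 := by rw [h1, hss]
    · right
      apply hmord
      rw [pow_succ, h, hss']
  by_cases hκ3 : κ = 1
  · -- `d = n`
    subst hκ3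
    rw [mul_one] at hκ
    rw [pow_one, sub_eq_zero] at hd4
    have hkm' : k ∣ m := (hxord m).mp hd4
    rw [← hκ] at hmd hQ1
    obtain ⟨Q, hQ⟩ : ∃ Q, Q = Nat.card F ^ n := ⟨_, rfl⟩
    have hQodd : Odd Q := by rw [hQ]; exact hqodd.pow
    have hn0 : n ≠ 0 := by omega
    -- arithmetic
    have key : ∀ N : ℕ, 0 < N → k ∣ N → (∃ t, N = 4 * t) → (∃ A : Matrix (Fin n ⊕ Fin n) (Fin n ⊕ Fin n) F, A ∈ Matrix.symplecticGroup (Fin n) F ∧
        A ^ N = 1 ∧ ∀ j, (A ^ j = 1 ∨ A ^ j = -1) → N ∣ 2 * j) → ∃ g' : PSp n F, orderOf g' = 2 * k := by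
      rintro N hN0 hkN ⟨t, ht⟩ ⟨A, hA, -, hA2⟩
      have h1 := order_PSp hn hA (k := 2 * k) (fun j hj => by
        have h2 := hA2 j hj
        rw [ht, show 4 * t = 2 * (2 * t) by ring] at h2
        have h3 := Nat.dvd_of_mul_dvd_mul_left (by norm_num : 0 < 2) h2
        refine dvd_trans (Nat.mul_dvd_mul_left 2 ?_) h3
        rw [ht] at hkN
        have h4 : Nat.Coprime k 4 := by
          have : Nat.Coprime k 2 := Nat.coprime_two_right.mpr hgo
          exact Nat.Coprime.mul_right this this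
        exact (Nat.Coprime.dvd_mul_left h4).mp hkN)
      exact exists_orderOf_of_dvd _ _ h1
    have h4 : Q % 4 = 1 ∨ Q % 4 = 3 := by
      obtain ⟨t, ht⟩ := hQodd
      omega
    have hhalf : ∀ N : ℕ, k ∣ N → (∃ t, N = 2 * t) → k ∣ N / 2 := by
      rintro N h1 ⟨t, rfl⟩
      rw [Nat.mul_div_cancel_left t (by norm_num : 0 < 2)]
      exact (Nat.Coprime.dvd_mul_left (Nat.coprime_two_right.mpr hgo)).mp h1
    rw [← hQ] at hmd hQ1
    unfold oddTor
    rw [← hQ]
    rcases hmd with h | h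
    · rcases h4 with h5 | h5
      · left
        refine key (Q - 1) (by omega) (hkm'.trans h) ⟨Q / 4, by omega⟩ ?_
        rw [hQ]; exact exists_torus_pos n hn0
      · right
        rw [if_pos h5]
        exact (hhalf _ (hkm'.trans h) ⟨Q / 2, by omega⟩).trans (dvd_mul_right _ _)
    · rcases h4 with h5 | h5
      · right
        rw [if_neg (by omega)]
        exact (hhalf _ (hkm'.trans h) ⟨Q / 2 + 1, by omega⟩).trans (dvd_mul_right _ _)
      · left
        refine key (Q + 1) (by omega) (hkm'.trans h) ⟨Q / 4 + 1, by omega⟩ ?_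
        rw [hQ]; exact exists_torus_neg n hn0
  · -- `d < n`
    left
    have hκ4 : 2 ≤ κ := by omega
    obtain ⟨l, hl⟩ : ∃ l, n = d + l := by
      refine ⟨d * (κ - 1), ?_⟩
      obtain ⟨κ', rfl⟩ : ∃ κ', κ = κ' + 1 := ⟨κ - 1, by omega⟩
      rw [hκ]; simp only [Nat.add_sub_cancel]; ring
    have hl2 : κ ≤ 2 * l := by
      have h1 : d * κ = d + l := by omega
      nlinarith
    have hl1 : 1 ≤ l := by omega
    -- the exponent
    obtain ⟨c, hc1, hc2⟩ : ∃ c, κ ≤ p ^ c ∧ (c = 0 ∨ p ^ (c - 1) < κ) := by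
      have hex : ∃ t, κ ≤ p ^ t := ⟨κ, (Nat.lt_pow_self hpp.one_lt).le⟩
      refine ⟨Nat.find hex, Nat.find_spec hex, ?_⟩
      by_cases h : Nat.find hex = 0
      · left; exact h
      · right
        have := Nat.find_min hex (m := Nat.find hex - 1) (by omega)
        omega
    have hkc : k ∣ m * p ^ c := by
      rw [← hxord, pow_mul, ← sub_eq_zero, hchar]
      exact pow_eq_zero_of_le hc1 hd4
    obtain ⟨A, hA, hA2⟩ := exists_neg_torus (F := F) d (by omega) hmodd hmd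
    obtain ⟨C, hC, hC2, hC3⟩ := exists_unip (F := F) p hl1 (c := c) (by
      rcases hc2 with h | h
      · left; exact h
      · right; omega)
    obtain ⟨D, hD, hD2⟩ := exists_sp_prod hA hC
    subst hl
    have h1 := order_PSp hn hD (k := 2 * m * p ^ c) (fun j hj => by
      rcases hj with hj | hj
      · obtain ⟨e1, e2⟩ := (hD2 j).1 hj
        apply Nat.Coprime.mul_dvd_of_dvd_of_dvd _ (hA2 j e1) (hC2 j e2)
        apply Nat.Coprime.pow_right
        apply Nat.Coprime.mul_left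
        · exact Nat.coprime_two_left.mpr hp2
        · exact ((Nat.Prime.coprime_iff_not_dvd hpp).mpr hpm).symm
      · exact absurd ((hD2 j).2 hj).2 (hC3 j))
    refine exists_orderOf_of_dvd _ _ (dvd_trans ?_ h1)
    rw [mul_assoc]
    exact Nat.mul_dvd_mul_left 2 hkc

end Cfsg.Agent.H17
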