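import Mathlib
import Cfsg.Prelude.Def_Classical

set_option autoImplicit false

/-! The standard quadratic forms as `QuadraticForm`s; Gram determinants. -/

namespace Cfsg.Agent.H17

open Module

/-- `quadFormPlus` as a `QuadraticForm`. -/
noncomputable def qPlus (m : ℕ) (F : Type*) [Field F] : QuadraticForm F (Fin m ⊕ Fin m → F) :=
  ∑ i : Fin m, QuadraticMap.linMulLin (LinearMap.proj (Sum.inl i)) (LinearMap.proj (Sum.inr i))

theorem qPlus_apply (m : ℕ) (F : Type*) [Field F] (v : Fin m ⊕ Fin m → F) : qPlus m F v = Cfsg.quadFormPlus m F v := by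
  rw [qPlus, QuadraticMap.sum_apply]
  rfl

theorem coe_qPlus (m : ℕ) (F : Type*) [Field F] : ⇑(qPlus m F) = Cfsg.quadFormPlus m F :=
  funext (qPlus_apply m F)

/-- `quadFormMinus` as a `QuadraticForm`. -/
noncomputable def qMinus (m : ℕ) (F : Type*) [Field F] (a b : F) : QuadraticForm F ((Fin m ⊕ Fin m) ⊕ Fin 2 → F) :=
  (∑ i : Fin m, QuadraticMap.linMulLin (LinearMap.proj (Sum.inl (Sum.inl i))) (LinearMap.proj (Sum.inl (Sum.inr i)))) +
    (QuadraticMap.linMulLin (LinearMap.proj (Sum.inr 0)) (LinearMap.proj (Sum.inr 0)) +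
      a • QuadraticMap.linMulLin (LinearMap.proj (Sum.inr 0)) (LinearMap.proj (Sum.inr 1)) +
      b • QuadraticMap.linMulLin (LinearMap.proj (Sum.inr 1)) (LinearMap.proj (Sum.inr 1)))

theorem qMinus_apply (m : ℕ) (F : Type*) [Field F] (a b : F) (v : (Fin m ⊕ Fin m) ⊕ Fin 2 → F) :
    qMinus m F a b v = Cfsg.quadFormMinus m F a b v := by
  rw [qMinus, QuadraticMap.add_apply, QuadraticMap.sum_apply]
  simp only [QuadraticMap.add_apply, QuadraticMap.smul_apply, QuadraticMap.linMulLin_apply, smul_eq_mul]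
  unfold Cfsg.quadFormMinus
  congr 1
  show v (Sum.inr 0) * v (Sum.inr 0) + a * (v (Sum.inr 0) * v (Sum.inr 1)) + b * (v (Sum.inr 1) * v (Sum.inr 1)) = _
  ring

theorem coe_qMinus (m : ℕ) (F : Type*) [Field F] (a b : F) : ⇑(qMinus m F a b) = Cfsg.quadFormMinus m F a b :=
  funext (qMinus_apply m F a b)

/-- `quadFormOdd` as a `QuadraticForm`. -/
noncomputable def qOdd (m : ℕ) (F : Type*) [Field F] : QuadraticForm F (Unit ⊕ (Fin m ⊕ Fin m) → F) :=
  QuadraticMap.linMulLin (LinearMap.proj (Sum.inl ())) (LinearMap.proj (Sum.inl ())) +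
  ∑ i : Fin m, QuadraticMap.linMulLin (LinearMap.proj (Sum.inr (Sum.inl i))) (LinearMap.proj (Sum.inr (Sum.inr i)))

theorem qOdd_apply (m : ℕ) (F : Type*) [Field F] (v : Unit ⊕ (Fin m ⊕ Fin m) → F) :
    qOdd m F v = Cfsg.quadFormOdd m F v := by
  rw [qOdd, QuadraticMap.add_apply, QuadraticMap.sum_apply]
  simp only [QuadraticMap.linMulLin_apply]
  unfold Cfsg.quadFormOdd
  rw [sq]
  rfl

theorem coe_qOdd (m : ℕ) (F : Type*) [Field F] : ⇑(qOdd m F) = Cfsg.quadFormOdd m F :=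
  funext (qOdd_apply m F)

theorem polar_qPlus (m : ℕ) (F : Type*) [Field F] (u v : Fin m ⊕ Fin m → F) :
    QuadraticMap.polar (Cfsg.quadFormPlus m F) u v =
      ∑ i : Fin m, (u (Sum.inl i) * v (Sum.inr i) + u (Sum.inr i) * v (Sum.inl i)) := by
  unfold QuadraticMap.polar Cfsg.quadFormPlus
  rw [← Finset.sum_sub_distrib, ← Finset.sum_sub_distrib]
  refine Finset.sum_congr rfl (fun i _ => ?_)
  simp only [Pi.add_apply]; ring

theorem polar_qMinus (m : ℕ) (F : Type*) [Field F] (a b : F) (u v : (Fin m ⊕ Fin m) ⊕ Fin 2 → F) :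
    QuadraticMap.polar (Cfsg.quadFormMinus m F a b) u v =
      (∑ i : Fin m, (u (Sum.inl (Sum.inl i)) * v (Sum.inl (Sum.inr i)) + u (Sum.inl (Sum.inr i)) * v (Sum.inl (Sum.inl i)))) +
      (2 * u (Sum.inr 0) * v (Sum.inr 0) + a * (u (Sum.inr 0) * v (Sum.inr 1) + u (Sum.inr 1) * v (Sum.inr 0)) + 2 * b * u (Sum.inr 1) * v (Sum.inr 1)) := by
  unfold QuadraticMap.polar Cfsg.quadFormMinus
  simp only [Pi.add_apply]
  have h : ∑ i : Fin m, (u (Sum.inl (Sum.inl i)) + v (Sum.inl (Sum.inl i))) * (u (Sum.inl (Sum.inr i)) + v (Sum.inl (Sum.inr i))) =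
      (∑ i : Fin m, (u (Sum.inl (Sum.inl i)) * v (Sum.inl (Sum.inr i)) + u (Sum.inl (Sum.inr i)) * v (Sum.inl (Sum.inl i)))) +
      (∑ i : Fin m, u (Sum.inl (Sum.inl i)) * u (Sum.inl (Sum.inr i))) + (∑ i : Fin m, v (Sum.inl (Sum.inl i)) * v (Sum.inl (Sum.inr i))) := by
    rw [← Finset.sum_add_distrib, ← Finset.sum_add_distrib]
    refine Finset.sum_congr rfl (fun i _ => ?_)
    ring
  rw [h]; ring

theorem polar_qOdd (m : ℕ) (F : Type*) [Field F] (u v : Unit ⊕ (Fin m ⊕ Fin m) → F) :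
    QuadraticMap.polar (Cfsg.quadFormOdd m F) u v =
      2 * u (Sum.inl ()) * v (Sum.inl ()) +
      ∑ i : Fin m, (u (Sum.inr (Sum.inl i)) * v (Sum.inr (Sum.inr i)) + u (Sum.inr (Sum.inr i)) * v (Sum.inr (Sum.inl i))) := by
  unfold QuadraticMap.polar Cfsg.quadFormOdd
  simp only [Pi.add_apply]
  have h : ∑ i : Fin m, (u (Sum.inr (Sum.inl i)) + v (Sum.inr (Sum.inl i))) * (u (Sum.inr (Sum.inr i)) + v (Sum.inr (Sum.inr i))) =
      (∑ i : Fin m, (u (Sum.inr (Sum.inl i)) * v (Sum.inr (Sum.inr i)) + u (Sum.inr (Sum.inr i)) * v (Sum.inr (Sum.inl i)))) +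
      (∑ i : Fin m, u (Sum.inr (Sum.inl i)) * u (Sum.inr (Sum.inr i))) + (∑ i : Fin m, v (Sum.inr (Sum.inl i)) * v (Sum.inr (Sum.inr i))) := by
    rw [← Finset.sum_add_distrib, ← Finset.sum_add_distrib]
    refine Finset.sum_congr rfl (fun i _ => ?_)
    ring
  rw [h]; ring

/-- Change of basis for Gram determinants. -/
theorem gram_det_basis {F V ι κ : Type*} [Field F] [AddCommGroup V] [Module F V] [Fintype ι] [DecidableEq ι]
    [Fintype κ] [DecidableEq κ] (B : LinearMap.BilinForm F V) (b : Basis ι F V) (b' : Basis κ F V) :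
    ∃ u : F, u ≠ 0 ∧ (Matrix.of (fun i j : ι => B (b i) (b j))).det = u ^ 2 * (Matrix.of (fun i j : κ => B (b' i) (b' j))).det := by
  classical
  let e : ι ≃ κ := b.indexEquiv b'
  let c := b.reindex e
  have h1 : (Matrix.of (fun i j : ι => B (b i) (b j))).det = (Matrix.of (fun i j : κ => B (c i) (c j))).det := by
    have h2 : (Matrix.of (fun i j : ι => B (b i) (b j))) = (Matrix.of (fun i j : κ => B (c i) (c j))).submatrix e e := by
      ext i j
      simp [c]
    rw [h2, Matrix.det_submatrix_equiv_self]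
  have h3 : (Matrix.of (fun i j : κ => B (c i) (c j))) = LinearMap.BilinForm.toMatrix c B := by
    ext i j; rw [LinearMap.BilinForm.toMatrix_apply]; rfl
  have h4 : (Matrix.of (fun i j : κ => B (b' i) (b' j))) = LinearMap.BilinForm.toMatrix b' B := by
    ext i j; rw [LinearMap.BilinForm.toMatrix_apply]; rfl
  refine ⟨(b'.toMatrix c).det, ?_, ?_⟩
  · have h5 : b'.toMatrix c * c.toMatrix b' = 1 := by rw [Basis.toMatrix_mul_toMatrix, Basis.toMatrix_self]
    have h6 := congrArg Matrix.det h5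
    rw [Matrix.det_mul, Matrix.det_one] at h6
    exact left_ne_zero_of_mul_eq_one h6
  · rw [h1, h3, h4, ← LinearMap.BilinForm.toMatrix_mul_basis_toMatrix b' c B, Matrix.det_mul, Matrix.det_mul, Matrix.det_transpose]
    ring

theorem isSquare_gram_iff {F V ι κ : Type*} [Field F] [AddCommGroup V] [Module F V] [Fintype ι] [DecidableEq ι]
    [Fintype κ] [DecidableEq κ] (B : LinearMap.BilinForm F V) (b : Basis ι F V) (b' : Basis κ F V) :
    IsSquare (Matrix.of (fun i j : ι => B (b i) (b j))).det ↔ IsSquare (Matrix.of (fun i j : κ => B (b' i) (b' j))).det := by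
  obtain ⟨u, hu, h⟩ := gram_det_basis B b b'
  rw [h]
  constructor
  · rintro ⟨r, hr⟩
    refine ⟨r / u, ?_⟩
    field_simp
    linear_combination hr
  · rintro ⟨r, hr⟩
    exact ⟨u * r, by rw [hr]; ring⟩

theorem det_swapBlocks (m : ℕ) (F : Type*) [Field F] :
    (Matrix.fromBlocks 0 1 1 0 : Matrix (Fin m ⊕ Fin m) (Fin m ⊕ Fin m) F).det = (-1) ^ m := by
  have h2 : (Matrix.fromBlocks 0 1 1 0 : Matrix (Fin m ⊕ Fin m) (Fin m ⊕ Fin m) F) * Matrix.fromBlocks 1 0 1 1 =
      Matrix.fromBlocks 1 1 1 0 := by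
    rw [Matrix.fromBlocks_multiply]; simp
  have h3 := congrArg Matrix.det h2
  rw [Matrix.det_mul, Matrix.det_fromBlocks_zero₁₂, Matrix.det_one, mul_one, mul_one, Matrix.det_fromBlocks_one₁₁] at h3
  rw [h3]
  simp [Matrix.det_neg]

theorem gram_qPlus_det (m : ℕ) (F : Type*) [Field F] :
    (Matrix.of (fun i j : Fin m ⊕ Fin m => (qPlus m F).polarBilin (Pi.basisFun F (Fin m ⊕ Fin m) i) (Pi.basisFun F (Fin m ⊕ Fin m) j))).det = (-1) ^ m := by
  classical
  have h1 : (Matrix.of (fun i j : Fin m ⊕ Fin m => (qPlus m F).polarBilin (Pi.basisFun F (Fin m ⊕ Fin m) i) (Pi.basisFun F (Fin m ⊕ Fin m) j))) =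
      Matrix.fromBlocks 0 1 1 0 := by
    ext i j
    show QuadraticMap.polar (qPlus m F) (Pi.basisFun F (Fin m ⊕ Fin m) i) (Pi.basisFun F (Fin m ⊕ Fin m) j) = _
    rw [coe_qPlus, polar_qPlus]
    rcases i with i | i <;> rcases j with j | j <;>
      simp [Pi.basisFun_apply, Pi.single_apply, Matrix.one_apply, Finset.sum_ite_eq, eq_comm]
  rw [h1, det_swapBlocks]

theorem gram_qMinus_det (m : ℕ) (F : Type*) [Field F] (a b : F) :
    (Matrix.of (fun i j : (Fin m ⊕ Fin m) ⊕ Fin 2 => (qMinus m F a b).polarBilin (Pi.basisFun F _ i) (Pi.basisFun F _ j))).det = (-1) ^ m * (4 * b - a ^ 2) := by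
  classical
  have h1 : (Matrix.of (fun i j : (Fin m ⊕ Fin m) ⊕ Fin 2 => (qMinus m F a b).polarBilin (Pi.basisFun F _ i) (Pi.basisFun F _ j))) =
      Matrix.fromBlocks (Matrix.fromBlocks 0 1 1 0) 0 0 !![2, a; a, 2 * b] := by
    ext i j
    show QuadraticMap.polar (qMinus m F a b) (Pi.basisFun F _ i) (Pi.basisFun F _ j) = _
    rw [coe_qMinus, polar_qMinus]
    rcases i with (i | i) | i <;> rcases j with (j | j) | j
    · simp [Pi.basisFun_apply, Pi.single_apply]
    · simp [Pi.basisFun_apply, Pi.single_apply, Matrix.one_apply, Finset.sum_ite_eq, eq_comm]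
    · fin_cases j <;> simp [Pi.basisFun_apply, Pi.single_apply]
    · simp [Pi.basisFun_apply, Pi.single_apply, Matrix.one_apply, Finset.sum_ite_eq, eq_comm]
    · simp [Pi.basisFun_apply, Pi.single_apply]
    · fin_cases j <;> simp [Pi.basisFun_apply, Pi.single_apply]
    · fin_cases i <;> simp [Pi.basisFun_apply, Pi.single_apply]
    · fin_cases i <;> simp [Pi.basisFun_apply, Pi.single_apply]
    · fin_cases i <;> fin_cases j <;> simp [Pi.basisFun_apply, Pi.single_apply]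
  rw [h1, Matrix.det_fromBlocks_zero₂₁, det_swapBlocks, Matrix.det_fin_two_of]
  ring

/-- `(-1)^m` is a square in a field with `q` elements, `q` odd, iff `m (q-1)/2` is even. -/
theorem isSquare_neg_one_pow_iff {F : Type*} [Field F] [Fintype F] {q : ℕ} (hF : Fintype.card F = q) (hq : Odd q) (m : ℕ) :
    IsSquare ((-1 : F) ^ m) ↔ Even (m * (q - 1) / 2) := by
  obtain ⟨k, hk⟩ := hq
  have h1 : m * (q - 1) / 2 = m * k := by
    have : m * (q - 1) = m * k * 2 := by rw [hk]; simp; ring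
    rw [this, Nat.mul_div_cancel _ (by norm_num)]
  rw [h1]
  rcases Nat.even_or_odd m with hm | hm
  · rw [hm.neg_one_pow]
    simp [hm.mul_right]
  · rw [hm.neg_one_pow, FiniteField.isSquare_neg_one_iff, hF, hk, Nat.even_mul]
    have : ¬ Even m := Nat.not_even_iff_odd.mpr hm
    simp only [this, false_or]
    rw [Nat.even_iff]
    omega

end Cfsg.Agent.H17
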