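import Mathlib
import Cfsg.Agent.H17.OrdC
import Cfsg.Agent.H17.PolSU3
import Cfsg.Agent.H17.UnipGU
import Cfsg.Agent.H17.PSLOrders

set_option autoImplicit false

/-! Elements of special unitary groups of given orders. -/

namespace Cfsg.Agent.H17

open Module Cfsg Cfsg.Agent.H5
open scoped MatrixGroups Matrix

variable {F : Type*} [Field F]

theorem to_gu [Finite F] {σ : F →+* F} {V : Type*} [AddCommGroup V] [Module F V] [FiniteDimensional F V] {n : ℕ} (B : V →ₛₗ[σ] V →ₗ[F] F) (hσ1 : σ ≠ RingHom.id F) (hσ2 : ∀ a, σ (σ a) = a)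
    (hS : ∀ x y, σ (B x y) = B y x) (hnd : ∀ x, (∀ y, B x y = 0) → x = 0) (hfr : finrank F V = n) :
    ∃ ψ : Module.End F V ≃ₐ[F] Matrix (Fin n) (Fin n) F,
      (∀ x : Module.End F V, (∀ u v, B (x u) (x v) = B u v) → ∀ u v, hB (Fin n) σ (ψ x *ᵥ u) (ψ x *ᵥ v) = hB (Fin n) σ u v) ∧
      ∀ x, (ψ x).det = LinearMap.det x := by
  obtain ⟨v, -, hv⟩ := exists_orthonormal hσ1 hσ2 hS n ⊤ (by rw [finrank_top, hfr]) (fun x _ h => hnd x (fun y => h y trivial))
  have hind := orthonormal_indep hv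
  let b := basisOfLinearIndependentOfCardEqFinrank' v hind (by rw [Fintype.card_fin, hfr])
  have hb : ∀ i, b i = v i := fun i => by simp [b]
  let e : V ≃ₗ[F] (Fin n → F) := b.equivFun
  have he : ∀ x y, B x y = hB (Fin n) σ (e x) (e y) := by
    intro x y
    have h1 : ∀ z, z = ∑ j, (e z) j • v j := by
      intro z
      have := b.sum_equivFun z
      simp only [hb] at this
      exact this.symm
    conv_lhs => rw [h1 x, h1 y]
    rw [orthonormal_norm hv]
    rfl
  refine ⟨(LinearEquiv.conjAlgEquiv F e).trans (LinearMap.toMatrixAlgEquiv' (R := F) (n := Fin n)), fun x hx => ?_, fun x => ?_⟩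
  · have h1 : ∀ w, ((LinearEquiv.conjAlgEquiv F e).trans (LinearMap.toMatrixAlgEquiv' (R := F) (n := Fin n)) x) *ᵥ w = e (x (e.symm w)) := by
      intro w
      show (LinearMap.toMatrix' (LinearEquiv.conjAlgEquiv F e x)) *ᵥ w = _
      rw [LinearMap.toMatrix'_mulVec]
      rfl
    intro u w
    rw [h1, h1, ← he, hx, he, LinearEquiv.apply_symm_apply, LinearEquiv.apply_symm_apply]
  · show (LinearMap.toMatrix' (LinearEquiv.conjAlgEquiv F e x)).det = _
    rw [LinearMap.det_toMatrix']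
    exact LinearMap.det_conj x e

/-- the unitary group elements with projective order a multiple of `k` -/
def ExU (F : Type*) [Field F] (σ : F →+* F) (n k : ℕ) : Prop :=
  ∃ M : Matrix (Fin n) (Fin n) F, M.det = 1 ∧ (∀ u v, hB (Fin n) σ (M *ᵥ u) (M *ᵥ v) = hB (Fin n) σ u v) ∧ ∀ (j : ℕ) (c : F), M ^ j = c • (1 : Matrix (Fin n) (Fin n) F) → k ∣ j

theorem exu_order [Fintype F] {σ : F →+* F} {q n : ℕ} (hF : Fintype.card F = q ^ 2) (hσ : ∀ x, σ x = x ^ q) (hn : 2 ≤ n) {k : ℕ} (h : ExU F σ n k) :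
    ∃ g : PSU n F q, k ∣ orderOf g := by
  obtain ⟨M, hdet, hM, hk⟩ := h
  let s : SU n F q := ⟨⟨M, hdet⟩, (mem_SU_iff hσ).mpr hM⟩
  refine ⟨QuotientGroup.mk s, ?_⟩
  have h1 := pow_orderOf_eq_one (QuotientGroup.mk s : PSU n F q)
  generalize orderOf (QuotientGroup.mk s : PSU n F q) = j at h1 ⊢
  have h2 : (QuotientGroup.mk' (Subgroup.center (SU n F q)) (s ^ j)) = QuotientGroup.mk' (Subgroup.center (SU n F q)) 1 := by
    rw [map_one]; exact h1
  obtain ⟨c, hc⟩ := (pr_eq_SU hF hσ hn _ _).mp h2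
  apply hk j c
  apply Matrix.ext_of_mulVec_single
  intro i
  have h3 := hc (Pi.single i 1)
  rw [sv_one] at h3
  rw [Matrix.smul_mulVec, Matrix.one_mulVec, ← h3]
  rfl

theorem trace_frob {F E : Type*} [Field F] [Finite F] [Field E] [Finite E] [Algebra F E] {σ : F →+* F} {q : ℕ} (hσ : ∀ x, σ x = x ^ q) (p a : ℕ) [Fact p.Prime] [CharP F p] (hq : q = p ^ a) (z : E) :
    σ (Algebra.trace F E z) = Algebra.trace F E (z ^ q) := by
  haveI := Fintype.ofFinite F
  haveI : CharP E p := charP_of_injective_algebraMap (algebraMap F E).injective p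
  haveI : Module.Finite F E := Module.Finite.of_finite
  apply (algebraMap F E).injective
  rw [hσ, map_pow, FiniteField.algebraMap_trace_eq_sum_pow, FiniteField.algebraMap_trace_eq_sum_pow, hq]
  rw [sum_pow_char_pow]
  apply Finset.sum_congr rfl
  intro i _
  rw [← pow_mul, ← pow_mul, mul_comm]

end Cfsg.Agent.H17
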