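import Mathlib
import Cfsg.Agent.H17.SuOrdA

set_option autoImplicit false

/-! Tori of special unitary groups. -/

namespace Cfsg.Agent.H17

open Module Cfsg Cfsg.Agent.H5
open scoped MatrixGroups Matrix

def suN (q n : ℕ) : ℕ := if Even n then q ^ n - 1 else q ^ n + 1
def suB (q n : ℕ) : ℕ := suN q n / (q + 1)
def suA (q n : ℕ) : ℕ := suB q n / Nat.gcd (suB q n) (q + 1)

theorem suB_mul (q n : ℕ) (hq : 1 ≤ q) : suB q n * (q + 1) = suN q n := by
  apply Nat.div_mul_cancel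
  unfold suN
  by_cases hn : Even n
  · rw [if_pos hn]
    obtain ⟨k, rfl⟩ := hn
    have h1 : q ^ 2 - 1 ∣ q ^ (k + k) - 1 := by
      have := Nat.sub_dvd_pow_sub_pow (q ^ 2) 1 k
      rwa [one_pow, ← pow_mul, two_mul] at this
    have h2 : q + 1 ∣ q ^ 2 - 1 := ⟨q - 1, by
      obtain ⟨m, rfl⟩ : ∃ m, q = m + 1 := ⟨q - 1, by omega⟩
      have : (m + 1) ^ 2 = m * m + 2 * m + 1 := by ring
      rw [this]
      simp only [Nat.add_sub_cancel]
      ring⟩
    exact h2.trans h1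
  · rw [if_neg hn]
    have := (Nat.not_even_iff_odd.mp hn).nat_add_dvd_pow_add_pow q 1
    rwa [one_pow] at this

theorem suA_dvd {q n j : ℕ} (hq : 1 ≤ q) (h : suB q n ∣ j * (q + 1)) : suA q n ∣ j := by
  unfold suA
  obtain ⟨B, hB⟩ : ∃ B, B = suB q n := ⟨_, rfl⟩
  rw [← hB] at h ⊢
  obtain ⟨A, c, hAc, h1, h2⟩ := Nat.exists_coprime B (q + 1)
  have hg : 0 < Nat.gcd B (q + 1) := Nat.gcd_pos_of_pos_right _ (Nat.succ_pos q)
  obtain ⟨g, hgg⟩ : ∃ g, g = Nat.gcd B (q + 1) := ⟨_, rfl⟩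
  rw [← hgg] at h1 h2 hg ⊢
  rw [h1, h2, ← mul_assoc] at h
  rw [h1, Nat.mul_div_cancel _ hg]
  have h4 : A ∣ j * c := Nat.dvd_of_mul_dvd_mul_right hg h
  exact (Nat.Coprime.dvd_mul_right hAc).mp h4

theorem suA_mul {q n : ℕ} : suB q n ∣ suA q n * (q + 1) := by
  unfold suA
  obtain ⟨B, hB⟩ : ∃ B, B = suB q n := ⟨_, rfl⟩
  rw [← hB]
  obtain ⟨A, c, hAc, h1, h2⟩ := Nat.exists_coprime B (q + 1)
  have hg : 0 < Nat.gcd B (q + 1) := Nat.gcd_pos_of_pos_right _ (Nat.succ_pos q)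
  obtain ⟨g, hgg⟩ : ∃ g, g = Nat.gcd B (q + 1) := ⟨_, rfl⟩
  rw [← hgg] at h1 h2 hg ⊢
  rw [h2, h1, Nat.mul_div_cancel _ hg]
  exact ⟨c, by ring⟩

variable {F : Type*} [Field F]

theorem trace_pow_Q {E : Type*} [Field E] [Finite E] [Algebra F E] [Finite F] (j : ℕ) (z : E) :
    Algebra.trace F E (z ^ (Nat.card F ^ j)) = Algebra.trace F E z := by
  haveI := Fintype.ofFinite F
  have h := Algebra.trace_eq_of_algEquiv (FiniteField.frobeniusAlgEquivOfAlgebraic F E ^ j) z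
  rw [AlgEquiv.coe_pow, FiniteField.coe_frobeniusAlgEquivOfAlgebraic_iterate] at h
  rw [Nat.card_eq_fintype_card]
  exact h

theorem exu_odd [Finite F] {σ : F →+* F} {q : ℕ} (hF : Nat.card F = q ^ 2) (hσ : ∀ x, σ x = x ^ q) (hσ1 : σ ≠ RingHom.id F) (hσ2 : ∀ a, σ (σ a) = a)
    (p a : ℕ) [Fact p.Prime] [CharP F p] (hq : q = p ^ a) {n : ℕ} (hn : ¬ Even n) : ExU F σ n (suA q n) := by
  have hno : Odd n := Nat.not_even_iff_odd.mp hn
  have hn0 : n ≠ 0 := by rintro rfl; exact hn Even.zero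
  have hq1 : 1 ≤ q := by rw [hq]; exact Nat.one_le_pow _ _ (Fact.out : p.Prime).pos
  obtain ⟨E, _, _, _, hE⟩ := exists_extension (F := F) n hn0
  haveI : Module.Finite F E := Module.Finite.of_finite
  haveI := Fintype.ofFinite F
  haveI := Fintype.ofFinite E
  haveI : CharP E p := charP_of_injective_algebraMap (algebraMap F E).injective p
  have hcE : Nat.card E = q ^ n * q ^ n := by
    rw [Module.natCard_eq_pow_finrank (K := F) (V := E), hE, hF, ← pow_mul, ← pow_add]; congr 1; ring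
  have hcE' : Nat.card E = q ^ (2 * n) := by rw [hcE, ← pow_add]; congr 1; ring
  have hpowE : ∀ x : E, x ^ (q ^ (2 * n)) = x := fun x => by rw [← hcE', Nat.card_eq_fintype_card, FiniteField.pow_card]
  obtain ⟨ζ, hζ⟩ := exists_orderOf_eq_card_units E
  obtain ⟨Q, hQ⟩ : ∃ Q, Q = q ^ n := ⟨_, rfl⟩
  have hQ1 : 1 ≤ Q := by rw [hQ]; exact Nat.one_le_pow _ _ hq1
  have hq2 : 2 ≤ q := by
    have h1 := Finite.one_lt_card (α := F)
    rw [hF] at h1
    by_contra h
    have : q = 1 := by omega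
    rw [this] at h1; norm_num at h1
  have hQ2 : 1 < Q := by rw [hQ]; exact Nat.one_lt_pow hn0 (by omega)
  rw [hcE, ← hQ] at hζ
  have hfac : Q * Q - 1 = (Q - 1) * (Q + 1) := by
    obtain ⟨k, rfl⟩ : ∃ k, Q = k + 1 := ⟨Q - 1, by omega⟩
    have : (k + 1) * (k + 1) = k * k + 2 * k + 1 := by ring
    rw [this]
    simp only [Nat.add_sub_cancel]
    ring
  rw [hfac] at hζ
  -- the automorphism
  let τ : E →+* E := iterateFrobenius E p (a * n)
  have hτ : ∀ x, τ x = x ^ Q := by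
    intro x
    show iterateFrobenius E p (a * n) x = _
    rw [iterateFrobenius_def, hQ, hq, ← pow_mul]
  have hcF : ∀ c : F, c ^ (q ^ 2) = c := fun c => by rw [← hF, Nat.card_eq_fintype_card, FiniteField.pow_card]
  have hcFn : ∀ (k : ℕ) (c : F), c ^ (q ^ (2 * k)) = c := by
    intro k
    induction k with
    | zero => intro c; simp
    | succ k ih => intro c; rw [show 2 * (k + 1) = 2 + 2 * k by ring, pow_add, pow_mul, hcF, ih]
  have hτF : ∀ c : F, τ (algebraMap F E c) = algebraMap F E (σ c) := by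
    intro c
    rw [hτ, ← map_pow, hσ, hQ]
    congr 1
    obtain ⟨k, rfl⟩ := hno
    rw [pow_succ, pow_mul, hcFn]
  have hττ : ∀ x, τ (τ x) = x := by
    intro x
    rw [hτ, hτ, ← pow_mul, hQ, ← pow_add, ← two_mul, hpowE]
  let B : E →ₛₗ[σ] E →ₗ[F] F := LinearMap.mk₂'ₛₗ σ (RingHom.id F) (fun x y => Algebra.trace F E (τ x * y))
    (by intro x y z; rw [map_add τ, add_mul, map_add])
    (by intro c x y; rw [Algebra.smul_def, map_mul τ, hτF, mul_assoc, ← Algebra.smul_def, map_smul])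
    (by intro x y z; rw [mul_add, map_add])
    (by intro c x y; rw [mul_smul_comm, map_smul, RingHom.id_apply])
  have hBa : ∀ x y, B x y = Algebra.trace F E (τ x * y) := fun x y => rfl
  have htr : ∀ x : E, (∀ y, Algebra.trace F E (x * y) = 0) → x = 0 := by
    intro x hx
    exact (traceForm_nondegenerate F E).1 x (fun y => by rw [Algebra.traceForm_apply]; exact hx y)
  obtain ⟨ψ, hψ1, hψ2⟩ := to_gu B hσ1 hσ2 (fun x y => by
      rw [hBa, hBa, trace_frob hσ p a hq, hτ, hτ]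
      obtain ⟨k, hk⟩ := hno
      rw [← trace_pow_Q (F := F) (k + 1) (y ^ Q * x)]
      congr 1
      have e1 : Nat.card F ^ (k + 1) = q * Q := by
        rw [hF, hQ, hk, ← pow_mul, ← pow_succ']; congr 1
      have e2 : (y ^ Q) ^ Q = y := by
        have := hττ y
        rwa [hτ, hτ] at this
      rw [e1, mul_pow, mul_pow, ← pow_mul, ← pow_mul, show Q * (q * Q) = Q * Q * q by ring, pow_mul y (Q * Q) q, pow_mul y Q Q, e2,
        show q * Q = Q * q by ring, mul_comm])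
    (fun x hx => by
      have h1 := htr (τ x) (fun y => hx y)
      rw [← hττ x, h1, map_zero]) hE
  have hζu : ∀ k, (ζ : E) ^ k = 1 ↔ (Q - 1) * (Q + 1) ∣ k := by
    intro k
    rw [← hζ, orderOf_dvd_iff_pow_eq_one, ← Units.val_pow_eq_pow_val, Units.val_eq_one]
  obtain ⟨z, hz⟩ : ∃ z : E, z = (ζ : E) ^ ((Q - 1) * (q + 1)) := ⟨_, rfl⟩
  have hN : suB q n * (q + 1) = Q + 1 := by
    rw [suB_mul q n hq1, suN, if_neg hn, hQ]
  have hz1 : τ z * z = 1 := by
    rw [hτ, ← pow_succ, hz, ← pow_mul, hζu]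
    exact ⟨q + 1, by ring⟩
  have hpw : ∀ j : ℕ, (LinearMap.mulLeft F z) ^ j = LinearMap.mulLeft F (z ^ j) := fun j => LinearMap.pow_mulLeft F E z j
  refine ⟨ψ (LinearMap.mulLeft F z), ?_, ?_, ?_⟩
  · rw [hψ2]
    have h1 : LinearMap.det (LinearMap.mulLeft F z) = Algebra.norm F z := (Algebra.norm_apply F z).symm
    rw [h1]
    apply (algebraMap F E).injective
    rw [FiniteField.algebraMap_norm_eq_pow, map_one, hz, ← pow_mul, hζu, hcE, ← hQ, hF, hfac]
    have h3 : q ^ 2 - 1 ∣ (Q - 1) * (Q + 1) := by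
      rw [← hfac, hQ, ← pow_add, ← two_mul, pow_mul]
      simpa using Nat.sub_dvd_pow_sub_pow (q ^ 2) 1 n
    obtain ⟨t, ht⟩ := h3
    have h4 : 0 < q ^ 2 - 1 := by
      have : 1 < q ^ 2 := Nat.one_lt_pow (by norm_num) (by omega)
      omega
    rw [ht, Nat.mul_div_cancel_left t h4]
    have h5 : q ^ 2 - 1 ∣ (Q - 1) * (q + 1) := by
      have e1 : q ^ 2 - 1 = (q - 1) * (q + 1) := by
        obtain ⟨m, rfl⟩ : ∃ m, q = m + 1 := ⟨q - 1, by omega⟩
        have : (m + 1) ^ 2 = m * m + 2 * m + 1 := by ring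
        rw [this]
        simp only [Nat.add_sub_cancel]
        ring
      rw [e1, hQ]
      apply Nat.mul_dvd_mul_right
      simpa using Nat.sub_dvd_pow_sub_pow q 1 n
    exact Nat.mul_dvd_mul_right h5 t
  · apply hψ1
    intro u v
    have e1 : τ (z * u) * (z * v) = τ u * v := by
      rw [map_mul τ]
      linear_combination (τ u * v) * hz1
    rw [hBa, hBa, LinearMap.mulLeft_apply, LinearMap.mulLeft_apply, e1]
  · intro j c hj
    have h1 : (LinearMap.mulLeft F z) ^ j = c • (1 : Module.End F E) := by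
      apply ψ.injective
      rw [map_pow, hj, map_smul, map_one]
    rw [hpw] at h1
    have h2 : z ^ j = algebraMap F E c := by
      have := congrArg (fun f : Module.End F E => f 1) h1
      simpa [Algebra.algebraMap_eq_smul_one] using this
    have h3 : z ^ (j * (q + 1)) = 1 := by
      have h4 : τ (z ^ j) * z ^ j = 1 := by rw [map_pow, ← mul_pow, hz1, one_pow]
      rw [h2, hτF, hσ, ← map_mul, ← pow_succ] at h4
      rw [pow_mul, h2, ← map_pow, h4]
    rw [hz, ← pow_mul, hζu, mul_assoc] at h3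
    have h4 := Nat.dvd_of_mul_dvd_mul_left (by omega : 0 < Q - 1) h3
    rw [← hN, mul_comm] at h4
    exact suA_dvd hq1 (Nat.dvd_of_mul_dvd_mul_left (Nat.succ_pos q) h4)

end Cfsg.Agent.H17
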