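import Mathlib
import Cfsg.Agent.H17.SuOrdB
import Cfsg.Agent.H17.RegUni

set_option autoImplicit false

/-! Further elements of special unitary groups. -/

namespace Cfsg.Agent.H17

open Module Cfsg Cfsg.Agent.H5
open scoped MatrixGroups Matrix

variable {F : Type*} [Field F]

theorem exu_even [Finite F] {σ : F →+* F} {q : ℕ} (hF : Nat.card F = q ^ 2) (hσ : ∀ x, σ x = x ^ q) (hσ1 : σ ≠ RingHom.id F) (hσ2 : ∀ a, σ (σ a) = a)
    (p a : ℕ) [Fact p.Prime] [CharP F p] (hq : q = p ^ a) {n : ℕ} (hn : Even n) (hn0 : n ≠ 0) : ExU F σ n (suA q n) := by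
  have hq1 : 1 ≤ q := by rw [hq]; exact Nat.one_le_pow _ _ (Fact.out : p.Prime).pos
  obtain ⟨l, hl⟩ := hn
  obtain ⟨E, _, _, _, hE⟩ := exists_extension (F := F) l (by omega)
  haveI : Module.Finite F E := Module.Finite.of_finite
  haveI := Fintype.ofFinite F
  haveI := Fintype.ofFinite E
  haveI : CharP E p := charP_of_injective_algebraMap (algebraMap F E).injective p
  have hcE : Nat.card E = q ^ n := by
    rw [Module.natCard_eq_pow_finrank (K := F) (V := E), hE, hF, ← pow_mul, hl]; congr 1; ring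
  have hpowE : ∀ x : E, x ^ (q ^ n) = x := fun x => by rw [← hcE, Nat.card_eq_fintype_card, FiniteField.pow_card]
  obtain ⟨ζ, hζ⟩ := exists_orderOf_eq_card_units E
  rw [hcE] at hζ
  have hq2 : 2 ≤ q := by
    have h1 := Finite.one_lt_card (α := F)
    rw [hF] at h1
    by_contra h
    have : q = 1 := by omega
    rw [this] at h1; norm_num at h1
  let τ : E →+* E := iterateFrobenius E p a
  let τ' : E →+* E := iterateFrobenius E p (a * (n - 1))
  have hτ : ∀ x, τ x = x ^ q := by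
    intro x
    show iterateFrobenius E p a x = _
    rw [iterateFrobenius_def, hq]
  have hτ' : ∀ x, τ' x = x ^ (q ^ (n - 1)) := by
    intro x
    show iterateFrobenius E p (a * (n - 1)) x = _
    rw [iterateFrobenius_def, hq, ← pow_mul]
  have hcF : ∀ c : F, c ^ (q ^ 2) = c := fun c => by rw [← hF, Nat.card_eq_fintype_card, FiniteField.pow_card]
  have hcFn : ∀ (k : ℕ) (c : F), c ^ (q ^ (2 * k)) = c := by
    intro k
    induction k with
    | zero => intro c; simp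
    | succ k ih => intro c; rw [show 2 * (k + 1) = 2 + 2 * k by ring, pow_add, pow_mul, hcF, ih]
  have hτF : ∀ c : F, τ (algebraMap F E c) = algebraMap F E (σ c) := by
    intro c
    rw [hτ, ← map_pow, hσ]
  have hn1 : n - 1 = 2 * (l - 1) + 1 := by omega
  have hτF' : ∀ c : F, τ' (algebraMap F E c) = algebraMap F E (σ c) := by
    intro c
    rw [hτ', ← map_pow, hσ, hn1, pow_succ, pow_mul, hcFn]
  have hpp : ∀ x : E, (x ^ (q ^ (n - 1))) ^ q = x := by
    intro x
    rw [← pow_mul, ← pow_succ, Nat.sub_add_cancel (by omega), hpowE]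
  have hpp' : ∀ x : E, (x ^ q) ^ (q ^ (n - 1)) = x := by
    intro x
    rw [← pow_mul, mul_comm, pow_mul, hpp]
  have hττ' : ∀ x, τ (τ' x) = x := fun x => by rw [hτ, hτ', hpp]
  have hτ'τ : ∀ x, τ' (τ x) = x := fun x => by rw [hτ, hτ', hpp']
  let B : (E × E) →ₛₗ[σ] (E × E) →ₗ[F] F := LinearMap.mk₂'ₛₗ σ (RingHom.id F) (fun x y => Algebra.trace F E (τ x.1 * y.2 + τ' x.2 * y.1))
    (by intro x y z
        rw [← map_add]; congr 1
        rw [Prod.fst_add, Prod.snd_add, map_add τ, map_add τ']; ring)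
    (by intro c x y
        rw [← map_smul]; congr 1
        rw [Prod.smul_fst, Prod.smul_snd, Algebra.smul_def, Algebra.smul_def, Algebra.smul_def, map_mul τ, map_mul τ', hτF, hτF']; ring)
    (by intro x y z
        rw [← map_add]; congr 1
        rw [Prod.fst_add, Prod.snd_add]; ring)
    (by intro c x y
        rw [RingHom.id_apply, ← map_smul]; congr 1
        rw [Prod.smul_fst, Prod.smul_snd, Algebra.smul_def, Algebra.smul_def, Algebra.smul_def]; ring)
  have hBa : ∀ x y, B x y = Algebra.trace F E (τ x.1 * y.2 + τ' x.2 * y.1) := fun x y => rfl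
  have htr : ∀ x : E, (∀ y, Algebra.trace F E (x * y) = 0) → x = 0 := by
    intro x hx
    exact (traceForm_nondegenerate F E).1 x (fun y => by rw [Algebra.traceForm_apply]; exact hx y)
  have htrq : ∀ x : E, Algebra.trace F E (τ (τ x)) = Algebra.trace F E x := by
    intro x
    rw [← trace_pow_Q (F := F) 1 x, hτ, hτ, ← pow_mul, hF, pow_one, pow_two]
  obtain ⟨ψ, hψ1, hψ2⟩ := to_gu (n := n) B hσ1 hσ2 (fun x y => by
      rw [hBa, hBa, trace_frob hσ p a hq, ← hτ, map_add τ, map_mul τ, map_mul τ, hττ']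
      have e1 : τ (τ x.1) * τ y.2 = τ (τ (x.1 * τ' y.2)) := by
        rw [map_mul τ, map_mul τ, hττ']
      rw [map_add, e1, htrq, map_add, add_comm]
      congr 2
      · ring
      · ring)
    (fun x hx => by
      have h1 : x.1 = 0 := by
        have h2 := htr (τ x.1) (fun y => by
          have := hx (0, y)
          rwa [hBa, mul_zero, add_zero] at this)
        rw [← hτ'τ x.1, h2, map_zero]
      have h3 : x.2 = 0 := by
        have h2 := htr (τ' x.2) (fun y => by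
          have := hx (y, 0)
          rwa [hBa, mul_zero, zero_add] at this)
        rw [← hττ' x.2, h2, map_zero]
      exact Prod.ext h1 h3) (by rw [Module.finrank_prod, hE, hl])
  have hζu : ∀ k, (ζ : E) ^ k = 1 ↔ (q ^ n - 1) ∣ k := by
    intro k
    rw [← hζ, orderOf_dvd_iff_pow_eq_one, ← Units.val_pow_eq_pow_val, Units.val_eq_one]
  obtain ⟨y, hy⟩ : ∃ y : E, y = (ζ : E) ^ (q + 1) := ⟨_, rfl⟩
  obtain ⟨z, hz⟩ : ∃ z : E, z = (τ y)⁻¹ := ⟨_, rfl⟩
  have hy0 : y ≠ 0 := by rw [hy]; exact pow_ne_zero _ ζ.ne_zero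
  have hτy0 : τ y ≠ 0 := fun h => hy0 ((map_eq_zero τ).mp h)
  have hyz : τ y * z = 1 := by rw [hz, mul_inv_cancel₀ hτy0]
  have hyz' : τ' z * y = 1 := by
    rw [← hτ'τ y, ← map_mul, mul_comm, hyz, map_one]
  have hN : suB q n * (q + 1) = q ^ n - 1 := by
    rw [suB_mul q n hq1, suN, if_pos ⟨l, hl⟩]
  have hpw : ∀ j : ℕ, ((LinearMap.mulLeft F y).prodMap (LinearMap.mulLeft F z)) ^ j = (LinearMap.mulLeft F (y ^ j)).prodMap (LinearMap.mulLeft F (z ^ j)) := by
    intro j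
    induction j with
    | zero => rw [pow_zero, pow_zero, pow_zero, LinearMap.mulLeft_one]; rfl
    | succ j ih =>
      rw [pow_succ, ih, pow_succ, pow_succ, LinearMap.mulLeft_mul, LinearMap.mulLeft_mul]
      rfl
  refine ⟨ψ ((LinearMap.mulLeft F y).prodMap (LinearMap.mulLeft F z)), ?_, ?_, ?_⟩
  · rw [hψ2, LinearMap.det_prodMap]
    have h1 : ∀ w : E, LinearMap.det (LinearMap.mulLeft F w) = Algebra.norm F w := fun w => (Algebra.norm_apply F w).symm
    rw [h1, h1, ← map_mul]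
    apply (algebraMap F E).injective
    rw [FiniteField.algebraMap_norm_eq_pow, map_one]
    obtain ⟨D, hD⟩ : ∃ D, D = (Nat.card E - 1) / (Nat.card F - 1) := ⟨_, rfl⟩
    rw [← hD]
    have hq21 : q ^ 2 - 1 = (q - 1) * (q + 1) := by
      obtain ⟨m, rfl⟩ : ∃ m, q = m + 1 := ⟨q - 1, by omega⟩
      have : (m + 1) ^ 2 = m * m + 2 * m + 1 := by ring
      rw [this]
      simp only [Nat.add_sub_cancel]
      ring
    have hDm : D * (q ^ 2 - 1) = q ^ n - 1 := by
      rw [hD, hcE, hF]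
      apply Nat.div_mul_cancel
      rw [hl, ← two_mul, pow_mul]
      simpa using Nat.sub_dvd_pow_sub_pow (q ^ 2) 1 l
    have hyD : (τ y) ^ D = y ^ D := by
      rw [hτ, hy]
      have h2 : ((ζ : E) ^ (q + 1)) ^ q = ((ζ : E) ^ (q + 1)) ^ (q - 1) * ((ζ : E) ^ (q + 1)) := by
        rw [← pow_succ, Nat.sub_add_cancel hq1]
      rw [h2, mul_pow]
      have h3 : (((ζ : E) ^ (q + 1)) ^ (q - 1)) ^ D = 1 := by
        rw [← pow_mul, ← pow_mul, hζu, ← hDm, hq21]
        exact dvd_of_eq (by ring)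
      rw [h3, one_mul]
    rw [mul_pow, hz, inv_pow, hyD, mul_inv_cancel₀ (pow_ne_zero _ hy0)]
  · apply hψ1
    intro u v
    rw [hBa, hBa]
    congr 1
    show τ (y * u.1) * (z * v.2) + τ' (z * u.2) * (y * v.1) = _
    rw [map_mul τ, map_mul τ']
    linear_combination (τ u.1 * v.2) * hyz + (τ' u.2 * v.1) * hyz'
  · intro j c hj
    have h1 : ((LinearMap.mulLeft F y).prodMap (LinearMap.mulLeft F z)) ^ j = c • (1 : Module.End F (E × E)) := by
      apply ψ.injective
      rw [map_pow, hj, map_smul, map_one]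
    rw [hpw] at h1
    have h2 : y ^ j = algebraMap F E c := by
      have := congrArg Prod.fst (congrArg (fun f : Module.End F (E × E) => f (1, 0)) h1)
      simpa [Algebra.algebraMap_eq_smul_one] using this
    have h2' : z ^ j = algebraMap F E c := by
      have := congrArg Prod.snd (congrArg (fun f : Module.End F (E × E) => f (0, 1)) h1)
      simpa [Algebra.algebraMap_eq_smul_one] using this
    have h3 : y ^ (j * (q + 1)) = 1 := by
      have h4 : τ (y ^ j) * z ^ j = 1 := by rw [map_pow, ← mul_pow, hyz, one_pow]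
      rw [h2, h2', hτF, hσ, ← map_mul, ← pow_succ] at h4
      rw [pow_mul, h2, ← map_pow, h4]
    rw [hy, ← pow_mul, hζu, ← hN, mul_comm (suB q n)] at h3
    exact suA_dvd hq1 (Nat.dvd_of_mul_dvd_mul_left (Nat.succ_pos q) h3)

/-- a unipotent matrix is only a scalar if it is the identity -/
theorem unip_scalar {n : ℕ} (hn : n ≠ 0) {M : Matrix (Fin n) (Fin n) F} (hM : IsNilpotent (M - 1)) {j : ℕ} {c : F} (h : M ^ j = c • (1 : Matrix (Fin n) (Fin n) F)) : c = 1 := by
  haveI : Nonempty (Fin n) := ⟨⟨0, Nat.pos_of_ne_zero hn⟩⟩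
  have h1 : IsNilpotent (M ^ j - 1) := by
    have h2 : M - 1 ∣ M ^ j - 1 := sub_one_dvd_pow_sub_one M j
    obtain ⟨k, hk⟩ := hM
    have hcom : Commute (M - 1) (∑ i ∈ Finset.range j, M ^ i) := by
      apply Commute.sum_right
      intro i _
      exact ((Commute.refl M).pow_right i).sub_left (Commute.one_left _)
    have h3 : (M - 1) * (∑ i ∈ Finset.range j, M ^ i) = M ^ j - 1 := by
      rw [hcom.eq]; exact geom_sum_mul M j
    exact ⟨k, by rw [← h3, hcom.mul_pow, hk, zero_mul]⟩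
  rw [h] at h1
  have h2 : c • (1 : Matrix (Fin n) (Fin n) F) - 1 = Matrix.scalar (Fin n) (c - 1) := by
    rw [Matrix.scalar_apply, ← Matrix.smul_one_eq_diagonal, sub_smul, one_smul]
  rw [h2] at h1
  have := scalar_nilp h1
  exact sub_eq_zero.mp this

theorem exu_unip [Fintype F] {σ : F →+* F} {q : ℕ} (hF : Fintype.card F = q ^ 2) (hσ : ∀ x, σ x = x ^ q) (p T : ℕ) [Fact p.Prime] [CharP F p] {m : ℕ} (hm : 1 ≤ m)
    (h1 : p ^ T < m) (h2 : m ≤ p ^ (T + 1)) :
    ∃ M : Matrix (Fin m) (Fin m) F, M.det = 1 ∧ (∀ u v, hB (Fin m) σ (M *ᵥ u) (M *ᵥ v) = hB (Fin m) σ u v) ∧ ∀ (j : ℕ) (c : F), M ^ j = c • (1 : Matrix (Fin m) (Fin m) F) → c = 1 ∧ p ^ (T + 1) ∣ j := by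
  obtain ⟨A, hA⟩ : ∃ A : GL (Fin m) F, (A : Matrix (Fin m) (Fin m) F) = 1 + nilJ F m m :=
    ⟨Matrix.GeneralLinearGroup.mkOfDetNeZero (1 + nilJ F m m) (by have := (unipJ F m m).2; rw [show ((unipJ F m m : Matrix.SpecialLinearGroup (Fin m) F).1) = 1 + nilJ F m m from rfl] at this; rw [this]; exact one_ne_zero), rfl⟩
  have hnil : IsNilpotent ((A : Matrix (Fin m) (Fin m) F) - 1) := by
    rw [hA, add_sub_cancel_left]
    exact ⟨m, (nilJ_pow_eq_zero_iff F m m m (by omega) hm le_rfl).mpr le_rfl⟩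
  obtain ⟨B, hB⟩ := gu_unip hF hnil
  obtain ⟨c, hc⟩ := isConj_iff.mp hB
  have hBA : ((B : GL (Fin m) F) : Matrix (Fin m) (Fin m) F) = (c : Matrix (Fin m) (Fin m) F) * (A : Matrix (Fin m) (Fin m) F) * ((c⁻¹ : GL (Fin m) F) : Matrix (Fin m) (Fin m) F) := by
    rw [← hc]; rfl
  have hci : (c : Matrix (Fin m) (Fin m) F) * ((c⁻¹ : GL (Fin m) F) : Matrix (Fin m) (Fin m) F) = 1 := by
    rw [← Units.val_mul, mul_inv_cancel, Units.val_one]
  have hic : ((c⁻¹ : GL (Fin m) F) : Matrix (Fin m) (Fin m) F) * (c : Matrix (Fin m) (Fin m) F) = 1 := by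
    rw [← Units.val_mul, inv_mul_cancel, Units.val_one]
  have hpow : ∀ j : ℕ, ((B : GL (Fin m) F) : Matrix (Fin m) (Fin m) F) ^ j = (c : Matrix (Fin m) (Fin m) F) * (A : Matrix (Fin m) (Fin m) F) ^ j * ((c⁻¹ : GL (Fin m) F) : Matrix (Fin m) (Fin m) F) := by
    intro j
    have h3 : (B : GL (Fin m) F) ^ j = c * A ^ j * c⁻¹ := by rw [← hc, conj_pow]
    rw [← Units.val_pow_eq_pow_val, h3, Units.val_mul, Units.val_mul, Units.val_pow_eq_pow_val]
  refine ⟨((B : GL (Fin m) F) : Matrix (Fin m) (Fin m) F), ?_, ?_, ?_⟩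
  · rw [hBA, Matrix.det_mul, Matrix.det_mul, hA]
    have h3 : (1 + nilJ F m m).det = 1 := (unipJ F m m).2
    have h4 := congrArg Matrix.det hci
    rw [Matrix.det_mul, Matrix.det_one] at h4
    rw [h3, mul_one, h4]
  · exact (mem_GU_iff hσ).mp B.2
  · intro j d hj
    have h3 : (A : Matrix (Fin m) (Fin m) F) ^ j = d • (1 : Matrix (Fin m) (Fin m) F) := by
      have h4 := hpow j
      rw [hj] at h4
      calc (A : Matrix (Fin m) (Fin m) F) ^ j = ((c⁻¹ : GL (Fin m) F) : Matrix (Fin m) (Fin m) F) * ((c : Matrix (Fin m) (Fin m) F) * (A : Matrix (Fin m) (Fin m) F) ^ j * ((c⁻¹ : GL (Fin m) F) : Matrix (Fin m) (Fin m) F)) * (c : Matrix (Fin m) (Fin m) F) := by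
            rw [← mul_assoc, ← mul_assoc, hic, one_mul, mul_assoc, hic, mul_one]
        _ = d • (1 : Matrix (Fin m) (Fin m) F) := by
            rw [← h4, mul_smul_comm, mul_one, smul_mul_assoc, hic]
    have h4 := unip_scalar (by omega) hnil h3
    refine ⟨h4, ?_⟩
    rw [h4, one_smul] at h3
    rw [← orderOf_unipJ F m p T m hm le_rfl h1 h2]
    apply orderOf_dvd_of_pow_eq_one
    apply Subtype.ext
    rw [Matrix.SpecialLinearGroup.coe_pow, Matrix.SpecialLinearGroup.coe_one, ← h3, hA]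
    rfl

theorem exu_prod [Finite F] {σ : F →+* F} {q : ℕ} (hσ : ∀ x, σ x = x ^ q) (hσ1 : σ ≠ RingHom.id F) (hσ2 : ∀ a, σ (σ a) = a) {m : ℕ}
    {M : Matrix (Fin m) (Fin m) F} (hdet : M.det = 1) (hM : ∀ u v, hB (Fin m) σ (M *ᵥ u) (M *ᵥ v) = hB (Fin m) σ u v) {P : ℕ}
    (hP : ∀ (j : ℕ) (c : F), M ^ j = c • (1 : Matrix (Fin m) (Fin m) F) → c = 1 ∧ P ∣ j) {r : ℕ} (hr : r.Prime) (hrm : ¬ r ∣ m + 1) (hPr : Nat.Coprime P r)
    {ζ : F} (hζ : orderOf ζ = r) (hζ1 : ζ ^ (q + 1) = 1) : ExU F σ (m + 1) (P * r) := by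
  have hζσ : σ ζ * ζ = 1 := by rw [hσ, ← pow_succ, hζ1]
  have hζ0 : ζ ≠ 0 := fun h => by rw [h, mul_zero] at hζσ; exact zero_ne_one hζσ
  obtain ⟨ξ, hξ⟩ : ∃ ξ, ξ = (ζ⁻¹) ^ m := ⟨_, rfl⟩
  have hξσ : σ ξ * ξ = 1 := by
    rw [hξ, map_pow, map_inv₀, ← mul_pow, ← mul_inv, hζσ, inv_one, one_pow]
  let B : ((Fin m → F) × F) →ₛₗ[σ] ((Fin m → F) × F) →ₗ[F] F := LinearMap.mk₂'ₛₗ σ (RingHom.id F) (fun x y => hB (Fin m) σ x.1 y.1 + σ x.2 * y.2)
    (by intro x y z
        rw [Prod.fst_add, Prod.snd_add, map_add (hB (Fin m) σ), LinearMap.add_apply, map_add σ]; ring)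
    (by intro c x y
        rw [Prod.smul_fst, Prod.smul_snd, LinearMap.map_smulₛₗ, LinearMap.smul_apply, smul_eq_mul, smul_eq_mul, smul_eq_mul, map_mul]; ring)
    (by intro x y z
        rw [Prod.fst_add, Prod.snd_add, map_add]; ring)
    (by intro c x y
        rw [Prod.smul_fst, Prod.smul_snd, map_smul, smul_eq_mul, smul_eq_mul, RingHom.id_apply, smul_eq_mul]; ring)
  have hBa : ∀ x y, B x y = hB (Fin m) σ x.1 y.1 + σ x.2 * y.2 := fun x y => rfl
  obtain ⟨ψ, hψ1, hψ2⟩ := to_gu (n := m + 1) B hσ1 hσ2 (fun x y => by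
      rw [hBa, hBa, map_add, hB_symm hσ2, map_mul, hσ2]; ring)
    (fun x hx => by
      apply Prod.ext
      · apply hB_nd (σ := σ)
        intro v
        have := hx (v, 0)
        rwa [hBa, mul_zero, add_zero] at this
      · have := hx (0, 1)
        rw [hBa, map_zero, zero_add, mul_one] at this
        exact (map_eq_zero σ).mp this) (by rw [Module.finrank_prod, Module.finrank_fin_fun, Module.finrank_self])
  have hpw : ∀ j : ℕ, ((ζ • Matrix.toLin' M).prodMap (ξ • (LinearMap.id : F →ₗ[F] F))) ^ j = (ζ ^ j • Matrix.toLin' (M ^ j)).prodMap (ξ ^ j • (LinearMap.id : F →ₗ[F] F)) := by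
    intro j
    induction j with
    | zero => rw [pow_zero, pow_zero, pow_zero, pow_zero, Matrix.toLin'_one, one_smul, one_smul]; rfl
    | succ j ih =>
      rw [pow_succ, ih, pow_succ, pow_succ, pow_succ, Matrix.toLin'_mul]
      apply LinearMap.ext
      intro v
      apply Prod.ext
      · show ζ ^ j • (Matrix.toLin' (M ^ j)) (ζ • (Matrix.toLin' M) v.1) = (ζ ^ j * ζ) • (Matrix.toLin' (M ^ j)) ((Matrix.toLin' M) v.1)
        rw [map_smul, smul_smul]
      · show ξ ^ j • (ξ • v.2) = (ξ ^ j * ξ) • v.2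
        rw [smul_smul]
  refine ⟨ψ ((ζ • Matrix.toLin' M).prodMap (ξ • (LinearMap.id : F →ₗ[F] F))), ?_, ?_, ?_⟩
  · rw [hψ2, LinearMap.det_prodMap, LinearMap.det_smul, LinearMap.det_smul, LinearMap.det_toLin', hdet, LinearMap.det_id, Module.finrank_fin_fun, Module.finrank_self,
      pow_one, mul_one, mul_one, hξ, ← mul_pow, mul_inv_cancel₀ hζ0, one_pow]
  · apply hψ1
    intro u v
    rw [hBa, hBa]
    show hB (Fin m) σ (ζ • (M *ᵥ u.1)) (ζ • (M *ᵥ v.1)) + σ (ξ * u.2) * (ξ * v.2) = _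
    rw [hsmul_l, hsmul_r, hM, map_mul]
    linear_combination (hB (Fin m) σ u.1 v.1) * hζσ + (σ u.2 * v.2) * hξσ
  · intro j c hj
    have h1 : ((ζ • Matrix.toLin' M).prodMap (ξ • (LinearMap.id : F →ₗ[F] F))) ^ j = c • (1 : Module.End F ((Fin m → F) × F)) := by
      apply ψ.injective
      rw [map_pow, hj, map_smul, map_one]
    rw [hpw] at h1
    have h2 : ζ ^ j • Matrix.toLin' (M ^ j) = c • LinearMap.id := by
      apply LinearMap.ext
      intro v
      exact congrArg Prod.fst (congrArg (fun f : Module.End F ((Fin m → F) × F) => f (v, 0)) h1)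
    have h3 : ξ ^ j = c := by
      have := congrArg Prod.snd (congrArg (fun f : Module.End F ((Fin m → F) × F) => f (0, 1)) h1)
      simpa using this
    have h4 : M ^ j = (c * (ζ⁻¹) ^ j) • (1 : Matrix (Fin m) (Fin m) F) := by
      have h5 : Matrix.toLin' (M ^ j) = Matrix.toLin' ((c * (ζ⁻¹) ^ j) • (1 : Matrix (Fin m) (Fin m) F)) := by
        rw [map_smul, Matrix.toLin'_one]
        have h6 : (ζ⁻¹) ^ j • (ζ ^ j • Matrix.toLin' (M ^ j)) = (ζ⁻¹) ^ j • (c • LinearMap.id) := by rw [h2]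
        rw [smul_smul, ← mul_pow, inv_mul_cancel₀ hζ0, one_pow, one_smul] at h6
        rw [h6, smul_smul, mul_comm]
      exact Matrix.toLin'.injective h5
    obtain ⟨h5, h6⟩ := hP _ _ h4
    have h7 : c = ζ ^ j := by
      have h8 : (ζ⁻¹) ^ j ≠ 0 := pow_ne_zero _ (inv_ne_zero hζ0)
      have h9 : ζ ^ j * (ζ⁻¹) ^ j = 1 := by rw [← mul_pow, mul_inv_cancel₀ hζ0, one_pow]
      exact mul_right_cancel₀ h8 (h5.trans h9.symm)
    apply Nat.Coprime.mul_dvd_of_dvd_of_dvd hPr h6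
    have h8 : ζ ^ ((m + 1) * j) = 1 := by
      have h9 : ξ ^ j * ζ ^ (m * j) = 1 := by
        rw [hξ, ← pow_mul, ← mul_pow, inv_mul_cancel₀ hζ0, one_pow]
      rw [h3, h7, ← pow_add] at h9
      rw [← h9]; congr 1; ring
    have h9 := orderOf_dvd_of_pow_eq_one h8
    rw [hζ] at h9
    exact (hr.dvd_mul.mp h9).resolve_left hrm

end Cfsg.Agent.H17
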