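import Mathlib
import Cfsg.Agent.H17.SuOrdC

set_option autoImplicit false

/-! Orders of elements of `PSU` : decomposable elements, determinants of paired maps, arithmetic. -/

namespace Cfsg.Agent.H17

open Module Cfsg Cfsg.Agent.H5
open scoped MatrixGroups Matrix

variable {F : Type*} [Field F]

theorem det_pair {σ : F ≃+* F} {K₁ K₂ : Type*} [AddCommGroup K₁] [Module F K₁] [FiniteDimensional F K₁] [AddCommGroup K₂] [Module F K₂] [FiniteDimensional F K₂]
    (hd : finrank F K₁ = finrank F K₂) (P : K₂ → K₁ → F) (addl : ∀ u v w, P (u + v) w = P u w + P v w) (addr : ∀ u v w, P u (v + w) = P u v + P u w)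
    (smull : ∀ (c : F) u v, P (c • u) v = c * P u v) (smulr : ∀ (c : F) u v, P u (c • v) = σ c * P u v)
    (nd : ∀ v, (∀ w, P w v = 0) → v = 0) (s₁ : Module.End F K₁) (s₂ : Module.End F K₂) (h : ∀ w v, P (s₂ w) (s₁ v) = P w v) :
    LinearMap.det s₂ * σ (LinearMap.det s₁) = 1 := by
  classical
  obtain ⟨l, hl⟩ : ∃ l, l = finrank F K₁ := ⟨_, rfl⟩
  let b₁ := Module.finBasisOfFinrankEq F K₁ hl.symm
  let b₂ := Module.finBasisOfFinrankEq F K₂ (hd.symm.trans hl.symm)
  have zl : ∀ v, P 0 v = 0 := fun v => by have := smull 0 0 v; rwa [zero_smul, zero_mul] at this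
  have zr : ∀ v, P v 0 = 0 := fun v => by have := smulr 0 v 0; rwa [zero_smul, map_zero, zero_mul] at this
  have suml : ∀ (f : Fin l → K₂) (v : K₁) (t : Finset (Fin l)), P (∑ i ∈ t, f i) v = ∑ i ∈ t, P (f i) v := by
    intro f v t
    induction t using Finset.induction_on with
    | empty => rw [Finset.sum_empty, Finset.sum_empty, zl]
    | insert i t hi ih => rw [Finset.sum_insert hi, Finset.sum_insert hi, addl, ih]
  have sumr : ∀ (f : Fin l → K₁) (v : K₂) (t : Finset (Fin l)), P v (∑ i ∈ t, f i) = ∑ i ∈ t, P v (f i) := by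
    intro f v t
    induction t using Finset.induction_on with
    | empty => rw [Finset.sum_empty, Finset.sum_empty, zr]
    | insert i t hi ih => rw [Finset.sum_insert hi, Finset.sum_insert hi, addr, ih]
  obtain ⟨M₁, hM₁⟩ : ∃ M₁, M₁ = LinearMap.toMatrix b₁ b₁ s₁ := ⟨_, rfl⟩
  obtain ⟨M₂, hM₂⟩ : ∃ M₂, M₂ = LinearMap.toMatrix b₂ b₂ s₂ := ⟨_, rfl⟩
  have hs₁ : ∀ j, s₁ (b₁ j) = ∑ i, M₁ i j • b₁ i := by
    intro j
    rw [← b₁.sum_repr (s₁ (b₁ j))]
    apply Finset.sum_congr rfl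
    intro i _
    rw [hM₁, LinearMap.toMatrix_apply]
  have hs₂ : ∀ j, s₂ (b₂ j) = ∑ i, M₂ i j • b₂ i := by
    intro j
    rw [← b₂.sum_repr (s₂ (b₂ j))]
    apply Finset.sum_congr rfl
    intro i _
    rw [hM₂, LinearMap.toMatrix_apply]
  let G : Matrix (Fin l) (Fin l) F := Matrix.of fun i j => P (b₂ i) (b₁ j)
  have hG : G = M₂ᵀ * G * M₁.map σ := by
    ext i j
    show P (b₂ i) (b₁ j) = _
    rw [← h, hs₁, hs₂, suml, Matrix.mul_apply]
    have e1 : ∀ k, P (M₂ k i • b₂ k) (∑ m, M₁ m j • b₁ m) = ∑ m, M₂ k i * (σ (M₁ m j) * P (b₂ k) (b₁ m)) := by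
      intro k
      rw [smull, sumr, Finset.mul_sum]
      apply Finset.sum_congr rfl
      intro m _
      rw [smulr]
    rw [Finset.sum_congr rfl (fun k _ => e1 k), Finset.sum_comm]
    apply Finset.sum_congr rfl
    intro m _
    rw [Matrix.mul_apply, Finset.sum_mul]
    apply Finset.sum_congr rfl
    intro k _
    rw [Matrix.transpose_apply, Matrix.map_apply]
    show _ = M₂ k i * P (b₂ k) (b₁ m) * σ (M₁ m j)
    ring
  have hG0 : G.det ≠ 0 := by
    intro h0
    obtain ⟨v, hv, hGv⟩ := Matrix.exists_mulVec_eq_zero_iff.mpr h0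
    apply hv
    have h1 : (∑ j, σ.symm (v j) • b₁ j) = 0 := by
      apply nd
      have h2 : ∀ i, P (b₂ i) (∑ j, σ.symm (v j) • b₁ j) = 0 := by
        intro i
        rw [sumr]
        have h3 := congrFun hGv i
        rw [Pi.zero_apply] at h3
        rw [← h3]
        apply Finset.sum_congr rfl
        intro j _
        rw [smulr, RingEquiv.apply_symm_apply, mul_comm]
        rfl
      intro w
      rw [← b₂.sum_repr w, suml]
      apply Finset.sum_eq_zero
      intro i _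
      rw [smull, h2, mul_zero]
    funext j
    have h2 := Fintype.linearIndependent_iff.mp b₁.linearIndependent (fun j => σ.symm (v j)) h1 j
    rw [Pi.zero_apply]
    exact (map_eq_zero_iff σ.symm σ.symm.injective).mp h2
  have h1 := congrArg Matrix.det hG
  rw [Matrix.det_mul, Matrix.det_mul, Matrix.det_transpose] at h1
  have h2 : (M₁.map σ).det = σ M₁.det := by
    have := (σ : F →+* F).map_det M₁
    exact this.symm
  rw [h2] at h1
  have h3 : M₂.det * σ M₁.det = 1 := by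
    have : G.det * (M₂.det * σ M₁.det) = G.det * 1 := by rw [mul_one]; linear_combination -h1
    exact mul_left_cancel₀ hG0 this
  rw [hM₁, hM₂, LinearMap.det_toMatrix, LinearMap.det_toMatrix] at h3
  exact h3

theorem isCompl_of_nds [Finite F] {σ : F →+* F} (hσ2 : ∀ a, σ (σ a) = a) {n : ℕ} {Y : Submodule F (Fin n → F)} (hnd : NDS (fun u v => hB (Fin n) σ v u) Y) :
    ∃ Z : Submodule F (Fin n → F), IsCompl Y Z ∧ ∀ z, z ∈ Z ↔ ∀ y ∈ Y, hB (Fin n) σ y z = 0 := by
  have hS := hB_symm (ι := Fin n) hσ2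
  let Z : Submodule F (Fin n → F) :=
    { carrier := {z | ∀ y ∈ Y, hB (Fin n) σ y z = 0}
      zero_mem' := fun y _ => map_zero _
      add_mem' := fun {a b} ha hb y hy => by rw [map_add, ha y hy, hb y hy, add_zero]
      smul_mem' := fun c a ha y hy => by rw [map_smul, ha y hy, smul_zero] }
  have hZ : ∀ z, z ∈ Z ↔ ∀ y ∈ Y, hB (Fin n) σ y z = 0 := fun z => Iff.rfl
  refine ⟨Z, ⟨?_, ?_⟩, hZ⟩
  · rw [disjoint_iff, eq_bot_iff]
    rintro v ⟨hv1, hv2⟩
    rw [Submodule.mem_bot]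
    apply hnd v hv1
    intro w hw
    exact hv2 w hw
  · rw [codisjoint_iff, eq_top_iff]
    intro u _
    -- the functional
    let φ : Y → Module.Dual F Y := fun y => (hB (Fin n) σ y).domRestrict Y
    have hφ : Function.Injective φ := by
      intro y y' hyy
      have h1 : ∀ w ∈ Y, hB (Fin n) σ y w = hB (Fin n) σ y' w := fun w hw => congrArg (fun f : Module.Dual F Y => f ⟨w, hw⟩) hyy
      have h2 : (y : Fin n → F) - y' = 0 := by
        apply hnd _ (Y.sub_mem y.2 y'.2)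
        intro w hw
        show hB (Fin n) σ w ((y : Fin n → F) - y') = 0
        rw [← hS, hsub_l, h1 w hw, sub_self, map_zero]
      exact Subtype.ext (sub_eq_zero.mp h2)
    haveI : Finite (Module.Dual F Y) := Module.finite_of_finite F
    haveI : Finite Y := Module.finite_of_finite F
    have hcard : Nat.card Y = Nat.card (Module.Dual F Y) := by
      rw [Module.natCard_eq_pow_finrank (K := F) (V := Y), Module.natCard_eq_pow_finrank (K := F) (V := Module.Dual F Y), Subspace.dual_finrank_eq]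
    have hsurj : Function.Surjective φ := ((Nat.bijective_iff_injective_and_card φ).mpr ⟨hφ, hcard⟩).2
    obtain ⟨y, hy⟩ := hsurj ((hB (Fin n) σ u).domRestrict Y)
    have h1 : ∀ w ∈ Y, hB (Fin n) σ y w = hB (Fin n) σ u w := fun w hw => congrArg (fun f : Module.Dual F Y => f ⟨w, hw⟩) hy
    rw [show u = (y : Fin n → F) + (u - y) by abel]
    apply Submodule.add_mem_sup y.2
    rw [hZ]
    intro w hw
    rw [← hS, hsub_l, h1 w hw, sub_self, map_zero]

theorem su_decomp [Fintype F] {σ : F →+* F} {q n : ℕ} (hF : Fintype.card F = q ^ 2) (hσ : ∀ x, σ x = x ^ q) (hσ2 : ∀ a, σ (σ a) = a) (hn : 2 ≤ n) (x : SU n F q)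
    (Y : Submodule F (Fin n → F)) (hY : ∀ v ∈ Y, sv x v ∈ Y) (hnd : NDS (fun u v => hB (Fin n) σ v u) Y) (h0 : Y ≠ ⊥) (h1 : Y ≠ ⊤)
    {r : ℕ} (hr : r.Prime) (hrn : ¬ r ∣ n) {ζ : F} (hζ : orderOf ζ = r) (hζ1 : ζ ^ (q + 1) = 1) :
    ∃ h : PSU n F q, Commute (QuotientGroup.mk x : PSU n F q) h ∧ orderOf h = r := by
  classical
  obtain ⟨Z, hc, hZ⟩ := isCompl_of_nds hσ2 hnd
  have hS := hB_symm (ι := Fin n) hσ2
  have hζσ : σ ζ * ζ = 1 := by rw [hσ, ← pow_succ, hζ1]
  have hζ0 : ζ ≠ 0 := fun h => by rw [h, mul_zero] at hζσ; exact zero_ne_one hζσ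
  have hd : finrank F Y + finrank F Z = n := by
    rw [Submodule.finrank_add_eq_of_isCompl hc, Module.finrank_fin_fun]
  obtain ⟨a, ha⟩ : ∃ a, a = ζ ^ finrank F Z := ⟨_, rfl⟩
  obtain ⟨b, hb⟩ : ∃ b, b = (ζ⁻¹) ^ finrank F Y := ⟨_, rfl⟩
  have haσ : σ a * a = 1 := by rw [ha, map_pow, ← mul_pow, hζσ, one_pow]
  have hbσ : σ b * b = 1 := by rw [hb, map_pow, map_inv₀, ← mul_pow, ← mul_inv, hζσ, inv_one, one_pow]
  let e := Submodule.prodEquivOfIsCompl Y Z hc
  obtain ⟨H, hHdef⟩ : ∃ H : (Fin n → F) →ₗ[F] (Fin n → F), H = (e : (Y × Z) →ₗ[F] (Fin n → F)) ∘ₗ (LinearMap.prodMap (a • LinearMap.id) (b • LinearMap.id)) ∘ₗ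
      (e.symm : (Fin n → F) →ₗ[F] (Y × Z)) := ⟨_, rfl⟩
  have hH' : ∀ (w₁ : Y) (w₂ : Z), H ((w₁ : Fin n → F) + w₂) = a • (w₁ : Fin n → F) + b • (w₂ : Fin n → F) := by
    intro w₁ w₂
    have h3 : (w₁ : Fin n → F) + w₂ = e (w₁, w₂) := by
      simp [e, Submodule.coe_prodEquivOfIsCompl']
    rw [h3, hHdef]
    simp [e, Submodule.coe_prodEquivOfIsCompl']
  have hH : ∀ y ∈ Y, ∀ z ∈ Z, H (y + z) = a • y + b • z := fun y hy z hz => hH' ⟨y, hy⟩ ⟨z, hz⟩
  have hdet : LinearMap.det H = 1 := by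
    rw [hHdef, LinearMap.det_conj, LinearMap.det_prodMap, LinearMap.det_smul, LinearMap.det_smul,
      LinearMap.det_id, LinearMap.det_id, mul_one, mul_one, ha, hb, ← pow_mul, ← pow_mul,
      mul_comm (finrank F Y), ← mul_pow, mul_inv_cancel₀ hζ0, one_pow]
  have hdec : ∀ v, ∃ y ∈ Y, ∃ z ∈ Z, y + z = v := by
    intro v
    have : v ∈ Y ⊔ Z := by rw [hc.sup_eq_top]; trivial
    exact Submodule.mem_sup.mp this
  have hYZ : ∀ y ∈ Y, ∀ z ∈ Z, hB (Fin n) σ y z = 0 ∧ hB (Fin n) σ z y = 0 := by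
    intro y hy z hz
    have := (hZ z).mp hz y hy
    exact ⟨this, by rw [← hS, this, map_zero]⟩
  have hiso : ∀ u v, hB (Fin n) σ (H u) (H v) = hB (Fin n) σ u v := by
    intro u v
    obtain ⟨y, hy, z, hz, rfl⟩ := hdec u
    obtain ⟨y', hy', z', hz', rfl⟩ := hdec v
    rw [hH y hy z hz, hH y' hy' z' hz']
    simp only [hadd_l, hadd_r, hsmul_l, hsmul_r]
    rw [(hYZ y hy z' hz').1, (hYZ y' hy' z hz).2]
    linear_combination (hB (Fin n) σ y y') * haσ + (hB (Fin n) σ z z') * hbσ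
  have hHm : ∀ v, (LinearMap.toMatrix' H) *ᵥ v = H v := fun v => LinearMap.toMatrix'_mulVec H v
  let A : SU n F q := ⟨⟨LinearMap.toMatrix' H, by rw [LinearMap.det_toMatrix', hdet]⟩, (mem_SU_iff hσ).mpr (fun u v => by
    show hB (Fin n) σ ((LinearMap.toMatrix' H) *ᵥ u) ((LinearMap.toMatrix' H) *ᵥ v) = _
    rw [hHm, hHm, hiso])⟩
  have hA : ∀ v, sv A v = H v := fun v => hHm v
  have hpM : ∀ v ∈ Z, sv x v ∈ Z := by
    intro v hv
    rw [hZ] at hv ⊢
    intro y hy
    have hinj : Function.Injective ((Matrix.toLin' ((x : Matrix.SpecialLinearGroup (Fin n) F) : Matrix (Fin n) (Fin n) F)).restrict hY) := by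
      rw [injective_iff_map_eq_zero]
      intro a ha
      have h2 : sv x (a : Fin n → F) = 0 := congrArg Subtype.val ha
      apply Subtype.ext
      by_contra hne
      exact sv_ne_zero x hne h2
    have hsurj := (LinearMap.injective_iff_surjective (f := (Matrix.toLin' ((x : Matrix.SpecialLinearGroup (Fin n) F) : Matrix (Fin n) (Fin n) F)).restrict hY)).mp hinj
    obtain ⟨y', hy'⟩ := hsurj ⟨y, hy⟩
    have h3 : sv x (y' : Fin n → F) = y := congrArg Subtype.val hy'
    rw [← h3, sv_isom hσ]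
    exact hv y' y'.2
  have hcomm : x * A = A * x := by
    apply sv_ext
    intro v
    obtain ⟨y, hy, z, hz, rfl⟩ := hdec v
    rw [sv_mul, sv_mul, hA, hA, sv_add, hH y hy z hz, hH _ (hY y hy) _ (hpM z hz), sv_add, sv_smul, sv_smul]
  have hpow : ∀ (k : ℕ), ∀ y ∈ Y, ∀ z ∈ Z, sv (A ^ k) (y + z) = a ^ k • y + b ^ k • z := by
    intro k
    induction k with
    | zero => intro y hy z hz; rw [pow_zero, sv_one, pow_zero, pow_zero, one_smul, one_smul]
    | succ k ih =>
      intro y hy z hz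
      rw [pow_succ, sv_mul, hA, hH y hy z hz, ih _ (Y.smul_mem _ hy) _ (Z.smul_mem _ hz), smul_smul, smul_smul, pow_succ, pow_succ]
  have har : a ^ r = 1 := by rw [ha, ← pow_mul, mul_comm, pow_mul, ← hζ, pow_orderOf_eq_one, one_pow]
  have hbr : b ^ r = 1 := by
    rw [hb, ← pow_mul, mul_comm, pow_mul, inv_pow, ← hζ, pow_orderOf_eq_one, inv_one, one_pow]
  refine ⟨QuotientGroup.mk A, ?_, ?_⟩
  · show (QuotientGroup.mk x : PSU n F q) * QuotientGroup.mk A = QuotientGroup.mk A * QuotientGroup.mk x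
    rw [← QuotientGroup.mk_mul, hcomm, QuotientGroup.mk_mul]
  · haveI : Fact r.Prime := ⟨hr⟩
    apply orderOf_eq_prime
    · have : A ^ r = 1 := by
        apply sv_ext
        intro v
        obtain ⟨y, hy, z, hz, rfl⟩ := hdec v
        rw [hpow r y hy z hz, har, hbr, one_smul, one_smul, sv_one]
      rw [← QuotientGroup.mk_pow, this]; rfl
    · intro h2
      have h3 : (QuotientGroup.mk' (Subgroup.center (SU n F q)) A) = QuotientGroup.mk' (Subgroup.center (SU n F q)) 1 := by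
        rw [map_one]; exact h2
      obtain ⟨c, hcc⟩ := (pr_eq_SU hF hσ hn _ _).mp h3
      have h4 : ∀ v, H v = c • v := fun v => by rw [← hA, hcc, sv_one]
      have hZ0 : Z ≠ ⊥ := by
        intro h
        apply h1
        have := hc.sup_eq_top
        rwa [h, sup_bot_eq] at this
      have hac : a = c := by
        obtain ⟨w, hw, hw0⟩ := Submodule.exists_mem_ne_zero_of_ne_bot h0
        have h5 := hH w hw 0 Z.zero_mem
        rw [add_zero, smul_zero, add_zero, h4] at h5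
        exact (smul_left_injective F hw0 h5).symm
      have hbc : b = c := by
        obtain ⟨w, hw, hw0⟩ := Submodule.exists_mem_ne_zero_of_ne_bot hZ0
        have h5 := hH 0 Y.zero_mem w hw
        rw [zero_add, smul_zero, zero_add, h4] at h5
        exact (smul_left_injective F hw0 h5).symm
      apply hrn
      rw [← hζ]
      apply orderOf_dvd_of_pow_eq_one
      have h6 : b * ζ ^ finrank F Y = 1 := by rw [hb, ← mul_pow, inv_mul_cancel₀ hζ0, one_pow]
      rw [hbc, ← hac, ha, ← pow_add, add_comm, hd] at h6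
      exact h6

end Cfsg.Agent.H17
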