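import Mathlib
import Cfsg.Agent.H17.SuOrdD

set_option autoImplicit false

/-! Orders of elements of `PSU` : indecomposable elements. -/

namespace Cfsg.Agent.H17

open Module Cfsg Cfsg.Agent.H5 Polynomial
open scoped MatrixGroups Matrix

theorem sq_sub_one' (q : ℕ) : q ^ 2 - 1 = (q - 1) * (q + 1) := by
  rcases Nat.eq_zero_or_pos q with rfl | h
  · rfl
  obtain ⟨m, rfl⟩ : ∃ m, q = m + 1 := ⟨q - 1, by omega⟩
  have : (m + 1) ^ 2 = m * m + 2 * m + 1 := by ring
  rw [this]
  simp only [Nat.add_sub_cancel]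
  ring

theorem pow_two_mul_sub_one (q n : ℕ) : q ^ (2 * n) - 1 = (q ^ n - 1) * (q ^ n + 1) := by
  rw [mul_comm 2 n, pow_mul, sq_sub_one']

theorem su_arith_odd {q n o N : ℕ} (hq : 2 ≤ q) (hn : ¬ Even n) (h1 : o ∣ q ^ n + 1) (hN : N * (q ^ 2 - 1) = q ^ (2 * n) - 1) (h2 : o ∣ N) : o ∣ suB q n := by
  have hno : Odd n := Nat.not_even_iff_odd.mp hn
  obtain ⟨k, hk⟩ := hno
  obtain ⟨t, ht⟩ : q ^ 2 - 1 ∣ q ^ (2 * k) - 1 := by
    have := Nat.sub_dvd_pow_sub_pow (q ^ 2) 1 k
    rwa [one_pow, ← pow_mul] at this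
  have hB : suB q n * (q + 1) = q ^ n + 1 := by rw [suB_mul q n (by omega), suN, if_neg hn]
  have hq2 : 0 < q ^ 2 - 1 := by
    have : 1 < q ^ 2 := Nat.one_lt_pow (by norm_num) (by omega)
    omega
  have hC : q ^ n - 1 = (q - 1) * (q * (q + 1) * t + 1) := by
    have h3 : 1 ≤ q ^ (2 * k) := Nat.one_le_pow _ _ (by omega)
    have h4 : q ^ n = q * (q ^ (2 * k) - 1) + (q - 1) + 1 := by
      rw [hk, pow_succ]
      obtain ⟨w, hw⟩ : ∃ w, q ^ (2 * k) = w + 1 := ⟨q ^ (2 * k) - 1, by omega⟩
      rw [hw, Nat.add_sub_cancel]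
      obtain ⟨v, rfl⟩ : ∃ v, q = v + 1 := ⟨q - 1, by omega⟩
      rw [Nat.add_sub_cancel]
      ring
    rw [h4, ht, sq_sub_one', Nat.add_sub_cancel]
    ring
  have hNe : N = suB q n * (q * (q + 1) * t + 1) := by
    apply Nat.eq_of_mul_eq_mul_right hq2
    rw [hN, pow_two_mul_sub_one, hC, ← hB, sq_sub_one']
    ring
  have h3 : N = (q ^ n + 1) * (q * t) + suB q n := by
    rw [hNe, ← hB]; ring
  rw [h3] at h2
  exact (Nat.dvd_add_right (h1.mul_right _)).mp h2

theorem su_arith_even {q n o N : ℕ} (hq : 2 ≤ q) (hn0 : n ≠ 0) (hn : Even n) (h1 : o ∣ q ^ n - 1) (hN : N * (q ^ 2 - 1) = q ^ (2 * n) - 1) (h2 : o ∣ N) :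
    o ∣ suA q n * (q ^ 2 - 1) := by
  obtain ⟨D, hD⟩ : q ^ 2 - 1 ∣ q ^ n - 1 := by
    obtain ⟨k, hk⟩ := hn
    have := Nat.sub_dvd_pow_sub_pow (q ^ 2) 1 k
    rwa [one_pow, ← pow_mul, two_mul, ← hk] at this
  have hB : suB q n * (q + 1) = q ^ n - 1 := by rw [suB_mul q n (by omega), suN, if_pos hn]
  have hq2 : 0 < q ^ 2 - 1 := by
    have : 1 < q ^ 2 := Nat.one_lt_pow (by norm_num) (by omega)
    omega
  have hqn : 1 ≤ q ^ n := Nat.one_le_pow _ _ (by omega)
  have hNe : N = D * (q ^ n + 1) := by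
    apply Nat.eq_of_mul_eq_mul_right hq2
    rw [hN, pow_two_mul_sub_one, hD]
    ring
  have h3 : N = D * (q ^ n - 1) + 2 * D := by
    rw [hNe]
    obtain ⟨w, hw⟩ : ∃ w, q ^ n = w + 1 := ⟨q ^ n - 1, by omega⟩
    rw [hw, Nat.add_sub_cancel]; ring
  rw [h3] at h2
  have h4 : o ∣ 2 * D := (Nat.dvd_add_right (h1.mul_left _)).mp h2
  have h5 : o ∣ D * (q - 1) ^ 2 := by
    rcases Nat.even_or_odd q with he | ho
    · have h6 : Nat.Coprime o 2 := by
        apply Nat.Coprime.coprime_dvd_left h1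
        rw [Nat.coprime_two_right]
        have : Even (q ^ n) := he.pow_of_ne_zero (by omega)
        obtain ⟨w, hw⟩ := this
        exact ⟨w - 1, by omega⟩
      exact (h6.dvd_of_dvd_mul_left h4).mul_right _
    · obtain ⟨w, hw⟩ := ho
      have h6 : (q - 1) ^ 2 = 2 * (2 * w ^ 2) := by
        rw [hw, Nat.add_sub_cancel]; ring
      rw [h6, show D * (2 * (2 * w ^ 2)) = (2 * D) * (2 * w ^ 2) by ring]
      exact h4.mul_right _
  have h6 : suB q n = D * (q - 1) := by
    apply Nat.eq_of_mul_eq_mul_right (Nat.succ_pos q)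
    show suB q n * (q + 1) = D * (q - 1) * (q + 1)
    rw [hB, hD, sq_sub_one']; ring
  obtain ⟨t, ht⟩ := suA_mul (q := q) (n := n)
  rw [sq_sub_one', show suA q n * ((q - 1) * (q + 1)) = (suA q n * (q + 1)) * (q - 1) by ring, ht, h6,
    show D * (q - 1) * t * (q - 1) = (D * (q - 1) ^ 2) * t by ring]
  exact h5.mul_right _

variable {F : Type*} [Field F] {V : Type*} [AddCommGroup V] [Module F V]

theorem field_pol {E : Type*} [Field E] [Algebra F E] (θ : E ≃ₗ[F] V) (t : Module.End F V) (β : E) (ht : ∀ x, t (θ x) = θ (β * x)) (f : F[X]) (x : E) :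
    aeval t f (θ x) = θ (aeval β f * x) := by
  induction f using Polynomial.induction_on' generalizing x with
  | add p q hp hq => rw [map_add, LinearMap.add_apply, hp, hq, map_add, add_mul, map_add]
  | monomial k a =>
    rw [aeval_monomial, aeval_monomial]
    have h2 : ∀ k : ℕ, (t ^ k) (θ x) = θ (β ^ k * x) := by
      intro k
      induction k with
      | zero => simp
      | succ k ih => rw [pow_succ', Module.End.mul_apply, ih, ht, ← mul_assoc, ← pow_succ']
    rw [Module.End.mul_apply, h2, Module.algebraMap_end_apply, mul_assoc, ← Algebra.smul_def, map_smul]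

theorem field_det {E : Type*} [Field E] [Algebra F E] (θ : E ≃ₗ[F] V) (t : Module.End F V) (β : E) (ht : ∀ x, t (θ x) = θ (β * x)) :
    LinearMap.det t = Algebra.norm F β := by
  have : t = fieldEnd θ β := by
    apply LinearMap.ext
    intro v
    obtain ⟨x, rfl⟩ := θ.surjective v
    rw [ht, fieldEnd_apply]
  rw [this, det_fieldEnd]

theorem isot_of {σ : F ≃+* F} [FiniteDimensional F V] {B : V → V → F} (H : SF σ B) {a b : Module.End F V} (hab : Adj B a b) {K : Submodule F V} (hK : ∀ v ∈ K, a v = 0) (hb : ∀ v ∈ K, b v ∈ K)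
    (hinj : ∀ v ∈ K, b v = 0 → v = 0) : ∀ v ∈ K, ∀ w ∈ K, B v w = 0 := by
  intro v hv w hw
  have hi : Function.Injective (b.restrict hb) := by
    rw [injective_iff_map_eq_zero]
    intro u hu
    exact Subtype.ext (hinj u u.2 (congrArg Subtype.val hu))
  have hs := (LinearMap.injective_iff_surjective (f := b.restrict hb)).mp hi
  obtain ⟨w', hw'⟩ := hs ⟨w, hw⟩
  have h1 : b (w' : V) = w := congrArg Subtype.val hw'
  rw [← h1, ← hab, hK v hv, H.zerol]

theorem aeval_frob [Finite F] {σ : F ≃+* F} {q : ℕ} (hσ : ∀ x, σ x = x ^ q) (p a : ℕ) [Fact p.Prime] [CharP F p] (hq : q = p ^ a) {E : Type*} [Field E] [Algebra F E]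
    (α : E) (f : F[X]) : aeval (α ^ q) (f.map (σ : F →+* F)) = (aeval α f) ^ q := by
  haveI : CharP E p := charP_of_injective_algebraMap (algebraMap F E).injective p
  let τ : E →+* E := iterateFrobenius E p a
  have hτ : ∀ x, τ x = x ^ q := by
    intro x
    show iterateFrobenius E p a x = _
    rw [iterateFrobenius_def, hq]
  rw [← hτ, ← hτ, aeval_def, aeval_def, hom_eval₂, eval₂_map]
  congr 1
  ext c
  show algebraMap F E (σ c) = τ (algebraMap F E c)
  rw [hτ, hσ, map_pow]

theorem su_scalar [Finite F] [FiniteDimensional F V] [Nontrivial V] {σ : F ≃+* F} {q : ℕ} (hF : Nat.card F = q ^ 2) (hσ : ∀ x, σ x = x ^ q)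
    (p a : ℕ) [Fact p.Prime] [CharP F p] (hq : q = p ^ a)
    {B : V → V → F} (H : SF σ B) {x s s' : Module.End F V} (hI : Indec B x) (hxs : x * s = s * x) (hxs' : x * s' = s' * x)
    (hadj : Adj B s s') (hadj' : Adj B s' s) (hss : s * s' = 1) (hss' : s' * s = 1) {m : ℕ} (hm : Nat.Coprime (Nat.card F) m) (hm0 : 0 < m) (hs : s ^ m = 1)
    (hdet : LinearMap.det s = 1) : ∃ c : F, s ^ (suA q (finrank F V)) = c • (1 : Module.End F V) := by
  have hq1 : 1 ≤ q := by rw [hq]; exact Nat.one_le_pow _ _ (Fact.out : p.Prime).pos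
  have hq2 : 2 ≤ q := by
    have h1 := Finite.one_lt_card (α := F)
    rw [hF] at h1
    by_contra h
    have : q = 1 := by omega
    rw [this] at h1; norm_num at h1
  obtain ⟨n, hn⟩ : ∃ n, n = finrank F V := ⟨_, rfl⟩
  have hn0 : n ≠ 0 := by rw [hn]; exact Module.finrank_pos.ne'
  rw [← hn]
  have hqq : 0 < q ^ 2 - 1 := by
    have : 1 < q ^ 2 := Nat.one_lt_pow (by norm_num) (by omega)
    omega
  obtain ⟨π, hπ, ⟨h1, h2⟩ | ⟨K₁, K₂, hc, h1, h2, h1', h2', hr⟩⟩ := dich H hI hxs hxs' hadj hadj' hss hss' hm hm0 hs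
  · obtain ⟨E, _, _, _, θ, α, hα⟩ := exists_field_of_irreducible s π hπ h1
    haveI : Module.Finite F E := Module.Finite.of_finite
    haveI := Fintype.ofFinite F
    haveI := Fintype.ofFinite E
    have hα0 : α ≠ 0 := by
      rintro rfl
      have h3 := hα 1
      rw [zero_mul, map_zero] at h3
      have h4 : s' (s (θ 1)) = θ 1 := by rw [← Module.End.mul_apply, hss']; rfl
      rw [h3, map_zero] at h4
      have := θ.injective (h4.symm.trans (map_zero θ).symm)
      exact one_ne_zero this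
    have hα' : ∀ x, s' (θ x) = θ (α⁻¹ * x) := by
      intro x
      have h3 : s (θ (α⁻¹ * x)) = θ x := by rw [hα, mul_inv_cancel_left₀ hα0]
      rw [← h3, ← Module.End.mul_apply, hss']; rfl
    have hra : aeval α π = 0 := by
      have h3 := field_pol θ s α hα π 1
      rw [h1, mul_one] at h3
      exact θ.injective (h3.symm.trans (map_zero θ).symm)
    have hrb : aeval α⁻¹ (π.map (σ : F →+* F)) = 0 := by
      have h3 := field_pol θ s' α⁻¹ hα' (π.map (σ : F →+* F)) 1
      rw [h2, mul_one] at h3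
      exact θ.injective (h3.symm.trans (map_zero θ).symm)
    have hrc : aeval (α ^ q) (π.map (σ : F →+* F)) = 0 := by
      rw [aeval_frob hσ p a hq, hra, zero_pow (by omega)]
    obtain ⟨j, hj⟩ := exists_frob_of_root (map_irr (σ := σ) hπ) hrc hrb
    have hfr : finrank F E = n := by rw [hn]; exact θ.finrank_eq
    have hcE : Nat.card E = q ^ (2 * n) := by
      rw [Module.natCard_eq_pow_finrank (K := F) (V := E), hfr, hF, ← pow_mul]
    have hpowE : α ^ (q ^ (2 * n)) = α := by rw [← hcE, Nat.card_eq_fintype_card, FiniteField.pow_card]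
    have hj' : α ^ (q ^ (2 * j + 1)) = α⁻¹ := by
      rw [hj, hF, ← pow_mul, ← pow_mul]
      congr 1
      rw [pow_succ']
    -- iteration
    have hit : ∀ i : ℕ, (Even i → α ^ (q ^ ((2 * j + 1) * i)) = α) ∧ (¬ Even i → α ^ (q ^ ((2 * j + 1) * i)) = α⁻¹) := by
      intro i
      induction i with
      | zero => exact ⟨fun _ => by simp, fun h => absurd Even.zero h⟩
      | succ i ih =>
        have e1 : α ^ (q ^ ((2 * j + 1) * (i + 1))) = (α ^ (q ^ ((2 * j + 1) * i))) ^ (q ^ (2 * j + 1)) := by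
          rw [← pow_mul, ← pow_add]; congr 1
        rw [e1, Nat.even_add_one]
        constructor
        · intro h
          rw [ih.2 h, inv_pow, hj', inv_inv]
        · intro h
          rw [not_not] at h
          rw [ih.1 h, hj']
    have hqn : α ^ (q ^ ((2 * j + 1) * n)) = α ^ (q ^ n) := by
      have e1 : ∀ i : ℕ, α ^ (q ^ (2 * n * i)) = α := by
        intro i
        induction i with
        | zero => simp
        | succ i ih => rw [mul_add, mul_one, pow_add, pow_mul, ih, hpowE]
      rw [show (2 * j + 1) * n = 2 * n * j + n by ring, pow_add, pow_mul, e1]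
    obtain ⟨N, hN⟩ : ∃ N, N = (Nat.card E - 1) / (Nat.card F - 1) := ⟨_, rfl⟩
    have hNq : N * (q ^ 2 - 1) = q ^ (2 * n) - 1 := by
      rw [hN, hcE, hF]
      apply Nat.div_mul_cancel
      have := Nat.sub_dvd_pow_sub_pow (q ^ 2) 1 n
      rwa [one_pow, ← pow_mul] at this
    have hoN : orderOf α ∣ N := by
      apply orderOf_dvd_of_pow_eq_one
      rw [hN, ← FiniteField.algebraMap_norm_eq_pow, ← field_det θ s α hα, hdet, map_one]
    have hkey : orderOf α ∣ suA q n * (q ^ 2 - 1) := by
      by_cases he : Even n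
      · apply su_arith_even hq2 hn0 he _ hNq hoN
        apply orderOf_dvd_of_pow_eq_one
        have h3 := (hit n).1 he
        rw [hqn] at h3
        have h4 : α ^ (q ^ n - 1) * α = α := by rw [← pow_succ, Nat.sub_add_cancel (Nat.one_le_pow _ _ (by omega)), h3]
        exact (mul_eq_right₀ hα0).mp h4
      · have h5 : orderOf α ∣ suB q n := by
          apply su_arith_odd hq2 he _ hNq hoN
          apply orderOf_dvd_of_pow_eq_one
          have h3 := (hit n).2 he
          rw [hqn] at h3
          rw [pow_succ, h3, inv_mul_cancel₀ hα0]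
        rw [sq_sub_one', show suA q n * ((q - 1) * (q + 1)) = (suA q n * (q + 1)) * (q - 1) by ring]
        exact ((h5.trans suA_mul).mul_right _)
    obtain ⟨c, hcc⟩ := mem_range_algebraMap_of_pow (F := F) (α ^ suA q n) (by
      have h3 : (α ^ suA q n) ^ (q ^ 2 - 1) = 1 := by
        rw [← pow_mul]; exact orderOf_dvd_iff_pow_eq_one.mp hkey
      have h4 : Nat.card F = (q ^ 2 - 1) + 1 := by rw [hF]; omega
      rw [h4, pow_succ, h3, one_mul])
    refine ⟨c, ?_⟩
    apply LinearMap.ext
    intro v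
    obtain ⟨y, rfl⟩ := θ.surjective v
    have hspow : ∀ k : ℕ, ∀ x, (s ^ k) (θ x) = θ (α ^ k * x) := by
      intro k
      induction k with
      | zero => intro x; simp
      | succ k ih => intro x; rw [pow_succ', Module.End.mul_apply, ih, hα, ← mul_assoc, ← pow_succ']
    rw [hspow, ← hcc, ← Algebra.smul_def, map_smul]
    rfl
  · -- the split case
    have hcomm : s' * s = s * s' := by rw [hss, hss']
    have hab : Adj B (aeval s π) (aeval s' (π.map (σ : F →+* F))) := H.adj_aeval hadj π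
    have hba : Adj B (aeval s' (π.map (σ : F →+* F))) (aeval s π) := by
      have h1 := H.adj_aeval hadj' (π.map (σ : F →+* F))
      rw [Polynomial.map_map] at h1
      have h2 : (σ : F →+* F).comp (σ : F →+* F) = RingHom.id F := RingHom.ext H.inv
      rwa [h2, Polynomial.map_id] at h1
    have hca : s * aeval s π = aeval s π * s := aeval_comm_of rfl π
    have hcb : s * aeval s' (π.map (σ : F →+* F)) = aeval s' (π.map (σ : F →+* F)) * s := aeval_comm_of hcomm.symm _
    have hcab : aeval s' (π.map (σ : F →+* F)) * aeval s π = aeval s π * aeval s' (π.map (σ : F →+* F)) := by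
      have h3 : s' * aeval s π = aeval s π * s' := aeval_comm_of hcomm π
      exact (aeval_comm_of (x := aeval s π) h3.symm (π.map (σ : F →+* F))).symm
    have hK₁ : ∀ v ∈ K₁, s v ∈ K₁ := by
      intro v hv
      apply h1'
      rw [← Module.End.mul_apply, ← hca, Module.End.mul_apply, h1 v hv, map_zero]
    have hK₂ : ∀ v ∈ K₂, s v ∈ K₂ := by
      intro v hv
      apply h2'
      rw [← Module.End.mul_apply, ← hcb, Module.End.mul_apply, h2 v hv, map_zero]
    have huniq : ∀ v ∈ K₁, v ∈ K₂ → v = 0 := by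
      intro v hv hv'
      have : v ∈ K₁ ⊓ K₂ := ⟨hv, hv'⟩
      rwa [hc.inf_eq_bot, Submodule.mem_bot] at this
    have hi1 : ∀ v ∈ K₁, ∀ w ∈ K₁, B v w = 0 := isot_of H hab h1 (fun v hv => by
      apply h1'
      rw [← Module.End.mul_apply, ← hcab, Module.End.mul_apply, h1 v hv, map_zero]) (fun v hv hv' => huniq v hv (h2' v hv'))
    have hi2 : ∀ v ∈ K₂, ∀ w ∈ K₂, B v w = 0 := isot_of H hba h2 (fun v hv => by
      apply h2'
      rw [← Module.End.mul_apply, hcab, Module.End.mul_apply, h2 v hv, map_zero]) (fun v hv hv' => huniq v (h1' v hv') hv)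
    have hdec : ∀ v, ∃ y ∈ K₁, ∃ z ∈ K₂, y + z = v := by
      intro v
      have : v ∈ K₁ ⊔ K₂ := by rw [hc.sup_eq_top]; trivial
      exact Submodule.mem_sup.mp this
    have hfr : finrank F K₁ + finrank F K₂ = n := by rw [Submodule.finrank_add_eq_of_isCompl hc, hn]
    obtain ⟨l, hl⟩ : ∃ l, l = finrank F K₁ := ⟨_, rfl⟩
    have hnl : n = l + l := by rw [← hfr, ← hr, ← hl]
    haveI : Nontrivial K₁ := by
      apply Module.nontrivial_of_finrank_pos (R := F)
      rw [← hl]; omega
    have hπ1 : aeval (s.restrict hK₁) π = 0 := by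
      apply LinearMap.ext
      intro v
      apply Subtype.ext
      rw [aeval_restrict hK₁ π v, h1 v v.2]
      rfl
    obtain ⟨E, _, _, _, θ, α, hα⟩ := exists_field_of_irreducible (s.restrict hK₁) π hπ hπ1
    haveI : Module.Finite F E := Module.Finite.of_finite
    haveI := Fintype.ofFinite F
    haveI := Fintype.ofFinite E
    have hiso : ∀ u v, B (s u) (s v) = B u v := by
      intro u v
      rw [hadj, ← Module.End.mul_apply, hss']; rfl
    have hd1 := det_pair (σ := σ) (K₁ := K₁) (K₂ := K₂) hr (fun w v => B (w : V) (v : V)) (fun u v w => H.addl _ _ _) (fun u v w => H.addr _ _ _)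
      (fun c u v => H.smull _ _ _) (fun c u v => H.smulr _ _ _) (fun v hv => by
        apply Subtype.ext
        apply H.nd
        intro w
        apply H.refl
        obtain ⟨y, hy, z, hz, rfl⟩ := hdec w
        rw [H.addl, hi1 y hy v v.2, zero_add]
        exact hv ⟨z, hz⟩) (s.restrict hK₁) (s.restrict hK₂) (fun w v => hiso _ _)
    have hd2 : LinearMap.det (s.restrict hK₁) * LinearMap.det (s.restrict hK₂) = 1 := by
      rw [← LinearMap.det_prodMap, ← LinearMap.det_conj _ (Submodule.prodEquivOfIsCompl K₁ K₂ hc), ← hdet]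
      congr 1
      apply LinearMap.ext
      intro v
      obtain ⟨y, hy, z, hz, rfl⟩ := hdec v
      have e1 : (Submodule.prodEquivOfIsCompl K₁ K₂ hc).symm (y + z) = (⟨y, hy⟩, ⟨z, hz⟩) := by
        rw [LinearEquiv.symm_apply_eq, Submodule.coe_prodEquivOfIsCompl']
      rw [LinearMap.comp_apply, LinearMap.comp_apply, LinearEquiv.coe_coe, LinearEquiv.coe_coe, e1]
      show (Submodule.prodEquivOfIsCompl K₁ K₂ hc) (⟨s y, hK₁ y hy⟩, ⟨s z, hK₂ z hz⟩) = _
      rw [Submodule.coe_prodEquivOfIsCompl', map_add]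
    have hd3 : σ (LinearMap.det (s.restrict hK₁)) = LinearMap.det (s.restrict hK₁) := by
      have h3 : LinearMap.det (s.restrict hK₂) ≠ 0 := by
        intro h; rw [h, mul_zero] at hd2; exact zero_ne_one hd2
      apply mul_left_cancel₀ h3
      rw [hd1, mul_comm, hd2]
    have hd0 : LinearMap.det (s.restrict hK₁) ≠ 0 := by
      intro h; rw [h, zero_mul] at hd2; exact zero_ne_one hd2
    have hd4 : (LinearMap.det (s.restrict hK₁)) ^ (q - 1) = 1 := by
      rw [hσ] at hd3
      have h4 : (LinearMap.det (s.restrict hK₁)) ^ (q - 1) * (LinearMap.det (s.restrict hK₁)) = (LinearMap.det (s.restrict hK₁)) := by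
        rw [← pow_succ, Nat.sub_add_cancel hq1, hd3]
      exact (mul_eq_right₀ hd0).mp h4
    have hEn : Even n := ⟨l, hnl⟩
    have hcE : Nat.card E = q ^ n := by
      rw [Module.natCard_eq_pow_finrank (K := F) (V := E), θ.finrank_eq, ← hl, hF, ← pow_mul, hnl, two_mul]
    obtain ⟨D, hD⟩ : ∃ D, D = (Nat.card E - 1) / (Nat.card F - 1) := ⟨_, rfl⟩
    have hDq : D * (q ^ 2 - 1) = q ^ n - 1 := by
      rw [hD, hcE, hF]
      apply Nat.div_mul_cancel
      have := Nat.sub_dvd_pow_sub_pow (q ^ 2) 1 l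
      rwa [one_pow, ← pow_mul, two_mul, ← hnl] at this
    have hBD : suB q n = D * (q - 1) := by
      apply Nat.eq_of_mul_eq_mul_right (Nat.succ_pos q)
      show suB q n * (q + 1) = D * (q - 1) * (q + 1)
      rw [suB_mul q n hq1, suN, if_pos hEn, ← hDq, sq_sub_one']; ring
    have hαB : α ^ suB q n = 1 := by
      rw [hBD, pow_mul, hD, ← FiniteField.algebraMap_norm_eq_pow, ← field_det θ _ α hα, ← map_pow, hd4, map_one]
    have hαA : (α ^ suA q n) ^ (q + 1) = 1 := by
      obtain ⟨t, ht⟩ := suA_mul (q := q) (n := n)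
      rw [← pow_mul, ht, pow_mul, hαB, one_pow]
    obtain ⟨c, hcc⟩ := mem_range_algebraMap_of_pow (F := F) (α ^ suA q n) (by
      have h3 : (α ^ suA q n) ^ (q ^ 2 - 1) = 1 := by
        rw [sq_sub_one', mul_comm, pow_mul, hαA, one_pow]
      have h4 : Nat.card F = (q ^ 2 - 1) + 1 := by rw [hF]; omega
      rw [h4, pow_succ, h3, one_mul])
    have hcq : c * σ c = 1 := by
      rw [hσ, ← pow_succ']
      apply (algebraMap F E).injective
      rw [map_pow, hcc, hαA, map_one]
    have hspow : ∀ k : ℕ, ∀ x, (s ^ k) (θ x : V) = θ (α ^ k * x) := by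
      intro k
      induction k with
      | zero => intro x; simp
      | succ k ih =>
        intro x
        rw [pow_succ', Module.End.mul_apply, ih]
        have := congrArg Subtype.val (hα (α ^ k * x))
        rw [← mul_assoc, ← pow_succ'] at this
        exact this
    have hs1 : ∀ v ∈ K₁, (s ^ suA q n) v = c • v := by
      intro v hv
      obtain ⟨y, hy⟩ := θ.surjective ⟨v, hv⟩
      have h3 : v = (θ y : V) := (congrArg Subtype.val hy).symm
      rw [h3, hspow, ← hcc, ← Algebra.smul_def, map_smul]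
      rfl
    have hisoA : ∀ k : ℕ, ∀ u v, B ((s ^ k) u) ((s ^ k) v) = B u v := by
      intro k
      induction k with
      | zero => intro u v; rfl
      | succ k ih => intro u v; rw [pow_succ', Module.End.mul_apply, Module.End.mul_apply, hiso, ih]
    have hc0 : c ≠ 0 := by
      intro h; rw [h, zero_mul] at hcq; exact zero_ne_one hcq
    have hs2 : ∀ v ∈ K₂, (s ^ suA q n) v = c • v := by
      intro v hv
      have hz : (s ^ suA q n) v - c • v ∈ K₂ := by
        apply K₂.sub_mem _ (K₂.smul_mem _ hv)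
        have : ∀ k : ℕ, (s ^ k) v ∈ K₂ := by
          intro k
          induction k with
          | zero => exact hv
          | succ k ih => rw [pow_succ', Module.End.mul_apply]; exact hK₂ _ ih
        exact this _
      rw [← sub_eq_zero]
      apply H.nd
      intro w
      obtain ⟨y, hy, z, hz', rfl⟩ := hdec w
      rw [H.addr, hi2 _ hz z hz', add_zero]
      have h3 : (s ^ suA q n) (c⁻¹ • y) = y := by rw [map_smul, hs1 y hy, smul_smul, inv_mul_cancel₀ hc0, one_smul]
      have hsub : ∀ u w t, B (u - w) t = B u t - B w t := by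
        intro u w t
        rw [sub_eq_add_neg, H.addl, ← neg_one_smul F w, H.smull, neg_one_mul, sub_eq_add_neg]
      rw [hsub, H.smull]
      have h4 : B ((s ^ suA q n) v) y = B v (c⁻¹ • y) := by
        nth_rw 1 [← h3]
        rw [hisoA]
      have h5 : σ c⁻¹ = c := by
        rw [map_inv₀]
        exact inv_eq_of_mul_eq_one_left hcq
      rw [h4, H.smulr, h5, sub_self]
    refine ⟨c, ?_⟩
    apply LinearMap.ext
    intro v
    obtain ⟨y, hy, z, hz, rfl⟩ := hdec v
    rw [map_add, hs1 y hy, hs2 z hz, ← smul_add]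
    rfl

end Cfsg.Agent.H17
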