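import Mathlib
import Cfsg.Agent.H17.SuOrdE

set_option autoImplicit false

/-! Orders of elements of `PSU` : the dichotomy. -/

namespace Cfsg.Agent.H17

open Module Cfsg Cfsg.Agent.H5 Polynomial
open scoped MatrixGroups Matrix

variable {F : Type*} [Field F]

theorem SF_herm [Finite F] {σ : F ≃+* F} (hσ2 : ∀ a, σ (σ a) = a) {n : ℕ} : SF σ (fun u v : Fin n → F => hB (Fin n) (σ : F →+* F) v u) where
  addl u v w := hadd_r _ _ _
  addr u v w := hadd_l _ _ _
  smull c u v := hsmul_r _ _ _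
  smulr c u v := hsmul_l _ _ _
  nd v h := hB_nd (σ := (σ : F →+* F)) v (fun w => by
    rw [← hB_symm (σ := (σ : F →+* F)) hσ2, h, map_zero])
  refl u v h := by
    show hB (Fin n) (σ : F →+* F) u v = 0
    rw [← hB_symm (σ := (σ : F →+* F)) hσ2, h, map_zero]
  inv := hσ2

theorem su_dichotomy [Fintype F] {σ : F ≃+* F} {q n : ℕ} (hF : Fintype.card F = q ^ 2) (hσ : ∀ x, σ x = x ^ q) (hσ2 : ∀ a, σ (σ a) = a) (hn : 2 ≤ n)
    (p a T : ℕ) [hpf : Fact p.Prime] [CharP F p] (hq : q = p ^ a) (hT : n ≤ p ^ T)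
    {r : ℕ} (hr : r.Prime) (hrn : ¬ r ∣ n) {ζ : F} (hζ : orderOf ζ = r) (hζ1 : ζ ^ (q + 1) = 1) (g : PSU n F q) (hg : ¬ r ∣ orderOf g) :
    (∃ g' : PSU n F q, orderOf g' = r * orderOf g) ∨ orderOf g ∣ suA q n * p ^ T := by
  have hpp := hpf.out
  obtain ⟨M, rfl⟩ := QuotientGroup.mk_surjective g
  have hσ' : ∀ x, (σ : F →+* F) x = x ^ q := hσ
  have hFn : Nat.card F = q ^ 2 := by rw [Nat.card_eq_fintype_card, hF]
  obtain ⟨x, hx⟩ : ∃ x : Module.End F (Fin n → F), x = Matrix.toLin' ((M : Matrix.SpecialLinearGroup (Fin n) F) : Matrix (Fin n) (Fin n) F) := ⟨_, rfl⟩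
  have hxap : ∀ v, x v = sv M v := fun v => by rw [hx, Matrix.toLin'_apply]; rfl
  have hxpow : ∀ (j : ℕ) v, (x ^ j) v = sv (M ^ j) v := by
    intro j
    induction j with
    | zero => intro v; rw [pow_zero, pow_zero, sv_one]; rfl
    | succ j ih => intro v; rw [pow_succ', Module.End.mul_apply, ih, hxap, pow_succ', sv_mul]
  by_cases hI : Indec (fun u v : Fin n → F => hB (Fin n) (σ : F →+* F) v u) x
  swap
  · left
    unfold Indec at hI
    push Not at hI
    obtain ⟨Y, hY, hnd, h0, h1⟩ := hI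
    obtain ⟨h, hc, ho⟩ := su_decomp (σ := (σ : F →+* F)) hF hσ' hσ2 hn M Y (fun v hv => by rw [← hxap]; exact hY v hv) hnd h0 h1 hr hrn hζ hζ1
    exact exists_orderOf_mul_of_commute hr _ h hc hg ho
  right
  haveI : Nontrivial (Fin n → F) := by
    haveI : Nonempty (Fin n) := ⟨⟨0, by omega⟩⟩
    infer_instance
  haveI : Nontrivial (Module.End F (Fin n → F)) := inferInstance
  haveI : CharP (Module.End F (Fin n → F)) p := charP_of_injective_algebraMap (algebraMap F (Module.End F (Fin n → F))).injective p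
  have hchar : ∀ (w : Module.End F (Fin n → F)) (c : ℕ), w ^ (p ^ c) - 1 = (w - 1) ^ (p ^ c) := by
    intro w c
    have := sub_pow_char_pow_of_commute (p := p) (n := c) (Commute.one_right w)
    rw [this, one_pow]
  have hfr : finrank F (Fin n → F) = n := Module.finrank_fin_fun F
  obtain ⟨k, hk⟩ : ∃ k, k = orderOf M := ⟨_, rfl⟩
  have hk0 : k ≠ 0 := by rw [hk]; exact (orderOf_pos M).ne'
  obtain ⟨b, m, hpm, hkm⟩ : ∃ b m, ¬ p ∣ m ∧ k = p ^ b * m := Nat.exists_eq_pow_mul_and_not_dvd hk0 p hpp.ne_one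
  have hm0 : 0 < m := by
    rcases Nat.eq_zero_or_pos m with h | h
    · rw [h, mul_zero] at hkm; exact absurd hkm hk0
    · exact h
  have hxk : x ^ k = 1 := by
    apply LinearMap.ext
    intro v
    rw [hxpow, hk, pow_orderOf_eq_one, sv_one]; rfl
  have hunip : (x ^ m) ^ (p ^ T) = 1 := by
    have h2 : IsNilpotent (x ^ m - 1) := ⟨p ^ b, by rw [← hchar, ← pow_mul, mul_comm m, ← hkm, hxk, sub_self]⟩
    have h3 := pow_finrank_eq_zero h2
    rw [hfr] at h3
    rw [← sub_eq_zero, hchar]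
    exact pow_eq_zero_of_le hT h3
  obtain ⟨s, hs⟩ : ∃ s, s = x ^ (p ^ T) := ⟨_, rfl⟩
  obtain ⟨s', hs'⟩ : ∃ s', s' = x ^ (p ^ T * (m - 1)) := ⟨_, rfl⟩
  have hsm : s ^ m = 1 := by rw [hs, ← pow_mul, mul_comm, pow_mul, hunip]
  have hss : s * s' = 1 := by
    rw [hs, hs', ← pow_add]
    have : p ^ T + p ^ T * (m - 1) = p ^ T * m := by
      obtain ⟨m', rfl⟩ : ∃ m', m = m' + 1 := ⟨m - 1, by omega⟩
      simp only [Nat.add_sub_cancel]; ring
    rw [this, pow_mul, ← hs, hsm]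
  have hss' : s' * s = 1 := by
    rw [← hss, hs, hs', ← pow_add, ← pow_add, add_comm]
  have hisopow : ∀ j : ℕ, ∀ u v, hB (Fin n) (σ : F →+* F) ((x ^ j) u) ((x ^ j) v) = hB (Fin n) (σ : F →+* F) u v := by
    intro j u v
    rw [hxpow, hxpow, sv_isom hσ']
  have hadj : Adj (fun u v : Fin n → F => hB (Fin n) (σ : F →+* F) v u) s s' := by
    intro u v
    have h1 : hB (Fin n) (σ : F →+* F) (s (s' v)) (s u) = hB (Fin n) (σ : F →+* F) (s' v) u := by rw [hs]; exact hisopow _ _ _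
    have h2 : s (s' v) = v := by rw [← Module.End.mul_apply, hss]; rfl
    rw [h2] at h1
    exact h1
  have hadj' : Adj (fun u v : Fin n → F => hB (Fin n) (σ : F →+* F) v u) s' s := by
    intro u v
    have h1 : hB (Fin n) (σ : F →+* F) (s' (s v)) (s' u) = hB (Fin n) (σ : F →+* F) (s v) u := by rw [hs']; exact hisopow _ _ _
    have h2 : s' (s v) = v := by rw [← Module.End.mul_apply, hss']; rfl
    rw [h2] at h1
    exact h1
  have hqm : Nat.Coprime (Nat.card F) m := by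
    rw [hFn, hq, ← pow_mul]
    exact Nat.Coprime.pow_left _ ((Nat.Prime.coprime_iff_not_dvd hpp).mpr hpm)
  have hdet : LinearMap.det s = 1 := by
    rw [hs, map_pow, hx, LinearMap.det_toLin']
    have : ((M : Matrix.SpecialLinearGroup (Fin n) F) : Matrix (Fin n) (Fin n) F).det = 1 := (M : Matrix.SpecialLinearGroup (Fin n) F).2
    rw [this, one_pow]
  obtain ⟨c, hc⟩ := su_scalar hFn hσ p a hq (SF_herm hσ2) hI (by rw [hs]; exact (Commute.refl x).pow_right _) (by rw [hs']; exact (Commute.refl x).pow_right _)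
    hadj hadj' hss hss' hqm hm0 hsm hdet
  rw [hfr] at hc
  apply orderOf_dvd_of_pow_eq_one
  rw [← QuotientGroup.mk_pow]
  have h3 : (QuotientGroup.mk' (Subgroup.center (SU n F q)) (M ^ (suA q n * p ^ T))) = QuotientGroup.mk' (Subgroup.center (SU n F q)) 1 := by
    rw [pr_eq_SU hF hσ' hn]
    refine ⟨c, fun v => ?_⟩
    rw [← hxpow, mul_comm, pow_mul, ← hs, hc, sv_one]
    rfl
  rw [map_one] at h3
  exact h3

end Cfsg.Agent.H17
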